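import Mathlib
import Cfsg.Agent.S5737
import Cfsg.Agent.INV.StrongEmb
import Cfsg.Agent.INV.TwoInv

/-!
Binary coset actions: transport, group forms of the triangle and quadrangle conditions, the
strongly embedded subgroup, and a package for the groups with trivially intersecting Sylow centres.
-/

set_option autoImplicit false
open Cfsg Cfsg.Agent.S5737 MulAction

namespace CL.Bin

variable {G K : Type*} [Group G] [Group K]

theorem bin_congr {X Y : Type*} [MulAction G X] [MulAction K Y] (π : K →* G)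
    (hπ : Function.Surjective π) (φ : Y ≃ X) (hφ : ∀ k y, φ (k • y) = π k • φ y) :
    Bin K Y ↔ Bin G X := by
  constructor
  · intro hb n I J hn h
    obtain ⟨k, hk⟩ := hb n (φ.symm ∘ I) (φ.symm ∘ J) hn fun i j hij => by
      obtain ⟨g, h1, h2⟩ := h i j hij
      obtain ⟨k, rfl⟩ := hπ g
      exact ⟨k, φ.injective (by simp [hφ, h1]), φ.injective (by simp [hφ, h2])⟩
    exact ⟨π k, fun i => by simpa [hφ] using congrArg φ (hk i)⟩
  · intro hb n I J hn h
    obtain ⟨g, hg⟩ := hb n (φ ∘ I) (φ ∘ J) hn fun i j hij => by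
      obtain ⟨k, h1, h2⟩ := h i j hij
      exact ⟨π k, by simp [← hφ, h1], by simp [← hφ, h2]⟩
    obtain ⟨k, rfl⟩ := hπ g
    exact ⟨k, fun i => φ.injective (by simpa [hφ] using hg i)⟩

theorem bin_comap_iff (π : K →* G) (hπ : Function.Surjective π) (H : Subgroup G) :
    Bin K (K ⧸ H.comap π) ↔ Bin G (G ⧸ H) := by
  let f : K ⧸ H.comap π → G ⧸ H := Quotient.map' π fun a b h => by
    rw [QuotientGroup.leftRel_apply] at h ⊢
    simpa using h
  have hf : ∀ k : K, f (k : K ⧸ H.comap π) = (π k : G ⧸ H) := fun _ => rfl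
  refine bin_congr π hπ (Equiv.ofBijective f ⟨fun a b h => ?_, fun c => ?_⟩) fun k y => ?_
  · obtain ⟨a, rfl⟩ := QuotientGroup.mk_surjective a
    obtain ⟨b, rfl⟩ := QuotientGroup.mk_surjective b
    rw [hf, hf, QuotientGroup.eq] at h
    rw [QuotientGroup.eq]
    simpa using h
  · obtain ⟨c, rfl⟩ := QuotientGroup.mk_surjective c
    obtain ⟨k, rfl⟩ := hπ c
    exact ⟨k, rfl⟩
  · obtain ⟨y, rfl⟩ := QuotientGroup.mk_surjective y
    show f (k • (y : K ⧸ H.comap π)) = π k • f y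
    simp only [MulAction.Quotient.smul_coe, hf, smul_eq_mul, map_mul]

/-- The conjugate `{g | c g c⁻¹ ∈ H}`. -/
def cj (c : G) (H : Subgroup G) : Subgroup G := H.comap (MulAut.conj c).toMonoidHom

theorem mem_cj {c g : G} {H : Subgroup G} : g ∈ cj c H ↔ c * g * c⁻¹ ∈ H := Iff.rfl

theorem bin_cj (c : G) {H : Subgroup G} : Bin G (G ⧸ cj c H) ↔ Bin G (G ⧸ H) :=
  bin_comap_iff _ (MulAut.conj c).surjective H

theorem cj_ne_top (c : G) {H : Subgroup G} (h : H ≠ ⊤) : cj c H ≠ ⊤ := fun e => h <| by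
  rw [eq_top_iff]
  intro g _
  have : c⁻¹ * g * c ∈ cj c H := e ▸ Subgroup.mem_top _
  simpa [mem_cj, mul_assoc] using this

section grp
variable {H : Subgroup G} (hb : Bin G (G ⧸ H))
include hb

theorem tri {x y v w : G} (hx : x ∈ H) (hy : v⁻¹ * y * v ∈ H) (hw : w⁻¹ * (x * y) * w ∈ H) :
    ∃ g ∈ H, v⁻¹ * g * v ∈ H ∧ w⁻¹ * (x * g) * w ∈ H := by
  obtain ⟨g, h1, h2, h3⟩ := hb.tri (a := ((1 : G) : G ⧸ H)) (b := (v : G ⧸ H)) (c := (w : G ⧸ H))
    (x := x⁻¹) (y := y) (fix_iff.mpr (by simpa using hx)) (fix_iff.mpr hy)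
    (by rw [eq_inv_smul_iff, ← mul_smul]; exact fix_iff.mpr hw)
  refine ⟨g, by simpa using fix_iff.mp h1, fix_iff.mp h2, fix_iff.mp ?_⟩
  rw [mul_smul, h3, smul_inv_smul]

theorem quad {x y u v w : G} (hx : x ∈ H) (hu : u⁻¹ * x * u ∈ H) (hy : v⁻¹ * y * v ∈ H)
    (hw : w⁻¹ * (x * y) * w ∈ H) :
    ∃ g ∈ H, u⁻¹ * g * u ∈ H ∧ v⁻¹ * g * v ∈ H ∧ w⁻¹ * (x * g) * w ∈ H := by
  obtain ⟨g, h0, h1, h2, h3⟩ := hb.quad (o := ((1 : G) : G ⧸ H)) (a := (u : G ⧸ H)) (b := (v : G ⧸ H))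
    (c := (w : G ⧸ H)) (x := x⁻¹) (y := y) (fix_iff.mpr (by simpa using hx))
    (fix_iff.mpr (by simpa [mul_assoc] using inv_mem hu)) (fix_iff.mpr hy)
    (by rw [eq_inv_smul_iff, ← mul_smul]; exact fix_iff.mpr hw)
  refine ⟨g, by simpa using fix_iff.mp h0, fix_iff.mp h1, fix_iff.mp h2, fix_iff.mp ?_⟩
  rw [mul_smul, h3, smul_inv_smul]

theorem cyc {x k : G} (hx : x ∈ H) (hk : k ^ 3 = 1) (hxk : (x * k) ^ 3 = 1) :
    ∃ g ∈ H, k⁻¹ * g * k ∈ H ∧ k * (x * g) * k⁻¹ ∈ H := by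
  have e : k * (x * (k * x * k⁻¹)) * k⁻¹ = x⁻¹ := by
    calc _ = x⁻¹ * (x * k) ^ 3 * (k ^ 3)⁻¹ := by simp only [pow_succ]; group
      _ = _ := by rw [hk, hxk]; group
  simpa using tri hb (y := k * x * k⁻¹) (v := k) (w := k⁻¹) hx (by simpa [mul_assoc] using hx)
    (by rw [inv_inv, e]; exact inv_mem hx)

theorem mem_of_commute [Finite G] (hJ : ∀ s t : G, orderOf s = 2 → orderOf t = 2 → IsConj s t)
    {t s : G} (htH : t ∈ H) (ht : orderOf t = 2) (hs : orderOf s = 2) (hc : Commute t s) : s ∈ H := by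
  by_cases e : t * s = 1
  · exact eq_inv_of_mul_eq_one_right e ▸ inv_mem htH
  have h2 : orderOf (t * s) = 2 := TwoInv.orderOf_eq_two_of (by
    rw [mul_assoc, ← mul_assoc s, ← hc.eq, mul_assoc, TwoInv.mul_self_of_orderOf_eq_two hs, mul_one,
      TwoInv.mul_self_of_orderOf_eq_two ht]) e
  simpa using fix_iff.mp (hb.fix_of_commute (fun x y hx hy => by
    obtain ⟨c, hc⟩ := isConj_iff.1 (hJ x y hx hy)
    exact ⟨c⁻¹, by simp [← hc]⟩) ht hs h2 (o := ((1 : G) : G ⧸ H)) (fix_iff.mpr (by simpa using htH)))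

theorem exists_se [Finite G] [IsSimpleGroup G]
    (hJ : ∀ s t : G, orderOf s = 2 → orderOf t = 2 → IsConj s t) (hH : H ≠ ⊤)
    (he : Even (Nat.card H)) : ∃ N : Subgroup G, IsStronglyEmbedded N := by
  obtain ⟨⟨t, htH⟩, ht⟩ := exists_prime_orderOf_dvd_card' 2 he.two_dvd
  replace ht : orderOf t = 2 := (Subgroup.orderOf_coe _).trans ht
  let R : G → G → Prop := fun a b => orderOf a = 2 ∧ orderOf b = 2 ∧ Commute a b
  have Rc : ∀ (g : G) {a b}, Relation.ReflTransGen R a b →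
      Relation.ReflTransGen R (g * a * g⁻¹) (g * b * g⁻¹) := fun g a b h => by
    induction h with
    | refl => exact .refl
    | @tail b c _ h ih =>
      refine .tail ih ⟨by rw [TwoInv.orderOf_conj, h.1], by rw [TwoInv.orderOf_conj, h.2.1], ?_⟩
      show _ = _
      simp only [mul_assoc, inv_mul_cancel_left]
      rw [← mul_assoc b, h.2.2.eq, mul_assoc]
  have Rs : ∀ {a b}, Relation.ReflTransGen R a b → Relation.ReflTransGen R b a := by
    intro a b h
    induction h with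
    | refl => exact .refl
    | tail _ h ih => exact .head ⟨h.2.1, h.1, h.2.2.symm⟩ ih
  have RH : ∀ {b}, Relation.ReflTransGen R t b → b ∈ H := by
    intro b h
    induction h with
    | refl => exact htH
    | tail _ h ih => exact mem_of_commute hb hJ ih h.1 h.2.1 h.2.2
  let N : Subgroup G :=
    { carrier := {g | Relation.ReflTransGen R t (g * t * g⁻¹)}
      one_mem' := by simpa using Relation.ReflTransGen.refl
      mul_mem' := fun {a b} ha hb => ha.trans (by simpa [mul_assoc] using Rc a hb)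
      inv_mem' := fun {a} ha => by simpa [mul_assoc] using Rs (Rc a⁻¹ ha) }
  have hN : ∀ g, g ∈ N ↔ Relation.ReflTransGen R t (g * t * g⁻¹) := fun _ => Iff.rfl
  have htN : t ∈ N := by rw [hN]; simpa using Relation.ReflTransGen.refl
  have hinv : ∀ s ∈ N, orderOf s = 2 → Relation.ReflTransGen R t s := fun s hsN hs => by
    have t2 := TwoInv.mul_self_of_orderOf_eq_two ht
    have s2 := TwoInv.mul_self_of_orderOf_eq_two hs
    rcases Nat.even_or_odd (orderOf (t * s)) with h | h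
    · obtain ⟨h1, h2, h3⟩ := TwoInv.half_pow_spec t2 s2 (orderOf_pos _).ne' h
      exact .head ⟨ht, h1, h2.symm⟩ (.single ⟨h1, hs, h3⟩)
    · obtain ⟨k, hk⟩ := TwoInv.exists_conj_of_odd t2 s2 h
      rw [← hk]
      exact (hN _).1 (zpow_mem (mul_mem htN hsN) k)
  refine ⟨N, StrongEmb.isStronglyEmbedded_iff.2 ⟨fun e => hH ?_, ?_, fun s hsN hs g hg => ?_⟩⟩
  · have hle : Subgroup.normalClosure {t} ≤ H := by
      refine (Subgroup.closure_le _).2 fun y hy => ?_
      obtain ⟨a, ha, hc⟩ := Group.mem_conjugatesOfSet_iff.1 hy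
      obtain rfl := Set.mem_singleton_iff.1 ha
      obtain ⟨c, rfl⟩ := isConj_iff.1 hc
      exact RH ((hN c).1 (e ▸ Subgroup.mem_top c))
    rcases (inferInstance : (Subgroup.normalClosure {t}).Normal).eq_bot_or_eq_top with h | h
    · exact absurd (Subgroup.mem_bot.1 (h ▸ Subgroup.subset_normalClosure (Set.mem_singleton t)))
        (TwoInv.ne_one_of_orderOf_eq_two ht)
    · exact eq_top_iff.2 (h ▸ hle)
  · have := orderOf_dvd_natCard (⟨t, htN⟩ : N)
    rw [← Subgroup.orderOf_coe, ht] at this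
    exact even_iff_two_dvd.2 this
  · exact (hinv _ hg (by rw [TwoInv.orderOf_conj, hs])).trans (Rs (Rc g (hinv s hsN hs)))

end grp

theorem not_comm_of_even [Finite G] [IsSimpleGroup G] {H : Subgroup G} (hH : H ≠ ⊤)
    (he : Even (Nat.card H)) : ¬ IsMulCommutative G := fun hc => by
  have : H.Normal := ⟨fun n hn g => by rwa [hc.is_comm.comm g n, mul_inv_cancel_right]⟩
  rcases this.eq_bot_or_eq_top with h | h
  · rw [h, Subgroup.card_bot] at he
    exact absurd he (by decide)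
  · exact hH h

theorem bin_TI {Z : Subgroup G} (hexp : ∀ z ∈ Z, z * z = 1)
    (hTI : ∀ c x y : G, x ∈ Z → x ≠ 1 → y ≠ 1 → c⁻¹ * y * c ∈ Z → x * y = y * x →
      ∀ k ∈ Z, c⁻¹ * k * c ∈ Z) : Bin G (G ⧸ Z) := by
  have key : ∀ {a b : G ⧸ Z} {x y : G}, x ≠ 1 → y ≠ 1 → x • a = a → y • b = b → x * y = y * x →
      ∀ k : G, k • a = a → k • b = b := by
    intro a b x y hx hy ha hb h k hk
    obtain ⟨c, rfl⟩ := QuotientGroup.mk_surjective a
    obtain ⟨d, rfl⟩ := QuotientGroup.mk_surjective b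
    rw [fix_iff] at ha hb hk ⊢
    simpa [mul_assoc] using hTI (c⁻¹ * d) _ (c⁻¹ * y * c) ha (fun e => hx (Sz.inv_conj_eq_one_iff.1 e))
      (fun e => hy (Sz.inv_conj_eq_one_iff.1 e)) (by simpa [mul_assoc] using hb)
      (by simp [mul_assoc, ← mul_assoc y x, ← h]) _ hk
  have sq : ∀ {a : G ⧸ Z} {x : G}, x • a = a → x * x = 1 := fun {a x} ha => by
    obtain ⟨c, rfl⟩ := QuotientGroup.mk_surjective a
    have := hexp _ (fix_iff.mp ha)
    rw [show c⁻¹ * x * c * (c⁻¹ * x * c) = c⁻¹ * (x * x) * c by group] at this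
    exact Sz.inv_conj_eq_one_iff.1 this
  refine bin_of fun {a b c x y} ha hb hc => ?_
  by_cases hx : x = 1
  · exact Or.inl (by rw [hx, one_smul])
  by_cases hy : y = 1
  · exact Or.inl (by rw [hc, hy, one_smul])
  refine Or.inr (key hx hy ha hb ?_)
  have h3 := sq (a := c) (x := y⁻¹ * x) (by rw [mul_smul, hc, inv_smul_smul])
  rw [inv_eq_of_mul_eq_one_right (sq hb)] at h3
  rw [← inv_eq_of_mul_eq_one_right h3, mul_inv_rev, inv_eq_of_mul_eq_one_right (sq ha),
    inv_eq_of_mul_eq_one_right (sq hb)]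

/-- The centre of a subgroup, as a subgroup of the ambient group. -/
def Zc (P : Subgroup G) : Subgroup G := (Subgroup.center P).map P.subtype

theorem mem_Zc {P : Subgroup G} {x : G} : x ∈ Zc P ↔ x ∈ P ∧ ∀ y ∈ P, y * x = x * y := by
  constructor
  · rintro ⟨⟨x, hx⟩, h, rfl⟩
    exact ⟨hx, fun y hy => congrArg Subtype.val (Subgroup.mem_center_iff.1 h ⟨y, hy⟩)⟩
  · rintro ⟨hx, h⟩
    exact ⟨⟨x, hx⟩, Subgroup.mem_center_iff.2 fun y => Subtype.ext (h y y.2), rfl⟩

theorem Zc_eq_of_comm {P : Subgroup G} (h : ∀ x ∈ P, ∀ y ∈ P, x * y = y * x) : Zc P = P := by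
  ext x
  exact mem_Zc.trans ⟨And.left, fun hx => ⟨hx, fun y hy => h y hy x hx⟩⟩

theorem Zc_map (π : K →* G) {P : Subgroup K} (h : ∀ x ∈ P, π x = 1 → x = 1) :
    Zc (P.map π) = (Zc P).map π := by
  ext x
  simp only [mem_Zc, Subgroup.mem_map]
  constructor
  · rintro ⟨⟨x, hx, rfl⟩, h'⟩
    refine ⟨x, ⟨hx, fun y hy => ?_⟩, rfl⟩
    have := h' _ ⟨y, hy, rfl⟩
    rw [← mul_inv_eq_one]
    refine h _ (mul_mem (mul_mem hy hx) (inv_mem (mul_mem hx hy))) ?_
    simp only [map_mul, map_inv, this, mul_inv_cancel]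
  · rintro ⟨x, ⟨hx, h'⟩, rfl⟩
    refine ⟨⟨x, hx, rfl⟩, ?_⟩
    rintro _ ⟨y, hy, rfl⟩
    rw [← map_mul, h' y hy, map_mul]

/-- `H` is the centre of a Sylow 2-subgroup. -/
def Good (G : Type*) [Group G] (H : Subgroup G) : Prop := ∃ P : Sylow 2 G, H = Zc (P : Subgroup G)

theorem Good.comap_equiv [Finite G] (e : K ≃* G) {H : Subgroup G} (h : Good G H) :
    Good K (H.comap e.toMonoidHom) := by
  obtain ⟨P, rfl⟩ := h
  have he : Function.Surjective e.symm.toMonoidHom := e.symm.surjective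
  refine ⟨P.mapSurjective he, ?_⟩
  rw [Sylow.coe_mapSurjective, Zc_map _ fun x _ h => by simpa using h]
  ext x
  simp only [Subgroup.mem_comap, Subgroup.mem_map (f := e.symm.toMonoidHom)]
  exact ⟨fun h => ⟨_, h, by simp⟩, by rintro ⟨y, hy, rfl⟩; simpa using hy⟩

theorem good_comap_iff [Finite G] (e : K ≃* G) {H : Subgroup G} :
    Good K (H.comap e.toMonoidHom) ↔ Good G H := by
  have : Finite K := Finite.of_equiv _ e.symm.toEquiv
  refine ⟨fun h => ?_, Good.comap_equiv e⟩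
  convert h.comap_equiv e.symm
  ext x
  simp

theorem Good.comm {H : Subgroup G} (h : Good G H) {x y : G} (hx : x ∈ H) (hy : y ∈ H) :
    x * y = y * x := by
  obtain ⟨P, rfl⟩ := h
  exact (mem_Zc.1 hy).2 x (mem_Zc.1 hx).1

theorem package [Finite K] (π : K →* G) (hπ : Function.Surjective π)
    (hker : ∀ z, π z = 1 → z * z = 1 → z = 1) (hcen : ∀ z, π z = 1 → ∀ k, k * z = z * k)
    (U : Sylow 2 K) (hexp : ∀ z ∈ Zc (U : Subgroup K), z * z = 1)
    (hTI : ∀ c x y : K, x ∈ Zc (U : Subgroup K) → x ≠ 1 → y ≠ 1 → c⁻¹ * y * c ∈ Zc (U : Subgroup K) →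
      x * y = y * x → ∀ k ∈ Zc (U : Subgroup K), c⁻¹ * k * c ∈ Zc (U : Subgroup K))
    (hne : ∃ z ∈ Zc (U : Subgroup K), z ≠ 1)
    (hmain : ∀ H : Subgroup K, π.ker ≤ H → H ≠ ⊤ → Bin K (K ⧸ H) → Zc (U : Subgroup K) ≤ H →
      ∀ g ∈ H, ∃ z ∈ Zc (U : Subgroup K), π g = π z)
    (hJ : ∀ s t : G, orderOf s = 2 → orderOf t = 2 → IsConj s t)
    {H : Subgroup G} (hH : H ≠ ⊤) (he : Even (Nat.card H)) : Bin G (G ⧸ H) ↔ Good G H := by
  have : Finite G := Finite.of_surjective π hπ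
  have hinj : ∀ x ∈ (U : Subgroup K), π x = 1 → x = 1 := fun x hx h => by
    obtain ⟨n, hn⟩ := U.2 ⟨x, hx⟩
    replace hn : x ^ 2 ^ n = 1 := congrArg Subtype.val hn
    clear hx
    induction n generalizing x with
    | zero => simpa using hn
    | succ n ih => exact hker x h (ih (x * x) (by simp [h]) (by rw [← pow_two, ← pow_mul, ← pow_succ', hn]))
  have hZ : Zc ((U.mapSurjective hπ : Sylow 2 G) : Subgroup G) = (Zc (U : Subgroup K)).map π :=
    Zc_map π hinj
  have ho : ∀ z ∈ Zc (U : Subgroup K), z ≠ 1 → orderOf (π z) = 2 := fun z hz h1 =>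
    TwoInv.orderOf_eq_two_of (by rw [← map_mul, hexp z hz, map_one]) fun e => h1 (hinj z (mem_Zc.1 hz).1 e)
  constructor
  · intro hb
    obtain ⟨⟨t, htH⟩, ht⟩ := exists_prime_orderOf_dvd_card' 2 he.two_dvd
    replace ht : orderOf t = 2 := (Subgroup.orderOf_coe _).trans ht
    obtain ⟨z₀, hz₀, h1⟩ := hne
    obtain ⟨c, hc⟩ := isConj_iff.1 (hJ _ _ (ho z₀ hz₀ h1) ht)
    have hb' := (bin_cj c).2 hb
    have h0 : π z₀ ∈ cj c H := by rw [mem_cj, hc]; exact htH
    have hle : Zc (U : Subgroup K) ≤ (cj c H).comap π := fun z hz => by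
      by_cases e : z = 1
      · exact e ▸ one_mem _
      exact mem_of_commute hb' hJ h0 (ho _ hz₀ h1) (ho z hz e)
        (Commute.map ((mem_Zc.1 hz).2 _ (mem_Zc.1 hz₀).1) π)
    have key := hmain ((cj c H).comap π) (fun z hz => by
      rw [Subgroup.mem_comap, show π z = 1 from hz]; exact one_mem _)
      (fun e => cj_ne_top c hH (eq_top_iff.2 fun g _ => by
        obtain ⟨k, rfl⟩ := hπ g
        exact (e ▸ Subgroup.mem_top k : k ∈ (cj c H).comap π)))
      ((bin_comap_iff π hπ _).2 hb') hle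
    refine (good_comap_iff (MulAut.conj c)).1 ⟨U.mapSurjective hπ, ?_⟩
    rw [hZ]
    ext g
    constructor
    · intro hg
      obtain ⟨k, rfl⟩ := hπ g
      obtain ⟨z, hz, e⟩ := key k hg
      exact ⟨z, hz, e.symm⟩
    · rintro ⟨z, hz, rfl⟩
      exact hle hz
  · rintro ⟨P, rfl⟩
    obtain ⟨c, rfl⟩ := exists_smul_eq G (U.mapSurjective hπ) P
    have e : Zc ((c • U.mapSurjective hπ : Sylow 2 G) : Subgroup G) =
        cj c⁻¹ ((Zc (U : Subgroup K)).map π) := by
      rw [← hZ]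
      generalize U.mapSurjective hπ = Q
      have hm : ∀ x, x ∈ ((c • Q : Sylow 2 G) : Subgroup G) ↔ c⁻¹ * x * c ∈ (Q : Subgroup G) := fun x => by
        rw [Sylow.coe_subgroup_smul, Subgroup.mem_pointwise_smul_iff_inv_smul_mem]
        simp
      ext x
      simp only [mem_cj, mem_Zc, hm, inv_inv]
      refine and_congr_right fun _ => ⟨fun h y hy => ?_, fun h y hy => ?_⟩
      · have := h (c * y * c⁻¹) (by simpa [mul_assoc] using hy)
        calc _ = c⁻¹ * (c * y * c⁻¹ * x) * c := by group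
          _ = _ := by rw [this]; group
      · have := h _ hy
        calc _ = c * (c⁻¹ * y * c * (c⁻¹ * x * c)) * c⁻¹ := by group
          _ = _ := by rw [this]; group
    rw [e, bin_cj]
    refine bin_TI ?_ ?_
    · rintro _ ⟨z, hz, rfl⟩
      rw [← map_mul, hexp z hz, map_one]
    · rintro c _ y ⟨x, hx, rfl⟩ hx1 hy1 ⟨y', hy', e⟩ h _ ⟨k, hk, rfl⟩
      obtain ⟨c, rfl⟩ := hπ c
      obtain rfl : y = π (c * y' * c⁻¹) := by simp [e, mul_assoc]
      refine ⟨c⁻¹ * k * c, hTI c x (c * y' * c⁻¹) hx (fun e => hx1 (by rw [e, map_one]))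
        (fun e => hy1 (by rw [e, map_one])) (by simpa [mul_assoc] using hy') ?_ k hk, by simp⟩
      set y := c * y' * c⁻¹ with hy
      have y2 : y * y = 1 := by
        rw [hy]
        calc _ = c * (y' * y') * c⁻¹ := by group
          _ = 1 := by rw [hexp _ hy']; group
      clear_value y
      have h1 : π (x * y * x⁻¹ * y⁻¹) = 1 := by
        simp only [map_mul, map_inv, h]; group
      have h2 := hker _ h1 (by
        have := hcen _ h1 y
        calc _ = x * y * x⁻¹ * y⁻¹ * y * y⁻¹ * (x * y * x⁻¹ * y⁻¹) := by group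
          _ = x * y * x⁻¹ * (y⁻¹ * (x * y * x⁻¹ * y⁻¹ * y) * y⁻¹) := by group
          _ = x * y * x⁻¹ * (y⁻¹ * (y * (x * y * x⁻¹ * y⁻¹)) * y⁻¹) := by rw [this]
          _ = x * (y * y) * x⁻¹ * (y * y)⁻¹ := by group
          _ = 1 := by rw [y2]; group)
      calc x * y = x * y * x⁻¹ * y⁻¹ * (y * x) := by group
        _ = _ := by rw [h2, one_mul]

end CL.Bin
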