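import Mathlib
import Cfsg.Agent.CHEV.BinBase
import Cfsg.Agent.CLAS.SL2Sylow
import Cfsg.Agent.KSG.PSL2Basic

/-!
Binary coset actions of `SL₂(F)`.
-/

set_option autoImplicit false
open Cfsg Cfsg.Agent.S5737 MulAction Matrix CL.GL2
open scoped MatrixGroups

namespace CL.Bin

variable {F : Type*} [Field F]

def uu (t : F) : SL(2, F) := ⟨!![1, t; 0, 1], by simp⟩
def nn : SL(2, F) := ⟨!![0, -1; 1, 0], by simp⟩
def dd (a : F) (ha : a ≠ 0) : SL(2, F) := ⟨!![a, 0; 0, a⁻¹], by simp [ha]⟩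

theorem sl_ext {g h : SL(2, F)} (h00 : g 0 0 = h 0 0) (h01 : g 0 1 = h 0 1) (h10 : g 1 0 = h 1 0)
    (h11 : g 1 1 = h 1 1) : g = h := Subtype.ext (mat_ext h00 h01 h10 h11)

theorem sl_mul (g h : SL(2, F)) (i j : Fin 2) : (g * h) i j = g i 0 * h 0 j + g i 1 * h 1 j := by
  show ((g : Matrix (Fin 2) (Fin 2) F) * (h : Matrix (Fin 2) (Fin 2) F)) i j = _
  simp [Matrix.mul_apply, Fin.sum_univ_two]

theorem sl_inv00 (g : SL(2, F)) : g⁻¹ 0 0 = g 1 1 := by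
  show ((g⁻¹ : SL(2, F)) : Matrix (Fin 2) (Fin 2) F) 0 0 = _
  simp [adjugate_fin_two]
theorem sl_inv01 (g : SL(2, F)) : g⁻¹ 0 1 = -g 0 1 := by
  show ((g⁻¹ : SL(2, F)) : Matrix (Fin 2) (Fin 2) F) 0 1 = _
  simp [adjugate_fin_two]
theorem sl_inv10 (g : SL(2, F)) : g⁻¹ 1 0 = -g 1 0 := by
  show ((g⁻¹ : SL(2, F)) : Matrix (Fin 2) (Fin 2) F) 1 0 = _
  simp [adjugate_fin_two]
theorem sl_inv11 (g : SL(2, F)) : g⁻¹ 1 1 = g 0 0 := by
  show ((g⁻¹ : SL(2, F)) : Matrix (Fin 2) (Fin 2) F) 1 1 = _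
  simp [adjugate_fin_two]
theorem sl_det (g : SL(2, F)) : g 0 0 * g 1 1 - g 0 1 * g 1 0 = 1 := by
  have := g.det_coe
  rwa [det_fin_two] at this
theorem sl_one00 : (1 : SL(2, F)) 0 0 = 1 := rfl
theorem sl_one01 : (1 : SL(2, F)) 0 1 = 0 := rfl
theorem sl_one10 : (1 : SL(2, F)) 1 0 = 0 := rfl
theorem sl_one11 : (1 : SL(2, F)) 1 1 = 1 := rfl
theorem sl_neg (g : SL(2, F)) (i j : Fin 2) : (-g) i j = -g i j := rfl
theorem uu00 (t : F) : uu t 0 0 = 1 := rfl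
theorem uu01 (t : F) : uu t 0 1 = t := rfl
theorem uu10 (t : F) : uu t 1 0 = 0 := rfl
theorem uu11 (t : F) : uu t 1 1 = 1 := rfl
theorem nn00 : (nn : SL(2, F)) 0 0 = 0 := rfl
theorem nn01 : (nn : SL(2, F)) 0 1 = -1 := rfl
theorem nn10 : (nn : SL(2, F)) 1 0 = 1 := rfl
theorem nn11 : (nn : SL(2, F)) 1 1 = 0 := rfl
theorem dd00 (a : F) (ha : a ≠ 0) : dd a ha 0 0 = a := rfl
theorem dd01 (a : F) (ha : a ≠ 0) : dd a ha 0 1 = 0 := rfl
theorem dd10 (a : F) (ha : a ≠ 0) : dd a ha 1 0 = 0 := rfl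
theorem dd11 (a : F) (ha : a ≠ 0) : dd a ha 1 1 = a⁻¹ := rfl

theorem conj10 (k g : SL(2, F)) : (k⁻¹ * g * k) 1 0 =
    k 0 0 * (g 1 0 * k 0 0 + g 1 1 * k 1 0) - k 1 0 * (g 0 0 * k 0 0 + g 0 1 * k 1 0) := by
  simp only [sl_mul, sl_inv10, sl_inv11]; ring

theorem borel_diag {H : Subgroup SL(2, F)} (hb : Bin SL(2, F) (SL(2, F) ⧸ H))
    (hB : ∀ g ∈ H, g 1 0 = 0) {a : F} {ha : a ≠ 0} (h : dd a ha ∈ H) : a ^ 4 = 1 := by
  by_contra h4
  have h1 : 1 + a ^ 2 ≠ 0 := fun e => h4 (by linear_combination (a ^ 2 - 1) * e)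
  have hn : nn⁻¹ * dd a ha * nn = (dd a ha)⁻¹ := by
    apply sl_ext <;> simp [sl_mul, sl_inv00, sl_inv01, sl_inv10, sl_inv11, nn00, nn01, nn10, nn11, dd00, dd01,
      dd10, dd11]
  obtain ⟨g, g0, g1, g2, g3⟩ := quad hb (u := nn) (v := uu (1 + a ^ 2) * nn) (w := uu (a ^ 2) * nn)
    (y := uu (1 + a ^ 2) * dd a ha * (uu (1 + a ^ 2))⁻¹) h (hn ▸ inv_mem h)
    (by convert inv_mem h using 1; rw [← hn]; group)
    (by
      convert mul_mem (inv_mem h) (inv_mem h) using 1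
      apply sl_ext <;> simp [sl_mul, sl_inv00, sl_inv01, sl_inv10, sl_inv11, nn00, nn01, nn10, nn11, dd00, dd01,
        dd10, dd11, uu00, uu01, uu10, uu11] <;> field_simp <;> ring)
  have e0 := hB _ g0
  have e1 := hB _ g1
  have e2 := hB _ g2
  have e3 := hB _ g3
  have e4 := sl_det g
  rw [conj10] at e1 e2 e3
  simp only [sl_mul, nn00, nn10, dd00, dd01, dd10, dd11, uu00, uu01, uu10, uu11, e0] at e1 e2 e3 e4
  have e5 : g 0 1 = 0 := by linear_combination -e1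
  have e6 : g 1 1 = g 0 0 := by
    apply mul_left_cancel₀ h1; linear_combination e2 + e5
  rw [e5, e6] at e3 e4
  have e7 : g 0 0 ≠ 0 := by rintro e; simp [e] at e4
  have e8 : a ^ 2 = 1 := by
    apply mul_left_cancel₀ (mul_ne_zero ha e7)
    linear_combination -a⁻¹ * a * e3 + (a * g 0 0 * a⁻¹ * a - a ^ 3 * g 0 0 + a * g 0 0) * (mul_inv_cancel₀ ha)
  exact h4 (by linear_combination (a ^ 2 + 1) * e8)

theorem borel {H : Subgroup SL(2, F)} (hb : Bin SL(2, F) (SL(2, F) ⧸ H))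
    (hB : ∀ g ∈ H, g 1 0 = 0) {g : SL(2, F)} (hg : g ∈ H) : g 0 0 ^ 4 = 1 := by
  by_contra h4
  have e0 := hB _ hg
  have e4 := sl_det g
  rw [e0, mul_zero, sub_zero] at e4
  have ha : g 0 0 ≠ 0 := left_ne_zero_of_mul_eq_one e4
  have e5 : g 1 1 = (g 0 0)⁻¹ := eq_inv_of_mul_eq_one_right e4
  have h2 : 1 - g 0 0 ^ 2 ≠ 0 := fun e => h4 (by linear_combination -(g 0 0 ^ 2 + 1) * e)
  refine h4 (borel_diag (ha := ha) ((bin_cj (uu (g 0 1 * g 0 0 / (1 - g 0 0 ^ 2)))).2 hb) (fun k hk => ?_) ?_)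
  · have := hB _ hk
    simpa [sl_mul, sl_inv00, sl_inv10, uu00, uu01, uu10, uu11] using this
  · rw [mem_cj]
    convert hg using 1
    apply sl_ext <;> simp [sl_mul, sl_inv00, sl_inv01, sl_inv10, sl_inv11, dd00, dd01,
        dd10, dd11, uu00, uu01, uu10, uu11, e0, e5]
    field_simp
    ring

theorem not_bin_unip (h2 : (2 : F) ≠ 0) {H : Subgroup SL(2, F)} (hb : Bin SL(2, F) (SL(2, F) ⧸ H))
    (hB : ∀ g ∈ H, g 1 0 = 0) {a : F} (ha : a ≠ 0) (h : -uu a ∈ H)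
    (hU : ∀ g ∈ H, g 0 0 = g 1 1) : False := by
  let k : SL(2, F) := ⟨!![0, -a / 2; 2 / a, -1], by simp; field_simp⟩
  have k00 : k 0 0 = 0 := rfl
  have k01 : k 0 1 = -a / 2 := rfl
  have k10 : k 1 0 = 2 / a := rfl
  have k11 : k 1 1 = -1 := rfl
  obtain ⟨g, g0, g1, g2⟩ := cyc hb (k := k) h
    (by apply sl_ext <;> simp only [pow_three, sl_mul, k00, k01, k10, k11, sl_one00, sl_one01, sl_one10,
      sl_one11] <;> field_simp <;> ring)
    (by apply sl_ext <;> simp only [pow_three, sl_mul, k00, k01, k10, k11, sl_one00, sl_one01, sl_one10, sl_one11,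
      sl_neg, uu00, uu01, uu10, uu11] <;> field_simp <;> ring)
  have e0 := hB _ g0
  have e1 := hB _ g1
  have e2 := hB _ g2
  have e3 := hU _ g0
  have e4 := sl_det g
  rw [conj10] at e1
  simp only [sl_mul, sl_inv00, sl_inv10, k00, k10, k11, sl_neg, uu00, uu01, uu10, uu11, e0] at e1 e2 e4
  have e5 : g 0 1 = 0 := by
    field_simp at e1
    apply mul_left_cancel₀ (pow_ne_zero 2 h2)
    linear_combination -e1
  rw [e5, e3] at e2 e4
  have e7 : g 1 1 ≠ 0 := by rintro e; simp [e] at e4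
  field_simp at e2
  exact mul_ne_zero (mul_ne_zero (pow_ne_zero 2 h2) ha) e7 (by linear_combination e2)

theorem e0_ne : (![1, 0] : Fin 2 → F) ≠ 0 := fun h => by simpa using congrFun h 0

section char2
variable [Finite F] [CharP F 2]

noncomputable def U2 (F : Type*) [Field F] [Finite F] [CharP F 2] : Sylow 2 SL(2, F) :=
  SL2.sylowOfVec 2 ![1, 0] e0_ne

theorem mem_U2 {g : SL(2, F)} : g ∈ (U2 F : Subgroup SL(2, F)) ↔ g 0 0 = 1 ∧ g 1 0 = 0 := by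
  rw [U2, SL2.coe_sylowOfVec, mem_stabilizer_iff, SL2.sl_smul_eq, vec_ext_iff, mulVec_0, mulVec_1]
  simp

theorem U2_11 {g : SL(2, F)} (hg : g ∈ (U2 F : Subgroup SL(2, F))) : g 1 1 = 1 := by
  have := sl_det g
  simpa [(mem_U2.1 hg).1, (mem_U2.1 hg).2] using this

theorem U2_comm (x : SL(2, F)) (hx : x ∈ (U2 F : Subgroup SL(2, F))) (y : SL(2, F))
    (hy : y ∈ (U2 F : Subgroup SL(2, F))) : x * y = y * x := by
  apply sl_ext <;> simp [sl_mul, (mem_U2.1 hx).1, (mem_U2.1 hx).2, (mem_U2.1 hy).1, (mem_U2.1 hy).2, U2_11 hx,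
    U2_11 hy, add_comm]

theorem sylow_comm (P : Sylow 2 SL(2, F)) : Zc (P : Subgroup SL(2, F)) = P := by
  obtain ⟨c, rfl⟩ := exists_smul_eq SL(2, F) (U2 F) P
  refine Zc_eq_of_comm fun x hx y hy => ?_
  rw [Sylow.coe_subgroup_smul, Subgroup.mem_pointwise_smul_iff_inv_smul_mem] at hx hy
  have := U2_comm _ hx _ hy
  rwa [← smul_mul', ← smul_mul', smul_left_cancel_iff] at this

theorem bin_iff_SL2 {G : Type*} [Group G] (e : G ≃* SL(2, F))
    (hJ : ∀ s t : G, orderOf s = 2 → orderOf t = 2 → IsConj s t)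
    {H : Subgroup G} (hH : H ≠ ⊤) (he : Even (Nat.card H)) : Bin G (G ⧸ H) ↔ Good G H := by
  have h1 : ∀ z : SL(2, F), e.symm.toMonoidHom z = 1 → z = 1 := fun z h => by simpa using h
  have hx01 : ∀ x ∈ (U2 F : Subgroup SL(2, F)), x ≠ 1 → x 0 1 ≠ 0 := fun x hx h e =>
    h (sl_ext (mem_U2.1 hx).1 e (mem_U2.1 hx).2 (U2_11 hx))
  refine package e.symm.toMonoidHom e.symm.surjective (fun z h _ => h1 z h) (fun z h k => by simp [h1 z h])
    (U2 F) ?_ ?_ ?_ ?_ hJ hH he <;> simp only [sylow_comm]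
  · intro z hz
    apply sl_ext <;> simp [sl_mul, (mem_U2.1 hz).1, (mem_U2.1 hz).2, U2_11 hz, sl_one00, sl_one01, sl_one10,
      sl_one11, CharTwo.add_self_eq_zero]
  · intro c x y hx x1 y1 hy h k hk
    have a1 := congrArg (fun g : SL(2, F) => g 0 0) h
    simp only [sl_mul, (mem_U2.1 hx).1, (mem_U2.1 hx).2] at a1
    have a2 : y 1 0 = 0 := by
      apply mul_left_cancel₀ (hx01 x hx x1); linear_combination a1
    have a3 := hx01 _ hy (fun e => y1 (Sz.inv_conj_eq_one_iff.1 e))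
    have a4 : c⁻¹ * y * c * c⁻¹ = c⁻¹ * y := by group
    have a5 := congrArg (fun g : SL(2, F) => g 0 0) a4
    have a6 := congrArg (fun g : SL(2, F) => g 1 0) a4
    have a7 := (mem_U2.1 hy).1
    have a8 := (mem_U2.1 hy).2
    have a9 := U2_11 hy
    generalize c⁻¹ * y * c = y' at a3 a5 a6 a7 a8 a9
    simp only [sl_mul, a2, a7, a8, a9, sl_inv00, sl_inv01, sl_inv10, sl_inv11] at a5 a6
    have a10 : c 1 0 = 0 := by
      by_contra h0
      have : y 0 0 = 1 := by apply mul_left_cancel₀ h0; linear_combination a6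
      rw [this] at a5
      exact mul_ne_zero a3 h0 (by linear_combination -a5)
    have a11 := sl_det c
    rw [mem_U2]
    simp only [sl_mul, a10, (mem_U2.1 hk).1, (mem_U2.1 hk).2, U2_11 hk, sl_inv00, sl_inv01, sl_inv10, sl_inv11] at a11 ⊢
    exact ⟨by linear_combination a11, by ring⟩
  · exact ⟨uu 1, mem_U2.2 ⟨rfl, rfl⟩, fun e => one_ne_zero (congrArg (fun g : SL(2, F) => g 0 1) e)⟩
  · intro H _ hH hb hU g hg
    have hB : ∀ g ∈ H, g 1 0 = 0 := fun g hg => by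
      by_contra h0
      refine hH (eq_top_iff.2 ((SL2.stabilizer_sup_stabilizer_eq_top (v := ![1, 0]) (w := g • ![1, 0]) ?_).ge.trans
        (sup_le hU fun k hk => ?_)))
      · simpa [SL2.sl_smul_eq, mulVec_0, mulVec_1] using h0
      · have : g⁻¹ * k * g ∈ stabilizer SL(2, F) (![1, 0] : Fin 2 → F) := by
          rw [mem_stabilizer_iff, mul_smul, mul_smul, hk, inv_smul_smul]
        simpa [mul_assoc] using mul_mem (mul_mem hg (hU this)) (inv_mem hg)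
    refine ⟨g, mem_U2.2 ⟨?_, hB g hg⟩, rfl⟩
    exact SL2.eq_one_of_pow_char_pow 2 (k := 2) (borel hb hB hg)

end char2

end CL.Bin
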