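import Mathlib
import Cfsg.Agent.CHEV.BinBase

/-!
A matrix model of `SU₃(q)`, `q` even, for the antidiagonal form.
-/

set_option autoImplicit false
set_option linter.unusedSectionVars false
open Matrix
open scoped MatrixGroups

namespace CL.Bin.U3

variable {F : Type*} [Field F]

def J3 (F : Type*) [Field F] : Matrix (Fin 3) (Fin 3) F := !![0, 0, 1; 0, 1, 0; 1, 0, 0]

theorem J3_mul_J3 : J3 F * J3 F = 1 := by
  ext i j; fin_cases i <;> fin_cases j <;> simp [J3, Matrix.mul_apply, Fin.sum_univ_three]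

def SJ (σ : F →+* F) : Subgroup SL(3, F) where
  carrier := {g | ((g : Matrix (Fin 3) (Fin 3) F).map σ)ᵀ * J3 F * g = J3 F}
  one_mem' := by simp
  mul_mem' := fun {a b} ha hb => by
    simp only [Set.mem_ofPred_eq, Matrix.SpecialLinearGroup.coe_mul, Matrix.map_mul, transpose_mul] at *
    calc _ = ((b : Matrix (Fin 3) (Fin 3) F).map σ)ᵀ * (((a : Matrix (Fin 3) (Fin 3) F).map σ)ᵀ * J3 F * a) * b := by
          simp only [Matrix.mul_assoc]
      _ = _ := by rw [ha, hb]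
  inv_mem' := fun {a} ha => by
    simp only [Set.mem_ofPred_eq] at *
    have h : (a : Matrix (Fin 3) (Fin 3) F) * (a⁻¹ : SL(3, F)) = 1 := by
      rw [← Matrix.SpecialLinearGroup.coe_mul, mul_inv_cancel, Matrix.SpecialLinearGroup.coe_one]
    calc _ = (((a : Matrix (Fin 3) (Fin 3) F) * (a⁻¹ : SL(3, F))).map σ)ᵀ * J3 F *
          ((a : Matrix (Fin 3) (Fin 3) F) * (a⁻¹ : SL(3, F))) := by
          conv_lhs => rw [← ha]
          simp only [Matrix.map_mul, transpose_mul, Matrix.mul_assoc]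
      _ = _ := by rw [h]; simp

variable {σ : F →+* F}

/-- The matrix of an element. -/
def m (g : SJ σ) : Matrix (Fin 3) (Fin 3) F := g.1.1

theorem m_mul' (g h : SJ σ) : m (g * h) = m g * m h := rfl
theorem m_one : m (1 : SJ σ) = 1 := rfl
theorem m_inj {g h : SJ σ} (e : m g = m h) : g = h := Subtype.ext (Subtype.ext e)

theorem m_mul (g h : SJ σ) (i j : Fin 3) :
    m (g * h) i j = m g i 0 * m h 0 j + m g i 1 * m h 1 j + m g i 2 * m h 2 j := by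
  simp [m_mul', Matrix.mul_apply, Fin.sum_univ_three]

theorem ext9 {g h : SJ σ} (h00 : m g 0 0 = m h 0 0) (h01 : m g 0 1 = m h 0 1) (h02 : m g 0 2 = m h 0 2)
    (h10 : m g 1 0 = m h 1 0) (h11 : m g 1 1 = m h 1 1) (h12 : m g 1 2 = m h 1 2)
    (h20 : m g 2 0 = m h 2 0) (h21 : m g 2 1 = m h 2 1) (h22 : m g 2 2 = m h 2 2) : g = h := by
  apply m_inj
  ext i j
  fin_cases i <;> fin_cases j <;> assumption

theorem rel (g : SJ σ) (i j : Fin 3) :
    σ (m g 0 i) * m g 2 j + σ (m g 1 i) * m g 1 j + σ (m g 2 i) * m g 0 j = J3 F i j := by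
  have := congrFun (congrFun g.2 i) j
  simp only [J3, Matrix.mul_apply, Fin.sum_univ_three, transpose_apply, Matrix.map_apply] at this
  rw [J3, ← this]
  simp [m]
  ring

theorem m_det (g : SJ σ) : (m g).det = 1 := g.1.2

theorem det3 (g : SJ σ) : m g 0 0 * m g 1 1 * m g 2 2 - m g 0 0 * m g 1 2 * m g 2 1 - m g 0 1 * m g 1 0 * m g 2 2 +
    m g 0 1 * m g 1 2 * m g 2 0 + m g 0 2 * m g 1 0 * m g 2 1 - m g 0 2 * m g 1 1 * m g 2 0 = 1 := by
  rw [← det_fin_three, m_det]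

theorem m_inv' (g : SJ σ) : m g⁻¹ = J3 F * ((m g).map σ)ᵀ * J3 F := by
  have h : m g * m g⁻¹ = 1 := by rw [← m_mul', mul_inv_cancel, m_one]
  have h2 : ((m g).map σ)ᵀ * J3 F * m g = J3 F := g.2
  calc m g⁻¹ = J3 F * (((m g).map σ)ᵀ * J3 F * m g) * m g⁻¹ := by rw [h2, J3_mul_J3, Matrix.one_mul]
    _ = J3 F * ((m g).map σ)ᵀ * J3 F * (m g * m g⁻¹) := by simp only [Matrix.mul_assoc]
    _ = _ := by rw [h, Matrix.mul_one]

theorem inv00 (g : SJ σ) : m g⁻¹ 0 0 = σ (m g 2 2) := by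
  simp [m_inv', J3, Matrix.mul_apply, Fin.sum_univ_three, vecMul, dotProduct]
theorem inv01 (g : SJ σ) : m g⁻¹ 0 1 = σ (m g 1 2) := by
  simp [m_inv', J3, Matrix.mul_apply, Fin.sum_univ_three, vecMul, dotProduct]
theorem inv02 (g : SJ σ) : m g⁻¹ 0 2 = σ (m g 0 2) := by
  simp [m_inv', J3, Matrix.mul_apply, Fin.sum_univ_three, vecMul, dotProduct]
theorem inv10 (g : SJ σ) : m g⁻¹ 1 0 = σ (m g 2 1) := by
  simp [m_inv', J3, Matrix.mul_apply, Fin.sum_univ_three, vecMul, dotProduct]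
theorem inv11 (g : SJ σ) : m g⁻¹ 1 1 = σ (m g 1 1) := by
  simp [m_inv', J3, Matrix.mul_apply, Fin.sum_univ_three, vecMul, dotProduct]
theorem inv12 (g : SJ σ) : m g⁻¹ 1 2 = σ (m g 0 1) := by
  simp [m_inv', J3, Matrix.mul_apply, Fin.sum_univ_three, vecMul, dotProduct]
theorem inv20 (g : SJ σ) : m g⁻¹ 2 0 = σ (m g 2 0) := by
  simp [m_inv', J3, Matrix.mul_apply, Fin.sum_univ_three, vecMul, dotProduct]
theorem inv21 (g : SJ σ) : m g⁻¹ 2 1 = σ (m g 1 0) := by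
  simp [m_inv', J3, Matrix.mul_apply, Fin.sum_univ_three, vecMul, dotProduct]
theorem inv22 (g : SJ σ) : m g⁻¹ 2 2 = σ (m g 0 0) := by
  simp [m_inv', J3, Matrix.mul_apply, Fin.sum_univ_three, vecMul, dotProduct]

theorem rel00 (g : SJ σ) : σ (m g 0 0) * m g 2 0 + σ (m g 1 0) * m g 1 0 + σ (m g 2 0) * m g 0 0 = 0 :=
  rel g 0 0
theorem rel01 (g : SJ σ) : σ (m g 0 0) * m g 2 1 + σ (m g 1 0) * m g 1 1 + σ (m g 2 0) * m g 0 1 = 0 :=
  rel g 0 1
theorem rel02 (g : SJ σ) : σ (m g 0 0) * m g 2 2 + σ (m g 1 0) * m g 1 2 + σ (m g 2 0) * m g 0 2 = 1 :=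
  rel g 0 2
theorem rel10 (g : SJ σ) : σ (m g 0 1) * m g 2 0 + σ (m g 1 1) * m g 1 0 + σ (m g 2 1) * m g 0 0 = 0 :=
  rel g 1 0
theorem rel11 (g : SJ σ) : σ (m g 0 1) * m g 2 1 + σ (m g 1 1) * m g 1 1 + σ (m g 2 1) * m g 0 1 = 1 :=
  rel g 1 1
theorem rel12 (g : SJ σ) : σ (m g 0 1) * m g 2 2 + σ (m g 1 1) * m g 1 2 + σ (m g 2 1) * m g 0 2 = 0 :=
  rel g 1 2
theorem rel20 (g : SJ σ) : σ (m g 0 2) * m g 2 0 + σ (m g 1 2) * m g 1 0 + σ (m g 2 2) * m g 0 0 = 1 :=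
  rel g 2 0
theorem rel21 (g : SJ σ) : σ (m g 0 2) * m g 2 1 + σ (m g 1 2) * m g 1 1 + σ (m g 2 2) * m g 0 1 = 0 :=
  rel g 2 1
theorem rel22 (g : SJ σ) : σ (m g 0 2) * m g 2 2 + σ (m g 1 2) * m g 1 2 + σ (m g 2 2) * m g 0 2 = 0 :=
  rel g 2 2

theorem one00 : m (1 : SJ σ) 0 0 = 1 := rfl
theorem one01 : m (1 : SJ σ) 0 1 = 0 := rfl
theorem one02 : m (1 : SJ σ) 0 2 = 0 := rfl
theorem one10 : m (1 : SJ σ) 1 0 = 0 := rfl
theorem one11 : m (1 : SJ σ) 1 1 = 1 := rfl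
theorem one12 : m (1 : SJ σ) 1 2 = 0 := rfl
theorem one20 : m (1 : SJ σ) 2 0 = 0 := rfl
theorem one21 : m (1 : SJ σ) 2 1 = 0 := rfl
theorem one22 : m (1 : SJ σ) 2 2 = 1 := rfl

theorem cube_eq_one {g : SJ σ} (h : m g 0 0 + m g 1 1 + m g 2 2 = 0) : g ^ 3 = 1 := by
  have h1 : m g⁻¹ 0 0 + m g⁻¹ 1 1 + m g⁻¹ 2 2 = 0 := by
    rw [inv00, inv11, inv22, ← map_add, ← map_add, show m g 2 2 + m g 1 1 + m g 0 0 = 0 by linear_combination h,
      map_zero]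
  have h2 : m g⁻¹ = adjugate (m g) := rfl
  have h3 := det3 g
  rw [h2, adjugate_fin_three] at h1
  simp only [of_apply, cons_val', cons_val_zero, cons_val_one, cons_val_two, cons_val_fin_one, head_cons,
    tail_cons, Nat.succ_eq_add_one, Nat.reduceAdd, head_fin_const] at h1
  apply ext9 <;> simp only [pow_three, m_mul, one00, one01, one02, one10, one11, one12, one20, one21, one22]
  · linear_combination (m g 0 0 * m g 0 0 + m g 0 1 * m g 1 0 + m g 0 2 * m g 2 0) * h - m g 0 0 * h1 + h3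
  · linear_combination (m g 0 0 * m g 0 1 + m g 0 1 * m g 1 1 + m g 0 2 * m g 2 1) * h - m g 0 1 * h1
  · linear_combination (m g 0 0 * m g 0 2 + m g 0 1 * m g 1 2 + m g 0 2 * m g 2 2) * h - m g 0 2 * h1
  · linear_combination (m g 1 0 * m g 0 0 + m g 1 1 * m g 1 0 + m g 1 2 * m g 2 0) * h - m g 1 0 * h1
  · linear_combination (m g 1 0 * m g 0 1 + m g 1 1 * m g 1 1 + m g 1 2 * m g 2 1) * h - m g 1 1 * h1 + h3
  · linear_combination (m g 1 0 * m g 0 2 + m g 1 1 * m g 1 2 + m g 1 2 * m g 2 2) * h - m g 1 2 * h1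
  · linear_combination (m g 2 0 * m g 0 0 + m g 2 1 * m g 1 0 + m g 2 2 * m g 2 0) * h - m g 2 0 * h1
  · linear_combination (m g 2 0 * m g 0 1 + m g 2 1 * m g 1 1 + m g 2 2 * m g 2 1) * h - m g 2 1 * h1
  · linear_combination (m g 2 0 * m g 0 2 + m g 2 1 * m g 1 2 + m g 2 2 * m g 2 2) * h - m g 2 2 * h1 + h3

theorem conj20 (k g : SJ σ) : m (k⁻¹ * g * k) 2 0 =
    σ (m k 0 0) * (m g 2 0 * m k 0 0 + m g 2 1 * m k 1 0 + m g 2 2 * m k 2 0) +
    σ (m k 1 0) * (m g 1 0 * m k 0 0 + m g 1 1 * m k 1 0 + m g 1 2 * m k 2 0) +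
    σ (m k 2 0) * (m g 0 0 * m k 0 0 + m g 0 1 * m k 1 0 + m g 0 2 * m k 2 0) := by
  simp only [m_mul, inv20, inv21, inv22]; ring

theorem eq_zero_of_norm {a : F} (h : σ a * a = 0) : a = 0 := by
  rcases mul_eq_zero.1 h with h | h
  · exact (map_eq_zero σ).1 h
  · exact h

theorem b10 {g : SJ σ} (h : m g 2 0 = 0) : m g 1 0 = 0 :=
  eq_zero_of_norm (σ := σ) (by simpa [h] using rel00 g)

theorem b00 {g : SJ σ} (h : m g 2 0 = 0) : m g 0 0 ≠ 0 := fun e => by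
  simpa [h, b10 h, e] using det3 g

theorem b21 {g : SJ σ} (h : m g 2 0 = 0) : m g 2 1 = 0 := by
  simpa [h, b10 h, b00 h] using rel01 g

theorem b22 {g : SJ σ} (h : m g 2 0 = 0) : m g 2 2 = (σ (m g 0 0))⁻¹ :=
  eq_inv_of_mul_eq_one_right (by simpa [h, b10 h] using rel02 g)

theorem b11 {g : SJ σ} (h : m g 2 0 = 0) : m g 1 1 = σ (m g 0 0) / m g 0 0 := by
  have h1 := det3 g
  have h2 := b00 h
  have h3 : σ (m g 0 0) ≠ 0 := (map_ne_zero σ).2 h2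
  simp only [h, b10 h, b21 h, b22 h] at h1
  field_simp at h1 ⊢
  linear_combination h1

theorem b_mul {g h : SJ σ} (hg : m g 2 0 = 0) (hh : m h 2 0 = 0) : m (g * h) 2 0 = 0 := by
  simp [m_mul, hg, hh, b10 hh, b21 hg]

theorem b_inv {g : SJ σ} (hg : m g 2 0 = 0) : m g⁻¹ 2 0 = 0 := by simp [inv20, hg]

variable [CharP F 2] [hσ : Fact (∀ x, σ (σ x) = x)]

theorem σσ (x : F) : σ (σ x) = x := hσ.out x

theorem two0 : (2 : F) = 0 := CharTwo.two_eq_zero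

def mk (A : Matrix (Fin 3) (Fin 3) F) (hd : A.det = 1) (h : (A.map σ)ᵀ * J3 F * A = J3 F) : SJ σ :=
  ⟨⟨A, hd⟩, h⟩

def ua (a b : F) (h : b + σ b = σ a * a) : SJ σ :=
  mk !![1, σ a, b; 0, 1, a; 0, 0, 1] (by simp [det_fin_three]) (by
    ext i j
    fin_cases i <;> fin_cases j <;>
      simp [J3, Matrix.mul_apply, Fin.sum_univ_three, σσ, CharTwo.add_self_eq_zero]
    linear_combination h + σ a * a * two0 (F := F))

def za (b : F) (h : σ b = b) : SJ σ := ua 0 b (by simp [h, CharTwo.add_self_eq_zero])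

def ta (c : F) (h : c ≠ 0) : SJ σ :=
  mk !![c, 0, 0; 0, σ c / c, 0; 0, 0, (σ c)⁻¹] (by simp [det_fin_three]; field_simp; exact div_self ((map_ne_zero σ).2 h)) (by
    have : σ c ≠ 0 := (map_ne_zero σ).2 h
    ext i j
    fin_cases i <;> fin_cases j <;>
      simp [J3, Matrix.mul_apply, Fin.sum_univ_three, σσ, h])

def na (σ : F →+* F) : SJ σ :=
  mk (J3 F) (by simp [J3, det_fin_three, CharTwo.neg_eq]) (by
    ext i j
    fin_cases i <;> fin_cases j <;> simp [J3, Matrix.mul_apply, Fin.sum_univ_three])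

theorem ua00 (a b : F) (h : b + σ b = σ a * a) : m (ua a b h) 0 0 = 1 := rfl
theorem ua01 (a b : F) (h : b + σ b = σ a * a) : m (ua a b h) 0 1 = σ a := rfl
theorem ua02 (a b : F) (h : b + σ b = σ a * a) : m (ua a b h) 0 2 = b := rfl
theorem ua10 (a b : F) (h : b + σ b = σ a * a) : m (ua a b h) 1 0 = 0 := rfl
theorem ua11 (a b : F) (h : b + σ b = σ a * a) : m (ua a b h) 1 1 = 1 := rfl
theorem ua12 (a b : F) (h : b + σ b = σ a * a) : m (ua a b h) 1 2 = a := rfl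
theorem ua20 (a b : F) (h : b + σ b = σ a * a) : m (ua a b h) 2 0 = 0 := rfl
theorem ua21 (a b : F) (h : b + σ b = σ a * a) : m (ua a b h) 2 1 = 0 := rfl
theorem ua22 (a b : F) (h : b + σ b = σ a * a) : m (ua a b h) 2 2 = 1 := rfl
theorem za00 (b : F) (h : σ b = b) : m (za b h) 0 0 = 1 := rfl
theorem za01 (b : F) (h : σ b = b) : m (za b h) 0 1 = 0 := map_zero σ
theorem za02 (b : F) (h : σ b = b) : m (za b h) 0 2 = b := rfl
theorem za10 (b : F) (h : σ b = b) : m (za b h) 1 0 = 0 := rfl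
theorem za11 (b : F) (h : σ b = b) : m (za b h) 1 1 = 1 := rfl
theorem za12 (b : F) (h : σ b = b) : m (za b h) 1 2 = 0 := rfl
theorem za20 (b : F) (h : σ b = b) : m (za b h) 2 0 = 0 := rfl
theorem za21 (b : F) (h : σ b = b) : m (za b h) 2 1 = 0 := rfl
theorem za22 (b : F) (h : σ b = b) : m (za b h) 2 2 = 1 := rfl
theorem ta00 (c : F) (h : c ≠ 0) : m (ta (σ := σ) c h) 0 0 = c := rfl
theorem ta01 (c : F) (h : c ≠ 0) : m (ta (σ := σ) c h) 0 1 = 0 := rfl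
theorem ta02 (c : F) (h : c ≠ 0) : m (ta (σ := σ) c h) 0 2 = 0 := rfl
theorem ta10 (c : F) (h : c ≠ 0) : m (ta (σ := σ) c h) 1 0 = 0 := rfl
theorem ta11 (c : F) (h : c ≠ 0) : m (ta (σ := σ) c h) 1 1 = σ c / c := rfl
theorem ta12 (c : F) (h : c ≠ 0) : m (ta (σ := σ) c h) 1 2 = 0 := rfl
theorem ta20 (c : F) (h : c ≠ 0) : m (ta (σ := σ) c h) 2 0 = 0 := rfl
theorem ta21 (c : F) (h : c ≠ 0) : m (ta (σ := σ) c h) 2 1 = 0 := rfl
theorem ta22 (c : F) (h : c ≠ 0) : m (ta (σ := σ) c h) 2 2 = (σ c)⁻¹ := rfl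
theorem na00 : m (na σ) 0 0 = 0 := rfl
theorem na01 : m (na σ) 0 1 = 0 := rfl
theorem na02 : m (na σ) 0 2 = 1 := rfl
theorem na10 : m (na σ) 1 0 = 0 := rfl
theorem na11 : m (na σ) 1 1 = 1 := rfl
theorem na12 : m (na σ) 1 2 = 0 := rfl
theorem na20 : m (na σ) 2 0 = 1 := rfl
theorem na21 : m (na σ) 2 1 = 0 := rfl
theorem na22 : m (na σ) 2 2 = 0 := rfl

attribute [simp] ua00 ua01 ua02 ua10 ua11 ua12 ua20 ua21 ua22 za00 za01 za02 za10 za11 za12 za20 za21 za22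
  ta00 ta01 ta02 ta10 ta11 ta12 ta20 ta21 ta22 na00 na01 na02 na10 na11 na12 na20 na21 na22
  one00 one01 one02 one10 one11 one12 one20 one21 one22 inv00 inv01 inv02 inv10 inv11 inv12 inv20 inv21 inv22
  m_mul σσ

end CL.Bin.U3
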