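import Mathlib
import Cfsg.Agent.CHEV.BinU3Model

/-!
Binary coset actions of `SU₃(q)`, `q` even: subgroups of the Borel subgroup.
-/

set_option autoImplicit false
set_option linter.unusedSectionVars false
open Matrix Cfsg.Agent.S5737
open scoped MatrixGroups

namespace CL.Bin.U3

variable {F : Type*} [Field F] {σ : F →+* F} [CharP F 2] [hσ : Fact (∀ x, σ (σ x) = x)]

theorem σne {c : F} (h : c ≠ 0) : σ c ≠ 0 := (map_ne_zero σ).2 h

theorem b01 {g : SJ σ} (h : m g 2 0 = 0) : m g 0 1 = σ (m g 1 2) * σ (m g 0 0) := by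
  have h1 := rel21 g
  have h2 := b00 h
  have h3 := σne (σ := σ) h2
  simp only [b21 h, b22 h, b11 h, map_inv₀, σσ] at h1
  field_simp at h1
  linear_combination h1 - σ (m g 1 2) * σ (m g 0 0) * two0 (F := F)

theorem eq_ta_ua {g : SJ σ} (h : m g 2 0 = 0) :
    ∃ c hc a b hab, g = ta c hc * ua a b hab := by
  have h2 := b00 h
  have h3 := σne (σ := σ) h2
  refine ⟨m g 0 0, h2, m g 1 2 * m g 0 0 / σ (m g 0 0), m g 0 2 / m g 0 0, ?_, ?_⟩
  · have h1 := rel22 g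
    simp only [b22 h, map_inv₀, σσ, map_div₀, map_mul] at h1 ⊢
    field_simp at h1 ⊢
    linear_combination h1 - σ (m g 0 0) * σ (m g 1 2) * m g 1 2 * m g 0 0 * two0 (F := F)
  · apply ext9 <;> simp [h, b10 h, b21 h, b22 h, b11 h, b01 h] <;> field_simp

theorem ua_mul (a b a' b' : F) (h : b + σ b = σ a * a) (h' : b' + σ b' = σ a' * a') :
    ua a b h * ua a' b' h' = ua (a + a') (b + b' + σ a * a') (by
      simp only [map_add, map_mul, σσ]; linear_combination h + h') := by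
  apply ext9 <;> simp <;> ring

theorem za_mul (b b' : F) (h : σ b = b) (h' : σ b' = b') :
    za b h * za b' h' = za (b + b') (by rw [map_add, h, h']) := by
  apply ext9 <;> simp [add_comm]

theorem za_inv (b : F) (h : σ b = b) : (za b h)⁻¹ = za b h := by
  apply ext9 <;> simp [h]

theorem na_inv : (na σ)⁻¹ = na σ := by
  apply ext9 <;> simp

theorem ta_mul (c c' : F) (h : c ≠ 0) (h' : c' ≠ 0) :
    ta (σ := σ) c h * ta c' h' = ta (c * c') (mul_ne_zero h h') := by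
  apply ext9 <;> simp [mul_comm]
  field_simp

theorem ta_one (h : (1 : F) ≠ 0) : ta (σ := σ) 1 h = 1 := by
  apply ext9 <;> simp

theorem ta_pow (c : F) (h : c ≠ 0) (n : ℕ) : ta (σ := σ) c h ^ n = ta (c ^ n) (pow_ne_zero n h) := by
  induction n with
  | zero => simp [ta_one]
  | succ n ih => simp only [pow_succ, ih, ta_mul]

theorem na_ta (c : F) (h : c ≠ 0) : (na σ)⁻¹ * ta c h * na σ = (ta (σ c) (σne h))⁻¹ := by
  apply ext9 <;> simp

def Zs (σ : F →+* F) [Fact (∀ x, σ (σ x) = x)] : Subgroup (SJ σ) where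
  carrier := {g | ∃ b h, g = za b h}
  one_mem' := ⟨0, map_zero σ, by apply ext9 <;> simp⟩
  mul_mem' := by rintro _ _ ⟨b, h, rfl⟩ ⟨b', h', rfl⟩; exact ⟨_, _, za_mul b b' h h'⟩
  inv_mem' := by rintro _ ⟨b, h, rfl⟩; exact ⟨_, _, za_inv b h⟩

theorem za_mem (b : F) (h : σ b = b) : za b h ∈ Zs σ := ⟨b, h, rfl⟩

theorem mem_Zs_of {g : SJ σ} (h : m g 2 0 = 0) (h0 : m g 0 0 = 1) (h1 : m g 1 2 = 0) : g ∈ Zs σ := by
  obtain ⟨c, hc, a, b, hab, rfl⟩ := eq_ta_ua h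
  obtain rfl : c = 1 := by simpa using h0
  obtain rfl : a = 0 := by simpa using h1
  exact ⟨b, by simp at hab; grind, by rw [ta_one, one_mul]; rfl⟩

theorem conj_mem_Zs {k z : SJ σ} (hk : m k 2 0 = 0) (hz : z ∈ Zs σ) : k * z * k⁻¹ ∈ Zs σ := by
  obtain ⟨b, hb, rfl⟩ := hz
  refine ⟨m k 0 0 * σ (m k 0 0) * b, by simp [hb, mul_comm], ?_⟩
  have : k * za b hb = za (m k 0 0 * σ (m k 0 0) * b) (by simp [hb, mul_comm]) * k := by
    have := σne (σ := σ) (b00 hk)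
    apply ext9 <;> simp [hk, b10 hk, b21 hk, b22 hk]
    field_simp
    ring
  rw [this, mul_inv_cancel_right]

variable {H : Subgroup (SJ σ)} (hb : Bin (SJ σ) (SJ σ ⧸ H)) (hB : ∀ g ∈ H, m g 2 0 = 0)
include hb hB

theorem lem_b (hq : ∃ q : ℕ, ∀ x, σ x = x ^ q) {c : F} {hc : c ≠ 0} (h : ta c hc ∈ H) :
    σ c * c = 1 := by
  obtain ⟨q, hq⟩ := hq
  have hc' := σne (σ := σ) hc
  have hn : (na σ)⁻¹ * ta c hc * na σ ∈ H := by
    rw [na_ta]
    refine inv_mem ?_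
    convert pow_mem h q using 1
    simp only [ta_pow, hq]
  by_contra h1
  set μ := σ c * c with hμ
  have hμσ : σ μ = μ := by simp [hμ, mul_comm]
  have hμ0 : μ ≠ 0 := mul_ne_zero hc' hc
  have h2 : 1 + μ ≠ 0 := fun e => h1 (by linear_combination e - two0 (F := F))
  have h3 : σ (1 + μ) = 1 + μ := by simp [hμσ]
  obtain ⟨g, g0, g1, g2, g3⟩ := quad hb (u := na σ) (v := za (1 + μ) h3 * na σ) (w := za μ hμσ * na σ)
    (y := za (1 + μ) h3 * ta c hc * (za (1 + μ) h3)⁻¹) h hn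
    (by convert hn using 1; group)
    (by
      convert mul_mem hn hn using 1
      apply ext9 <;> simp [hμσ]
      simp only [hμ]
      field_simp
      grind)
  have e0 := hB _ g0
  have e1 := hB _ g1
  have e2 := hB _ g2
  have e3 := hB _ g3
  rw [conj20] at e1 e2 e3
  have e4 := b00 e0
  have e5 := σne (σ := σ) e4
  simp [e0, b10 e0, b21 e0, b22 e0, hμσ] at e1 e2 e3
  rw [e1] at e2 e3
  have e6 : σ (m g 0 0) * m g 0 0 = 1 := by
    apply mul_left_cancel₀ h2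
    field_simp at e2
    grind
  apply h1
  apply mul_left_cancel₀ hμ0
  field_simp at e3
  grind

theorem lem_c (hsq : ∀ x : F, ∃ r, r ^ 2 = x) (hZ : Zs σ ≤ H) (hN : ∀ g ∈ H, σ (m g 0 0) * m g 0 0 = 1)
    {c : F} {hc : c ≠ 0} (h : ta c hc ∈ H) : c ^ 3 = 1 := by
  by_contra h1
  have hc1 : σ c * c = 1 := hN _ h
  obtain ⟨r, hr⟩ := hsq (σ c)
  have hr1 : σ r * r = 1 := by
    have : (σ r * r) ^ 2 = 1 := by rw [mul_pow, ← map_pow, hr, σσ, mul_comm, hc1]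
    grind
  have hr0 : r ≠ 0 := right_ne_zero_of_mul_eq_one hr1
  have hcr : c = σ r ^ 2 := by rw [← map_pow, hr, σσ]
  obtain ⟨γ, hγ⟩ := hsq (σ r ^ 3 + r ^ 3)
  have hβ : σ (σ r ^ 3 + r ^ 3) = σ r ^ 3 + r ^ 3 := by simp [add_comm]
  have hγ1 : σ γ = γ := by
    have : σ γ ^ 2 = γ ^ 2 := by rw [← map_pow, hγ, hβ]
    grind
  have hβ0 : σ r ^ 3 + r ^ 3 ≠ 0 := fun e => h1 (by rw [hcr]; grind)
  have hk : σ r ^ 3 + σ (σ r ^ 3) = σ γ * γ := by rw [hγ1, ← pow_two, hγ]; simp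
  have hr2 : (σ r)⁻¹ = r := inv_eq_of_mul_eq_one_right hr1
  have hr3 : r⁻¹ = σ r := inv_eq_of_mul_eq_one_left hr1
  have hc2 : (σ c)⁻¹ = c := inv_eq_of_mul_eq_one_right hc1
  have hc3 : c⁻¹ = σ c := inv_eq_of_mul_eq_one_left hc1
  obtain ⟨g, g0, g1, g2⟩ := cyc hb (k := ua γ (σ r ^ 3) hk * ta r hr0 * na σ)
    (mul_mem h (hZ (za_mem _ hβ)))
    (cube_eq_one (by simp [div_eq_mul_inv, hr2, hr3]; grind))
    (cube_eq_one (by simp [div_eq_mul_inv, hr2, hr3, hc2, hc3]; grind))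
  have e0 := hB _ g0
  have e1 := hB _ g1
  have e2 := hB _ g2
  have e3 := hN _ g0
  rw [conj20] at e1
  have e4 : (σ (m g 0 0))⁻¹ = m g 0 0 := inv_eq_of_mul_eq_one_right e3
  have e5 : (m g 0 0)⁻¹ = σ (m g 0 0) := inv_eq_of_mul_eq_one_left e3
  have e6 := rel22 g
  simp [e0, b10 e0, b21 e0, b22 e0, b11 e0, b01 e0, div_eq_mul_inv, hr2, hr3, hc2, hc3, e4, e5, hγ1] at e1 e2 e6
  have e7 : m g 0 2 = (σ r ^ 3 + r ^ 3) * m g 0 0 := by
    apply mul_left_cancel₀ hc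
    simp only [hr0, false_or, or_false] at e2
    grind
  have e8 : m g 1 2 = 0 := by
    apply eq_zero_of_norm (σ := σ)
    rw [e7, map_mul, hβ] at e6
    grind
  rw [e7, e8, map_zero] at e1
  have e9 : σ (m g 0 0) ≠ 0 := left_ne_zero_of_mul_eq_one e3
  exact mul_ne_zero (pow_ne_zero 2 e9) hβ0 (by grind)

theorem lem_d_aux (hN : ∀ g ∈ H, σ (m g 0 0) * m g 0 0 = 1 ∧ m g 0 0 ^ 3 = 1) {a b : F}
    {hab : b + σ b = σ a * a} (h : ua a b hab ∈ H) (hb0 : b ≠ 0) {γ δ c : F} {hk : δ + σ δ = σ γ * γ}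
    {hc : c ≠ 0} (h1 : (ua γ δ hk * ta c hc * na σ) ^ 3 = 1)
    (h2 : (ua a b hab * (ua γ δ hk * ta c hc * na σ)) ^ 3 = 1) : False := by
  obtain ⟨g, g0, g1, g2⟩ := cyc hb h h1 h2
  have e0 := hB _ g0
  have e1 := hB _ g1
  have e2 := hB _ g2
  have hc' := σne (σ := σ) hc
  obtain ⟨e3, e3'⟩ := hN _ g0
  rw [conj20] at e1
  have e4 : (σ (m g 0 0))⁻¹ = m g 0 0 := inv_eq_of_mul_eq_one_right e3
  have e5 : σ (m g 0 0) / m g 0 0 = m g 0 0 := by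
    rw [div_eq_iff (b00 e0)]; grind
  have e6 := rel22 g
  simp [e0, b10 e0, b21 e0, b22 e0, b11 e0, b01 e0, e4, e5, hc] at e1 e2 e6
  field_simp at e1
  have e7 : m g 0 2 = σ γ * m g 1 2 + σ (m g 1 2) * σ (m g 0 0) * γ := by grind
  have e8 : m g 1 2 = 0 := by
    apply eq_zero_of_norm (σ := σ)
    rw [e7] at e6
    simp only [map_add, map_mul, σσ] at e6
    grind
  rw [e8] at e7 e2
  exact mul_ne_zero hb0 (b00 e0) (by simpa [e7] using e2)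

theorem lem_d (h4 : ∃ c : F, c ≠ 0 ∧ σ c ^ 3 ≠ c ^ 3)
    (hN : ∀ g ∈ H, σ (m g 0 0) * m g 0 0 = 1 ∧ m g 0 0 ^ 3 = 1) {a b : F} {hab : b + σ b = σ a * a}
    (h : ua a b hab ∈ H) : a = 0 := by
  by_contra ha
  have ha' := σne (σ := σ) ha
  have hb0 : b ≠ 0 := by
    rintro rfl
    exact mul_ne_zero ha' ha (by simpa using hab.symm)
  have hb' := σne (σ := σ) hb0
  obtain ⟨c₀, hc₀, hc₁⟩ := h4
  have hc₀' := σne (σ := σ) hc₀
  have hc₂ : σ c₀ ^ 3 + c₀ ^ 3 ≠ 0 := fun e => hc₁ (by grind)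
  set s := σ b * b * (σ c₀ * c₀) / (σ a * a * (σ c₀ ^ 3 + c₀ ^ 3)) with hs
  have hsσ : σ s = s := by simp [hs, mul_comm, add_comm]
  have hs0 : s ≠ 0 := by simp [hs, ha, hb0, hc₀, hc₂]
  have hk : s * σ c₀ ^ 2 / c₀ + σ (s * σ c₀ ^ 2 / c₀) = σ (b / σ a) * (b / σ a) := by
    simp only [map_div₀, map_mul, map_pow, σσ, hsσ]
    simp only [hs]
    field_simp
  exact lem_d_aux hb hB hN h hb0 (hk := hk) (hc := mul_ne_zero hs0 hc₀)
    (cube_eq_one (by simp [hsσ]; field_simp; grind))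
    (cube_eq_one (by simp [hsσ]; field_simp; grind))

theorem borel_main (hq : ∃ q : ℕ, ∀ x, σ x = x ^ q) (hsq : ∀ x : F, ∃ r, r ^ 2 = x)
    (h4 : ∃ c : F, c ≠ 0 ∧ σ c ^ 3 ≠ c ^ 3) (hZ : Zs σ ≤ H)
    (hC : ∀ (c : F) (hc : c ≠ 0), σ c * c = 1 → c ^ 3 = 1 → ta c hc ∈ H) {g : SJ σ} (hg : g ∈ H) :
    ∃ (c : F) (hc : c ≠ 0), σ c * c = 1 ∧ c ^ 3 = 1 ∧ ∃ z ∈ Zs σ, g = ta c hc * z := by
  have red : ∀ g ∈ H, σ (m g 0 0) ^ 2 ≠ m g 0 0 → ∃ v : SJ σ, m v 2 0 = 0 ∧ m v 0 0 = 1 ∧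
      ∃ hc, ta (m g 0 0) hc ∈ cj v H := fun g hg h => by
    obtain ⟨c, hc, a, b, hab, rfl⟩ := eq_ta_ua (hB g hg)
    have e : m (ta c hc * ua a b hab) 0 0 = c := by simp
    rw [e] at h ⊢
    have hc' := σne (σ := σ) hc
    have h1 : σ c ^ 2 + c ≠ 0 := fun e => h (by grind)
    obtain ⟨c₀, -, hc₁⟩ := h4
    have h3 : σ c₀ + c₀ ≠ 0 := fun e => hc₁ (by rw [show σ c₀ = c₀ by grind])
    have h3' : c₀ + σ c₀ ≠ 0 := by rwa [add_comm]
    obtain ⟨α, hα⟩ : ∃ α, α = a * σ c ^ 2 / (σ c ^ 2 + c) := ⟨_, rfl⟩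
    obtain ⟨β, hβ⟩ : ∃ β, β + σ β = σ α * α := ⟨σ α * α * c₀ / (c₀ + σ c₀), by
      simp only [map_div₀, map_mul, map_add, σσ]; field_simp; ring⟩
    refine ⟨ua α β hβ, rfl, rfl, hc, ?_⟩
    have : (ta c hc * ua a b hab)⁻¹ * (ua α β hβ * ta c hc * (ua α β hβ)⁻¹) ∈ Zs σ := by
      refine mem_Zs_of (by simp) (by simp [hc]) ?_
      simp [hα]
      field_simp
      grind
    simpa only [mem_cj, mul_inv_cancel_left] using mul_mem hg (hZ this)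
  have hcj : ∀ v : SJ σ, m v 2 0 = 0 → ∀ g ∈ cj v H, m g 2 0 = 0 := fun v hv g hg => by
    simpa only [mul_assoc, inv_mul_cancel_left, inv_mul_cancel, mul_one] using
      b_mul (b_mul (b_inv hv) (hB _ (mem_cj.1 hg))) hv
  have hN : ∀ g ∈ H, σ (m g 0 0) * m g 0 0 = 1 := fun g hg => by
    by_cases h : σ (m g 0 0) ^ 2 = m g 0 0
    · have h' := congrArg σ h
      have := b00 (hB g hg)
      simp only [map_pow, σσ] at h'
      grind
    · obtain ⟨v, hv, -, hc, h⟩ := red g hg h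
      exact lem_b ((bin_cj v).2 hb) (hcj v hv) hq h
  have hN3 : ∀ g ∈ H, m g 0 0 ^ 3 = 1 := fun g hg => by
    by_cases h : σ (m g 0 0) ^ 2 = m g 0 0
    · have := hN g hg
      grind
    · obtain ⟨v, hv, hv', hc, h⟩ := red g hg h
      refine lem_c ((bin_cj v).2 hb) (hcj v hv) hsq (fun z hz => hZ (conj_mem_Zs hv hz)) (fun k hk => ?_) h
      have h1 := hN _ (mem_cj.1 hk)
      have h2 := hcj v hv k hk
      simpa [hv, hv', b10 hv, b22 hv, b21 hv, h2, b10 h2] using h1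
  obtain ⟨c, hc, a, b, hab, rfl⟩ := eq_ta_ua (hB g hg)
  have e1 : σ c * c = 1 := by simpa using hN _ hg
  have e2 : c ^ 3 = 1 := by simpa using hN3 _ hg
  refine ⟨c, hc, e1, e2, _, ?_, rfl⟩
  have h1 : ua a b hab ∈ H := by
    simpa only [inv_mul_cancel_left] using mul_mem (inv_mem (hC _ hc e1 e2)) hg
  obtain rfl := lem_d hb hB h4 (fun g hg => ⟨hN g hg, hN3 g hg⟩) h1
  exact ⟨b, by simp at hab; grind, rfl⟩

end CL.Bin.U3
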