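import Mathlib
import Cfsg.Agent.CHEV.BinU3A
import Cfsg.Agent.KSG.SpUUnitary
import Cfsg.Agent.CLAS.U3Syl

/-!
Binary coset actions of `PSU₃(q)`, `q` even.
-/

set_option autoImplicit false
set_option linter.unusedSectionVars false
open Matrix Cfsg Cfsg.Agent.S5737
open scoped MatrixGroups

namespace CL.Bin.U3

variable {F : Type*} [Field F] {σ : F →+* F} [CharP F 2] [hσ : Fact (∀ x, σ (σ x) = x)]

def D (H : Subgroup (SJ σ)) (k : SJ σ) : Prop := ∀ z ∈ Zs σ, k * z * k⁻¹ ∈ H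

variable {H : Subgroup (SJ σ)}

theorem D.of {k k' : SJ σ} (h : D H k) (e : m (k⁻¹ * k') 2 0 = 0) : D H k' := fun z hz => by
  convert h _ (conj_mem_Zs e hz) using 1
  group

theorem D.mul {k g : SJ σ} (h : D H k) (hg : g ∈ H) : D H (g * k) := fun z hz => by
  convert mul_mem (mul_mem hg (h z hz)) (inv_mem hg) using 1
  group

theorem iso_div (k : SJ σ) (h : m k 2 0 ≠ 0) :
    m k 0 0 / m k 2 0 + σ (m k 0 0 / m k 2 0) = σ (m k 1 0 / m k 2 0) * (m k 1 0 / m k 2 0) := by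
  have := rel00 k
  have := σne (σ := σ) h
  simp only [map_div₀]
  field_simp
  grind

theorem D.ratio (hZ : Zs σ ≤ H) {k k' : SJ σ} (h : D H k) (h1 : m k 2 0 ≠ 0) (h2 : m k' 2 0 ≠ 0)
    (e : m k 1 0 / m k 2 0 = m k' 1 0 / m k' 2 0) : D H k' := by
  have e1 := iso_div k h1
  have e2 := iso_div k' h2
  have hs : σ (m k 0 0 / m k 2 0 + m k' 0 0 / m k' 2 0) = m k 0 0 / m k 2 0 + m k' 0 0 / m k' 2 0 := by
    rw [e] at e1
    rw [map_add]
    grind
  refine (h.mul (hZ (za_mem _ hs))).of ?_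
  have e3 := rel00 k'
  have e4 : m k 1 0 = m k 2 0 / m k' 2 0 * m k' 1 0 := by field_simp at e ⊢; exact e
  have h1' := σne (σ := σ) h1
  have h2' := σne (σ := σ) h2
  simp only [m_mul, inv20, inv21, inv22, za00, za01, za02, za10, za11, za12, za20, za21, za22, e4, map_add, map_mul,
    map_div₀, map_zero, map_one]
  field_simp
  grind

theorem na_mem (hZ : Zs σ ≤ H) (h : D H (na σ)) : na σ ∈ H := by
  have h1 := hZ (za_mem 1 (map_one σ))
  convert mul_mem (mul_mem h1 (h _ (za_mem 1 (map_one σ)))) h1 using 1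
  apply ext9 <;> simp [CharTwo.add_self_eq_zero]

theorem ta_mem (hZ : Zs σ ≤ H) (h : D H (na σ)) {c : F} (hc : c ≠ 0) (h0 : σ c = c) : ta c hc ∈ H := by
  have h1 := hZ (za_mem c h0)
  convert mul_mem (mul_mem (mul_mem h1 (h _ (za_mem c⁻¹ (by simp [h0])))) h1) (na_mem hZ h) using 1
  apply ext9 <;> simp [CharTwo.add_self_eq_zero, h0, hc]

theorem lem_a1 (hb : Bin (SJ σ) (SJ σ ⧸ H)) (h3 : ∃ l : F, σ l = l ∧ l ≠ 0 ∧ l ≠ 1) (h4 : ∃ c : F, σ c ≠ c)
    (hZ : Zs σ ≤ H) (h : D H (na σ)) : ∃ g ∈ H, m g 1 0 ≠ 0 := by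
  by_contra! hL
  obtain ⟨l, hl, hl0, hl1⟩ := h3
  obtain ⟨c, hc⟩ := h4
  have hc1 : c + σ c ≠ 0 := fun e => hc (by grind)
  obtain ⟨β, hβ⟩ : ∃ β, β + σ β = 1 := ⟨c / (c + σ c), by
    simp only [map_div₀, map_add, σσ]; rw [add_comm (σ c)]; field_simp⟩
  have hl2 : 1 + l ≠ 0 := fun e => hl1 (by grind)
  have h21 : ∀ g ∈ H, m g 2 1 = 0 := fun g hg => by
    simpa using hL _ (inv_mem hg)
  have h01 : ∀ g ∈ H, m g 0 1 = 0 := fun g hg => by
    simpa using h21 _ (mul_mem (na_mem hZ h) hg)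
  have hk := ta_mem hZ h hl0 hl
  have hv : (1 + l) ^ 4 * β + σ ((1 + l) ^ 4 * β) = σ ((1 + l) ^ 2) * (1 + l) ^ 2 := by
    simp [hl]; grind
  have hw : (l ^ 2 * (1 + l) ^ 2 * β + l ^ 3) + σ (l ^ 2 * (1 + l) ^ 2 * β + l ^ 3) =
      σ (l * (1 + l)) * (l * (1 + l)) := by
    simp [hl]; grind
  obtain ⟨g, g0, g1, g2⟩ := tri hb (v := ua _ _ hv) (w := ua _ _ hw) (y := ua _ _ hv * ta l hl0 * (ua _ _ hv)⁻¹) hk
    (by convert hk using 1; group)
    (by
      convert mul_mem hk hk using 1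
      apply ext9 <;> simp [hl, hl0] <;> field_simp <;> grind)
  have e0 := h21 _ g1
  have e1 := h01 _ g1
  have e2 := h01 _ g2
  have e3 := det3 g
  simp [hL g g0, h21 g g0, h01 g g0, hl, hl2, hl0] at e0 e1 e2 e3
  simp [e0] at e1 e2 e3
  have e4 : m g 0 0 = m g 1 1 := by
    apply mul_left_cancel₀ (pow_ne_zero 2 hl2); grind
  have e5 : m g 1 1 = 0 := by
    apply mul_left_cancel₀ (mul_ne_zero hl0 (pow_ne_zero 2 hl2)); grind
  simp [e5] at e3

theorem lem_a2 (hZ : Zs σ ≤ H) (h : D H (na σ)) {g : SJ σ} (hg : g ∈ H) (h0 : m g 1 0 ≠ 0) (k : SJ σ) :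
    D H k := by
  have h1 : D H 1 := fun z hz => by simpa using hZ hz
  by_cases hk : m k 2 0 = 0
  · exact h1.of (by simpa using hk)
  by_cases hk' : m k 1 0 = 0
  · exact h.ratio hZ (by simp) hk (by simp [hk'])
  have hg' : m g 2 0 ≠ 0 := fun e => h0 (b10 e)
  have hD : D H g := by simpa using h1.mul hg
  obtain ⟨a, ha⟩ : ∃ a, a = m g 1 0 / m g 2 0 := ⟨_, rfl⟩
  obtain ⟨α, hα⟩ : ∃ α, α = m k 1 0 / m k 2 0 := ⟨_, rfl⟩
  have ha0 : a ≠ 0 := by simp [ha, h0, hg']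
  have hα0 : α ≠ 0 := by simp [hα, hk, hk']
  have ha0' := σne (σ := σ) ha0
  have hα0' := σne (σ := σ) hα0
  by_cases hr : σ (α / a) = α / a
  · refine (hD.mul (ta_mem hZ h (div_ne_zero hα0 ha0) hr)).ratio hZ (by simp [hα0, ha0, hg']) hk ?_
    simp only [m_mul, ta10, ta11, ta12, ta20, ta21, ta22, hr, ← hα, zero_mul, add_zero, zero_add]
    rw [ha]
    field_simp
  · have h2 : σ a * α + a * σ α ≠ 0 := fun e => hr (by rw [map_div₀]; field_simp; grind)
    obtain ⟨s, hs⟩ : ∃ s, s = σ a * a * (σ α * α) / (σ a * α + a * σ α) := ⟨_, rfl⟩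
    have hs0 : s ≠ 0 := by simp [hs, ha0, hα0, h2]
    have hsσ : σ s = s := by simp [hs, mul_comm, add_comm]
    have hβ : s * a / α + σ (s * a / α) = σ a * a := by
      simp only [map_div₀, map_mul, hsσ]
      rw [hs]
      field_simp
      ring
    have hD' : D H (ua a _ hβ * na σ) := hD.ratio hZ hg' (by simp) (by simp [ha])
    refine ((hD'.mul (na_mem hZ h)).mul (ta_mem hZ h hs0 hsσ)).ratio hZ (by simp [hα0, ha0, hs0]) hk ?_
    simp [hsσ, ← hα]
    field_simp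

theorem ta_center {c : F} (hc : c ≠ 0) (h1 : σ c * c = 1) (h2 : c ^ 3 = 1) :
    ta c hc ∈ Subgroup.center (SJ σ) := by
  have e1 : σ c / c = c := by rw [div_eq_iff hc]; grind
  have e2 : (σ c)⁻¹ = c := inv_eq_of_mul_eq_one_right h1
  rw [Subgroup.mem_center_iff]
  intro g
  apply ext9 <;> simp [e1, e2, mul_comm]

theorem main {G : Type*} [Group G] [IsSimpleGroup G] (π : SJ σ →* G) (hπ : Function.Surjective π)
    (hker : π.ker = Subgroup.center (SJ σ)) (hq : ∃ q : ℕ, ∀ x, σ x = x ^ q) (hsq : ∀ x : F, ∃ r, r ^ 2 = x)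
    (h3 : ∃ l : F, σ l = l ∧ l ≠ 0 ∧ l ≠ 1) (h4 : ∃ c : F, c ≠ 0 ∧ σ c ^ 3 ≠ c ^ 3)
    (hK : π.ker ≤ H) (hH : H ≠ ⊤) (hb : Bin (SJ σ) (SJ σ ⧸ H)) (hZ : Zs σ ≤ H) (g : SJ σ) (hg : g ∈ H) :
    ∃ z ∈ Zs σ, π g = π z := by
  have hB : ∀ g ∈ H, m g 2 0 = 0 := fun g hg => by
    by_contra h0
    let v := ua _ _ (iso_div g h0)
    have hZ' : Zs σ ≤ cj v H := fun z hz => hZ (conj_mem_Zs rfl hz)
    have h1 : D H 1 := fun z hz => by simpa using hZ hz
    have h2 : D H (v * na σ) := (h1.mul hg).ratio hZ (by simpa using h0) (by simp [v]) (by simp [v])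
    have h5 : D (cj v H) (na σ) := fun z hz => by
      rw [mem_cj]
      convert h2 z hz using 1
      group
    obtain ⟨c, -, hc⟩ := h4
    obtain ⟨g', hg', h6⟩ := lem_a1 ((bin_cj v).2 hb) h3 ⟨c, fun e => hc (by rw [e])⟩ hZ' h5
    have h7 := lem_a2 hZ' h5 hg' h6
    have h8 : Subgroup.normalClosure (Zs σ : Set (SJ σ)) ≤ cj v H := by
      refine (Subgroup.closure_le _).2 fun y hy => ?_
      obtain ⟨a, ha, hc⟩ := Group.mem_conjugatesOfSet_iff.1 hy
      obtain ⟨c, rfl⟩ := isConj_iff.1 hc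
      exact h7 c a ha
    rcases (Subgroup.Normal.map inferInstance π hπ :
      ((Subgroup.normalClosure (Zs σ : Set (SJ σ))).map π).Normal).eq_bot_or_eq_top with h | h
    · have : za 1 (map_one σ) ∈ π.ker :=
        (Subgroup.map_eq_bot_iff _).1 h (Subgroup.subset_normalClosure (za_mem 1 (map_one σ)))
      rw [hker, Subgroup.mem_center_iff] at this
      simpa using congrArg (fun g => m g 0 0) (this (na σ))
    · refine cj_ne_top v hH (eq_top_iff.2 fun k _ => ?_)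
      obtain ⟨y, hy, e⟩ : π k ∈ (Subgroup.normalClosure (Zs σ : Set (SJ σ))).map π := h ▸ Subgroup.mem_top _
      have : v * (y⁻¹ * k) * v⁻¹ ∈ H := hK (by simp [MonoidHom.mem_ker, e])
      simpa using mul_mem (h8 hy) (mem_cj.2 this)
  obtain ⟨c, hc, e1, e2, z, hz, rfl⟩ := borel_main hb hB hq hsq h4 hZ
    (fun c hc e1 e2 => hK (hker ▸ ta_center hc e1 e2)) hg
  refine ⟨z, hz, ?_⟩
  rw [map_mul, show π (ta c hc) = 1 from (hker ▸ ta_center hc e1 e2 : ta c hc ∈ π.ker), one_mul]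

def Us (σ : F →+* F) : Subgroup (SJ σ) where
  carrier := {g | m g 2 0 = 0 ∧ m g 0 0 = 1}
  one_mem' := ⟨rfl, rfl⟩
  mul_mem' := fun {a b} ha hb => ⟨b_mul ha.1 hb.1, by simp [ha.2, hb.2, hb.1, b10 hb.1]⟩
  inv_mem' := fun {a} ha => ⟨b_inv ha.1, by simp [b22 ha.1, ha.2]⟩

theorem eq_ua {g : SJ σ} (hg : g ∈ Us σ) : ∃ a b hab, g = ua a b hab := by
  obtain ⟨c, hc, a, b, hab, rfl⟩ := eq_ta_ua hg.1
  obtain rfl : c = 1 := by simpa using hg.2
  exact ⟨a, b, hab, by rw [ta_one, one_mul]⟩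

theorem isPGroup_Us : IsPGroup 2 (Us σ) := by
  rintro ⟨g, hg⟩
  obtain ⟨a, b, hab, rfl⟩ := eq_ua hg
  refine ⟨2, Subtype.ext ?_⟩
  show ua a b hab ^ 4 = 1
  apply ext9 <;> simp [pow_succ] <;> grind

theorem Zc_Us (h4 : ∃ c : F, σ c ≠ c) : Zc (Us σ) = Zs σ := by
  ext g
  rw [mem_Zc]
  constructor
  · rintro ⟨hg, h⟩
    obtain ⟨a, b, hab, rfl⟩ := eq_ua hg
    obtain ⟨c, hc⟩ := h4
    have hc1 : c + σ c ≠ 0 := fun e => hc (by grind)
    have key : ∀ α, σ α * a = σ a * α := fun α => by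
      obtain ⟨β, hβ⟩ : ∃ β, β + σ β = σ α * α := ⟨σ α * α * c / (c + σ c), by
        simp only [map_div₀, map_mul, map_add, σσ]; rw [add_comm (σ c)]; field_simp⟩
      have := congrArg (fun g => m g 0 2) (h (ua α β hβ) ⟨rfl, rfl⟩)
      simp at this
      grind
    refine mem_Zs_of rfl rfl ?_
    have h1 := key 1
    have h2 := key c
    show a = 0
    apply mul_left_cancel₀ hc1
    simp at h1
    grind
  · rintro ⟨b, hb, rfl⟩
    refine ⟨⟨rfl, rfl⟩, fun y hy => ?_⟩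
    obtain ⟨a', b', hab, rfl⟩ := eq_ua hy
    apply ext9 <;> simp [add_comm]

theorem ti {c x y : SJ σ} (hx : x ∈ Zs σ) (x1 : x ≠ 1) (y1 : y ≠ 1) (hy : c⁻¹ * y * c ∈ Zs σ)
    (h : x * y = y * x) (k : SJ σ) (hk : k ∈ Zs σ) : c⁻¹ * k * c ∈ Zs σ := by
  have ne : ∀ b hb, za (σ := σ) b hb ≠ 1 → b ≠ 0 := by
    rintro b hb h rfl
    exact h (by apply ext9 <;> simp)
  obtain ⟨b, hb, rfl⟩ := hx
  obtain ⟨b', hb', e⟩ := hy
  have h1 := ne b hb x1
  have h2 := ne b' hb' fun e' => y1 (Sz.inv_conj_eq_one_iff.1 (e.trans e'))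
  have h3 : m y 2 0 = 0 := by simpa [h1] using congrArg (fun g => m g 0 0) h
  have h4 : c⁻¹ * y = za b' hb' * c⁻¹ := by rw [← e]; group
  have h5 : m c⁻¹ 2 0 = 0 := by
    generalize c⁻¹ = d at h4
    by_contra h0
    have a1 := congrArg (fun g => m g 0 0) h4
    have a2 := congrArg (fun g => m g 2 0) h4
    simp [h3, b10 h3, h0] at a1 a2
    simp [a2, h0, h2] at a1
  simpa using conj_mem_Zs h5 hk

theorem eq_one_of_center {z : SJ σ} (h : z ∈ Subgroup.center (SJ σ)) (h2 : z * z = 1) : z = 1 := by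
  rw [Subgroup.mem_center_iff] at h
  have h3 : m z 2 0 = 0 := by simpa using congrArg (fun g => m g 0 0) (h (za 1 (map_one σ)))
  obtain ⟨c, hc, a, b, hab, rfl⟩ := eq_ta_ua h3
  have h4 : c = 1 := by
    have := congrArg (fun g => m g 0 0) h2
    simp at this
    grind
  have h5 : b = 0 := by simpa [hc] using congrArg (fun g => m g 0 0) (h (na σ))
  subst h4 h5
  obtain rfl : a = 0 := eq_zero_of_norm (σ := σ) (by simpa using hab.symm)
  apply ext9 <;> simp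

section fin
open CL.SqField

variable {K : Type*} [Field K] [Fintype K] [CharP K 2] {q : ℕ} (hK : Fintype.card K = q ^ 2)

def PP (K : Type*) [Field K] [CharP K 2] : SL(3, K) :=
  ⟨!![1, 1, 0; 1, 1, 1; 0, 1, 1], by simp [det_fin_three, CharTwo.neg_eq]⟩

theorem nonempty_equiv : Nonempty (SJ (conj hK).toRingHom ≃* SU 3 K q) := by
  have hP : ((PP K : Matrix (Fin 3) (Fin 3) K).map (conj hK).toRingHom)ᵀ * (PP K : Matrix (Fin 3) (Fin 3) K) = J3 K := by
    ext i j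
    fin_cases i <;> fin_cases j <;>
      simp [PP, J3, Matrix.mul_apply, Fin.sum_univ_three, CharTwo.add_self_eq_zero]
  have hP' : (PP K : Matrix (Fin 3) (Fin 3) K) * (PP K)⁻¹.1 = 1 := by
    rw [← Matrix.SpecialLinearGroup.coe_mul, mul_inv_cancel, Matrix.SpecialLinearGroup.coe_one]
  have hP'' : (PP K)⁻¹.1 * (PP K : Matrix (Fin 3) (Fin 3) K) = 1 := by
    rw [← Matrix.SpecialLinearGroup.coe_mul, inv_mul_cancel, Matrix.SpecialLinearGroup.coe_one]
  have key : (SJ (conj hK).toRingHom).map (MulAut.conj (PP K)).toMonoidHom = SU 3 K q := by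
    ext g
    rw [Subgroup.mem_map_equiv, SpU.mem_SU_iff hK]
    show ((((PP K)⁻¹.1 * g.1 * (PP K).1)).map (conj hK).toRingHom)ᵀ * J3 K * ((PP K)⁻¹.1 * g.1 * (PP K).1) = J3 K ↔
      (g.1.map (conj hK).toRingHom)ᵀ * g.1 = 1
    generalize (PP K)⁻¹.1 = Q at hP' hP''
    generalize (PP K).1 = P at hP hP' hP''
    generalize g.1 = A
    have e1 : (Q.map (conj hK).toRingHom)ᵀ * (P.map (conj hK).toRingHom)ᵀ = 1 := by
      rw [← transpose_mul, ← Matrix.map_mul, hP']; simp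
    have e2 : (Q.map (conj hK).toRingHom)ᵀ * J3 K * Q = 1 := by
      rw [← hP, ← Matrix.mul_assoc, e1, Matrix.one_mul, hP']
    have e3 : ((Q * A * P).map (conj hK).toRingHom)ᵀ * J3 K * (Q * A * P) =
        (P.map (conj hK).toRingHom)ᵀ * ((A.map (conj hK).toRingHom)ᵀ * A) * P := by
      calc _ = (P.map (conj hK).toRingHom)ᵀ * ((A.map (conj hK).toRingHom)ᵀ *
          ((Q.map (conj hK).toRingHom)ᵀ * J3 K * Q) * A) * P := by
            simp only [Matrix.map_mul, transpose_mul, Matrix.mul_assoc]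
        _ = _ := by rw [e2, Matrix.mul_one]
    rw [e3]
    constructor
    · intro h
      calc _ = (Q.map (conj hK).toRingHom)ᵀ * ((P.map (conj hK).toRingHom)ᵀ *
          ((A.map (conj hK).toRingHom)ᵀ * A) * P) * Q := by
            simp only [← Matrix.mul_assoc, e1, Matrix.one_mul]
            simp only [Matrix.mul_assoc, hP', Matrix.mul_one]
        _ = 1 := by rw [h, e2]
    · intro h
      rw [h, Matrix.mul_one, hP]
  exact ⟨((MulAut.conj (PP K)).subgroupMap _).trans (MulEquiv.subgroupCongr key)⟩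

include hK in
theorem bin_iff_PSU (h4 : 4 ≤ q) {G : Type*} [Group G] [IsSimpleGroup G] (e : G ≃* PSU 3 K q)
    (hJ : ∀ s t : G, orderOf s = 2 → orderOf t = 2 → IsConj s t)
    {H : Subgroup G} (hH : H ≠ ⊤) (he : Even (Nat.card H)) : Bin G (G ⧸ H) ↔ Good G H := by
  classical
  let σ := (conj hK).toRingHom
  have hσq : ∀ x, σ x = x ^ q := fun _ => rfl
  have : Fact (∀ x, σ (σ x) = x) := ⟨conj_conj hK⟩
  obtain ⟨φ⟩ := nonempty_equiv hK
  let π : SJ σ →* G := e.symm.toMonoidHom.comp ((QuotientGroup.mk' _).comp φ.toMonoidHom)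
  have hπ : Function.Surjective π :=
    e.symm.surjective.comp ((QuotientGroup.mk'_surjective _).comp φ.surjective)
  have hker : π.ker = Subgroup.center (SJ σ) := by
    ext z
    simp only [π, MonoidHom.mem_ker, MonoidHom.comp_apply, MulEquiv.coe_toMonoidHom, map_eq_one_iff _ e.symm.injective,
      QuotientGroup.mk'_apply, QuotientGroup.eq_one_iff, Subgroup.mem_center_iff]
    exact ⟨fun h g => φ.injective (by rw [map_mul, map_mul]; exact h (φ g)), fun h g => by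
      obtain ⟨g, rfl⟩ := φ.surjective g
      rw [← map_mul, h, map_mul]⟩
  have hc : ∃ c : K, σ c ≠ c := exists_pow_q_ne hK
  have hU : Nat.card (Us σ) = q ^ 3 := by
    rw [← U3.S.card_S hK]
    refine (Nat.card_eq_of_bijective (fun x : U3.S hK => (⟨ua x.a x.b x.h, rfl, rfl⟩ : Us σ)) ⟨fun x y h => ?_, ?_⟩).symm
    · exact U3.S.ext (congrArg (fun g : Us σ => m g.1 1 2) h) (congrArg (fun g : Us σ => m g.1 0 2) h)
    · rintro ⟨g, hg⟩
      obtain ⟨a, b, hab, rfl⟩ := eq_ua hg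
      exact ⟨⟨a, b, hab⟩, rfl⟩
  have hi : ¬ 2 ∣ (Us σ).index := by
    have h1 := (Us σ).card_mul_index
    rw [hU, Nat.card_congr φ.toEquiv, U3.card_SU3 hK] at h1
    rw [Nat.eq_of_mul_eq_mul_left (pow_pos (by omega) 3) h1]
    exact U3.not_dvd_index hK 2
  have hsq : ∀ x : K, ∃ r, r ^ 2 = x := fun x => (surjective_frobenius K 2 x)
  have h3 : ∃ l : K, σ l = l ∧ l ≠ 0 ∧ l ≠ 1 := by
    by_contra! h
    have h1 : Nat.card {x : K // x ^ q = x} ≤ Nat.card ({0, 1} : Set K) :=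
      Nat.card_le_card_of_injective (fun x => ⟨x.1, by
        by_cases h0 : x.1 = 0
        · exact Or.inl h0
        · exact Or.inr (h x.1 x.2 h0)⟩) fun x y e => Subtype.ext (by simpa using e)
    rw [card_fixed hK, Nat.card_coe_set_eq, Set.ncard_pair zero_ne_one] at h1
    omega
  have h5 : ∃ c : K, c ≠ 0 ∧ σ c ^ 3 ≠ c ^ 3 := by
    obtain ⟨c, hc⟩ := IsCyclic.exists_generator (α := Kˣ)
    refine ⟨c, c.ne_zero, fun h => ?_⟩
    have h1 : c ^ (3 * (q - 1)) = 1 := by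
      apply Units.ext
      apply mul_right_cancel₀ (pow_ne_zero 3 c.ne_zero)
      rw [Units.val_pow_eq_pow_val, ← pow_add, Units.val_one, one_mul, ← h, hσq, ← pow_mul]
      congr 1
      omega
    have h2 := Nat.le_of_dvd (by omega) (orderOf_dvd_of_pow_eq_one h1)
    rw [orderOf_eq_card_of_forall_mem_zpowers hc, card_units hK] at h2
    have := Nat.le_of_mul_le_mul_right h2 (by omega)
    omega
  refine package π hπ (fun z h => eq_one_of_center (hker ▸ h : z ∈ Subgroup.center _))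
    (fun z h => Subgroup.mem_center_iff.1 (hker ▸ h : z ∈ Subgroup.center _)) (isPGroup_Us.toSylow hi)
    ?_ ?_ ?_ ?_ hJ hH he <;> simp only [IsPGroup.toSylow_coe, Zc_Us hc]
  · rintro _ ⟨b, hb, rfl⟩
    rw [mul_eq_one_iff_eq_inv, za_inv]
  · exact fun c x y => ti
  · exact ⟨_, za_mem 1 (map_one σ), fun h => by simpa using congrArg (fun g => m g 0 2) h⟩
  · exact fun H => main π hπ hker ⟨q, hσq⟩ hsq h3 h5

end fin

end CL.Bin.U3
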