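/-
CHEV library: the group `E₇(2)` has no element of order `65`.
-/
import Cfsg.Agent.CHEV.SsInv
import Cfsg.Agent.CHEV.ToriGlue

set_option autoImplicit false

namespace CL.Chev.E765

open Cfsg.Lie Cfsg.Lie.ChevalleyDatum
open Matrix hiding zpow_add zpow_mul zpow_sub one_zpow

section General
variable {ι κ : Type*} [Fintype κ] [DecidableEq κ] {R : RootSys ι κ} {C : Type*} [CommGroup C]

theorem chr_sq {w : Equiv.Perm ι} (hw : w ∈ R.W) {t : κ → C} (h : R.act w t = t ^ 2) (r : ι) :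
    uchr t (R.wt (w r)) ^ 2 = uchr t (R.wt r) := by
  rw [← uchr_pow, ← h, RootSys.uchr_act hw]

theorem chr_neg (t : κ → C) (r : ι) : uchr t (R.wt (R.neg r)) = (uchr t (R.wt r))⁻¹ := by
  rw [RootSys.wt_neg', ← neg_one_smul ℤ, uchr_smul, _root_.zpow_neg_one]

theorem chr_simple (t : κ → C) (i : κ) : uchr t (R.wt (R.simple i)) = matHom C (Matrix.of R.A) t i := by
  rw [← uchr_single (matHom C (Matrix.of R.A) t) i, uchr_matHom, ← R.rt_simple]; rfl

theorem chr_of_matHom {t : κ → C} {z : C} {c : κ → ℤ} (h : matHom C (Matrix.of R.A) t = fun i => z ^ c i) (r : ι) :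
    uchr t (R.wt r) = z ^ (c ⬝ᵥ R.rt r) := by
  rw [← uchr_zpow_const, ← h, uchr_matHom]; rfl

theorem pm_of_mem_WS {T : Set ι} (hT : ∀ a ∈ T, ∀ b ∈ T, R.pair a b = 0 ∨ a = b ∨ a = R.neg b)
    {u : Equiv.Perm ι} (hu : u ∈ R.WS T) : ∀ b ∈ T, u b = b ∨ u b = R.neg b := by
  induction hu using Subgroup.closure_induction with
  | mem x hx =>
    obtain ⟨a, ha, rfl⟩ := hx
    intro b hb
    rcases hT a ha b hb with h | rfl | rfl
    · exact Or.inl (R.rt_inj (by rw [R.rt_refl, h]; simp))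
    · exact Or.inr (R.refl_self _)
    · exact Or.inr (by rw [R.refl_neg, R.refl_self])
  | one => exact fun b _ => Or.inl rfl
  | mul x y hx _ ihx ihy =>
    intro b hb
    have hx' := RootSys.WS_le_W T hx
    rw [Equiv.Perm.mul_apply]
    rcases ihy b hb with h | h <;> rcases ihx b hb with h' | h' <;>
      simp [h, h', RootSys.W_neg hx', R.neg_neg]
  | inv x hx ih =>
    intro b hb
    have hx' := RootSys.WS_le_W T hx
    rcases ih b hb with h | h
    · exact Or.inl (by rw [Equiv.Perm.inv_eq_iff_eq, h])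
    · exact Or.inr (by rw [Equiv.Perm.inv_eq_iff_eq, RootSys.W_neg hx', h, R.neg_neg])

end General

/-- the finite check for a point `c` of order `13` with a Weyl group element `l` doubling it -/
def Chk (D : ChevalleyDatum) [Good D] (c : Fin D.rank → ℤ) (l : List (Fin D.rank))
    (L : Matrix (Fin D.rank) (Fin D.rank) ℤ) : Prop :=
  (∀ r : Rt D, (13 : ℤ) ∣ 2 * (c ⬝ᵥ co (piL l r)) - c ⬝ᵥ co r) ∧
  (∀ a : Rt D, (13 : ℤ) ∣ c ⬝ᵥ co a → ∀ b : Rt D, (13 : ℤ) ∣ c ⬝ᵥ co b →
    (Good.C D).pairF D.rank a b = 0 ∨ a = b ∨ a = ng b) ∧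
  (∀ b : Rt D, (13 : ℤ) ∣ c ⬝ᵥ co b → piL l (piL l (piL l b)) = b ∨ piL l (piL l (piL l b)) = ng b) ∧
  (((2 : ℕ) : Matrix (Fin D.rank) (Fin D.rank) ℤ) - corM (piL l)) * L =
    ((91 : ℕ) : Matrix (Fin D.rank) (Fin D.rank) ℤ)

instance (D : ChevalleyDatum) [Good D] (c : Fin D.rank → ℤ) (l : List (Fin D.rank))
    (L : Matrix (Fin D.rank) (Fin D.rank) ℤ) : Decidable (Chk D c l L) := by
  unfold Chk; infer_instance

set_option backward.isDefEq.respectTransparency false in
theorem chk1 : Chk chevE7 (![1, 0, 0, 1, 1, 1, 2] : Fin 7 → ℤ)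
    ([3, 2, 0, 4, 3, 1, 2, 3, 4, 5, 4, 3, 1, 2, 0, 3, 2, 4, 3, 6, 5, 4, 3, 1, 2, 0, 3, 4] : List (Fin 7))
    (!![26, -6, -19, -25, -31, -30, -22; 26, 78, 65, 52, 39, 26, 13; 52, 65, 130, 104, 78, 52, 26;
      -39, -40, -66, -15, -55, -18, 5; 0, -28, -28, -56, 7, -49, -42; 0, 14, 14, 28, 42, 70, 21;
      0, 7, 7, 14, 21, 35, 56] : Matrix (Fin 7) (Fin 7) ℤ) := by
  decide +kernel

set_option backward.isDefEq.respectTransparency false in
theorem chk2 : Chk chevE7 (![1, 0, 1, 1, 0, 1, 0] : Fin 7 → ℤ)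
    ([0, 2, 3, 1, 4, 3, 2, 0, 5, 4, 3, 1, 2, 3, 6, 5, 4, 3, 1, 2, 0, 3] : List (Fin 7))
    (!![28, -28, -21, -56, -49, -42, -21; 0, 52, 0, 0, 26, 0, 13; 35, 56, 133, 112, 98, 84, 42;
      -28, -50, -70, -35, -81, -49, -44; 0, 13, 0, 0, 52, 0, 26; 14, 12, 35, 63, 34, 70, -4;
      0, 26, 0, 0, 13, 0, 52] : Matrix (Fin 7) (Fin 7) ℤ) := by
  decide +kernel

/-- the coordinates of the roots modulo `13`, in base `16` -/
def TL : List ℕ :=
  [213555899, 213555900, 213556156, 213560252, 213625788, 214674364, 13347772, 213560268, 213625804, 214674380,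
  13347788, 213629900, 214678476, 13351884, 214744012, 13417420, 834508, 213630156, 214678732, 13352140,
  214744268, 13417676, 834764, 214748364, 13421772, 838860, 52428, 214748172, 13421580, 838668, 52236, 3084, 12,
  213630144, 214678720, 13352128, 214744256, 13417664, 834752, 214748352, 13421760, 838848, 52416, 214745280,
  13418688, 835776, 49344, 192, 214748160, 13421568, 838656, 52224, 3072, 214745088, 13418496, 835584, 49152,
  214695936, 13369344, 786432, 213909504, 12582912, 201326592, 16777216, 1048576, 17825792, 65536, 1114112,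
  17891328, 4096, 69632, 1118208, 17895424, 256, 4352, 69888, 1118464, 17895680, 16, 4112, 69648, 1118224,
  17895440, 4368, 69904, 1118480, 17895696, 74000, 1122576, 17899792, 1188112, 17965328, 19013904, 1, 257, 4353,
  69889, 1118465, 17895681, 4369, 69905, 1118481, 17895697, 74001, 1122577, 17899793, 1188113, 17965329,
  19013905, 74257, 1122833, 17900049, 1188369, 17965585, 19014161, 1192465, 17969681, 19018257, 19083793,
  1192481, 17969697, 19018273, 19083809, 19087905, 19088161, 19088162]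

/-- the code of a root -/
def enc (r : Fin 126) : ℕ := TL.getD r 0

theorem map_enc : (List.finRange 126).map enc = TL := by decide +kernel

set_option backward.isDefEq.respectTransparency false in
theorem enc_spec : ∀ (r : Fin 126) (i : Fin 7),
    co (D := chevE7) r i % 13 = ((enc r / 16 ^ (i : ℕ) % 16 : ℕ) : ℤ) := by
  decide +kernel

/-- the value on a root -/
def val (c0 c1 c2 c3 c4 c5 c6 v : ℕ) : ℕ :=
  (Nat.add (Nat.add (Nat.add (Nat.add (Nat.add (Nat.add (Nat.mul c0 (Nat.mod (Nat.div v 1) 16))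
    (Nat.mul c1 (Nat.mod (Nat.div v 16) 16)))
    (Nat.mul c2 (Nat.mod (Nat.div v 256) 16)))
    (Nat.mul c3 (Nat.mod (Nat.div v 4096) 16)))
    (Nat.mul c4 (Nat.mod (Nat.div v 65536) 16)))
    (Nat.mul c5 (Nat.mod (Nat.div v 1048576) 16)))
    (Nat.mul c6 (Nat.mod (Nat.div v 16777216) 16)))

/-- the distribution of the values on the roots -/
noncomputable def S (k c0 c1 c2 c3 c4 c5 c6 : ℕ) : ℕ :=
  List.rec 0 (fun v _ s => Nat.add (Nat.pow 128 (Nat.mod (Nat.mul k (val c0 c1 c2 c3 c4 c5 c6 v)) 13)) s) TL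

/-- the check over the alcove -/
noncomputable def alc : Bool :=
  (List.range 7).all fun c0 => (List.range 7).all fun c1 => (List.range 5).all fun c2 => (List.range 4).all fun c3 =>
    (List.range 5).all fun c4 => (List.range 7).all fun c5 =>
      decide (13 < 2 * c0 + 2 * c1 + 3 * c2 + 4 * c3 + 3 * c4 + 2 * c5) || (List.range 14).all fun c6 =>
        decide (13 < 2 * c0 + 2 * c1 + 3 * c2 + 4 * c3 + 3 * c4 + 2 * c5 + c6) ||
          !(Nat.beq (S 1 c0 c1 c2 c3 c4 c5 c6) (S 2 c0 c1 c2 c3 c4 c5 c6)) ||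
          decide ((c0, c1, c2, c3, c4, c5, c6) ∈
            [(0, 0, 0, 0, 0, 0, 0), (0, 0, 0, 0, 0, 0, 13), (1, 0, 0, 1, 1, 1, 2), (1, 0, 1, 1, 0, 1, 0)])

theorem alc_eq : alc = true := by decide +kernel

end CL.Chev.E765
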