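/-
CHEV library: the group `E₇(2)` has no element of order `65` (continued).
-/
import Cfsg.Agent.CHEV.E765a

set_option autoImplicit false

namespace CL.Chev.E765

open Cfsg.Lie Cfsg.Lie.ChevalleyDatum
open Matrix hiding zpow_add zpow_mul zpow_sub one_zpow

theorem Chk.eq_one {D : ChevalleyDatum} [Good D] {c : Fin D.rank → ℤ} {l : List (Fin D.rank)}
    {L : Matrix (Fin D.rank) (Fin D.rank) ℤ} (h : Chk D c l L) {K : Type*} [Field K]
    (hA : ∀ u : Fin D.rank → Kˣ, matHom Kˣ (Matrix.of (rootSys D).A) u = 1 → u ^ 13 = 1 → u = 1)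
    {w : Equiv.Perm (Rt D)} (hw : w ∈ (rootSys D).W) {s y : Fin D.rank → Kˣ} {z : Kˣ} (hz : orderOf z = 13)
    (hs13 : s ^ 13 = 1) (hs : matHom Kˣ (Matrix.of (rootSys D).A) s = fun i => z ^ c i)
    (hws : (rootSys D).act w s = s ^ 2) (hy5 : y ^ 5 = 1) (hwy : (rootSys D).act w y = y ^ 2) : y = 1 := by
  obtain ⟨h1, h2, h3, h4⟩ := h
  obtain ⟨w0, hw0e⟩ : ∃ w0, w0 = (l.map (rootSys D).sp).prod := ⟨_, rfl⟩
  have hw0 : w0 ∈ (rootSys D).W := (rootSys D).mem_W_iff.2 ⟨l, hw0e⟩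
  have hp : ∀ r, w0 r = piL l r := fun r => hw0e ▸ piL_eq l r
  have hΦ : (rootSys D).Phi s = {r | (13 : ℤ) ∣ c ⬝ᵥ co r} := by
    rw [RootSys.Phi_of_matHom hs, hz]; rfl
  have e0 : (rootSys D).act w0 s = s ^ 2 := by
    rw [← mul_inv_eq_one]
    refine hA _ ?_ ?_
    · rw [map_mul, map_inv, mul_inv_eq_one]
      funext i
      rw [← chr_simple, ← chr_simple]
      obtain ⟨r, hr⟩ := w0.surjective ((rootSys D).simple i)
      rw [← hr, RootSys.uchr_act hw0, uchr_pow, chr_of_matHom hs, chr_of_matHom hs, ← zpow_natCast, ← zpow_mul,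
        zpow_eq_zpow_iff_modEq, hz, Int.modEq_iff_dvd, hp, mul_comm]
      exact h1 r
    · rw [mul_pow, ← map_pow, hs13, map_one, one_mul, inv_pow, ← pow_mul, mul_comm, pow_mul, hs13]; simp
  have hu : w0⁻¹ * w ∈ (rootSys D).WS ((rootSys D).Phi s) := by
    refine (RootSys.act_eq_iff (fun i => ?_) (mul_mem (inv_mem hw0) hw)).1 ?_
    · exact isOfFinOrder_iff_pow_eq_one.2 ⟨13, by norm_num, congrFun hs13 i⟩
    · rw [RootSys.act_mul (inv_mem hw0), hws, ← e0, RootSys.act_inv_act hw0]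
  have hpm := pm_of_mem_WS (T := (rootSys D).Phi s) (fun a ha b hb => by
    rw [hΦ] at ha hb
    rw [rootSys_pair, A_eq_pairF]
    exact h2 a ha b hb) hu
  have hw1 : ∀ b ∈ (rootSys D).Phi s, w b = w0 b ∨ w b = (rootSys D).neg (w0 b) := fun b hb => by
    have e : w b = w0 ((w0⁻¹ * w) b) := by simp
    rcases hpm b hb with h | h
    · left; rw [e, h]
    · right; rw [e, h, RootSys.W_neg hw0]
  have hΦ0 : ∀ b ∈ (rootSys D).Phi s, w0 b ∈ (rootSys D).Phi s := fun b hb => by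
    rw [hΦ] at hb ⊢
    have h5 := h1 b
    rw [← hp] at h5
    have h6 : (13 : ℤ) ∣ 2 * (c ⬝ᵥ co (w0 b)) := by simpa using dvd_add h5 hb
    exact (Int.Prime.dvd_mul' (p := 13) (by norm_num) h6).resolve_left (by norm_num)
  have hy : ∀ r, uchr y ((rootSys D).wt r) ^ 5 = 1 := fun r => by
    rw [← uchr_pow, hy5]; simp [uchr]
  have hstep : ∀ b ∈ (rootSys D).Phi s, uchr y ((rootSys D).wt (w0 b)) ^ 2 = uchr y ((rootSys D).wt b) ∨
      uchr y ((rootSys D).wt (w0 b)) ^ 2 = (uchr y ((rootSys D).wt b))⁻¹ := fun b hb => by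
    have h5 := chr_sq hw hwy b
    rcases hw1 b hb with h | h
    · left; rwa [h] at h5
    · right; rw [h, chr_neg, inv_pow] at h5; rw [← h5, inv_inv]
  have hone : ∀ b ∈ (rootSys D).Phi s, b ∈ (rootSys D).Phi y := fun b hb => by
    have a1 := hstep b hb
    have a2 := hstep _ (hΦ0 b hb)
    have a3 := hstep _ (hΦ0 _ (hΦ0 b hb))
    have a4 : uchr y ((rootSys D).wt (w0 (w0 (w0 b)))) = uchr y ((rootSys D).wt b) ∨
        uchr y ((rootSys D).wt (w0 (w0 (w0 b)))) = (uchr y ((rootSys D).wt b))⁻¹ := by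
      have h5 := h3 b (hΦ ▸ hb :)
      rw [← hp, ← hp, ← hp] at h5
      rcases h5 with h | h
      · left; rw [h]
      · right; rw [h]; exact chr_neg y b
    have a5 := hy b
    change uchr y ((rootSys D).wt b) = 1
    generalize uchr y ((rootSys D).wt b) = x0 at *
    generalize uchr y ((rootSys D).wt (w0 b)) = x1 at *
    generalize uchr y ((rootSys D).wt (w0 (w0 b))) = x2 at *
    generalize uchr y ((rootSys D).wt (w0 (w0 (w0 b)))) = x3 at *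
    have b1 : x3 ^ 8 = x0 ∨ x3 ^ 8 = x0⁻¹ := by
      have e : x3 ^ 8 = ((x3 ^ 2) ^ 2) ^ 2 := by rw [← pow_mul, ← pow_mul]
      rw [e]
      rcases a1 with a1 | a1 <;> rcases a2 with a2 | a2 <;> rcases a3 with a3 | a3 <;> simp [a1, a2, a3]
    have b2 : x0 ^ 7 = 1 ∨ x0 ^ 9 = 1 := by
      rcases a4 with rfl | rfl <;> rcases b1 with b1 | b1
      · left; rwa [pow_succ, mul_eq_right] at b1
      · right; rw [pow_succ, b1, inv_mul_cancel]
      · right; rw [inv_pow, inv_eq_iff_eq_inv] at b1; rw [pow_succ, b1, inv_mul_cancel]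
      · left; rwa [inv_pow, _root_.inv_inj, pow_succ, mul_eq_right] at b1
    rcases b2 with b2 | b2
    · simpa using (pow_gcd_eq_one (m := 5) (n := 7)).2 ⟨a5, b2⟩
    · simpa using (pow_gcd_eq_one (m := 5) (n := 9)).2 ⟨a5, b2⟩
  have hu' : w0⁻¹ * w ∈ (rootSys D).WS ((rootSys D).Phi y) :=
    Subgroup.closure_mono (Set.image_mono hone) hu
  have e1 : (rootSys D).act w0 y = y ^ 2 := by
    rw [← hwy]
    nth_rewrite 1 [← RootSys.act_eq_of_mem_WS hu']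
    rw [← RootSys.act_mul hw0, mul_inv_cancel_left]
  have e2 := (RootSys.act_eq_pow_iff w0 2 y).1 e1
  have e3 : (rootSys D).coM w0 = corM (piL l) := by
    rw [← corM_eq, RootSys.coM]
    simp only [hp]; rfl
  rw [MonoidHom.mem_ker, e3] at e2
  have e4 : y ^ 91 = 1 := by rw [← matHom_natCast, ← h4, matHom_mul, e2, map_one]
  simpa using (pow_gcd_eq_one (m := 5) (n := 91)).2 ⟨hy5, e4⟩

theorem S_eq (k c0 c1 c2 c3 c4 c5 c6 : ℕ) : S k c0 c1 c2 c3 c4 c5 c6 =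
    ∑ r : Fin 126, 128 ^ (k * val c0 c1 c2 c3 c4 c5 c6 (enc r) % 13) := by
  rw [Fin.sum_univ_def, S, ← map_enc]
  generalize List.finRange 126 = l
  induction l with
  | nil => rfl
  | cons a l ih => rw [List.map_cons, List.map_cons, List.sum_cons, ← ih]; rfl

set_option backward.isDefEq.respectTransparency false in
theorem val_modEq (c : Fin 7 → ℕ) (r : Fin 126) :
    ((val (c 0) (c 1) (c 2) (c 3) (c 4) (c 5) (c 6) (enc r) : ℕ) : ℤ) ≡
      (fun i => (c i : ℤ)) ⬝ᵥ co (D := chevE7) r [ZMOD 13] := by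
  have h : ∀ i : Fin 7, ((enc r / 16 ^ (i : ℕ) % 16 : ℕ) : ℤ) ≡ co (D := chevE7) r i [ZMOD 13] := fun i => by
    rw [← enc_spec]; exact Int.mod_modEq _ _
  have e : (val (c 0) (c 1) (c 2) (c 3) (c 4) (c 5) (c 6) (enc r) : ℕ) =
      ∑ i : Fin 7, c i * (enc r / 16 ^ (i : ℕ) % 16) := by
    rw [Fin.sum_univ_seven]; rfl
  rw [e, Nat.cast_sum]
  refine Int.ModEq.sum fun i _ => ?_
  rw [Nat.cast_mul]
  exact (h i).mul_left _

theorem alc_spec (c0 c1 c2 c3 c4 c5 c6 : ℕ) (h : 2 * c0 + 2 * c1 + 3 * c2 + 4 * c3 + 3 * c4 + 2 * c5 + c6 ≤ 13)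
    (hS : S 1 c0 c1 c2 c3 c4 c5 c6 = S 2 c0 c1 c2 c3 c4 c5 c6) : (c0, c1, c2, c3, c4, c5, c6) ∈
      [(0, 0, 0, 0, 0, 0, 0), (0, 0, 0, 0, 0, 0, 13), (1, 0, 0, 1, 1, 1, 2), (1, 0, 1, 1, 0, 1, 0)] := by
  have h0 := alc_eq
  simp only [alc, List.all_eq_true, List.mem_range, Bool.or_eq_true, decide_eq_true_eq] at h0
  rcases h0 c0 (by omega) c1 (by omega) c2 (by omega) c3 (by omega) c4 (by omega) c5 (by omega) with h1 | h1
  · omega
  rcases h1 c6 (by omega) with (h2 | h2) | h2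
  · omega
  · rw [hS] at h2; simp at h2
  · exact h2

set_option backward.isDefEq.respectTransparency false in
theorem exists_adj : ∃ L : Matrix (Fin chevE7.rank) (Fin chevE7.rank) ℤ,
    cartanMat chevE7 * L = ((2 : ℕ) : Matrix (Fin chevE7.rank) (Fin chevE7.rank) ℤ) :=
  ⟨(!![4, 4, 6, 8, 6, 4, 2; 4, 7, 8, 12, 9, 6, 3; 6, 8, 12, 16, 12, 8, 4; 8, 12, 16, 24, 18, 12, 6;
        6, 9, 12, 18, 15, 10, 5; 4, 6, 8, 12, 10, 8, 4; 2, 3, 4, 6, 5, 4, 3] : Matrix (Fin 7) (Fin 7) ℤ),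
    by decide +kernel⟩

theorem of_A_eq (D : ChevalleyDatum) [Good D] : Matrix.of (rootSys D).A = cartanMat D :=
  Matrix.ext fun i j => rootSys_A_eq_cartan i j

theorem sq_eq_one {C : Type*} [CommGroup C] (u : Fin chevE7.rank → C)
    (h : matHom C (Matrix.of (rootSys chevE7).A) u = 1) : u ^ 2 = 1 := by
  obtain ⟨L, e2⟩ := exists_adj
  rw [of_A_eq] at h
  rw [← matHom_natCast, ← e2, matHom_mul, h, map_one]

theorem exists_data {ι κ : Type*} [Fintype κ] [DecidableEq κ] [Finite ι] {R : RootSys ι κ} {K : Type*} [Field K]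
    {w : Equiv.Perm ι} (hw : w ∈ R.W) {t : κ → Kˣ} (ht : R.act w t = t ^ 2) (ho : orderOf t = 65) :
    ∃ w' ∈ R.W, ∃ (s y : κ → Kˣ) (z : Kˣ) (n : κ → ℕ), orderOf z = 13 ∧ s ^ 13 = 1 ∧ s ≠ 1 ∧ y ≠ 1 ∧ y ^ 5 = 1 ∧
      (matHom Kˣ (Matrix.of R.A) s = fun i => z ^ (n i : ℤ)) ∧ R.act w' s = s ^ 2 ∧ R.act w' y = y ^ 2 ∧
      (∀ r, R.IsPos r → ∑ i, R.rt r i * n i ≤ 13) ∧
      ∀ r, ((fun i => (n i : ℤ)) ⬝ᵥ R.rt (w' r)) * 2 ≡ (fun i => (n i : ℤ)) ⬝ᵥ R.rt r [ZMOD 13] := by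
  have h65 : t ^ 65 = 1 := ho ▸ pow_orderOf_eq_one t
  have h5 : t ^ 5 ≠ 1 := fun e => absurd (ho ▸ orderOf_dvd_of_pow_eq_one e) (by norm_num)
  have h13 : t ^ 13 ≠ 1 := fun e => absurd (ho ▸ orderOf_dvd_of_pow_eq_one e) (by norm_num)
  have hs13 : (t ^ 5) ^ 13 = 1 := by rw [← pow_mul]; exact h65
  obtain ⟨i, hi⟩ := Function.ne_iff.1 h5
  have : Fact (Nat.Prime 13) := ⟨by norm_num⟩
  obtain ⟨z, hzi⟩ : ∃ z, z = (t ^ 5) i := ⟨_, rfl⟩
  have hz : orderOf z = 13 := orderOf_eq_prime (hzi ▸ congrFun hs13 i) (hzi ▸ hi)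
  have hprim : IsPrimitiveRoot z 13 := hz ▸ IsPrimitiveRoot.orderOf z
  have ha : ∀ j, ∃ a : ℤ, (t ^ 5) j = z ^ a := fun j => by
    obtain ⟨k, -, hk⟩ := hprim.eq_pow_of_mem_rootsOfUnity (ξ := (t ^ 5) j)
      ((mem_rootsOfUnity _ _).2 (congrFun hs13 j))
    exact ⟨k, by rw [zpow_natCast, hk]⟩
  choose a ha using ha
  obtain ⟨v, hv, c, c1, c2, c3⟩ := RootSys.exists_act_alcove (R := R) (n := 13) (by norm_num)
    hprim.pow_eq_one a
  rw [← funext ha] at c3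
  have hw' : v * w * v⁻¹ ∈ R.W := mul_mem (mul_mem hv hw) (inv_mem hv)
  have key : ∀ k : ℕ, R.act (v * w * v⁻¹) (R.act v (t ^ k)) = R.act v (t ^ k) ^ 2 := fun k => by
    rw [← RootSys.act_mul hw', inv_mul_cancel_right, RootSys.act_mul hv, map_pow (R.act w) t k, ht,
      ← map_pow, ← pow_mul, ← pow_mul, mul_comm]
  have hne : ∀ k, R.act v (t ^ k) = 1 → t ^ k = 1 := fun k e => by
    rw [← RootSys.act_inv_act hv (t ^ k), e, map_one]
  obtain ⟨n, rfl⟩ : ∃ n : κ → ℕ, c = fun i => (n i : ℤ) :=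
    ⟨fun i => (c i).toNat, funext fun i => (Int.toNat_of_nonneg (c1 i)).symm⟩
  refine ⟨_, hw', _, _, z, n, hz, by rw [← map_pow, hs13, map_one], fun e => h5 (hne 5 e), fun e => h13 (hne 13 e),
    by rw [← map_pow, ← pow_mul, h65, map_one], c3, key 5, key 13, c2, fun r => ?_⟩
  have h1 := chr_sq hw' (key 5) r
  rwa [chr_of_matHom c3, chr_of_matHom c3, ← zpow_natCast, ← zpow_mul, zpow_eq_zpow_iff_modEq, hz] at h1

set_option backward.isDefEq.respectTransparency false in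
theorem cases_n {w : Equiv.Perm (Fin 126)} {n : Fin 7 → ℕ}
    (c2 : ∀ r, (rootSys chevE7).IsPos r → ∑ i, (rootSys chevE7).rt r i * n i ≤ 13)
    (c3 : ∀ r : Fin 126, ((fun i => (n i : ℤ)) ⬝ᵥ co (D := chevE7) (w r)) * 2 ≡
      (fun i => (n i : ℤ)) ⬝ᵥ co (D := chevE7) r [ZMOD 13]) :
    (∀ j, 13 ∣ n j) ∨ n = ![1, 0, 0, 1, 1, 1, 2] ∨ n = ![1, 0, 1, 1, 0, 1, 0] := by
  have hb : 2 * n 0 + 2 * n 1 + 3 * n 2 + 4 * n 3 + 3 * n 4 + 2 * n 5 + n 6 ≤ 13 := by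
    have h1 := c2 (125 : Fin 126) (by unfold RootSys.IsPos; decide +kernel)
    have h2 : ∀ i : Fin 7, (rootSys chevE7).rt (125 : Fin 126) i = (![2, 2, 3, 4, 3, 2, 1] : Fin 7 → ℤ) i := by
      decide +kernel
    have h3 : ∑ i : Fin 7, (![2, 2, 3, 4, 3, 2, 1] : Fin 7 → ℤ) i * n i ≤ 13 :=
      (Finset.sum_congr rfl fun i _ => by rw [h2]).ge.trans h1
    rw [Fin.sum_univ_seven] at h3
    simp at h3
    omega
  have hS : S 1 (n 0) (n 1) (n 2) (n 3) (n 4) (n 5) (n 6) = S 2 (n 0) (n 1) (n 2) (n 3) (n 4) (n 5) (n 6) := by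
    rw [S_eq, S_eq, ← Equiv.sum_comp w
      fun r => 128 ^ (2 * val (n 0) (n 1) (n 2) (n 3) (n 4) (n 5) (n 6) (enc r) % 13)]
    refine Finset.sum_congr rfl fun r _ => congrArg _ ?_
    have h4 := (val_modEq n r).trans ((c3 r).symm.trans ((val_modEq n (w r)).mul_right _).symm)
    unfold Int.ModEq at h4
    omega
  have h6 := alc_spec _ _ _ _ _ _ _ hb hS
  have hc : ∀ m : Fin 7 → ℕ, (n 0, n 1, n 2, n 3, n 4, n 5, n 6) = (m 0, m 1, m 2, m 3, m 4, m 5, m 6) → n = m := by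
    intro m e
    simp only [Prod.mk.injEq] at e
    funext j
    fin_cases j <;> simp [e]
  simp only [List.mem_cons, List.not_mem_nil, or_false] at h6
  rcases h6 with h | h | h | h
  · obtain rfl := hc ![0, 0, 0, 0, 0, 0, 0] h
    exact Or.inl (by decide)
  · obtain rfl := hc ![0, 0, 0, 0, 0, 0, 13] h
    exact Or.inl (by decide)
  · exact Or.inr (Or.inl (hc _ h))
  · exact Or.inr (Or.inr (hc _ h))

set_option backward.isDefEq.respectTransparency false in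
theorem torus_ne {K : Type*} [Field K] {w : Equiv.Perm (Rt chevE7)} (hw : w ∈ (rootSys chevE7).W)
    {t : Fin chevE7.rank → Kˣ} (ht : (rootSys chevE7).act w t = t ^ 2) : orderOf t ≠ 65 := by
  intro ho
  have hA : ∀ u : Fin chevE7.rank → Kˣ, matHom Kˣ (Matrix.of (rootSys chevE7).A) u = 1 → u ^ 13 = 1 → u = 1 :=
    fun u h1 h2 => by simpa using (pow_gcd_eq_one (m := 2) (n := 13)).2 ⟨sq_eq_one u h1, h2⟩
  obtain ⟨w', hw', s, y, z, n, hz, hs13, hs1, hy1, hy5, c3, k1, k2, c2, c4⟩ := exists_data hw ht ho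
  rcases cases_n (w := w') (n := n) c2 c4 with h | h | h
  · refine hs1 (hA _ (c3.trans (funext fun j => ?_)) hs13)
    obtain ⟨k, hk⟩ := h j
    rw [hk, zpow_natCast, pow_mul, ← hz, pow_orderOf_eq_one, one_pow]; rfl
  · refine hy1 (chk1.eq_one hA hw' hz hs13 (c3.trans (funext fun j => congrArg _ ?_)) k1 hy5 k2)
    rw [h]; revert j; decide
  · refine hy1 (chk2.eq_one hA hw' hz hs13 (c3.trans (funext fun j => congrArg _ ?_)) k1 hy5 k2)
    rw [h]; revert j; decide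

set_option backward.isDefEq.respectTransparency false in
/-- `E₇(2)` has no element of order `65`. -/
theorem orderOf_ne (g : chevE7.group (ZMod 2)) : orderOf g ≠ 65 := by
  intro ho
  obtain ⟨φ, σ, ψ, A, h1, h2, -⟩ := exists_alg (F := ZMod 2) (D := chevE7) (by simp) (by
    rw [card_ker_E7]; simp)
  obtain ⟨w, hw, t, ht, y, hy⟩ := A.exists_act_eq_pow ((h2 (ψ g)).1 ⟨g, rfl⟩) (by
    rw [orderOf_injective ψ h1, ho, cast_ne_zero_iff_coprime 2]; norm_num)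
  rw [ZMod.card] at ht
  refine torus_ne hw ht ?_
  rw [← orderOf_injective _ A.sc, ← hy, ← MulAut.conj_apply, MulEquiv.orderOf_eq, orderOf_injective ψ h1, ho]

end CL.Chev.E765
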