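/-
Feit-Higman theorem, part 1: an idempotent in the Hecke algebra of a finite (B,N)-pair of rank two.
-/
import Cfsg.Agent.CHEV.BNHecke
import Cfsg.Agent.CHEV.CoxDihedral

set_option autoImplicit false

namespace CL.BN

open Cfsg CL.Cox Finset

variable {G : Type*} [Group G] (P : BNPair G)

theorem heckeL_heckeL {R : Type*} [CommRing R] (s : P.S) (f : W P → R) :
    heckeL P s (heckeL P s f) =
      ((cellIdx P (sW P s) : R) - 1) • heckeL P s f + (cellIdx P (sW P s) : R) • f := by
  ext w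
  simp only [Pi.add_apply, Pi.smul_apply, smul_eq_mul]
  have h := (exch P).len_simple_mul s w
  have e := (gen P).simple_mul_simple_mul s w
  by_cases hl : len (sW P) w < len (sW P) (sW P s * w)
  · rw [heckeL_of_lt P _ hl, heckeL_of_lt P _ hl, heckeL_of_le P _ (by rw [e]; omega), e]
    ring
  · rw [heckeL_of_le P (heckeL P s f) (not_lt.1 hl), heckeL_of_lt P f (by rw [e]; omega), e]
    ring

theorem exists_nat_trace_of_mul_self {n : Type*} [Fintype n] [DecidableEq n] (E : Matrix n n ℂ)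
    (α : ℂ) (h : E * E = α • E) (h0 : E.trace ≠ 0) : ∃ ρ : ℕ, E.trace = ρ * α := by
  have hα : α ≠ 0 := by
    rintro rfl
    exact h0 (Matrix.isNilpotent_trace_of_isNilpotent ⟨2, by rw [pow_two, h, zero_smul]⟩).eq_zero
  have h1 : IsIdempotentElem (Matrix.toLin' (α⁻¹ • E)) := by
    rw [IsIdempotentElem, Module.End.mul_eq_comp, ← Matrix.toLin'_mul, smul_mul_smul_comm, h,
      smul_smul, mul_assoc, inv_mul_cancel₀ hα, mul_one]
  have h2 := (LinearMap.IsIdempotentElem.isProj_range _ h1).trace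
  rw [Matrix.trace_toLin'_eq, Matrix.trace_smul, smul_eq_mul] at h2
  exact ⟨_, by rw [← h2, mul_comm α⁻¹, mul_assoc, inv_mul_cancel₀ hα, mul_one]⟩

theorem hecke_mul_self_of_two_dim [Fintype (G ⧸ P.B)] [Fintype (W P)] {s t : P.S}
    (hall : ∀ k, k = s ∨ k = t) (x : W P → ℂ) (l : ℂ)
    (h1 : heckeL P s x = (cellIdx P (sW P s) : ℂ) • x)
    (h2 : heckeL P s (heckeL P t x - l • x) = -(heckeL P t x - l • x)) :
    ∃ α : ℂ, hecke P x * hecke P x = α • hecke P x := by
  classical
  set E := hecke P x with hE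
  set F := hecke P (heckeL P t x - l • x) with hF
  set U : Submodule ℂ (Matrix (G ⧸ P.B) (G ⧸ P.B) ℂ) := Submodule.span ℂ {E, F} with hU
  have hEU : E ∈ U := Submodule.subset_span (by simp)
  have hFU : F ∈ U := Submodule.subset_span (by simp)
  have SE : heckeT P ℂ (sW P s) * E = (cellIdx P (sW P s) : ℂ) • E := by
    rw [hE, heckeT_mul_hecke, h1, hecke_smul]
  have SF : heckeT P ℂ (sW P s) * F = -F := by rw [hF, heckeT_mul_hecke, h2, hecke_neg]
  have TE : heckeT P ℂ (sW P t) * E = F + l • E := by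
    rw [hE, hF, heckeT_mul_hecke, hecke_sub, hecke_smul, sub_add_cancel]
  have TF : heckeT P ℂ (sW P t) * F ∈ U := by
    have e : hecke P (heckeL P t x) = F + l • E := by rw [← TE, hE, heckeT_mul_hecke]
    rw [hF, hecke_sub, hecke_smul, mul_sub, heckeT_mul_hecke, heckeL_heckeL, hecke_add, hecke_smul,
      hecke_smul, e, mul_smul_comm, ← hE, TE]
    exact U.sub_mem (U.add_mem (U.smul_mem _ (U.add_mem hFU (U.smul_mem _ hEU))) (U.smul_mem _ hEU))
      (U.smul_mem _ (U.add_mem hFU (U.smul_mem _ hEU)))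
  have hs : ∀ k : P.S, ∀ M ∈ U, heckeT P ℂ (sW P k) * M ∈ U := by
    intro k M hM
    obtain ⟨c, d, rfl⟩ := Submodule.mem_span_pair.1 hM
    rw [mul_add, mul_smul_comm, mul_smul_comm]
    rcases hall k with rfl | rfl
    · rw [SE, SF]
      exact U.add_mem (U.smul_mem _ (U.smul_mem _ hEU)) (U.smul_mem _ (U.neg_mem hFU))
    · rw [TE]
      exact U.add_mem (U.smul_mem _ (U.add_mem hFU (U.smul_mem _ hEU))) (U.smul_mem _ TF)
  have hw : ∀ w, heckeT P ℂ w * E ∈ U := by
    intro w
    refine (gen P).induction_left (p := fun w => heckeT P ℂ w * E ∈ U) ?_ ?_ w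
    · rwa [heckeT_one, one_mul]
    · intro k w hl ih
      rw [← heckeT_simple_mul P (by omega), mul_assoc]
      exact hs k _ ih
  have hEE : E * E ∈ U := by
    nth_rewrite 1 [hE]
    rw [hecke_eq_sum, sum_mul]
    exact U.sum_mem fun w _ => by rw [smul_mul_assoc]; exact U.smul_mem _ (hw w)
  obtain ⟨c, d, e⟩ := Submodule.mem_span_pair.1 hEE
  refine ⟨c, ?_⟩
  have e2 : heckeT P ℂ (sW P s) * (E * E) = (cellIdx P (sW P s) : ℂ) • (E * E) := by
    rw [← mul_assoc, SE, smul_mul_assoc]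
  rw [← e, mul_add, mul_smul_comm, mul_smul_comm, SE, SF, smul_add, smul_comm c, add_right_inj,
    smul_neg, eq_comm, ← add_eq_zero_iff_eq_neg] at e2
  have e3 : ((cellIdx P (sW P s) : ℂ) + 1) • d • F = 0 := by rw [add_smul, one_smul, e2]
  rw [← e, (smul_eq_zero.1 e3).resolve_left (Nat.cast_add_one_ne_zero _), add_zero]

theorem feit_higman_aux [Finite (G ⧸ P.B)] {s t : P.S} (hst : s ≠ t) (hall : ∀ k, k = s ∨ k = t)
    {m : ℕ} (hm : orderOf (sW P s * sW P t) = m) (h3 : 3 ≤ m) {a b : ℂ}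
    (ha : a = cellIdx P (sW P s)) (hb : b = cellIdx P (sW P t)) (X : ℕ → ℂ) (l : ℂ)
    (h0 : b * X 1 = l * X 0)
    (hrec : ∀ i, a * b * X (i + 2) + X i = (l * (a + 1) - b + 1) * X (i + 1))
    (hodd : ∀ n, m = 2 * n + 1 → X n = X (n + 1) ∧ a = b)
    (heven : ∀ n, m = 2 * (n + 1) → X n = (l - b + 1) * X (n + 1)) (hX : X 0 ≠ 0) :
    ∃ ρ : ℕ, (Nat.card (G ⧸ P.B) : ℂ) * X 0 ^ 2 =
      ρ * ((1 + a) * ∑ k ∈ range m, b ^ ((k + 1) / 2) * a ^ (k / 2) * X ((k + 1) / 2) ^ 2) := by
  classical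
  have := Fintype.ofFinite (G ⧸ P.B)
  have := finite_W P
  have := Fintype.ofFinite (W P)
  have hst' : sW P s ≠ sW P t := fun e => hst (sW_injective P e)
  set A : ℕ → W P := fun k => wp (sW P) (alt s t k) with hA
  set B : ℕ → W P := fun k => wp (sW P) (alt t s k) with hB
  have lenA : ∀ k ≤ m, len (sW P) (A k) = k := fun k hk => (exch P).len_alt hst' (hm ▸ hk)
  have lenB : ∀ k ≤ m, len (sW P) (B k) = k := fun k hk =>
    (exch P).len_alt hst'.symm (by rwa [(gen P).orderOf_comm, hm])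
  have sB : ∀ k, sW P s * B k = A (k + 1) := fun k => (wp_alt_succ _ _ _ _).symm
  have tA : ∀ k, sW P t * A k = B (k + 1) := fun k => (wp_alt_succ _ _ _ _).symm
  have sA : ∀ k, sW P s * A (k + 1) = B k := fun k => by
    rw [← sB, (gen P).simple_mul_simple_mul]
  have tB : ∀ k, sW P t * B (k + 1) = A k := fun k => by
    rw [← tA, (gen P).simple_mul_simple_mul]
  have AB : A m = B m := hm ▸ (gen P).wp_alt_orderOf s t
  let x : W P → ℂ := fun w => X ((min (len (sW P) w) (len (sW P) (sW P s * w)) + 1) / 2)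
  have xs : ∀ w, x (sW P s * w) = x w := fun w => by
    simp only [x, (gen P).simple_mul_simple_mul, min_comm]
  have xB0 : ∀ k < m, x (B k) = X ((k + 1) / 2) := fun k hk => by
    simp only [x, sB, lenA (k + 1) hk, lenB k hk.le]
    rw [min_eq_left (by omega)]
  have xA : ∀ k ≤ m, x (A k) = X (k / 2) := fun k hk => by
    cases k with
    | zero => exact xB0 0 (by omega)
    | succ k => rw [← sB, xs, xB0 k hk]
  have xB : ∀ k ≤ m, x (B k) = X ((k + 1) / 2) := fun k hk => by
    rcases hk.lt_or_eq with hk | rfl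
    · exact xB0 k hk
    · rw [← AB, xA k le_rfl]
      rcases Nat.even_or_odd' k with ⟨n, h | h⟩
      · congr 1; omega
      · rw [show k / 2 = n by omega, show (k + 1) / 2 = n + 1 by omega, (hodd n h).1]
  have h1 : heckeL P s x = (cellIdx P (sW P s) : ℂ) • x := by
    ext w
    by_cases hl : len (sW P) w < len (sW P) (sW P s * w)
    · rw [heckeL_of_lt P _ hl, xs]; rfl
    · rw [heckeL_of_le P _ (not_lt.1 hl), xs, Pi.smul_apply, smul_eq_mul]; ring
  set y := heckeL P t x - l • x with hy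
  have yA : ∀ k < m, y (A k) = b * X (k / 2 + 1) - l * X (k / 2) := fun k hk => by
    rw [hy, Pi.sub_apply, heckeL_of_lt P _ (by rw [tA, lenA k hk.le, lenB _ hk]; omega), tA,
      xB _ hk, Pi.smul_apply, xA k hk.le, ← hb, show (k + 1 + 1) / 2 = k / 2 + 1 by omega,
      smul_eq_mul]
  have yB : ∀ k < m, y (B (k + 1)) = X (k / 2) + (b - 1 - l) * X (k / 2 + 1) := fun k hk => by
    rw [hy, Pi.sub_apply, heckeL_of_le P _ (by rw [tB, lenA k hk.le, lenB _ hk]; omega), tB,
      Pi.smul_apply, xB _ hk, xA k hk.le, ← hb, show (k + 1 + 1) / 2 = k / 2 + 1 by omega,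
      smul_eq_mul]
    ring
  have key : ∀ k < m, a * y (A (k + 1)) + y (B k) = 0 := by
    intro k hk
    cases k with
    | zero =>
      rw [yA 1 (by omega), show B 0 = A 0 from rfl, yA 0 (by omega)]
      simp [h0]
    | succ k =>
      rw [yB k (by omega)]
      rcases (show k + 2 ≤ m by omega).lt_or_eq with h | h
      · rw [yA _ h, show (k + 1 + 1) / 2 = k / 2 + 1 by omega]
        linear_combination hrec (k / 2)
      · rw [show k + 1 + 1 = m from h, AB, ← h, yB (k + 1) (by omega)]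
        rcases Nat.even_or_odd' k with ⟨n, e | e⟩
        · rw [show (k + 1) / 2 = n by omega, show k / 2 = n by omega, heven n (by omega)]
          ring
        · obtain ⟨e1, e2⟩ := hodd (n + 1) (by omega)
          rw [show (k + 1) / 2 = n + 1 by omega, show k / 2 = n by omega, ← e1]
          have := hrec n
          rw [show n + 2 = n + 1 + 1 from rfl, ← e1, ← e2] at this
          rw [← e2]
          linear_combination this
  have hmem : ∀ w, ∃ k < m, w = B k ∨ w = A (k + 1) := fun w => by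
    have hw : w ∈ Subgroup.closure (sW P '' {s, t}) := by
      rw [show ({s, t} : Set P.S) = Set.univ from Set.eq_univ_of_forall hall, Set.image_univ,
        closure_range_sW]
      trivial
    exact hm ▸ (exch P).exists_alt_of_mem (by omega) hw
  have h2 : heckeL P s y = -y := by
    ext w
    obtain ⟨k, hk, rfl | rfl⟩ := hmem w
    · rw [heckeL_of_lt P _ (by rw [sB, lenA _ hk, lenB k hk.le]; omega), sB, ← ha, Pi.neg_apply]
      linear_combination key k hk
    · rw [heckeL_of_le P _ (by rw [sA, lenA _ hk, lenB k hk.le]; omega), sA, ← ha, Pi.neg_apply]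
      linear_combination key k hk
  obtain ⟨α, hα⟩ := hecke_mul_self_of_two_dim P hall x l h1 h2
  have x1 : x 1 = X 0 := xA 0 (by omega)
  have hN : (Fintype.card (G ⧸ P.B) : ℂ) ≠ 0 := Nat.cast_ne_zero.2 Fintype.card_ne_zero
  obtain ⟨ρ, hρ⟩ := exists_nat_trace_of_mul_self _ α hα
    (by rw [trace_hecke, x1]; exact mul_ne_zero hN hX)
  have h4 := congrArg Matrix.trace hα
  rw [trace_hecke_mul, Matrix.trace_smul, trace_hecke, x1, smul_eq_mul, mul_left_comm,
    (exch P).sum_dihedral hst' hall (R := ℂ), hm] at h4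
  rw [trace_hecke, x1] at hρ
  have h5 := mul_left_cancel₀ hN h4
  refine ⟨ρ, ?_⟩
  rw [Nat.card_eq_fintype_card, pow_two, ← mul_assoc, hρ, mul_assoc, ← h5]
  congr 1
  rw [mul_sum]
  refine sum_congr rfl fun k hk => ?_
  rw [mem_range] at hk
  have iB : x (B k)⁻¹ = X ((k + 1) / 2) := by
    rw [show B k = wp (sW P) (alt t s k) from rfl, (gen P).wp_alt_inv]
    split_ifs with he
    · obtain ⟨n, rfl⟩ := he
      rw [xA _ hk.le]; congr 1; omega
    · exact xB _ hk.le
  have iA : x (A (k + 1))⁻¹ = X ((k + 1) / 2) := by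
    rw [show A (k + 1) = wp (sW P) (alt s t (k + 1)) from rfl, (gen P).wp_alt_inv]
    split_ifs with he
    · obtain ⟨n, e⟩ := he
      rw [xB _ hk]; congr 1; omega
    · exact xA _ hk
  have cB : (cellIdx P (B k) : ℂ) = b ^ ((k + 1) / 2) * a ^ (k / 2) := by
    rw [show B k = wp (sW P) (alt t s k) from rfl, cellIdx_wp P ((exch P).red_alt hst'.symm (Or.inr (by
      rw [(gen P).orderOf_comm, hm]; exact hk.le))), wp_alt_comm, ha, hb]
    push_cast; rfl
  have cA : (cellIdx P (A (k + 1)) : ℂ) = a * (b ^ ((k + 1) / 2) * a ^ (k / 2)) := by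
    rw [← sB, cellIdx_simple_mul P (by rw [sB, lenA _ hk, lenB k hk.le]; omega), Nat.cast_mul, cB,
      ha]
  change (cellIdx P (B k) : ℂ) * (x (B k) * x (B k)⁻¹) +
    (cellIdx P (A (k + 1)) : ℂ) * (x (A (k + 1)) * x (A (k + 1))⁻¹) = _
  rw [iA, iB, cA, cB, xA _ hk, xB _ hk.le]
  ring

end CL.BN
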