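/-
Feit-Higman theorem, part 2: the multiplicity formula and the arithmetic.
-/
import Cfsg.Agent.CHEV.FeitHigman1

set_option autoImplicit false

namespace CL.BN

open Cfsg CL.Cox Finset

theorem fh_sum_even (a b r : ℂ) (hr : r ^ 2 = a * b) (hr0 : r ≠ 0) (Y : ℕ → ℂ) (n : ℕ) :
    a * ∑ k ∈ range (2 * n), b ^ ((k + 1) / 2) * a ^ (k / 2) * (Y ((k + 1) / 2) / r ^ ((k + 1) / 2)) ^ 2 =
      ∑ i ∈ range n, (a * Y i ^ 2 + Y (i + 1) ^ 2) := by
  have key : ∀ i, b ^ i * a ^ i * (Y i / r ^ i) ^ 2 = Y i ^ 2 := fun i => by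
    rw [div_pow, ← pow_mul, mul_comm i 2, pow_mul, hr, ← mul_pow, mul_comm b a,
      mul_div_cancel₀ _ (pow_ne_zero _ (hr ▸ pow_ne_zero _ hr0))]
  induction n with
  | zero => simp
  | succ n ih =>
    rw [show 2 * (n + 1) = 2 * n + 1 + 1 by ring, sum_range_succ, sum_range_succ, sum_range_succ,
      mul_add, mul_add, ih, show (2 * n + 1) / 2 = n by omega, show 2 * n / 2 = n by omega,
      show (2 * n + 1 + 1) / 2 = n + 1 by omega, key, ← key (n + 1)]
    ring

theorem fh_sum_Y (a p p' z w : ℂ) (hzw : z * w = 1) (n : ℕ) :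
    ∑ i ∈ range n, (a * (p * z ^ i + p' * w ^ i) ^ 2 + (p * z ^ (i + 1) + p' * w ^ (i + 1)) ^ 2) =
      (a + z ^ 2) * p ^ 2 * ∑ i ∈ range n, (z ^ 2) ^ i +
        (a + w ^ 2) * p' ^ 2 * ∑ i ∈ range n, (w ^ 2) ^ i + 2 * n * (a + 1) * (p * p') := by
  induction n with
  | zero => simp
  | succ n ih =>
    rw [sum_range_succ, sum_range_succ, sum_range_succ, ih]
    have h1 : z ^ n * w ^ n = 1 := by rw [← mul_pow, hzw, one_pow]
    push_cast
    linear_combination (2 * p * p' * (a + z * w)) * h1 + 2 * p * p' * hzw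

variable {G : Type*} [Group G] (P : BNPair G)

theorem feit_higman_formula [Finite (G ⧸ P.B)] {s t : P.S} (hst : s ≠ t)
    (hall : ∀ k, k = s ∨ k = t) {m : ℕ} (hm : orderOf (sW P s * sW P t) = m) (h3 : 3 ≤ m) {a b : ℂ}
    (ha : a = cellIdx P (sW P s)) (hb : b = cellIdx P (sW P t)) {r z : ℂ} (hr : r ^ 2 = a * b)
    (hodd : Odd m → a = b ∧ r = a) (hz : z ^ m = 1) (hz2 : z ^ 2 ≠ 1) :
    ∃ ρ : ℕ, (Nat.card (G ⧸ P.B) : ℂ) * (4 * a * b - (r * (z + z⁻¹)) ^ 2) =
      ρ * m * ((a + b + r * (z + z⁻¹)) * (1 + a * b - r * (z + z⁻¹))) := by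
  have ha0 : a ≠ 0 := ha ▸ Nat.cast_ne_zero.2 (cellIdx_pos P _).ne'
  have hb0 : b ≠ 0 := hb ▸ Nat.cast_ne_zero.2 (cellIdx_pos P _).ne'
  have ha1 : a + 1 ≠ 0 := ha ▸ Nat.cast_add_one_ne_zero _
  have hr0 : r ≠ 0 := by
    rintro rfl
    exact mul_ne_zero ha0 hb0 (by rw [← hr]; simp)
  have hz0 : z ≠ 0 := by
    rintro rfl
    rw [zero_pow (by omega)] at hz
    exact zero_ne_one hz
  have ha' : a = r ^ 2 / b := by rw [hr, mul_div_cancel_right₀ _ hb0]
  obtain ⟨w, hw⟩ : ∃ w, w = z⁻¹ := ⟨_, rfl⟩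
  have hzw : z * w = 1 := by rw [hw, mul_inv_cancel₀ hz0]
  have hwm : w ^ m = 1 := by rw [hw, inv_pow, hz, inv_one]
  have hw2 : w ^ 2 ≠ 1 := by rw [hw, inv_pow]; simpa using hz2
  have hwz : w - z ≠ 0 := fun h => hz2 (by rw [pow_two, ← hzw, sub_eq_zero.1 h])
  rw [← hw]
  obtain ⟨p, hp⟩ : ∃ p, p = b * w - a * b * z - r * (b - 1) := ⟨_, rfl⟩
  obtain ⟨p', hp'⟩ : ∃ p', p' = -(b * z - a * b * w - r * (b - 1)) := ⟨_, rfl⟩
  obtain ⟨l, hl⟩ : ∃ l, l = (r * (z + w) + b - 1) / (a + 1) := ⟨_, rfl⟩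
  have hl' : l * (a + 1) = r * (z + w) + b - 1 := by rw [hl, div_mul_cancel₀ _ ha1]
  have X0 : p + p' = b * (1 + a) * (w - z) := by rw [hp, hp']; ring
  have hu : l * (a + 1) - b + 1 = r * (z + w) := by rw [hl']; ring
  have k0 : b * (a + 1) * (p * z + p' * w) = r * (r * (z + w) + b - 1) * (p + p') := by
    rw [hp, hp']
    linear_combination (-(b * (1 + a) * (w - z) * (z + w))) * hr
  obtain ⟨ρ, hρ⟩ := feit_higman_aux P hst hall hm h3 ha hb
    (fun i => (p * z ^ i + p' * w ^ i) / r ^ i) l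
    (by
      apply mul_left_cancel₀ ha1
      simp only [pow_zero, pow_one, mul_one, div_one]
      rw [← mul_assoc, ← mul_assoc, mul_comm (a + 1) l, hl', mul_div_assoc', mul_comm (a + 1), k0,
        mul_assoc r, mul_div_cancel_left₀ _ hr0])
    (fun i => by
      rw [hu, ← hr]
      field_simp
      linear_combination (-(r ^ 3 * r ^ (i * 2)) * (p * z ^ i + p' * w ^ i)) * hzw)
    (fun n hn => by
      obtain ⟨e1, e2⟩ := hodd ⟨n, hn⟩
      refine ⟨?_, e1⟩
      subst e1 e2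
      have e3 : w ^ n = z ^ n * z := by
        have h1 : z ^ n * w ^ n = 1 := by rw [← mul_pow, hzw, one_pow]
        rw [hn] at hz
        linear_combination (z ^ n * z) * h1 - w ^ n * hz
      have e4 : w ^ (n + 1) = z ^ n := by rw [pow_succ, e3, mul_assoc, hzw, mul_one]
      rw [e4, e3, hp, hp', hw]
      field_simp
      ring)
    (fun n hn => by
      have e3 : w ^ (n + 1) = z ^ (n + 1) := by
        have h1 : z ^ (n + 1) * w ^ (n + 1) = 1 := by rw [← mul_pow, hzw, one_pow]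
        rw [hn] at hz
        linear_combination (z ^ (n + 1)) * h1 - w ^ (n + 1) * hz
      have e4 : z ^ n = z ^ (n + 1) * w := by rw [pow_succ, mul_assoc, hzw, mul_one]
      have e5 : w ^ n = z ^ (n + 1) * z := by
        rw [← e3, pow_succ, mul_assoc, mul_comm w, hzw, mul_one]
      have e6 : (a + 1) * (l - b + 1) = r * (z + w) - a * (b - 1) := by linear_combination hl'
      apply mul_left_cancel₀ ha1
      rw [← mul_assoc, e6, e3, e4, e5, pow_succ r]
      field_simp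
      rw [hp, hp', hw, ha']
      field_simp
      ring)
    (by
      simp only [pow_zero, mul_one, div_one]
      rw [X0]
      exact mul_ne_zero (mul_ne_zero hb0 (by rwa [add_comm])) hwz)
  · refine ⟨ρ, ?_⟩
    have hC : a * ∑ k ∈ range m, b ^ ((k + 1) / 2) * a ^ (k / 2) *
        ((p * z ^ ((k + 1) / 2) + p' * w ^ ((k + 1) / 2)) / r ^ ((k + 1) / 2)) ^ 2 =
        m * (1 + a) * (p * p') := by
      rcases Nat.even_or_odd' m with ⟨n, rfl | rfl⟩
      · rw [fh_sum_even a b r hr hr0 (fun i => p * z ^ i + p' * w ^ i), fh_sum_Y a p p' z w hzw]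
        have g1 := mul_geom_sum (z ^ 2) n
        have g2 := mul_geom_sum (w ^ 2) n
        rw [← pow_mul, hz, sub_self] at g1
        rw [← pow_mul, hwm, sub_self] at g2
        rw [(mul_eq_zero.1 g1).resolve_left (sub_ne_zero.2 hz2),
          (mul_eq_zero.1 g2).resolve_left (sub_ne_zero.2 hw2)]
        push_cast; ring
      · obtain ⟨rfl, rfl⟩ := hodd ⟨n, rfl⟩
        rw [sum_range_succ, mul_add, fh_sum_even r r r hr hr0 (fun i => p * z ^ i + p' * w ^ i),
          fh_sum_Y r p p' z w hzw, show (2 * n + 1) / 2 = n by omega, show 2 * n / 2 = n by omega]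
        have g1 := mul_geom_sum (z ^ 2) n
        have g2 := mul_geom_sum (w ^ 2) n
        have e1 : (z ^ 2) ^ n = w := by
          rw [← pow_mul, ← mul_one (z ^ (2 * n)), ← hzw, ← mul_assoc, ← pow_succ, hz, one_mul]
        have e2 : (w ^ 2) ^ n = z := by
          rw [← pow_mul, ← mul_one (w ^ (2 * n)), ← hzw, mul_comm z, ← mul_assoc, ← pow_succ, hwm,
            one_mul]
        have hz1 : z - 1 ≠ 0 := fun h => hz2 (by rw [sub_eq_zero.1 h, one_pow])
        have hz1' : z + 1 ≠ 0 := fun h => hz2 (by rw [eq_neg_of_add_eq_zero_left h]; ring)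
        rw [e1] at g1
        rw [e2] at g2
        generalize ∑ i ∈ range n, (z ^ 2) ^ i = g at g1 ⊢
        generalize ∑ i ∈ range n, (w ^ 2) ^ i = g' at g2 ⊢
        have g3 : (z + 1) * g = -w := mul_left_cancel₀ hz1 (by linear_combination g1 + hzw)
        have g4 : (z + 1) * g' = -z ^ 2 := mul_left_cancel₀ hz1 (by
          linear_combination (-z ^ 2) * g2 + g' * (z * w + 1) * hzw)
        have e3 : r * (r ^ n * r ^ n * ((p * z ^ n + p' * w ^ n) / r ^ n) ^ 2) =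
            r * (p ^ 2 * w + 2 * p * p' + p' ^ 2 * z) := by
          have h1 : z ^ n * w ^ n = 1 := by rw [← mul_pow, hzw, one_pow]
          have e1' : z ^ n * z ^ n = w := by rw [← e1]; ring
          have e2' : w ^ n * w ^ n = z := by rw [← e2]; ring
          field_simp
          linear_combination p ^ 2 * e1' + p' ^ 2 * e2' + 2 * p * p' * h1
        rw [e3]
        apply mul_left_cancel₀ hz1'
        push_cast
        have e4 : (z + 1) * ((r + z ^ 2) * p ^ 2 * g + (r + w ^ 2) * p' ^ 2 * g') =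
            -(r + z ^ 2) * p ^ 2 * w - (r + w ^ 2) * p' ^ 2 * z ^ 2 := by
          linear_combination ((r + z ^ 2) * p ^ 2) * g3 + ((r + w ^ 2) * p' ^ 2) * g4
        have e5 : -(r + z ^ 2) * p ^ 2 * w - (r + w ^ 2) * p' ^ 2 * z ^ 2 +
            (z + 1) * (r * p ^ 2 * w + r * p' ^ 2 * z + (r - 1) * p * p') = 0 := by
          rw [hp, hp', hw]
          field_simp
          ring
        linear_combination e4 + e5
    have hpp : p * p' = -b * ((a + b + r * (z + w)) * (1 + a * b - r * (z + w))) := by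
      rw [hp, hp', hw, ha']
      field_simp
      ring
    simp only [pow_zero, mul_one, div_one] at hρ
    have hb1 : b * (1 + a) ^ 2 ≠ 0 := mul_ne_zero hb0 (pow_ne_zero _ (by rwa [add_comm]))
    apply mul_left_cancel₀ hb1
    have e6 : (Nat.card (G ⧸ P.B) : ℂ) * (p + p') ^ 2 * a = ρ * (1 + a) ^ 2 * m * (p * p') := by
      rw [hρ]
      linear_combination (ρ * (1 + a)) * hC
    rw [X0, hpp] at e6
    linear_combination (-1) * e6 -
      (Nat.card (G ⧸ P.B) : ℂ) * b * (1 + a) ^ 2 * ((z + w) ^ 2 * hr + 4 * a * b * hzw)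

theorem fh_pow_eq_one {z : ℂ} {n : ℕ} (hn : 0 < n) (hz : z ^ n = 1) (h : ∃ q : ℚ, z + z⁻¹ = q) :
    z ^ 4 = 1 ∨ z ^ 6 = 1 := by
  have hz0 : z ≠ 0 := by
    rintro rfl
    rw [zero_pow hn.ne'] at hz
    exact zero_ne_one hz
  have h1 : IsIntegral ℤ z := IsIntegral.of_pow hn (hz ▸ isIntegral_one)
  have h2 : IsIntegral ℤ z⁻¹ := IsIntegral.of_pow hn (by rw [inv_pow, hz, inv_one]; exact isIntegral_one)
  obtain ⟨k, hk⟩ := (h1.add h2).exists_int_iff_exists_rat.1 h
  have h3 : ‖z‖ = 1 := Complex.norm_eq_one_of_pow_eq_one hz hn.ne'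
  have h4 : ‖z + z⁻¹‖ ≤ 2 := (norm_add_le _ _).trans (by rw [norm_inv, h3]; norm_num)
  rw [hk, Complex.norm_intCast] at h4
  have h5 : |k| ≤ 2 := by exact_mod_cast h4
  have h6 : z ^ 2 + 1 = k * z := by rw [← hk]; field_simp
  obtain ⟨h7, h8⟩ := abs_le.1 h5
  interval_cases k <;> push_cast at h6
  · have : z + 1 = 0 := pow_eq_zero_iff (n := 2) (by norm_num) |>.1 (by linear_combination h6)
    left; rw [eq_neg_of_add_eq_zero_left this]; norm_num
  · right; linear_combination (z ^ 4 - z ^ 3 + z - 1) * h6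
  · left; linear_combination (z ^ 2 - 1) * h6
  · right; linear_combination (z ^ 4 + z ^ 3 - z - 1) * h6
  · have : z - 1 = 0 := pow_eq_zero_iff (n := 2) (by norm_num) |>.1 (by linear_combination h6)
    left; rw [sub_eq_zero.1 this]; norm_num

theorem fh_rat_of_mul_eq {u : ℂ} {c d : ℤ} (hc : c ≠ 0) (h : c * u = d) : ∃ q : ℚ, u = q :=
  ⟨d / c, by
    have : (c : ℂ) ≠ 0 := Int.cast_ne_zero.2 hc
    push_cast
    rw [eq_div_iff this, mul_comm, h]⟩

theorem fh_rat_even {a b N k k' : ℕ} (ha : 2 ≤ a) (hb : 2 ≤ b) (hN : N ≠ 0) {u : ℂ}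
    (hv : 4 * (a : ℂ) * b - u ^ 2 ≠ 0)
    (h1 : (N : ℂ) * (4 * a * b - u ^ 2) = k * ((a + b + u) * (1 + a * b - u)))
    (h2 : (N : ℂ) * (4 * a * b - u ^ 2) = k' * ((a + b - u) * (1 + a * b + u))) :
    ∃ q : ℚ, u = q := by
  have hN' : (N : ℂ) ≠ 0 := Nat.cast_ne_zero.2 hN
  have hk : k ≠ 0 := by
    rintro rfl
    exact mul_ne_zero hN' hv (by simpa using h1)
  have hk' : k' ≠ 0 := by
    rintro rfl
    exact mul_ne_zero hN' hv (by simpa using h2)
  have ha' : (2 : ℤ) ≤ a := by exact_mod_cast ha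
  have hb' : (2 : ℤ) ≤ b := by exact_mod_cast hb
  have hAD : ((a : ℤ) + b) * (1 + a * b) - 4 * a * b ≠ 0 := by
    have : (0 : ℤ) ≤ a * b := by positivity
    nlinarith
  have hΔ : ((N : ℤ) - k') * k + (N - k) * k' ≠ 0 := by
    intro h
    have h' : ((N : ℂ) - k') * k + (N - k) * k' = 0 := by exact_mod_cast h
    have h3 : (2 * k * k' * ((a + b) * (1 + a * b) - 4 * a * b) : ℂ) = 0 := by
      linear_combination (4 * a * b - u ^ 2) * h' - k' * h1 - k * h2
    have h4 : (2 * k * k' * ((a + b) * (1 + a * b) - 4 * a * b) : ℤ) = 0 := by exact_mod_cast h3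
    exact mul_ne_zero (by positivity) hAD h4
  refine fh_rat_of_mul_eq (c := (a - 1) * (b - 1) * ((N - k') * k + (N - k) * k'))
    (d := ((a + b) * (1 + a * b) - 4 * a * b) * ((N - k) * k' - (N - k') * k))
    (mul_ne_zero (mul_ne_zero (by omega) (by omega)) hΔ) ?_
  push_cast
  linear_combination (N - k) * h2 - (N - k') * h1

theorem fh_rat_odd {a N k : ℕ} (ha : 2 ≤ a) (hN : N ≠ 0) {u : ℂ}
    (hv : 4 * (a : ℂ) * a - u ^ 2 ≠ 0)
    (h1 : (N : ℂ) * (4 * a * a - u ^ 2) = k * ((a + a + u) * (1 + a * a - u))) :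
    ∃ q : ℚ, u = q := by
  have h2 : (a : ℂ) + a + u ≠ 0 := fun h => hv (by linear_combination (2 * a - u) * h)
  have h3 : (N : ℂ) * (2 * a - u) = k * (1 + a * a - u) :=
    mul_left_cancel₀ h2 (by linear_combination h1)
  refine fh_rat_of_mul_eq (c := k - N) (d := k * (1 + a * a) - 2 * a * N) ?_ ?_
  · intro h
    have h' : (k : ℂ) - N = 0 := by exact_mod_cast h
    have h4 : (N : ℂ) * (a - 1) ^ 2 = 0 := by linear_combination -h3 - (1 + a * a - u) * h'
    have h5 : (N : ℤ) * (a - 1) ^ 2 = 0 := by exact_mod_cast h4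
    exact mul_ne_zero (by exact_mod_cast hN) (pow_ne_zero _ (by omega)) h5
  · push_cast
    linear_combination h3

/-- The Feit-Higman theorem for finite (B,N)-pairs of rank two. -/
theorem feit_higman [Finite (G ⧸ P.B)] {s t : P.S} (hst : s ≠ t) (hall : ∀ k, k = s ∨ k = t) :
    orderOf (sW P s * sW P t) ∈ ({2, 3, 4, 6, 8} : Set ℕ) := by
  have := finite_W P
  have hst' : sW P s ≠ sW P t := fun e => hst (sW_injective P e)
  obtain ⟨m, hm⟩ : ∃ m, orderOf (sW P s * sW P t) = m := ⟨_, rfl⟩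
  have h2 : 2 ≤ m := hm ▸ (gen P).two_le_orderOf hst' (orderOf_pos _)
  rw [hm]
  simp only [Set.mem_insert_iff, Set.mem_singleton_iff]
  rcases h2.eq_or_lt with h2 | h3
  · exact Or.inl h2.symm
  set a := cellIdx P (sW P s) with ha
  set b := cellIdx P (sW P t) with hb
  have ha2 : 2 ≤ a := two_le_cellIdx P s
  have hb2 : 2 ≤ b := two_le_cellIdx P t
  have hN : Nat.card (G ⧸ P.B) ≠ 0 := Nat.card_pos.ne'
  have hζ := Complex.isPrimitiveRoot_exp m (by omega)
  generalize Complex.exp (2 * Real.pi * Complex.I / m) = ζ at hζ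
  have hζ0 : ζ ≠ 0 := hζ.ne_zero (by omega)
  have hab : (a : ℂ) * b ≠ 0 := by exact_mod_cast (by positivity : a * b ≠ 0)
  have hv : ∀ r z : ℂ, r ^ 2 = a * b → z ≠ 0 → z ^ 2 ≠ 1 →
      4 * (a : ℂ) * b - (r * (z + z⁻¹)) ^ 2 ≠ 0 := by
    intro r z hr hz0 hz2
    have : 4 * (a : ℂ) * b - (r * (z + z⁻¹)) ^ 2 = -(a * b) * ((z ^ 2 - 1) / z) ^ 2 := by
      rw [mul_pow, hr]; field_simp; ring
    rw [this]
    exact mul_ne_zero (neg_ne_zero.2 hab) (pow_ne_zero _ (div_ne_zero (sub_ne_zero.2 hz2) hz0))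
  have hζ2 : ζ ^ 2 ≠ 1 := fun h => by
    have := Nat.le_of_dvd (by norm_num) ((hζ.pow_eq_one_iff_dvd 2).1 h)
    omega
  rcases Nat.even_or_odd' m with ⟨n, hn | hn⟩
  · obtain ⟨r, hr⟩ : ∃ r : ℂ, r ^ 2 = a * b := IsAlgClosed.exists_pow_nat_eq _ (by norm_num)
    have hr0 : r ≠ 0 := by
      rintro rfl
      exact hab (by rw [← hr]; simp)
    have key : ∀ z : ℂ, z ^ m = 1 → z ^ 2 ≠ 1 → ∃ q : ℚ, r * (z + z⁻¹) = q := by
      intro z hz hz2
      have hz0 : z ≠ 0 := by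
        rintro rfl
        rw [zero_pow (by omega)] at hz
        exact zero_ne_one hz
      have hno : Odd m → (a : ℂ) = b ∧ r = a := fun h => absurd h (by rw [hn]; simp)
      obtain ⟨ρ, hρ⟩ := feit_higman_formula P hst hall hm h3 rfl rfl hr hno hz hz2
      obtain ⟨ρ', hρ'⟩ := feit_higman_formula P hst hall hm h3 rfl rfl hr hno (z := -z)
        (by rw [Even.neg_pow ⟨n, by omega⟩, hz]) (by rwa [neg_sq])
      refine fh_rat_even ha2 hb2 hN (k := ρ * m) (k' := ρ' * m) (hv r z hr hz0 hz2) ?_ ?_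
      · push_cast; exact hρ
      · push_cast
        rw [inv_neg] at hρ'
        linear_combination hρ'
    obtain ⟨q1, hq1⟩ := key ζ hζ.pow_eq_one hζ2
    have h4 : ζ ^ 2 + (ζ ^ 2)⁻¹ = ((q1 ^ 2 / (a * b) - 2 : ℚ) : ℂ) := by
      push_cast
      rw [← hq1, ← hr]
      field_simp
      ring
    have h5 := fh_pow_eq_one (z := ζ ^ 2) (by omega : 0 < m)
      (by rw [← pow_mul, mul_comm, pow_mul, hζ.pow_eq_one, one_pow]) ⟨_, h4⟩
    rw [← pow_mul, ← pow_mul, hζ.pow_eq_one_iff_dvd, hζ.pow_eq_one_iff_dvd] at h5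
    have h12 : m ≠ 12 := by
      rintro rfl
      have z4 : ζ ^ 4 ≠ 1 := fun h => by simpa using (hζ.pow_eq_one_iff_dvd 4).1 h
      have z6 : ζ ^ 6 ≠ 1 := fun h => by simpa using (hζ.pow_eq_one_iff_dvd 6).1 h
      have z2 : ζ ^ 2 + 1 ≠ 0 := fun h => z4 (by linear_combination (ζ ^ 2 - 1) * h)
      have h6 : ζ ^ 4 - ζ ^ 2 + 1 = 0 := by
        have : (ζ ^ 6 - 1) * ((ζ ^ 2 + 1) * (ζ ^ 4 - ζ ^ 2 + 1)) = 0 := by
          linear_combination hζ.pow_eq_one
        exact (mul_eq_zero.1 ((mul_eq_zero.1 this).resolve_left (sub_ne_zero.2 z6))).resolve_left z2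
      obtain ⟨q2, hq2⟩ := key (ζ ^ 2) (by rw [← pow_mul, mul_comm, pow_mul, hζ.pow_eq_one, one_pow])
        (by rwa [← pow_mul])
      have h7 : ζ ^ 2 + (ζ ^ 2)⁻¹ = 1 := by field_simp; linear_combination h6
      have h8 : (ζ + ζ⁻¹) ^ 2 = 3 := by field_simp; linear_combination h6
      rw [h7, mul_one] at hq2
      have h9 : ((q1 / q2 : ℚ) : ℂ) * (q1 / q2 : ℚ) = 3 := by
        push_cast
        rw [← hq1, ← hq2, ← h8]
        field_simp
      have h10 : IsSquare (3 : ℚ) := ⟨q1 / q2, by exact_mod_cast h9.symm⟩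
      exact absurd (Rat.isSquare_ofNat_iff.1 h10) Nat.prime_three.not_isSquare
    rcases h5 with h5 | h5 <;> have := Nat.le_of_dvd (by norm_num) h5 <;> interval_cases m <;> omega
  · have hab' : a = b := by
      have e1 := cellIdx_wp P ((exch P).red_alt hst' (Or.inr hm.ge))
      have e2 := cellIdx_wp P ((exch P).red_alt hst'.symm (k := m)
        (Or.inr (by rw [(gen P).orderOf_comm, hm])))
      rw [← hm, (gen P).wp_alt_orderOf, hm, e2, wp_alt_comm, wp_alt_comm, hn,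
        show (2 * n + 1 + 1) / 2 = n + 1 by omega, show (2 * n + 1) / 2 = n by omega, ← ha, ← hb,
        pow_succ, pow_succ] at e1
      have : a ^ n * b ^ n ≠ 0 := by positivity
      exact mul_left_cancel₀ this (by linear_combination -e1)
    obtain ⟨ρ, hρ⟩ := feit_higman_formula P hst hall hm h3 rfl rfl (r := a) (z := ζ)
      (by rw [← ha, ← hb, ← hab', pow_two]) (fun _ => ⟨by rw [← ha, ← hb, hab'], rfl⟩)
      hζ.pow_eq_one hζ2
    rw [← ha, ← hb, ← hab'] at hρ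
    have h4 := hv a ζ (by rw [← hab', pow_two]) hζ0 hζ2
    rw [← hab'] at h4
    obtain ⟨q, hq⟩ := fh_rat_odd ha2 hN (k := ρ * m) h4 (by push_cast; exact hρ)
    have h5 := fh_pow_eq_one (by omega : 0 < m) hζ.pow_eq_one ⟨q / a, by
      have : (a : ℂ) ≠ 0 := by exact_mod_cast (by omega : a ≠ 0)
      push_cast
      rw [← hq]; field_simp⟩
    rw [hζ.pow_eq_one_iff_dvd, hζ.pow_eq_one_iff_dvd] at h5
    rcases h5 with h5 | h5 <;> have := Nat.le_of_dvd (by norm_num) h5 <;> interval_cases m <;> omega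

end CL.BN
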