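/-
CHEV library: squares of semisimple classes in the large Ree groups `²F₄(q)`, `q > 2`.
-/
import Cfsg.Agent.CHEV.Gauss4
import Cfsg.Agent.CHEV.TwLiftL
import Cfsg.Agent.CHEV.Cent
import Cfsg.Agent.S2457
import Cfsg.Agent.S1072

set_option autoImplicit false
set_option maxHeartbeats 400000
set_option backward.isDefEq.respectTransparency false

namespace CL.Chev

open Cfsg.Lie StData StData.Twist

local notation "mm" => Subgroup.mul_mem _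
local notation "im" => Subgroup.inv_mem _

theorem exists_real_Sz {K : Type*} [Field K] [Fintype K] {m : ℕ} (hm : 1 ≤ m) (hK : Fintype.card K = 2 ^ (2 * m + 1)) :
    ∃ (y : Sz K (2 ^ (m + 1))) (n : ℕ), Odd n ∧ n.Coprime (Nat.card K - 1) ∧ y ^ n = 1 ∧
      ∀ g, ∃ u v, g = u * y * u⁻¹ * (v * y * v⁻¹) := by
  have := Sz.charP_two hK
  have := (Sz.lieModel hK).finite_G
  have := Fintype.ofFinite (Sz K (2 ^ (m + 1)))
  obtain ⟨P₁, N₁, P₂, N₂, S⟩ := (Sz.lieModel hK).exists_setup hm hK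
  obtain ⟨y, hy, h1⟩ := (Subgroup.bot_or_exists_ne_one P₁).resolve_left S.T₁.ne_bot
  refine ⟨y, _, S.T₁.odd, ?_, congrArg Subtype.val (pow_card_eq_one' (x := (⟨y, hy⟩ : P₁))), fun g => ?_⟩
  · rw [S.c₁, S.hq]
    obtain ⟨s, hs⟩ : ∃ s, 2 ^ m = s + 1 := ⟨2 ^ m - 1, by have := Nat.one_le_two_pow (n := m); omega⟩
    rw [hs, show 2 * (s + 1) ^ 2 - 1 = (2 * s + 4) * s + 1 from Nat.sub_eq_of_eq_add (by ring),
      show 2 * (s + 1) ^ 2 + 2 * (s + 1) + 1 = 2 * s + 4 + ((2 * s + 4) * s + 1) by ring]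
    simp
  by_cases hg : g = 1
  · obtain ⟨c, hc⟩ := isConj_iff.1 (S.T₁.isConj_inv (Sz.mem_conjSet_of_mem hy h1))
    exact ⟨1, c, by simp [hc, hg]⟩
  refine Cfsg.Agent.S2457.result m hm hK y ?_ g hg
  have h2 := Sz.odd_orderOf_of_mem S.T₁.odd hy
  have h3 := orderOf_eq_one_iff.not.2 h1
  obtain ⟨k, hk⟩ := h2
  omega

theorem sq_F4 {K : Type} [Field K] [Fintype K] {m : ℕ} (hm : 1 ≤ m) (hK : Fintype.card K = 2 ^ (2 * m + 1)) :
    ∃ x : twistedF4 K (2 ^ m), Odd (orderOf x) ∧ ∀ g : twistedF4 K (2 ^ m), g ≠ 1 →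
      ∃ u v, g = u * x * u⁻¹ * (v * x * v⁻¹) := by
  obtain ⟨T, θ, h, hL⟩ := isLie_2F4 (Nat.card_eq_fintype_card.trans hK)
  have : IsSimpleGroup (chevF4.genSubgroup K (f4Words K (2 ^ m))) := (Cfsg.Agent.S1072.result hm hK).1
  obtain ⟨Φ, -, e1⟩ := exists_sz_F4 h
  obtain ⟨y, n, h1, h2, h3, h4⟩ := exists_real_Sz hm hK
  obtain ⟨l, l0, l1⟩ := Sz.exists_ne_zero_one hm hK
  have := h.charP
  have hS := hL.good
  have hA := hL.adj
  have hM := hL.isTw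
  have := hS.finite hA hL.top
  have hF := h.Fix_le hS hA hL.top (stG_torHom_injective (by simp)) hM hL.gen
  have hΦ : ∀ g, Φ g ∈ (stG chevF4 K).XS ((rootSys chevF4).sub (T.J 1)) ⊓ T.Fix := fun g => e1 ▸ ⟨g, rfl⟩
  let f : Kˣ →* Kˣ := Units.map θ
  let τ : Kˣ →* (Fin 4 → Kˣ) := MonoidHom.mk' (fun l => ![f l ^ 2 * l⁻¹, f l, l, l ^ 2 * (f l ^ 2)⁻¹]) fun a b => by
    funext i; fin_cases i <;> simp [mul_pow] <;> ac_rfl
  have hτ : ∀ l, τ l ∈ T.Tσ := fun l => h.mem_Tσ.2 ⟨by simp [τ, f, h.θθ], rfl⟩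
  obtain ⟨z, hz⟩ : ∃ z : Kˣ →* chevF4.group K, ∀ l, z l = hS.tau hA (τ l) := ⟨(hS.tau hA).comp τ, fun _ => rfl⟩
  have zH : ∀ l, z l ∈ (stG chevF4 K).H := fun l => hz l ▸ hS.tau_mem hA _
  have zM : ∀ l, z l ∈ _ := fun l => hz l ▸ h.tau_mem hS hM hA hL.gen (hτ l)
  have zc : ∀ (l : Kˣ) r u, z l * (stG chevF4 K).x r u * (z l)⁻¹ = (stG chevF4 K).x r
      ((l : K) ^ (2 * wtv r (3 : Fin 4) + wtv r (2 : Fin 4) - wtv r (0 : Fin 4)) *
        θ l ^ (2 * wtv r (0 : Fin 4) + wtv r (1 : Fin 4) - 2 * wtv r (3 : Fin 4)) * u) := fun l r u => by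
    rw [hz]
    refine (hS.tau_conj hA _ r u).trans (congrArg (fun c => (stG chevF4 K).x r (c * u)) ((chr_matHom _ _).trans
      ((Fin.prod_univ_four _).trans ?_)))
    have := (map_ne_zero θ).2 l.ne_zero
    simp [wt_eq_wtv, τ, f, zpow_sub₀, zpow_add₀, this, zpow_mul, mul_zpow]; field_simp
  have chk : ∀ r : Rt chevF4, let a := 2 * wtv r (3 : Fin 4) + wtv r (2 : Fin 4) - wtv r (0 : Fin 4)
      let b := 2 * wtv r (0 : Fin 4) + wtv r (1 : Fin 4) - 2 * wtv r (3 : Fin 4)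
      if co r (0 : Fin 4) = 0 ∧ co r (3 : Fin 4) = 0 then a = 0 ∧ b = 0 else 2 * a ^ 2 - b ^ 2 ∣ 16 := by decide +kernel
  have sub : ∀ r : Rt chevF4, r ∈ (rootSys chevF4).sub (T.J 1) ↔ co r (0 : Fin 4) = 0 ∧ co r (3 : Fin 4) = 0 := fun r => by
    rw [h.J1]; exact ⟨fun e => ⟨e (0 : Fin 4) (by decide), e (3 : Fin 4) (by decide)⟩, fun e (i : Fin 4) hi => by
      fin_cases i <;> first | exact e.1 | exact e.2 | simp at hi⟩
  have zΦ : ∀ l g, Commute (z l) (Φ g) := fun l g => Subgroup.mem_centralizer_singleton_iff.1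
    ((stG chevF4 K).XS_le_iff.2 (fun r hr u => Subgroup.mem_centralizer_singleton_iff.2 (mul_inv_eq_iff_eq_mul.1 (by
      have := chk r
      simp only [if_pos ((sub r).1 hr)] at this
      rw [zc, this.1, this.2]; simp)).symm) (hΦ g).1) |>.symm
  let w := Units.mk0 l l0
  have h5 : (Φ y * z w) ^ n = z (w ^ n) := by rw [(zΦ _ _).symm.mul_pow, ← map_pow, h3, map_one, one_mul, map_pow]
  have h6 := hS.fpf_UJ (T.J 1) (zH (w ^ n)) (zc _) fun r hr => by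
    have := chk r
    simp only [if_neg ((sub r).not.1 hr)] at this
    refine zpow_mul_ne_one_of_tits h.θθ (Units.ne_zero _) (fun e => l1 (congrArg Units.val (show w = 1 from ?_))) this
    exact (pow_eq_one_iff_of_coprime h2).1 ⟨Units.ext e, Nat.card_units K ▸ pow_card_eq_one'⟩
  have h7 : ∀ g, Φ g ∈ (stG chevF4 K).LJ (T.J 1) := fun g => Subgroup.mem_sup_right (hΦ g).1
  have h8 := mm (h7 y) (Subgroup.mem_sup_left (zH w))
  have h9 : ∀ u, Φ u * (Φ y * z w) * (Φ u)⁻¹ = Φ (u * y * u⁻¹) * z w := fun u => by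
    simp only [map_mul, map_inv, mul_assoc, (zΦ w u).inv_right.eq]
  obtain ⟨x, hx⟩ := mm (hF (hΦ y).2) (zM w)
  refine ⟨x, Odd.of_dvd_nat (h1.mul ?_) (orderOf_dvd_of_pow_eq_one (n := n * (Nat.card K - 1)) (hL.inj ?_)),
    fun g hg => Sq.exists hL.inj ?_⟩
  · rw [h.card]; exact Nat.Even.sub_odd Nat.one_le_two_pow (by simp [Nat.even_pow]) odd_one
  · rw [map_pow, hx, pow_mul, h5, ← map_pow, ← Nat.card_units, pow_card_eq_one', map_one, map_one]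
  obtain ⟨v, hv, hv', h10⟩ := exists_gau hM hS (slOrb_two hS (R3_of_finite _) h.J0 (show (3 : Fin 4) ≠ 0 by decide)
    (h.A_eq 3 0) (h.π 3) (h.π 0) h.f03) (fun k hk => ((hM.H_inf hS hA (d := 0) (e := 1) (by decide) (fun _ => rfl)
      (fun z => h.eq_one) fun t => h.tau_mem hS hM hA hL.gen).le hk).imp fun t ht => ⟨ht.1, (hS.tau_eq hA _ t).symm.trans ht.2⟩)
    hg (hτ (w * w))
  obtain ⟨a, ha, b, hb, h11⟩ := hM.dec hS h10 1
  obtain ⟨a, rfl⟩ : a ∈ Φ.range := e1 ▸ ⟨XS_mono _ (fun _ h => h.2) ha.1, hM.le_fix ha.2⟩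
  obtain ⟨b, rfl⟩ : b ∈ Φ.range := e1 ▸ ⟨XS_mono _ (fun _ h => h.2) hb.1, hM.le_fix hb.2⟩
  obtain ⟨c, hc⟩ : (R3_of_finite (stG chevF4 K)).torHom v ∈ Φ.range := e1 ▸ ⟨R3.torHom_mem_XS _ fun (i : Fin 4) hi => hv' i
    fun h' => h' (by rw [h.J1] at hi; rw [h.J0]; clear h'; revert i; decide),
      hS.tau_eq hA _ v ▸ hM.le_fix (h.tau_mem hS hM hA hL.gen hv)⟩
  obtain ⟨u, u', e⟩ := h4 (a * c * b)
  rw [map_mul, ← hc, ← hS.tau_eq hA, ← hz, show Φ a * (Φ c * z (w * w)) * Φ b = Φ (a * c * b) * z (w * w) by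
    simp only [map_mul Φ, mul_assoc, (zΦ _ b).eq], e, map_mul Φ, map_mul z, show ∀ p q, Φ p * Φ q * (z w * z w) =
      Φ p * z w * (Φ q * z w) from fun p q => by simp only [mul_assoc, (zΦ w q).left_comm], ← h9, ← h9] at h11
  rw [hx]
  exact h11.sq (hx ▸ ⟨x, rfl⟩) ((Fpf.of_pow (h5 ▸ h6.2) (LJ_le_normalizer' _ h8)).conj (LJ_le_normalizer' _ (h7 u)))
    ((Fpf.of_pow (h5 ▸ h6.1) (LJ_le_normalizer _ h8)).conj (LJ_le_normalizer _ (h7 u'))) ⟨_, hF (hΦ u).2, rfl⟩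
    ⟨_, hF (hΦ u').2, rfl⟩

end CL.Chev
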