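/-
CHEV library: every non-trivial element of `G₂(4)` is a product of two conjugates of an element of order 15.
-/
import Cfsg.Agent.CHEV.Gauss5
import Cfsg.Agent.CHEV.CentChk

set_option autoImplicit false
set_option maxHeartbeats 400000
set_option backward.isDefEq.respectTransparency false

namespace CL.Chev

open Cfsg.Lie StData StData.Twist SL2Hom Rep2 Matrix
open scoped MatrixGroups

local notation "mm" => Subgroup.mul_mem _
local notation "im" => Subgroup.inv_mem _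

variable {F G : Type*} [Field F] [Group G]

theorem exists_two {ω : F} (h0 : ω ≠ 0) (h1 : ω ≠ 1) {p q p' q' : F} (h : p ≠ 0 ∨ q ≠ 0) (h' : p' ≠ 0 ∨ q' ≠ 0) :
    ∃ s, p + s * q ≠ 0 ∧ p' + s * q' ≠ 0 := by
  by_contra! H
  by_cases p + 0 * q = 0 <;> by_cases p + 1 * q = 0 <;> by_cases p + ω * q = 0 <;> have := H 0 <;> have := H 1 <;>
    have := H ω <;> grind

theorem exists_pair [CharP F 2] {ω : F} (hω : ω ^ 2 + ω + 1 = 0) (g : SL(2, F)) (p q p' q' : F) :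
    ∃ a b c d, ∃ _ : a * c + b * d = 1, a * (g 0 0 * c + g 0 1 * d) + b * (g 1 0 * c + g 1 1 * d) ≠ 0 ∧
      (1 + (p' * a + q' * b) * (p * c + q * d) + ω * (a * (g 0 0 * c + g 0 1 * d) + b * (g 1 0 * c + g 1 1 * d)) ≠ 0 ∨
        (p' * a + q' * b = 0 ∧ p * c + q * d = 0)) := by
  have hd := det_eq g
  have h2 : (2 : F) = 0 := CharTwo.two_eq_zero
  have h0 : ω ≠ 0 := by grind
  have h1 : ω ≠ 1 := by grind
  by_cases e1 : 1 + p' * p + ω * g 0 0 ≠ 0 ∨ q' * p + ω * g 1 0 ≠ 0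
  · obtain ⟨s, h3, h4⟩ := exists_two h0 h1 e1 (p' := g 0 0) (q' := g 1 0) (by grind)
    exact ⟨1, s, 1, 0, by ring, by grind, .inl (by grind)⟩
  by_cases e2 : 1 + q' * q + ω * g 1 1 ≠ 0 ∨ p' * q + ω * g 0 1 ≠ 0
  · obtain ⟨s, h3, h4⟩ := exists_two h0 h1 e2 (p' := g 1 1) (q' := g 0 1) (by grind)
    exact ⟨s, 1, 0, 1, by ring, by grind, .inl (by grind)⟩
  push Not at e1 e2
  have h5 : p' * p + q' * q = ω := by grind
  exact ⟨q', p', ω ^ 2 * q, ω ^ 2 * p, by grind, by grind, .inr (by grind)⟩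

section rep

variable {S : StData (rootSys chevG2) F G} {ρ : G →* Matrix (Fin 6) (Fin 6) F}
  (hρ : ∀ r t, ρ (S.x r t) = mat 6 (g2Tab r) t)
include hρ

theorem g2_act (r : Rt chevG2) (hr : 5 ≤ r.1) (t a b c : F) : ρ (S.x r t) *ᵥ ![a, b, c, 0, 0, 0] =
    if r.1 = 5 then ![a, b, c + t * b, 0, 0, 0] else if r.1 = 6 then ![a, b + t * c, c, 0, 0, 0] else
    if r.1 = 7 then ![a + t * b, b, c, 0, 0, 0] else if r.1 = 8 then ![a + t * c, b, c, 0, 0, 0] else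
    ![a, b, c, 0, 0, 0] := by
  change Fin 12 at r
  fin_cases r <;> first | exact absurd hr (by decide) | (rw [hρ]; ext i; rw [mat_mulVec]; fin_cases i <;> simp [g2Tab, g2L])

theorem g2_coord {ψ : SL(2, F) →* G} (hu : ∀ t, ψ (upper t) = S.x (sm (1 : Fin 2)) t)
    (hl : ∀ t, ψ (lower t) = S.x (ng (sm (1 : Fin 2))) t) {u : G} (h : u ∈ S.UJ {(1 : Fin 2)}) :
    ∃ p q, ∀ k r r', ∀ u' ∈ S.UJ {(0 : Fin 2)}, S.x (sm (1 : Fin 2)) r' * (ψ k * u * (ψ k)⁻¹) = S.x (sm (0 : Fin 2)) r * u' →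
      r = p * k⁻¹ 0 0 + q * k⁻¹ 1 0 := by
  have h0 : ∀ r : Rt chevG2, r.1 ∈ posL 12 → (r.1 = 6 ∧ co r (0 : Fin 2) = 0) ∨ (r.1 = 7 ∧ co r (1 : Fin 2) = 0) ∨
    r.1 = 8 ∨ 8 < r.1 := by decide +kernel
  have e0 : (sm (D := chevG2) (0 : Fin 2)).1 = 7 := by decide +kernel
  have e1 : (sm (D := chevG2) (1 : Fin 2)).1 = 6 := by decide +kernel
  have e2 : (ng (sm (D := chevG2) (1 : Fin 2))).1 = 5 := by decide +kernel
  have h1 : ∀ k a b c, ρ (ψ k) *ᵥ ![a, b, c, 0, 0, 0] = ![a, k 0 0 * b + k 0 1 * c, k 1 0 * b + k 1 1 * c, 0, 0, 0] :=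
    sl2_ind (fun t a b c => by simp [hu, g2_act hρ _ (e1 ▸ (by decide : 5 ≤ 6)), e1, coe_upper])
      (fun t a b c => by simp [hl, g2_act hρ _ e2.ge, e2, coe_lower, add_comm]) fun k k' h h' a b c => by
        rw [map_mul, map_mul, ← mulVec_mulVec, h', h]; simp only [SL2Hom.mul_apply']; congr 2 <;> [ring; congr 1]; ring
  have h2 : ∃ p q, ∀ a b c, ρ u *ᵥ ![a, b, c, 0, 0, 0] = ![a + (p * b + q * c), b, c, 0, 0, 0] := by
    induction h using StData.XS_induction with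
    | h1 => exact ⟨0, 0, by simp⟩
    | hs r hr t g _ ih =>
      obtain ⟨p, q, ih⟩ := ih
      have h0 := h0 r (isPos_iff_mem_posL.1 hr.1)
      simp only [map_mul, ← mulVec_mulVec, ih, g2_act hρ r (by omega)]
      rcases h0 with e | e | e | e
      · exact absurd (Fin.forall_fin_two.2 ⟨fun _ => e.2, fun h => absurd rfl h⟩) hr.2
      · exact ⟨p + t, q, fun a b c => by simp [e.1]; ring⟩
      · exact ⟨p, q + t, fun a b c => by simp [e]; ring⟩
      · exact ⟨p, q, fun a b c => by rw [if_neg, if_neg, if_neg, if_neg] <;> omega⟩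
  obtain ⟨p, q, h2⟩ := h2
  refine ⟨p, q, fun k r r' u' hu' e => ?_⟩
  have h3 : ρ u' *ᵥ ![0, 1, 0, 0, 0, 0] = ![0, 1, 0, 0, 0, 0] := by
    clear e
    induction hu' using StData.XS_induction with
    | h1 => simp
    | hs r hr t g _ ih =>
      have h0 := h0 r (isPos_iff_mem_posL.1 hr.1)
      rw [map_mul, ← mulVec_mulVec, ih, g2_act hρ r (by omega)]
      rcases h0 with e | e | e | e
      · simp [e.1]
      · exact absurd (Fin.forall_fin_two.2 ⟨fun h => absurd rfl h, fun _ => e.2⟩) hr.2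
      · simp [e]
      · rw [if_neg, if_neg, if_neg, if_neg] <;> omega
  have := congrArg (fun g => (ρ g *ᵥ ![0, 1, 0, 0, 0, 0]) 0) e
  simp only [map_mul ρ, ← map_inv ψ, ← mulVec_mulVec, h1, h2, h3, g2_act hρ _ (e0 ▸ (by decide : 5 ≤ 7)),
    g2_act hρ _ (e1 ▸ (by decide : 5 ≤ 6)), e0, e1] at this
  simpa using this.symm

end rep

theorem sq_G2_four' [Finite F] [CharP F 2] (hF : Nat.card F = 4) [IsSimpleGroup G] {S : StData (rootSys chevG2) F G}
    (hL : S.trivTw.IsLie (MonoidHom.id G)) {ρ : G →* Matrix (Fin 6) (Fin 6) F}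
    (hρ : ∀ r t, ρ (S.x r t) = mat 6 (g2Tab r) t) :
    ∃ x : G, ¬ 2 ∣ orderOf x ∧ ∀ g : G, g ≠ 1 → ∃ u v, g = u * x * u⁻¹ * (v * x * v⁻¹) := by
  obtain ⟨w, hw⟩ := exists_gen F
  have h2 : (2 : F) = 0 := CharTwo.two_eq_zero
  have c3 : ∀ t : Fˣ, t ^ 3 = 1 := fun t => by simpa [Nat.card_units, hF] using pow_card_eq_one' (x := t)
  have c3' : ∀ t : Fˣ, (t : F) ^ 3 = 1 := fun t => by rw [← Units.val_pow_eq_pow_val, c3, Units.val_one]
  have w1 : (w : F) ≠ 1 := fun e => by rw [Units.val_eq_one.1 e, orderOf_one, hF] at hw; omega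
  have hω : (w : F) ^ 2 + w + 1 = 0 := by have := c3' w; grind
  have c4 : ∀ t : F, t ≠ 0 → t = 1 ∨ t = w ∨ t = w ^ 2 := fun t ht => by have := c3' (Units.mk0 t ht); simp at this; grind
  have hA := hL.adj
  have := hL.good.finite hA hL.top
  have hM := hL.isTw
  have hS := hL.good
  have h3 := R3_of_finite S
  have m := fun g : G => (⟨g, rfl⟩ : g ∈ (MonoidHom.id (G)).range)
  obtain ⟨φ, hφ, au, al, -⟩ := (slOrb_triv hS h3 (0 : Fin 2)).exists_node hM hS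
  obtain ⟨ψ, hψ, bu, bl, bt⟩ := (slOrb_triv hS h3 (1 : Fin 2)).exists_node hM hS
  have ta : ∀ s, φ (dg s) = hS.tau hA (Pi.mulSingle (0 : Fin 2) s) := fun s => by
    rw [hS.tau_mulSingle, map_dg au al]; rfl
  have tb : ∀ s, ψ (dg s) = hS.tau hA (Pi.mulSingle (1 : Fin 2) s) := fun s => by
    rw [hS.tau_mulSingle, map_dg bu bl]; rfl
  have hc : ∀ (t : Fin 2 → Fˣ) r u, hS.tau hA t * S.x r u * (hS.tau hA t)⁻¹ =
      S.x r ((t 0 ^ wtv r (0 : Fin 2) * t 1 ^ wtv r (1 : Fin 2) : Fˣ) * u) := fun t r u => by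
    rw [hS.tau_conj, chr_matHom, wt_eq_wtv]; exact congrArg (fun c => S.x r (c * u)) ((Fin.prod_univ_two _).trans (by simp))
  have key : ∀ {χ : SL(2, F) →* G} {r r'} (t : Fin 2 → Fˣ), (∀ u, χ (upper u) = S.x r u) →
      (∀ u, χ (lower u) = S.x r' u) → (∀ s ∈ [r, r'], t 0 ^ wtv s (0 : Fin 2) * t 1 ^ wtv s (1 : Fin 2) = 1) →
      ∀ g, Commute (hS.tau hA t) (χ g) := fun t h1 h2 h3 => sl2_ind
    (fun u => mul_inv_eq_iff_eq_mul.1 (by rw [h1, hc, h3 _ (by simp)]; simp))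
    (fun u => mul_inv_eq_iff_eq_mul.1 (by rw [h2, hc, h3 _ (by simp)]; simp)) fun a b ha hb => by rw [map_mul]; exact ha.mul_right hb
  have z3 : ∀ (s : Fˣ) (n : ℤ), s ^ n = 1 ↔ s = 1 ∨ 3 ∣ n := fun s n => by
    rcases (Nat.dvd_prime Nat.prime_three).1 (orderOf_dvd_of_pow_eq_one (c3 s)) with e | e
    · simp [orderOf_eq_one_iff.1 e]
    · simp [← orderOf_dvd_iff_zpow_eq_one, e, show s ≠ 1 from fun h => by simp [h] at e]
  obtain ⟨z, hz⟩ : ∃ z : Fˣ →* G, ∀ s, z s = hS.tau hA ![s, s⁻¹] := ⟨MonoidHom.mk' (fun s => hS.tau hA ![s, s⁻¹])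
    fun s t => (congrArg (hS.tau hA) (by funext i; fin_cases i <;> simp [mul_comm])).trans (map_mul _ _ _), fun _ => rfl⟩
  have zH : ∀ s, z s ∈ S.H := fun s => hz s ▸ hS.tau_mem hA _
  have zz : ∀ (s : Fˣ) (r : Rt chevG2), ![s, s⁻¹] 0 ^ wtv r (0 : Fin 2) * ![s, s⁻¹] 1 ^ wtv r (1 : Fin 2) =
    s ^ (wtv r (0 : Fin 2) - wtv r (1 : Fin 2)) := fun s r => by simp [_root_.zpow_sub]
  have za : ∀ s g, Commute (z s) (φ g) := fun s => hz s ▸ key _ au al fun r hr => by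
    rw [zz, z3]; right; revert r; decide +kernel
  have zb : ∀ g, Commute (φ (dg w)) (ψ g) := ta w ▸ key _ bu bl fun r hr => by
    simp only [Pi.mulSingle_eq_same, Pi.mulSingle_eq_of_ne (show (1 : Fin 2) ≠ 0 by decide), _root_.one_zpow, mul_one, z3]
    right; revert r; decide +kernel
  have y5 : cp (w : F) ^ 5 = 1 := by
    ext i j; fin_cases i <;> fin_cases j <;> simp [cp, pow_succ, Matrix.mul_apply, Fin.sum_univ_two] <;> grind
  have z3' : ∀ s, z s ^ 3 = 1 := fun s => by rw [← map_pow, c3, map_one]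
  have good : ∀ (y : SL(2, F)) (s : Fˣ), y.1.trace = w → s = w ∨ s = w⁻¹ → CjM (MonoidHom.id _).range (φ (cp w) * z w) (φ y * z s) ∧
      Fpf (φ y * z s) (S.UJ {(0 : Fin 2)}) ∧ Fpf (φ y * z s) (S.opp.UJ {(0 : Fin 2)}) := by
    intro y s hy hs
    have h4 : ∀ y : SL(2, F), y.1.trace = w → ∃ k, φ k * (φ (cp w) * z s) * (φ k)⁻¹ = φ y * z s := fun y hy => by
      obtain ⟨k, rfl⟩ := exists_conj_of_trace (g := cp (w : F)) (g' := y) (by simp [cp, trace_fin_two])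
        (by simp [hy, cp, trace_fin_two])
      exact ⟨k, by rw [map_mul, map_mul, map_inv, mul_assoc, mul_assoc, (za s k).inv_right.eq]; group⟩
    obtain ⟨k, hk⟩ := h4 y hy
    have h5 : (φ (cp w) * z s) ^ 10 = z s := by
      rw [(za s _).symm.mul_pow, ← map_pow, show 10 = 5 * 2 from rfl, pow_mul, y5, show 5 * 2 = 3 * 3 + 1 from rfl, pow_succ (z s),
        pow_mul, z3']; simp
    have h6 := hS.fpf_UJ {(0 : Fin 2)} (zH s) (hz s ▸ hc _) fun r hr e => by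
      rw [zz, Units.val_eq_one, z3] at e
      have : ∀ r : Rt chevG2, 3 ∣ wtv r (0 : Fin 2) - wtv r (1 : Fin 2) → co r (1 : Fin 2) = 0 := by decide +kernel
      rcases e with e | e
      · rcases hs with rfl | rfl
        exacts [w1 (congrArg _ e), w1 (congrArg _ (inv_eq_one.1 e))]
      · exact hr (Fin.forall_fin_two.2 ⟨fun h => absurd rfl h, fun _ => this r e⟩)
    have h7 : φ (cp w) * z s ∈ S.LJ {(0 : Fin 2)} :=
      mm (hφ.mem _).1 (Subgroup.mem_sup_left (zH s))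
    refine ⟨?_, hk ▸ (Fpf.of_pow (h5.symm ▸ h6.1) (LJ_le_normalizer _ h7)).conj (LJ_le_normalizer _ (hφ.mem k).1),
      hk ▸ (Fpf.of_pow (h5.symm ▸ h6.2) (LJ_le_normalizer' _ h7)).conj (LJ_le_normalizer' _ (hφ.mem k).1)⟩
    refine CjM.trans ?_ ⟨_, m _, hk⟩
    rcases hs with rfl | rfl
    · exact .refl _ _
    obtain ⟨n, -, c, h8, h9⟩ := hφ.exists_inv hM hS hA w0_G2 (i := (0 : Fin 2)) rfl (e := RingHom.id F) au al
    obtain ⟨k, hk⟩ := h4 (dc c (cp w)) (by simp [coe_dc, cp, trace_fin_two])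
    exact CjM.trans ⟨n, m _, by rw [map_inv, ← h9 _ (zH w) (za w), ← h8]; group⟩ (CjM.symm ⟨_, m _, hk⟩)
  refine ⟨φ (cp w) * z w, fun h => ?_, fun g hg => Sq.exists (j := MonoidHom.id _) Function.injective_id ?_⟩
  · refine absurd (h.trans (orderOf_dvd_of_pow_eq_one (n := 5 * 3) ?_)) (by decide)
    rw [(za _ _).symm.mul_pow, ← map_pow, pow_mul, y5, mul_comm 5, pow_mul (z w), z3']; simp
  obtain ⟨v, hv, hv', h4⟩ := exists_gau hM hS (slOrb_triv hS h3 (0 : Fin 2)) (fun k hk => (hS.exists_tau hA hk.1).imp fun t h =>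
    ⟨(Twist.mem_Tσ _).2 fun _ => rfl, (hS.tau_eq hA h3 t).symm.trans h⟩) hg (z := Pi.mulSingle (0 : Fin 2) w) ((Twist.mem_Tσ _).2 fun _ => rfl)
  obtain ⟨t, ht⟩ := bt v hv fun i hi => hv' i fun h => hi (by revert i; exact Fin.forall_fin_two.2 ⟨fun _ h => absurd rfl h, fun _ _ => rfl⟩)
  rw [map_mul, ht, ← hS.tau_eq hA, ← ta] at h4
  obtain ⟨s, r, c, -, v, hv, u, hu, e⟩ := hψ.dec hM hS h4
  rw [← mul_assoc (ψ _), mul_assoc (ψ _ * ψ _), (zb _).eq, ← mul_assoc (ψ _ * ψ _), ← map_mul, ← map_mul] at e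
  generalize lower s * dg t * upper r = A at e
  obtain ⟨p, q, h5⟩ := g2_coord hρ bu bl hu.1
  obtain ⟨p', q', h6⟩ := g2_coord (tinv_opp hρ (by decide +kernel)) (ψ := ψ.comp ti)
    (fun t => (congrArg ψ (ti_upper t)).trans (bl _))
    (fun t => (congrArg ψ (ti_lower t)).trans ((bu _).trans (congrArg (fun r => S.x r (-t))
      ((rootSys chevG2).neg_neg _).symm))) (im hv.1)
  obtain ⟨a, b, c', d, h7, h8, h9⟩ := exists_pair hω A p q p' q'
  rw [← kk_conj _ _ _ _ h7] at h8 h9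
  obtain ⟨v', hv', u', hu', s, r, s', r', e1, e2, e3⟩ := hψ.switch hM hS hφ hv hu zb A _ h8
  have e4 := h5 (kk a b c' d h7) r r' u' hu'.1 (by rw [bu, au] at e2; exact e2)
  have e5 := h6 (ti (kk a b c' d h7)) s s' _ (im hv'.1) (by
    rw [MonoidHom.comp_apply, ti_ti]; rw [bl, al, ← StData.x_neg, ← StData.x_neg] at e1; exact e1)
  replace e4 : r = p * c' + q * d := by simpa [kk, adjugate_fin_two] using e4
  replace e5 : s = p' * a + q' * b := by simpa [kk, coe_ti, adjugate_fin_two] using e5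
  rw [← e4, ← e5] at h9
  replace h9 : 1 + s * r + w * (Units.mk0 _ h8 : Fˣ) ≠ 0 ∨ (s = 0 ∧ r = 0) := h9
  generalize Units.mk0 _ h8 = t at e3 h9
  have e6 : ψ (dg t) = φ (dg t) * z t⁻¹ := by
    rw [ta, tb, hz, ← map_mul]; exact congrArg (hS.tau hA) (by funext i; fin_cases i <;> simp)
  have e7 : φ (lower s) * (ψ (dg t) * φ (dg w)) * φ (upper r) = φ (lower s * dg (t * w) * upper r) * z t⁻¹ := by
    simp only [e6, dg_mul, map_mul, mul_assoc, (za _ _).eq, (za _ _).left_comm]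
  have e8 : ∃ y y' : SL(2, F), y.1.trace = w ∧ y'.1.trace = w ∧ lower s * dg (t * w) * upper r = y * y' := by
    by_cases h : (lower s * dg (t * w) * upper r).1.trace = 0
    · have := c3' (t * w)
      simp [trace_fin_two, coe_dg, coe_lower, coe_upper, Matrix.mul_apply] at h this
      field_simp at h
      obtain ⟨rfl, rfl⟩ := h9.resolve_left (by grind)
      refine ⟨cp w, (cp w)⁻¹, by simp [cp, trace_fin_two], by simp [cp, trace_fin_two, adjugate_fin_two], ?_⟩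
      rw [show t * w = 1 from Units.ext (by push_cast; grind), dg_one, mul_inv_cancel]
      ext i j; fin_cases i <;> fin_cases j <;> simp [coe_upper, coe_lower]
    · obtain ⟨y, h1, h2⟩ : ∃ y : SL(2, F), y.1.trace = w ∧ (cp (w : F) * y).1.trace = (lower s * dg (t * w) * upper r).1.trace := by
        rcases c4 _ h with e | e | e <;> rw [e]
        exacts [⟨⟨!![w, w; w ^ 2, 0], by rw [det_fin_two_of]; grind⟩, by simp [trace_fin_two], by
            simp [cp, trace_fin_two, Matrix.mul_apply]; grind⟩,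
          ⟨⟨!![0, w; w ^ 2, w], by rw [det_fin_two_of]; grind⟩, by simp [trace_fin_two], by
            simp [cp, trace_fin_two, Matrix.mul_apply]; grind⟩,
          ⟨cp w, by simp [cp, trace_fin_two], by simp [cp, trace_fin_two, Matrix.mul_apply]; grind⟩]
      obtain ⟨k, hk⟩ := exists_conj_of_trace (h2 ▸ h) h2.symm
      exact ⟨k * cp (w : F) * k⁻¹, k * y * k⁻¹, by rw [SL2Hom.trace_conj]; simp [cp, trace_fin_two], by rw [SL2Hom.trace_conj, h1],
        by rw [← hk]; group⟩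
  obtain ⟨y, y', h10, h11, e8⟩ := e8
  obtain ⟨s₁, s₂, h12, h13, e9⟩ : ∃ s₁ s₂, (s₁ = w ∨ s₁ = w⁻¹) ∧ (s₂ = w ∨ s₂ = w⁻¹) ∧ t⁻¹ = s₁ * s₂ := by
    rcases c4 _ t⁻¹.ne_zero with e | e | e
    exacts [⟨_, _, .inl rfl, .inr rfl, Units.ext (by simpa using e)⟩, ⟨_, _, .inr rfl, .inr rfl, Units.ext (by
      rw [e]; push_cast; field_simp; exact c3' w)⟩, ⟨_, _, .inl rfl, .inl rfl, Units.ext (by rw [e, sq]; rfl)⟩]
  rw [e7, e8, e9, map_mul, map_mul, show φ y * φ y' * (z s₁ * z s₂) = φ y * z s₁ * (φ y' * z s₂) by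
    simp only [mul_assoc, (za s₁ y').left_comm], ← e] at e3
  exact Dec.sq (a := (0 : Fin 2)) (T := S.trivTw) ⟨ψ (kk a b c' d h7) * c, m _, v', hv', u', hu', by rw [← e3]; group⟩ (m _)
    (good y s₁ h10 h12).2.2 (good y' s₂ h11 h13).2.1 (good y s₁ h10 h12).1 (good y' s₂ h11 h13).1

theorem sq_G2_four [Finite F] [CharP F 2] (hF : Nat.card F = 4) :
    ∃ x : chevG2.group F, ¬ 2 ∣ orderOf x ∧ ∀ g : chevG2.group F, g ≠ 1 → ∃ u v, g = u * x * u⁻¹ * (v * x * v⁻¹) := by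
  obtain ⟨w, hw⟩ := exists_gen F
  have w1 : ∃ a : F, a ≠ 0 ∧ a ≠ 1 := ⟨w, w.ne_zero, fun e => by rw [Units.val_eq_one.1 e, orderOf_one, hF] at hw; omega⟩
  have := isSimpleGroup_group (D := chevG2) (F := F) (by simp) fun _ => w1
  obtain ⟨ρ, -, hρ⟩ := exists_rep_g2 w1
  exact sq_G2_four' hF (isLie_chev F chevG2) hρ

end CL.Chev
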