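import Cfsg.Agent.CHEV.MinDeg7

/-!
# Minimal degrees, part 8: the triality groups
-/

set_option autoImplicit false

open Module CL.MD

namespace CL.Chev

theorem exists_norm_three {K : Type*} [Field K] [Finite K] {q : ℕ} (hq : 2 ≤ q) (hK : Nat.card K = q ^ 3) {u : K}
    (h0 : u ≠ 0) (hu : u ^ q = u) : ∃ t : K, t * t ^ q * (t ^ q) ^ q = u := by
  obtain ⟨g, hg⟩ := IsCyclic.exists_generator (α := Kˣ)
  obtain ⟨k, hk⟩ := mem_powers_iff_mem_zpowers.2 (hg (Units.mk0 u h0))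
  obtain ⟨r, rfl⟩ := Nat.exists_eq_add_of_le' (show 1 ≤ q by omega)
  have h1 : orderOf g = r * ((r + 1) ^ 2 + (r + 1) + 1) := by
    rw [orderOf_eq_card_of_forall_mem_zpowers hg, Nat.card_units, hK]
    exact Nat.sub_eq_of_eq_add (by ring)
  have h2 : (g : K) ^ k = u := by simpa using congrArg Units.val hk
  have h3 : g ^ (r * k) = 1 := Units.ext (by
    rw [mul_comm, pow_mul, Units.val_pow_eq_pow_val, Units.val_pow_eq_pow_val, h2]
    exact mul_right_cancel₀ h0 (by rw [← pow_succ, hu]; simp))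
  have h4 := orderOf_dvd_of_pow_eq_one h3
  rw [h1] at h4
  obtain ⟨l, rfl⟩ := Nat.dvd_of_mul_dvd_mul_left (by omega) h4
  exact ⟨g ^ l, by rw [← h2]; ring⟩

namespace StData.Twist

variable {ι K Γ G : Type*} {R : RootSys ι (Fin 4)} [Finite ι] [Field K] [Group Γ] [Group G] {S : StData R K Γ}
  {j : G →* Γ} {T : S.Twist (Fin 2)} {q : ℕ} (hD : T.IsD4 q) (h : T.MD j (T.f 0) 3 q) {θ : ι} (t : T.Top θ 1)
include hD h t

theorem IsD4.cubic : R.pair θ (T.w 0 (R.simple 1)) = 1 ∧ R.pair (R.simple 1) (T.w 0 (R.simple 1)) = -1 ∧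
    ∃ ε : K, ε ≠ 0 ∧ ∀ a b c u, ∃ y ∈ S.XS {β | 1 ≤ R.pair θ β ∧ 0 ≤ R.pair (R.simple 1) β ∧ β ≠ R.simple 1},
      S.x (R.simple 0) a * S.x (R.simple 2) b * S.x (R.simple 3) c * S.x (R.simple 1) u *
        (S.x (R.simple 0) a * S.x (R.simple 2) b * S.x (R.simple 3) c)⁻¹ =
        S.x (R.simple 1) u * y * S.x (T.w 0 (R.simple 1)) (ε * (a * b * c) * u) := by
  have hl := h.long
  have hA : ∀ i k, R.pair (R.simple i) (R.simple k) = !![2, -1, 0, 0; -1, 2, -1, -1; 0, -1, 2, 0; 0, -1, 0, 2] i k :=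
    fun i k => by rw [R.pair_simple, R.wt_simple, hD.A_eq]
  have hθ : ∀ i, R.pair θ (R.simple i) = if i = 1 then 1 else 0 := fun i => by rw [h.symm, R.pair_simple, t.wt]
  have p1 : R.pair (R.simple 3) (R.simple 1) = -1 := hA _ _
  have e1 := RootSys.rt_refl_of_neg_one p1
  have p2 : R.pair (R.simple 2) (R.refl (R.simple 3) (R.simple 1)) = -1 := by rw [R.pair_of_add e1, hA, hA]; rfl
  have e2 := RootSys.rt_refl_of_neg_one p2
  have p3 : R.pair (R.simple 0) (R.refl (R.simple 2) (R.refl (R.simple 3) (R.simple 1))) = -1 := by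
    rw [R.pair_of_add e2, R.pair_of_add e1, hA, hA, hA]; rfl
  have e3 : R.rt (T.w 0 (R.simple 1)) =
      R.rt (R.simple 0) + R.rt (R.refl (R.simple 2) (R.refl (R.simple 3) (R.simple 1))) := by
    obtain ⟨J, h1, -, h2⟩ := h.ht_w 0 (R.simple 1)
    obtain rfl : J = {0, 2, 3} := Finset.ext fun i => by rw [h1, hD.J0]; simp
    rw [h2, e2, e1, Finset.sum_insert (by decide), Finset.sum_pair (by decide)]
    simp only [R.wt_simple, hD.A_eq]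
    simp; abel
  refine ⟨by rw [R.pair_of_add e3, R.pair_of_add e2, R.pair_of_add e1, hθ, hθ, hθ, hθ]; rfl,
    by rw [R.pair_of_add e3, R.pair_of_add e2, R.pair_of_add e1, hA, hA, hA, hA]; rfl, ?_⟩
  obtain ⟨ε₁, h1, c1⟩ := h.good.A2_conj ((hl _).a2P (hl _) p1 e1)
  obtain ⟨ε₂, h2, c2⟩ := h.good.A2_conj ((hl _).a2P (hl _) p2 e2)
  obtain ⟨ε₃, h3, c3⟩ := h.good.A2_conj ((hl _).a2P (hl _) p3 e3)
  refine ⟨ε₁ * ε₂ * ε₃, by rcases h1 with rfl | rfl <;> rcases h2 with rfl | rfl <;> rcases h3 with rfl | rfl <;> simp,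
    fun a b c u => ?_⟩
  let C : ℤ → Set ι := fun n => {β | 1 ≤ R.pair θ β ∧ n ≤ R.pair (R.simple 1) β ∧ β ≠ R.simple 1}
  have h4 : ∀ i, R.pair (R.simple 1) (R.simple i) = -1 → ∀ n s, 1 ≤ R.pair θ s → n + 1 ≤ R.pair (R.simple 1) s →
      s ≠ R.neg (R.simple i) ∧ ∀ k, R.IsComb (R.simple i) s k → k ∈ C n := fun i hi n s h5 h6 => by
    have h7 := h.pos_of_pair t (show 0 < R.pair θ s by omega)
    have h8 := (R.nilp_pos fun _ => id).ne_neg (R.isPos_simple i) h7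
    refine ⟨h8, fun k hk => ?_⟩
    have h9 := R.pair_of_add (RootSys.comb_add hl hk h8).1
    have := h.pair_nonneg t (R.isPos_simple i)
    exact ⟨by rw [h9]; omega, by rw [h9]; omega, hk.ne_simple (R.isPos_simple i) h7 _⟩
  have h5 := fun i hi => h4 i hi 1 _ (h.pair_θ_a t).ge (by rw [R.pair_self]; rfl)
  obtain ⟨y₁, hy₁, d1⟩ := S.exists_conj_eq (h5 2 (hA _ _)).1 (h5 2 (hA _ _)).2 b u
  obtain ⟨y₂, hy₂, d2⟩ := S.exists_conj_eq (h5 0 (hA _ _)).1 (h5 0 (hA _ _)).2 a u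
  have hC : C 1 ⊆ C 0 := fun s hs => ⟨hs.1, by have := hs.2.1; omega, hs.2.2⟩
  have h6 : ∀ y ∈ S.XS (C 1), S.x (R.simple 0) a * y * (S.x (R.simple 0) a)⁻¹ ∈ S.XS (C 0) := fun y =>
    S.conj_mem_XS_of_forall fun s hs v => by
      obtain ⟨y', h7, h8⟩ := S.exists_conj_eq (h4 0 (hA _ _) 0 s hs.1 hs.2.1).1 (h4 0 (hA _ _) 0 s hs.1 hs.2.1).2 a v
      rw [h8]; exact mul_mem (S.x_mem_XS (hC hs) v) h7
  have m1 := (h5 3 (hA _ _)).2 _ (RootSys.isComb_of_add e1)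
  have m2 := (h4 2 (hA _ _) 0 _ m1.1 m1.2.1).2 _ (RootSys.isComb_of_add e2)
  refine ⟨y₂ * (S.x (R.simple 0) a * (y₁ * S.x _ (ε₁ * c * u)) * (S.x (R.simple 0) a)⁻¹) *
    S.x _ (ε₂ * b * (ε₁ * c * u)), mul_mem (mul_mem (S.XS_mono hC hy₂) (h6 _ (mul_mem hy₁ (S.x_mem_XS m1 _))))
    (S.x_mem_XS m2 _), ?_⟩
  have e : ∀ g x y : Γ, g * (x * y) * g⁻¹ = g * x * g⁻¹ * (g * y * g⁻¹) := fun g x y => by group
  have e' : ∀ a b c x : Γ, a * b * c * x * (a * b * c)⁻¹ = a * (b * (c * x * c⁻¹) * b⁻¹) * a⁻¹ := fun _ _ _ _ => by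
    group
  rw [e', c1, e (S.x _ b), d1, c2, ← mul_assoc (_ * y₁), e (S.x _ a), c3, mul_assoc _ y₁, e (S.x _ a), d2,
    show ε₃ * a * (ε₂ * b * (ε₁ * c * u)) = ε₁ * ε₂ * ε₃ * (a * b * c) * u by ring]
  simp only [mul_assoc]

variable {V : Type*} [AddCommGroup V] [Module ℂ V] {ρ : Representation ℂ G V} [Finite K] [Finite G]
  [FiniteDimensional ℂ V]

theorem IsD4.exists_vec {χ : G → ℂ} (hχ : Ch (S.Yg j {R.simple 1}) χ) (hN : finrank ℂ (S.Ln j ρ (R.simple 1) χ) = 1)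
    (h1 : S.Yg j {β | 1 ≤ R.pair θ β ∧ 0 ≤ R.pair (R.simple 1) β ∧ β ≠ R.simple 1} ≤
      Fxr ρ (S.Ln j ρ (R.simple 1) χ)) : ∃ χ', Ch (S.Yg j {R.simple 1}) χ' ∧ ∃ v ≠ 0,
      v ∈ Eig ρ (S.Yg j {R.simple 1}) χ' ∧ v ∈ Fx ρ (S.Yg j {T.w 0 (R.simple 1)}) ∧ v ∈ Fx ρ (S.Yg j {θ}) := by
  obtain ⟨p1, p2, ε, hε, hc⟩ := hD.cubic h t
  have ha := MD.fix_simple.2 t.fix₀
  have hw := T.w_mem_W1 0
  have hβ := (MD.fix_iff hw).2 ha
  set β := T.w 0 (R.simple 1) with hβ'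
  have mθ : θ ∈ {β | 1 ≤ R.pair θ β ∧ 0 ≤ R.pair (R.simple 1) β ∧ β ≠ R.simple 1} :=
    ⟨by rw [R.pair_self]; omega, by rw [h.pair_a_θ t]; omega, h.θ_ne t⟩
  have h2 : ∀ r, 1 ≤ R.pair θ r → ∀ s, 1 ≤ R.pair θ s → s ≠ R.neg r ∧ ∀ k, R.IsComb r s k →
      k ∈ {β | 1 ≤ R.pair θ β ∧ 0 ≤ R.pair (R.simple 1) β ∧ β ≠ R.simple 1} := fun r hr s hs =>
    ⟨(h.comb_θ hr hs).1, fun k hk => (h.comb_θ hr hs).2 k hk ▸ mθ⟩
  have e1 := h.pair_θ_a t
  obtain ⟨⟨v, hv⟩, h0⟩ := (finrank_eq_one_iff'.1 hN).imp fun _ => And.left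
  replace h0 : v ≠ 0 := fun e => h0 (Subtype.ext e)
  have hvθ : v ∈ Fx ρ (S.Yg j {θ}) := le_Fx.2 ((Yg_mono (by simpa using mθ)).trans h1) hv
  rcases exists_le_Eig hN (crit (B := {β}) (fun s hs => And.intro (h.one_le_of_Lam t hs) ⟨by rw [hs.2]; omega, by
      rintro rfl
      have := hs.2
      rw [R.pair_self] at this; omega⟩) h1 (by rintro _ rfl s hs; exact h2 _ p1.ge s hs.1)
      (fun s hs => h2 _ e1.ge s hs.1) (by rintro _ rfl; exact h2 _ p1.ge _ e1.ge)) with h3 | ⟨χ', hχ', h3⟩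
  · exact ⟨χ, hχ, v, h0, hv.1, h3 hv, hvθ⟩
  have hJ : ∀ s ∈ T.pos 0, ∃ i, i ≠ 1 ∧ s = R.simple i := fun s hs => by
    rw [T.pos_eq_orth (h.orth 0), hD.J0] at hs
    obtain ⟨i, hi, rfl⟩ := hs
    exact ⟨i, by rintro rfl; simp at hi, rfl⟩
  have hθ0 : ∀ s ∈ T.pos 0, R.pair θ s = 0 := fun s hs => by
    obtain ⟨i, hi, rfl⟩ := hJ s hs
    rw [h.symm, R.pair_simple, t.wt, if_neg hi]
  -- the action of `Y (pos 0)` on the character of `X_a`
  have h4 : ∀ s : K, ∃ y ∈ S.Yg j (T.pos 0), ∀ z u, j z = S.x (R.simple 1) u → ∃ z', j z' =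
      S.x β (ε * (s * s ^ q * (s ^ q) ^ q) * u) ∧ ρ z (ρ y⁻¹ v) = (χ z * χ' z') • ρ y⁻¹ v := fun s => by
    have h5 := (hD.mem_pos_zero h.good).2 ⟨s, rfl⟩
    obtain ⟨y, hy⟩ := h.lift (T.pw_pos fun _ hr => hr.1) h5.1 h5.2
    refine ⟨y, by rw [mem_Yg, hy]; exact h5.1, fun z u hz => ?_⟩
    obtain ⟨c, h6, h7⟩ := hc s (s ^ q) ((s ^ q) ^ q) u
    rw [← hy, ← hz] at h7
    have hz' : z ∈ S.Yg j {R.simple 1} := by rw [mem_Yg, hz]; exact S.x_mem_X _ _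
    obtain ⟨c', h8, z', h9, h10⟩ := h.factor (B := {β}) (y := z⁻¹ * (y * z * y⁻¹))
      (T.pw_pos (by
        rintro r (hr | rfl)
        exacts [h.pos_of_pair t (by have := hr.1; omega), h.pos_of_pair t (by omega)]))
      (fun r hr s hs k hk => Or.inl ((h2 r (hr.elim (·.1) fun e => e ▸ p1.ge) s (hs.elim (·.1) fun e => e ▸ p1.ge)).2 k hk))
      (fun r hr s hs => (h2 r hr.1 s hs.1).2) (R.closed_singleton _)
      (fun r hr => ⟨by rw [h.pair_fix t.fix]; exact hr.1, by rw [h.pair_fix ha]; exact hr.2.1,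
        fun e => hr.2.2 (T.ρ.injective (e.trans ha.symm))⟩) (St.single hβ)
      (Set.disjoint_singleton_right.2 fun e => by have := e.2.1; omega) (by
        rw [mem_Yg, map_mul, map_mul, map_mul, map_inv, map_inv, h7, mul_assoc (j z), inv_mul_cancel_left]
        exact mul_mem (S.XS_mono Set.subset_union_left h6) (S.x_mem_XS (Or.inr rfl) _))
    refine ⟨z', ?_, ?_⟩
    · have := congrArg j h10
      rw [map_mul, map_mul, map_mul, map_inv, map_inv, h7, mul_assoc (j z), inv_mul_cancel_left, map_mul] at this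
      exact (eq_and_eq_of_mul_eq (h.inf_eq_bot (T.pw_pos (by
        rintro r (hr | rfl)
        exacts [h.pos_of_pair t (by have := hr.1; omega), h.pos_of_pair t (by omega)]))
        (fun r hr s hs => (h2 r hr.1 s hs.1).2) (R.closed_singleton _)
        (Set.disjoint_singleton_right.2 fun e => by have := e.2.1; omega)) h6 h8 (S.x_mem_X _ _) h9 this).2.symm
    · have : z * y⁻¹ = y⁻¹ * (z * (c' * z')) := by rw [← h10]; group
      rw [← apply_mul, this, apply_mul, apply_mul, apply_mul, h3 hv z' h9, map_smul, h1 h8 v hv, map_smul,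
        hv.1 z hz', smul_smul, map_smul, mul_comm]
  obtain ⟨β', h5, h6⟩ := h.exists_adj t ha
  obtain ⟨za, a1, -, a3, -⟩ := h.param ha h5 h6
  obtain ⟨c, hc0, hσ⟩ := h.par hβ
  obtain ⟨y₁, -, h7⟩ := h4 1
  -- choose the norm
  have hx : ∀ z ∈ S.Yg j {R.simple 1}, ∃ u, T.f 0 u = u ∧ j z = S.x (R.simple 1) u := fun z hz => by
    obtain ⟨u, hu⟩ := S.mem_X_iff.1 hz
    refine ⟨u, ?_, hu⟩
    simpa using h.fix_div (c := 1) one_ne_zero (fun s => by rw [one_mul, one_mul, T.map_pos, t.fix₀, h.f_eq]) hu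
  have hl : ∀ u : (T.f 0).eqLocusField (RingHom.id K), ∃ z, j z = S.x (R.simple 1) u := fun u =>
    h.lift (h.pw_fix ha) (S.x_mem_X _ _) (by rw [T.mem_Fix, T.map_pos, t.fix₀, h.f_eq, show T.f 0 u = u from u.2])
  choose z hz using hl
  choose z' hz' _ using fun u => h7 (z u) u (hz u)
  simp only [one_pow, mul_one] at hz'
  have m1 : ∀ u, z u ∈ S.Yg j {R.simple 1} := fun u => by rw [mem_Yg, hz]; exact S.x_mem_X _ _
  have m2 : ∀ u, z' u ∈ S.Yg j {β} := fun u => by rw [mem_Yg, hz']; exact S.x_mem_X _ _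
  have a4 : ∀ u u', z (u + u') = z u * z u' := fun u u' => h.inj (by rw [map_mul, hz, hz, hz, ← S.x_add]; rfl)
  have a5 : ∀ u u', z' (u + u') = z' u * z' u' := fun u u' => h.inj (by
    rw [map_mul, hz', hz', hz', ← S.x_add, ← mul_add]; rfl)
  have a6 : z 0 = 1 := h.inj (by rw [hz, map_one]; exact S.x_zero _)
  have a7 : z' 0 = 1 := h.inj (by rw [hz', map_one]; simp [S.x_zero])
  let ψ : AddChar ((T.f 0).eqLocusField (RingHom.id K)) ℂ :=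
    { toFun := fun u => χ' (z' u)
      map_zero_eq_one' := by rw [a7, hχ'.one]
      map_add_eq_mul' := fun u u' => by rw [a5, hχ'.mul _ (m2 u) _ (m2 u')] }
  have hψ : ψ ≠ 1 := fun e => by
    obtain ⟨g, hg, h8⟩ := hχ'.ne
    obtain ⟨u, hu⟩ := S.mem_X_iff.1 hg
    have h9 := h.fix_div hc0 hσ hu
    have h10 := h.fix_div hc0 hσ (hz' 1)
    have h11 : T.f 0 (u / ε) = u / ε := by
      rw [show u / ε = u / c / (ε * (1 : (T.f 0).eqLocusField (RingHom.id K)) / c) by simp; field_simp,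
        map_div₀, h9, h10]
    refine h8 ?_
    rw [show g = z' ⟨_, h11⟩ from h.inj (by rw [hz', hu, mul_div_cancel₀ _ hε])]
    exact DFunLike.congr_fun e _
  obtain ⟨e, he⟩ := CL.LS.exists_mul hψ (fun u => χ (z (-u))) (by rw [neg_zero, a6, hχ.one])
    fun u u' => by rw [neg_add, a4, hχ.mul _ (m1 _) _ (m1 _)]
  have hinv : ∀ u, χ (z u) * χ (z (-u)) = 1 := fun u => by
    rw [← hχ.mul _ (m1 _) _ (m1 _), ← a4, add_neg_cancel, a6, hχ.one]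
  have hz'' : ∀ g ∈ S.Yg j {R.simple 1}, ∃ u, g = z u := fun g hg => by
    obtain ⟨u, h8, h9⟩ := hx g hg
    exact ⟨⟨u, h8⟩, h.inj (by rw [hz, h9])⟩
  have he0 : (e : K) ≠ 0 := fun e0 => by
    obtain ⟨g, hg, h8⟩ := hχ.ne
    obtain ⟨u, rfl⟩ := hz'' g hg
    have := he (-u)
    rw [neg_neg, show e = 0 from Subtype.ext e0, mul_zero, ψ.map_zero_eq_one] at this
    exact h8 this
  obtain ⟨s, hs⟩ := exists_norm_three hD.two_le hD.card he0 (by rw [← hD.f 0]; exact e.2)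
  obtain ⟨y, hy, h8⟩ := h4 s
  have h9 : ρ y⁻¹ v ∈ Fx ρ (S.Yg j {R.simple 1}) := mem_Fx.2 fun g hg => by
    obtain ⟨u, rfl⟩ := hz'' g hg
    obtain ⟨g', h10, h11⟩ := h8 _ _ (hz u)
    rw [h11, show g' = z' (u * e) from h.inj (by rw [h10, hz', hs]; congr 1; push_cast; ring),
      show χ' (z' (u * e)) = _ from (he u).symm, hinv, one_smul]
  have h10 : ρ y⁻¹ v ∈ Eig ρ (S.Yg j {β}) χ' := Stb.mem (h.le_Stb_Eig (fun s hs => by
    have := T.w_mem_ngt.2 hs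
    rw [hβ', ← T.w_w 0 s, RootSys.W_pair hw.1]
    obtain ⟨i, hi, e⟩ := hJ _ (T.neg_mem_ngt.1 (by rwa [R.neg_neg]))
    rw [← R.neg_neg (T.w 0 s), e, R.pair_neg_right, R.pair_simple, R.wt_simple]
    have := R.A_nonpos hi.symm; omega) χ' (inv_mem hy)) (h3 hv)
  have h11 : ρ y⁻¹ v ∈ Fx ρ (S.Yg j {θ}) := Stb.mem (h.le_Stb_Eig (fun s hs => (hθ0 s hs).ge) 1 (inv_mem hy)) hvθ
  obtain ⟨n, hn⟩ := h.exists_n hw
  have c1 : ∀ g ∈ S.Yg j {R.simple 1}, n⁻¹ * g * n ∈ S.Yg j {β} := fun g => hn.inv_conj_Yg (by simp [T.w_inv, hβ'])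
  refine ⟨_, hχ'.conj c1 fun g => hn.conj_Yg (by simp [hβ', T.w_w]), ρ n (ρ y⁻¹ v), fun e => h0 ?_,
    map_mem_Eig c1 h10, map_mem_Fx (fun g => hn.inv_conj_Yg (by simp [T.w_inv, hβ', T.w_w])) h9,
    map_mem_Fx (fun g => hn.inv_conj_Yg ?_) h11⟩
  · exact CL.LS.injective_rep ρ _ ((CL.LS.injective_rep ρ _ (e.trans (map_zero _).symm)).trans (map_zero _).symm)
  · rintro _ rfl
    rw [T.w_inv]
    exact MD.fix_θ (R.WJ_mono (fun i hi => by
      change R.wt _ i = 0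
      rw [← R.pair_simple, h.symm]; exact hθ0 _ (T.simple_mem_pos hi)) (T.w_mem_WJ 0))

theorem IsD4.main [IsSimpleGroup G] (hρ : ρ.IsIrreducible) (h2 : 2 ≤ finrank ℂ V)
    (hn : ∀ i, T.π i = i → (R.Lam (R.simple i)).ncard = 4)
    (t1 : ∀ β, T.ρ β = β → R.pair θ β = 1 → R.pair (R.simple 1) β ≠ 0)
    {L : Finset ι} (hL : ∀ α, α ∈ L ↔ T.ρ α = α) :
    2 * ((q - 1) * (q + 1) * q ^ 4) ≤ q * finrank ℂ V ∨
      (q - 1) * (q ^ 4 + q ^ 3 + 1) ≤ finrank ℂ V ∧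
        finrank ℂ V ∣ (∑ α ∈ L, q ^ R.nn α) * (q * ((q - 1) * q ^ 4)) := by
  refine (h.big_or_line t hρ h2 hn).imp_right fun ⟨h3, h4⟩ => ⟨?_, ?_⟩
  · have ha := MD.fix_simple.2 t.fix₀
    obtain ⟨p1, p2, -⟩ := hD.cubic h t
    have hβ := (MD.fix_iff (T.w_mem_W1 0)).2 ha
    obtain ⟨χ, hχ⟩ := h.exists_ch t ha
    obtain ⟨χ₁, c1, v, h0, h5, h6, h7⟩ := hD.exists_vec h t hχ (h4 _ t.fix₀ χ hχ)
      (h.step1 t (h4 _ t.fix₀ χ hχ) fun β h5 h6 h7 => absurd h7 (t1 β h5 h6))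
    set β := T.w 0 (R.simple 1)
    obtain ⟨χ₂, c2⟩ := h.exists_ch t hβ
    obtain ⟨χ₃, c3⟩ := h.exists_ch t t.fix
    have e1 := h.dimdec_top t (ρ := ρ) t.fix c3
    have e2 := h.dimdec t (ρ := ρ) hβ (N := Fx ρ (S.Yg j {θ}))
      (h.le_Stb_Eig (by rintro _ rfl; omega) 1) (fun g hg => tor_mem_Stb hg _) c2
    have p3 : R.pair β θ = 1 := by rw [h.symm, p1]
    have e3 := h.heisY (ρ := ρ) hβ (h.pw_fix t.fix) (St.single t.fix) (by simpa using p3)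
      (by simpa [h.cls_fix t.fix] using h.iso_cls hβ p3) c2 le_rfl (h.le_Stb_Eig (by rintro _ rfl; omega) χ₂)
      (h.le_Stb_Eig (by rintro _ ⟨_, rfl, rfl⟩; rw [RootSys.pair_star_self p3]; omega) χ₂)
    have h8 : ∀ r ∈ ({β, θ} : Set ι), 1 ≤ R.pair θ r := by
      rintro _ (rfl | rfl)
      exacts [p1.ge, by rw [R.pair_self]; omega]
    have h9 : ∀ r, 1 ≤ R.pair θ r → ∀ s ∈ ({β, θ} : Set ι), s ≠ R.neg r ∧ ∀ k, R.IsComb r s k →
        k ∈ ({β, θ} : Set ι) := fun r hr s hs =>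
      ⟨(h.comb_θ hr (h8 s hs)).1, fun k hk => Or.inr ((h.comb_θ hr (h8 s hs)).2 k hk)⟩
    have e4 := h.dimdec t (ρ := ρ) ha (N := Fx ρ (S.Yg j {β, θ}))
      (fun y hy => mem_Stb_Fx fun u => norm_Yg (by rintro _ rfl; exact h9 _ (h.pair_θ_a t).ge) hy)
      (fun g hg => tor_mem_Stb hg _) c1
    have e5 : 1 ≤ finrank ℂ (Fx ρ (S.Yg j {β, θ}) ⊓ Eig ρ (S.Yg j {R.simple 1}) χ₁ : Submodule ℂ V) := by
      refine Nat.one_le_iff_ne_zero.2 fun e => h0 ((Submodule.eq_bot_iff _).1 (Submodule.finrank_eq_zero.1 e) v ⟨?_, h5⟩)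
      change v ∈ Fx ρ _
      rw [← Submodule.span_singleton_le_iff_mem, le_Fx] at h6 h7 ⊢
      refine h.Yg_le (T.pw_pos fun r hr => h.pos_of_pair t (by have := h8 r hr; omega))
        (fun r hr s hs => (h9 r (h8 r hr) s hs).2) ((St.single hβ).union (St.single t.fix)) ?_
      rintro _ (rfl | rfl)
      exacts [h.cls_fix hβ ▸ h6, h.cls_fix t.fix ▸ h7]
    have e6 : finrank ℂ (Fx ρ (S.Yg j {β, θ})) ≤
        finrank ℂ (Fx ρ (S.Yg j {θ}) ⊓ Fx ρ (S.Yg j {β}) : Submodule ℂ V) :=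
      Submodule.finrank_mono (le_inf (Fx_mono (Yg_mono (by simp))) (Fx_mono (Yg_mono (by simp))))
    rw [h3 _ hβ _ c2, Set.ncard_singleton, pow_one, pow_succ', inf_comm] at e3
    rw [h3 _ t.fix _ c3] at e1
    rw [← Nat.eq_of_mul_eq_mul_left (by have := h.two_le; omega) e3] at e2
    have := Nat.mul_le_mul_left (q - 1) e5
    rw [mul_add, mul_add]; omega
  · obtain ⟨χ, hχ⟩ := h.exists_ch t t.fix
    have := h.dvd_main t (ρ := ρ) hL hχ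
    rwa [h3 _ t.fix χ hχ] at this

end StData.Twist

end CL.Chev
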