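/-
CHEV library: dimension counting for eigenspaces of one-parameter subgroups in complex representations
(splitting, Heisenberg translation, fixed points of a torus).
-/
import Cfsg.Agent.KSG.MinD1

set_option autoImplicit false

namespace CL.MinG

open CL.MinD Module LinearMap

variable {G V : Type*} [Group G] [AddCommGroup V] [Module ℂ V] [FiniteDimensional ℂ V]

omit [FiniteDimensional ℂ V] in
theorem exists_proj (N : Submodule ℂ V) : ∃ E : End ℂ V, (∀ v, E v ∈ N) ∧ ∀ v ∈ N, E v = v := by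
  obtain ⟨M, hM⟩ := N.exists_isCompl
  exact ⟨N.subtype ∘ₗ N.projectionOnto M hM, fun v => (N.projectionOnto M hM v).2, fun v hv => by
    simpa using congrArg Subtype.val (Submodule.projectionOnto_apply_left hM ⟨v, hv⟩)⟩

theorem trace_eq {g : End ℂ V} {N : Submodule ℂ V} {c : ℂ} (h1 : ∀ v, g v ∈ N) (h2 : ∀ v ∈ N, g v = c • v) :
    trace ℂ V g = c * finrank ℂ N := by
  obtain ⟨E, e1, e2⟩ := exists_proj N
  have a1 : g = E * g := LinearMap.ext fun v => (e2 _ (h1 v)).symm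
  have a2 : g * E = c • E := LinearMap.ext fun v => h2 _ (e1 v)
  rw [a1, trace_mul_comm, a2, map_smul, smul_eq_mul, LinearMap.IsProj.trace ⟨e1, e2⟩]

variable {ρ : G →* End ℂ V}

theorem finrank_le_of_map {N N' : Submodule ℂ V} (g : G) (h : ∀ v ∈ N, ρ g v ∈ N') : finrank ℂ N ≤ finrank ℂ N' := by
  rw [← finrank_map (ρ := ρ) g N]
  exact Submodule.finrank_mono (by rintro _ ⟨v, hv, rfl⟩; exact h v hv)

variable {F : Type*} [Field F] [Fintype F] {ψ : AddChar F ℂ}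

theorem cardF_ne_zero : (Fintype.card F : ℂ) ≠ 0 := Nat.cast_ne_zero.2 Fintype.card_ne_zero

/-- splitting an invariant subspace into eigenspaces -/
theorem split (hψ : ψ ≠ 1) {z : F → G} (hz : ∀ t u, z (t + u) = z t * z u) {N : Submodule ℂ V}
    (hN : ∀ t, ∀ v ∈ N, ρ (z t) v ∈ N) : finrank ℂ N = ∑ l, finrank ℂ ↥(N ⊓ Eig ρ ψ z l) := by
  classical
  have hz0 : z 0 = 1 := by simpa using hz 0 0
  obtain ⟨E, e1, e2⟩ := exists_proj N
  have a1 : ∀ l, trace ℂ V (pj ρ ψ z l * E) = Fintype.card F * finrank ℂ ↥(N ⊓ Eig ρ ψ z l) := fun l =>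
    trace_eq (fun v => ⟨pj_mem fun t => hN t _ (e1 v), pj_mem_Eig hz l _⟩) fun v hv => by
      rw [End.mul_apply, e2 v hv.1, pj_of_Eig hψ hv.2, if_pos rfl]
  have a2 : trace ℂ V (∑ l, pj ρ ψ z l * E) = Fintype.card F * finrank ℂ N :=
    trace_eq (fun v => by
      rw [LinearMap.sum_apply]; exact N.sum_mem fun l _ => pj_mem fun t => hN t _ (e1 v)) fun v hv => by
      simp only [LinearMap.sum_apply, End.mul_apply, e2 v hv, sum_pj hψ hz0]
  rw [map_sum, Finset.sum_congr rfl fun l _ => a1 l, ← Finset.mul_sum] at a2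
  exact_mod_cast (mul_left_cancel₀ cardF_ne_zero a2).symm

/-- fixed points of a group normalising the one-parameter subgroup -/
theorem split_fix (hψ : ψ ≠ 1) [DecidableEq F] {z : F → G} (hz : ∀ t u, z (t + u) = z t * z u) {A : Type*} [Group A]
    [Finite A] {τ : A →* G} {α : A →* Fˣ} (hτ : ∀ a t, τ a * z t * (τ a)⁻¹ = z (α a * t)) {S : Subgroup A}
    {N : Submodule ℂ V} (hN : ∀ t, ∀ v ∈ N, ρ (z t) v ∈ N) (hS : ∀ a ∈ S, ∀ v ∈ N, ρ (τ a) v ∈ N) :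
    Nat.card S * finrank ℂ ↥(N ⊓ Fx (ρ.comp τ) S) = Nat.card S * finrank ℂ ↥(N ⊓ Eig ρ ψ z 0 ⊓ Fx (ρ.comp τ) S) +
      Nat.card ↥(S ⊓ α.ker) * ∑ l ∈ Finset.univ.erase 0, finrank ℂ ↥(N ⊓ Eig ρ ψ z l ⊓ Fx (ρ.comp τ) (S ⊓ α.ker)) := by
  classical
  have hz0 : z 0 = 1 := by simpa using hz 0 0
  obtain ⟨E, e1, e2⟩ := exists_proj N
  have hP : ∀ l v, pj ρ ψ z l (E v) ∈ N ⊓ Eig ρ ψ z l := fun l v =>
    ⟨pj_mem fun t => hN t _ (e1 v), pj_mem_Eig hz l _⟩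
  have hE : ∀ a l, ∀ v ∈ Eig ρ ψ z l, ρ (τ a) v ∈ Eig ρ ψ z (l * (α a⁻¹ : Fˣ)) := fun a l v hv =>
    app_mem_Eig (c := ((α a⁻¹ : Fˣ) : F)) (fun t => by simpa using hτ a⁻¹ t) rfl hv
  have a0 : ∀ (K : Subgroup A) (l : F), K ≤ S → (∀ a ∈ K, l * (α a⁻¹ : Fˣ) = l) →
      trace ℂ V (sm (ρ.comp τ) K * pj ρ ψ z l * E) =
      (Nat.card K * Fintype.card F) * finrank ℂ ↥(N ⊓ Eig ρ ψ z l ⊓ Fx (ρ.comp τ) K) := fun K l hK hl =>
    trace_eq (fun v => ⟨sm_mem fun a ha => ⟨hS a (hK ha) _ (hP l v).1, by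
      have := hE a l _ (hP l v).2
      rwa [hl a ha] at this⟩, sm_mem_Fx _ _⟩) fun v hv => by
      rw [End.mul_apply, End.mul_apply, e2 v hv.1.1, pj_of_Eig hψ hv.1.2, if_pos rfl, map_smul, sm_of_mem_Fx hv.2,
        smul_smul, mul_comm]
  have a1 : ∀ l, l ≠ 0 → trace ℂ V (sm (ρ.comp τ) S * pj ρ ψ z l * E) =
      trace ℂ V (sm (ρ.comp τ) (S ⊓ α.ker) * pj ρ ψ z l * E) := fun l hl => by
    let _ := Fintype.ofFinite A
    simp only [sm_eq, Finset.sum_mul, map_sum]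
    rw [← Finset.sum_subtype (Finset.univ.filter (· ∈ S)) (by simp)
        fun a => trace ℂ V ((ρ.comp τ) a * pj ρ ψ z l * E),
      ← Finset.sum_subtype (Finset.univ.filter (· ∈ S ⊓ α.ker)) (by simp)
        fun a => trace ℂ V ((ρ.comp τ) a * pj ρ ψ z l * E)]
    refine (Finset.sum_subset (fun a ha => by simp_all) fun a ha ha' => ?_).symm
    have h1 : a ∈ S := by simpa using ha
    have h2 : α a ≠ 1 := fun h => ha' (by simp [h1, h])
    have h3 : l * (α a⁻¹ : Fˣ) ≠ l := fun h => h2 (by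
      rw [mul_right_eq_self₀, or_iff_left hl, Units.val_eq_one, map_inv, inv_eq_one] at h
      exact h)
    rw [trace_eq (g := (ρ.comp τ) a * pj ρ ψ z l * E) (N := N ⊓ Eig ρ ψ z (l * (α a⁻¹ : Fˣ))) (c := 0)
      (fun v => ⟨hS a h1 _ (hP l v).1, hE a l _ (hP l v).2⟩) fun v hv => by rw [End.mul_apply, End.mul_apply, e2 v hv.1, pj_of_Eig hψ hv.2, if_neg h3, map_zero, zero_smul],
      zero_mul]
  have a2 : trace ℂ V (∑ l, sm (ρ.comp τ) S * pj ρ ψ z l * E) =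
      (Nat.card S * Fintype.card F) * finrank ℂ ↥(N ⊓ Fx (ρ.comp τ) S) :=
    trace_eq (fun v => by
      rw [LinearMap.sum_apply]
      exact Submodule.sum_mem _ fun l _ => ⟨sm_mem fun a ha => hS a ha _ (hP l v).1, sm_mem_Fx _ _⟩) fun v hv => by
      simp only [LinearMap.sum_apply, End.mul_apply, e2 v hv.1]
      rw [← map_sum, sum_pj hψ hz0, map_smul, sm_of_mem_Fx hv.2, smul_smul, mul_comm]
  rw [map_sum, ← Finset.add_sum_erase _ _ (Finset.mem_univ 0), a0 S 0 le_rfl (by simp),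
    Finset.sum_congr rfl fun l hl => (a1 l (Finset.ne_of_mem_erase hl)).trans (a0 _ l inf_le_left fun a ha => by
      rw [map_inv, MonoidHom.mem_ker.1 ha.2]; simp), ← Finset.mul_sum] at a2
  refine Nat.cast_injective (R := ℂ) (mul_left_cancel₀ (cardF_ne_zero (F := F)) ?_)
  push_cast
  linear_combination -a2

theorem card_eq_mul {A B : Type*} [Group A] [Group B] (α : A →* B) (S : Subgroup A) :
    Nat.card S = Nat.card (S.map α) * Nat.card ↥(S ⊓ α.ker) := by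
  rw [← Subgroup.index_mul_card (α.ker.subgroupOf S), ← Subgroup.inf_subgroupOf_left,
    Nat.card_congr (Subgroup.subgroupOfEquivOfLe inf_le_left).toEquiv, Subgroup.inf_subgroupOf_left,
    ← MonoidHom.ker_domRestrict, Subgroup.index_ker, MonoidHom.domRestrict_range]

/-- the case where the group is commutative and acts transitively on the nontrivial characters -/
theorem split_fix' (hψ : ψ ≠ 1) {z : F → G} (hz : ∀ t u, z (t + u) = z t * z u) {A : Type*} [CommGroup A]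
    [Finite A] {τ : A →* G} {α : A →* Fˣ} (hτ : ∀ a t, τ a * z t * (τ a)⁻¹ = z (α a * t)) {S : Subgroup A}
    {N : Submodule ℂ V} (hN : ∀ t, ∀ v ∈ N, ρ (z t) v ∈ N) (hS : ∀ a ∈ S, ∀ v ∈ N, ρ (τ a) v ∈ N)
    (hs : ∀ c, ∃ a ∈ S, α a = c) {l : F} (hl : l ≠ 0) :
    finrank ℂ ↥(N ⊓ Fx (ρ.comp τ) S) = finrank ℂ ↥(N ⊓ Eig ρ ψ z 0 ⊓ Fx (ρ.comp τ) S) +
      finrank ℂ ↥(N ⊓ Eig ρ ψ z l ⊓ Fx (ρ.comp τ) (S ⊓ α.ker)) := by
  classical
  have h := split_fix hψ hz hτ hN hS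
  have hle : ∀ l l' : F, l ≠ 0 → l' ≠ 0 → finrank ℂ ↥(N ⊓ Eig ρ ψ z l ⊓ Fx (ρ.comp τ) (S ⊓ α.ker)) ≤
      finrank ℂ ↥(N ⊓ Eig ρ ψ z l' ⊓ Fx (ρ.comp τ) (S ⊓ α.ker)) := fun l l' h1 h2 => by
    obtain ⟨a, ha, e⟩ := hs (Units.mk0 (l / l') (div_ne_zero h1 h2))
    refine finrank_le_of_map (τ a) fun v hv => ⟨⟨hS a ha v hv.1.1,
      app_mem_Eig (c := ((α a⁻¹ : Fˣ) : F)) (fun t => by simpa using hτ a⁻¹ t) ?_ hv.1.2⟩,
      app_mem_Fx (ρ := ρ.comp τ) (g := a) (fun x hx => by rwa [mul_comm a⁻¹, inv_mul_cancel_right]) hv.2⟩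
    rw [map_inv, e]
    simp only [Units.val_inv_eq_inv_val, Units.val_mk0]
    field_simp
  have hm : S.map α = ⊤ := eq_top_iff.2 fun c _ => hs c
  rw [Finset.sum_congr rfl fun l' hl' => le_antisymm (hle l' l (Finset.ne_of_mem_erase hl') hl)
    (hle l l' hl (Finset.ne_of_mem_erase hl')), Finset.sum_const, smul_eq_mul, Finset.card_erase_of_mem (Finset.mem_univ _),
    Finset.card_univ, ← mul_assoc, mul_comm _ (_ - 1), ← Fintype.card_units, ← Nat.card_eq_fintype_card,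
    ← Subgroup.card_top (G := Fˣ), ← hm, ← card_eq_mul, ← mul_add] at h
  exact Nat.eq_of_mul_eq_mul_left Nat.card_pos h

end CL.MinG
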