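/-
CHEV library: explicit relations in `G₂(F)`, the subgroup `SL₃(F)` of long root elements and the torus.
-/
import Cfsg.Agent.CHEV.TwG2
import Cfsg.Agent.KSG.ShortSt

set_option autoImplicit false

namespace CL.MinG

open CL.Chev Cfsg.Lie Matrix.SpecialLinearGroup
open scoped commutatorElement

variable {F : Type*} [Field F]

/-- root elements of `G₂`; `6 = b` (long), `7 = a` (short), `8 = a+b`, `9 = 2a+b`, `10 = 3a+b`, `11 = 3a+2b` -/
def X (r : Fin 12) (t : F) : chevG2.group F := (stG chevG2 F).x (rG2 r) t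

theorem X_add (r : Fin 12) (t u : F) : X r (t + u) = X r t * X r u := StData.x_add _ _ t u

theorem X_zero (r : Fin 12) : X r (0 : F) = 1 := by simpa using X_add r (0 : F) 0

theorem X_neg (r : Fin 12) (t : F) : X r (-t) = (X r t)⁻¹ := by
  rw [eq_inv_iff_mul_eq_one, ← X_add, neg_add_cancel, X_zero]

theorem X_ne_one (r : Fin 12) : X r (1 : F) ≠ 1 := fun h => one_ne_zero (stG_good.x_inj _ _ h)

/-- the terms of the commutator formula -/
def fc (r s : Fin 12) : List (Fin 12 × ℤ × ℕ × ℕ) :=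
  ((Good.C chevG2).fct 12 r s).map fun c => (Fin.ofNat 12 c.1, c.2)

set_option backward.isDefEq.respectTransparency false in
theorem fc_lt : ∀ r s : Fin 12, ∀ c ∈ (Good.C chevG2).fct 12 r s, c.1 < 12 := by decide +kernel

set_option backward.isDefEq.respectTransparency false in
theorem ng_G2 : ∀ r s : Fin 12, s.val + r.val ≠ 11 → rG2 s ≠ ng (rG2 r) := by decide +kernel

/-- the commutator -/
def cp (r s : Fin 12) (t u : F) : chevG2.group F :=
  ((fc r s).map fun c => X c.1 ((c.2.1 : F) * (-t) ^ c.2.2.1 * u ^ c.2.2.2)).prod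

theorem rel {r s : Fin 12} (h1 : s ≠ r) (h2 : s.val + r.val ≠ 11) (t u : F) :
    X s u * X r t = X r t * X s u * cp r s t u := by
  refine (stG_exact (rG2 r) (rG2 s) h1 (ng_G2 r s h2) t u).trans ?_
  rw [cprod_eq_fct, cp, fc, List.map_map]
  congr 2
  refine List.map_congr_left fun c hc => ?_
  have h := fc_lt r s c hc
  have e : c.1 = (Fin.ofNat 12 c.1 : Fin 12) := (Nat.mod_eq_of_lt h).symm
  exact (congrArg (xN (stG chevG2 F).x · _) e).trans (xN_rG2 _ _)

theorem rel1 {r s k : Fin 12} {e : ℤ} (t u : F)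
    (h : s ≠ r ∧ s.val + r.val ≠ 11 ∧ fc r s = [(k, e, 1, 1)] := by decide +kernel) :
    X s u * X r t = X r t * X s u * X k (-(e * t * u)) := by
  rw [rel h.1 h.2.1, cp, h.2.2]
  simp

theorem rel0 {r s : Fin 12} (t u : F) (h : s = r ∨ s.val + r.val ≠ 11 ∧ fc r s = []) :
    X s u * X r t = X r t * X s u := by
  by_cases e : s = r
  · rw [e, ← X_add, ← X_add, add_comm]
  · rw [rel e (h.resolve_left e).1, cp, (h.resolve_left e).2]
    simp

/-- `g` permutes the root subgroups -/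
def Act (g : chevG2.group F) (w : Fin 12 → Fin 12) (c : Fin 12 → F) : Prop :=
  (∀ r, c r ≠ 0) ∧ ∀ r t, g * X r t * g⁻¹ = X (w r) (c r * t)

theorem Act.inv_conj {g : chevG2.group F} {w : Fin 12 → Fin 12} {c : Fin 12 → F} (h : Act g w c) (r : Fin 12) (t : F) :
    g⁻¹ * X (w r) t * g = X r ((c r)⁻¹ * t) := by
  have := h.2 r ((c r)⁻¹ * t)
  rw [mul_inv_cancel_left₀ (h.1 r)] at this
  rw [← this]; group

theorem eq_of_conj {g g' : chevG2.group F} (h : ∀ r t, g * X r t * g⁻¹ = g' * X r t * g'⁻¹) : g = g' := by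
  have := stG_good.eq_one_of_comm stG_adjoint (g := g'⁻¹ * g) (stG_top (D := chevG2) (F := F) ▸ Subgroup.mem_top _)
    fun r t => by
      have h' : g * (stG chevG2 F).x r t * g⁻¹ = g' * (stG chevG2 F).x r t * g'⁻¹ := h r t
      calc _ = g'⁻¹ * (g * (stG chevG2 F).x r t * g⁻¹) * g := by group
        _ = _ := by rw [h']; group
  exact (inv_mul_eq_one.1 this).symm

def wa : Fin 12 → Fin 12 := ![0, 5, 3, 2, 7, 1, 10, 4, 9, 8, 6, 11]
def wb : Fin 12 → Fin 12 := ![1, 0, 2, 4, 3, 6, 5, 8, 7, 9, 11, 10]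

set_option backward.isDefEq.respectTransparency false in
theorem σ_G2 : ∀ (i : Fin 2) (r : Fin 12), (rootSys chevG2).σ i (rG2 r) = rG2 (![wa, wb] i r) := by decide +kernel

theorem exists_act (i : Fin 2) : ∃ (g : chevG2.group F) (c : Fin 12 → F), Act g (![wa, wb] i) c :=
  ⟨(stG chevG2 F).n ((rootSys chevG2).simple i) 1, fun r => (rootSys chevG2).η i (rG2 r), fun r => by
    rcases (rootSys chevG2).η_pm i (rG2 r) with h | h <;> simp [h], fun r t => by
    have := (stG chevG2 F).n_conj_simple i (rG2 r) one_ne_zero t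
    rwa [one_zpow, mul_one, σ_G2] at this⟩

def e1 : Fin 12 → ℤ := ![-2, -1, -1, -1, 0, -1, 1, 0, 1, 1, 1, 2]
def e2 : Fin 12 → ℤ := ![-1, -2, -1, 0, -1, 1, -1, 1, 0, 1, 2, 1]

set_option backward.isDefEq.respectTransparency false in
theorem pair_G2 : ∀ r : Fin 12, (rootSys chevG2).pair (rG2 6) (rG2 r) = e1 r - e2 r ∧
    (rootSys chevG2).pair (rG2 10) (rG2 r) = e2 r := by decide +kernel

/-- the character of the torus given by a root -/
def ch (r : Fin 12) : Fˣ × Fˣ →* Fˣ where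
  toFun a := a.1 ^ e1 r * a.2 ^ e2 r
  map_one' := by simp
  map_mul' a b := by simp only [Prod.fst_mul, Prod.snd_mul, mul_zpow]; exact mul_mul_mul_comm _ _ _ _

theorem ch_apply (r : Fin 12) (a : Fˣ × Fˣ) : ch r a = a.1 ^ e1 r * a.2 ^ e2 r := rfl

/-- the long roots -/
def lr : Fin 3 → Fin 3 → Fin 12 := ![![0, 6, 11], ![5, 0, 10], ![0, 1, 0]]

theorem lr_comm : ∀ i j k l : Fin 3, i ≠ j → k ≠ l → i ≠ l → j ≠ k →
    lr i j = lr k l ∨ (lr i j).val + (lr k l).val ≠ 11 ∧ fc (lr k l) (lr i j) = [] := by decide +kernel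

theorem lr_fc : ∀ i j l : Fin 3, i ≠ j → j ≠ l → i ≠ l →
    lr i j ≠ lr j l ∧ (lr i j).val + (lr j l).val ≠ 11 ∧ fc (lr j l) (lr i j) = [(lr i l, -1, 1, 1)] := by
  decide +kernel

theorem exists_hom [Finite F] : ∃ φ : Matrix.SpecialLinearGroup (Fin 3) F →* chevG2.group F,
    ∀ i j (h : i ≠ j) t, φ (transvection h t) = X (lr i j) t :=
  Cl.exists_hom_SL le_rfl (fun i j => X (lr i j)) (fun _ _ _ => X_add _)
    (fun i j k l h1 h2 h3 h4 s t => rel0 t s (lr_comm i j k l h1 h2 h3 h4)) fun i j l h1 h2 h3 s t => by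
    rw [commutatorElement_def, rel1 t s (lr_fc i j l h1 h2 h3), mul_assoc (X _ t),
      rel0 (r := lr i l) _ s (lr_comm i j i l h1 h3 h3 h1.symm), ← mul_assoc,
      rel0 (r := lr i l) _ t (lr_comm j l i l h2 h3 h2 h3.symm)]
    simp [mul_comm]

/-- diagonal matrices of determinant one -/
def dg0 (a : Fˣ × Fˣ) : Matrix.SpecialLinearGroup (Fin 3) F :=
  ⟨!![a.1, 0, 0; 0, a.2, 0; 0, 0, ((a.1 : F) * a.2)⁻¹], by simp [Matrix.det_fin_three]; field_simp⟩

theorem dg0_coe (a : Fˣ × Fˣ) : (dg0 a).1 = !![(a.1 : F), 0, 0; 0, a.2, 0; 0, 0, ((a.1 : F) * a.2)⁻¹] := rfl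

def dg : Fˣ × Fˣ →* Matrix.SpecialLinearGroup (Fin 3) F := MonoidHom.mk' dg0 fun a b => Subtype.ext (by
    simp only [Matrix.SpecialLinearGroup.coe_mul, dg0_coe, Matrix.mul_fin_three]
    ext i j
    fin_cases i <;> fin_cases j <;> simp
    ring)

theorem dg_coe (a : Fˣ × Fˣ) : (dg a).1 = !![(a.1 : F), 0, 0; 0, a.2, 0; 0, 0, ((a.1 : F) * a.2)⁻¹] := rfl

theorem dg_eq (a : Fˣ × Fˣ) : dg a =
    (transvection (show (0 : Fin 3) ≠ 1 by decide) (a.1 : F) * transvection (show (1 : Fin 3) ≠ 0 by decide) (-(a.1 : F)⁻¹) *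
      transvection (show (0 : Fin 3) ≠ 1 by decide) (a.1 : F) * (transvection (show (0 : Fin 3) ≠ 1 by decide) (-1) *
      transvection (show (1 : Fin 3) ≠ 0 by decide) (-(-1 : F)⁻¹) * transvection (show (0 : Fin 3) ≠ 1 by decide) (-1))) *
    (transvection (show (1 : Fin 3) ≠ 2 by decide) (a.1 * a.2 : F) *
      transvection (show (2 : Fin 3) ≠ 1 by decide) (-(a.1 * a.2 : F)⁻¹) *
      transvection (show (1 : Fin 3) ≠ 2 by decide) (a.1 * a.2 : F) * (transvection (show (1 : Fin 3) ≠ 2 by decide) (-1) *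
      transvection (show (2 : Fin 3) ≠ 1 by decide) (-(-1 : F)⁻¹) * transvection (show (1 : Fin 3) ≠ 2 by decide) (-1))) := by
  have t01 : ∀ t : F, (transvection (show (0 : Fin 3) ≠ 1 by decide) t).1 = !![1, t, 0; 0, 1, 0; 0, 0, 1] := fun t => by
    ext i j; fin_cases i <;> fin_cases j <;> simp [transvection_coe]
  have t10 : ∀ t : F, (transvection (show (1 : Fin 3) ≠ 0 by decide) t).1 = !![1, 0, 0; t, 1, 0; 0, 0, 1] := fun t => by
    ext i j; fin_cases i <;> fin_cases j <;> simp [transvection_coe]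
  have t12 : ∀ t : F, (transvection (show (1 : Fin 3) ≠ 2 by decide) t).1 = !![1, 0, 0; 0, 1, t; 0, 0, 1] := fun t => by
    ext i j; fin_cases i <;> fin_cases j <;> simp [transvection_coe]
  have t21 : ∀ t : F, (transvection (show (2 : Fin 3) ≠ 1 by decide) t).1 = !![1, 0, 0; 0, 1, 0; 0, t, 1] := fun t => by
    ext i j; fin_cases i <;> fin_cases j <;> simp [transvection_coe]
  apply Subtype.ext
  simp only [Matrix.SpecialLinearGroup.coe_mul, t01, t10, t12, t21, Matrix.mul_fin_three, dg_coe]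
  have h1 := a.1.ne_zero
  have h2 := a.2.ne_zero
  ext i j
  fin_cases i <;> fin_cases j <;> simp <;> field_simp <;> ring

set_option backward.isDefEq.respectTransparency false in
theorem neg_G2 : (rootSys chevG2).neg (rG2 6) = rG2 5 ∧ (rootSys chevG2).neg (rG2 10) = rG2 1 := by decide +kernel

theorem exists_hom' [Finite F] : ∃ φ : Matrix.SpecialLinearGroup (Fin 3) F →* chevG2.group F,
    ∀ a, Act (φ (dg a)) id fun r => ch r a := by
  obtain ⟨φ, hφ⟩ := exists_hom (F := F)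
  refine ⟨φ, fun a => ⟨fun r => Units.ne_zero _, fun r t => ?_⟩⟩
  have e : φ (dg a) = (stG chevG2 F).h (rG2 6) a.1 * (stG chevG2 F).h (rG2 10) (a.1 * a.2) := by
    simp only [dg_eq, map_mul, hφ, StData.h, StData.n, neg_G2.1, neg_G2.2]
    rfl
  rw [e, mul_inv_rev, mul_assoc, mul_assoc, ← mul_assoc (X r t), ← mul_assoc (StData.h _ (rG2 10) _),
    ← mul_assoc (StData.h _ (rG2 10) _), X, StData.h_conj _ _ _ (mul_ne_zero a.1.ne_zero a.2.ne_zero), ← mul_assoc,
    StData.h_conj _ _ _ a.1.ne_zero, (pair_G2 r).1, (pair_G2 r).2, X, id]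
  congr 1
  have h1 := a.1.ne_zero
  simp only [ch_apply, Units.val_mul, Units.val_zpow_eq_zpow_val, mul_zpow, zpow_sub₀ h1]
  field_simp

theorem e_w : ∀ r, (e1 (wa r) = e1 r ∧ e2 (wa r) = e1 r - e2 r) ∧ e1 (wb r) = e2 r ∧ e2 (wb r) = e1 r := by decide

theorem Act.conj_tor {τ : Fˣ × Fˣ →* chevG2.group F} (hτ : ∀ a, Act (τ a) id fun r => ch r a) {g : chevG2.group F}
    {w : Fin 12 → Fin 12} {c : Fin 12 → F} (h : Act g w c) {a a' : Fˣ × Fˣ} (e : ∀ r, ch r a' = ch (w r) a) :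
    g⁻¹ * τ a * g = τ a' := by
  refine eq_of_conj fun r t => ?_
  calc _ = g⁻¹ * (τ a * (g * X r t * g⁻¹) * (τ a)⁻¹) * g := by group
    _ = _ := by
      rw [h.2, (hτ a).2, (hτ a').2, id, id, h.inv_conj]
      simp only [e]
      rw [mul_left_comm, inv_mul_cancel_left₀ (h.1 r)]

theorem ch_wa (a : Fˣ × Fˣ) (r : Fin 12) : ch r (a.1 * a.2, a.2⁻¹) = ch (wa r) a := by
  simp only [ch_apply, (e_w r).1.1, (e_w r).1.2, mul_zpow, zpow_sub, inv_zpow, mul_assoc]

theorem ch_wb (a : Fˣ × Fˣ) (r : Fin 12) : ch r (a.2, a.1) = ch (wb r) a := by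
  simp only [ch_apply, (e_w r).2.1, (e_w r).2.2, mul_comm]

/-- the cyclic permutation matrix -/
def n3 : Matrix.SpecialLinearGroup (Fin 3) F := ⟨!![0, 0, 1; 1, 0, 0; 0, 1, 0], by simp [Matrix.det_fin_three]⟩

theorem n3_coe : (n3 : Matrix.SpecialLinearGroup (Fin 3) F).1 = !![0, 0, 1; 1, 0, 0; 0, 1, 0] := rfl

theorem n3_cube : (n3 : Matrix.SpecialLinearGroup (Fin 3) F) * n3 * n3 = 1 := Subtype.ext (by
  simp only [Matrix.SpecialLinearGroup.coe_mul, Matrix.mul_fin_three, n3_coe]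
  ext i j; fin_cases i <;> fin_cases j <;> simp)

theorem n3_dg (a : Fˣ × Fˣ) : n3 * dg a = dg ((a.1 * a.2)⁻¹, a.1) * n3 := Subtype.ext (by
  simp only [Matrix.SpecialLinearGroup.coe_mul, Matrix.mul_fin_three, n3_coe, dg_coe]
  ext i j; fin_cases i <;> fin_cases j <;> simp)

theorem conj_of_eig {ω : Fˣ} {g : Matrix.SpecialLinearGroup (Fin 3) F} (P : Matrix (Fin 3) (Fin 3) F) (hP : P.det ≠ 0)
    (h : g.1 * P = P * (dg (1, ω)).1) : IsConj (dg (1, ω)) g := by
  have hd : (P * !![P.det⁻¹, 0, 0; 0, 1, 0; 0, 0, 1]).det = 1 := by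
    rw [Matrix.det_mul, Matrix.det_fin_three !![_, _, _; _, _, _; _, _, _]]; simp [hP]
  refine isConj_iff.2 ⟨⟨_, hd⟩, mul_inv_eq_iff_eq_mul.2 (Subtype.ext ?_)⟩
  change (P * _) * (dg (1, ω)).1 = g.1 * (P * _)
  rw [← mul_assoc, h, mul_assoc, mul_assoc]
  congr 1
  simp only [dg_coe, Matrix.mul_fin_three]
  ext i j; fin_cases i <;> fin_cases j <;> simp

theorem isConj_n3 {ω : Fˣ} (h : (ω : F) ^ 2 + ω + 1 = 0) (h1 : (ω : F) ≠ 1) (a : Fˣ × Fˣ) :
    IsConj (dg (1, ω)) (n3 * dg a) ∧ IsConj (dg (1, ω)) (n3 * n3 * dg a) := by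
  have ha := a.1.ne_zero
  have hb := a.2.ne_zero
  have h0 := ω.ne_zero
  have hi : (ω : F)⁻¹ = ω ^ 2 := inv_eq_of_mul_eq_one_right (by linear_combination (ω - 1 : F) * h)
  have hv := pow_ne_zero 3 (sub_ne_zero.2 h1)
  constructor
  · refine conj_of_eig !![1, ω ^ 2, ω; a.1, a.1 * ω, a.1 * ω ^ 2; a.1 * a.2, a.1 * a.2, a.1 * a.2] (fun e => ?_) ?_
    · simp [Matrix.det_fin_three] at e
      exact mul_ne_zero (mul_ne_zero (pow_ne_zero 2 ha) hb) hv
        (by linear_combination e - (a.1 : F) ^ 2 * a.2 * (ω - 1) ^ 2 * h)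
    · simp only [Matrix.SpecialLinearGroup.coe_mul, Matrix.mul_fin_three, n3_coe, dg_coe]
      ext i j; fin_cases i <;> fin_cases j <;> simp [hi] <;> grind
  · refine conj_of_eig !![a.2, a.2 * ω ^ 2, a.2 * ω; 1, 1, 1; a.1 * a.2, a.1 * a.2 * ω, a.1 * a.2 * ω ^ 2]
      (fun e => ?_) ?_
    · simp [Matrix.det_fin_three] at e
      exact mul_ne_zero (mul_ne_zero (pow_ne_zero 2 hb) ha) hv
        (by linear_combination -e - (a.2 : F) ^ 2 * a.1 * (ω - 1) ^ 2 * h)
    · simp only [Matrix.SpecialLinearGroup.coe_mul, Matrix.mul_fin_three, n3_coe, dg_coe]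
      ext i j; fin_cases i <;> fin_cases j <;> simp [hi] <;> grind

end CL.MinG
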