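/-
CHEV library: joint eigenspaces of root subgroups of `G₂(q)` in a complex representation.
-/
import Cfsg.Agent.CHEV.MinG1
import Cfsg.Agent.CHEV.MinG2

set_option autoImplicit false

namespace CL.MinG

open CL.MinD CL.Chev Cfsg.Lie Module

variable {F V : Type*} [Field F] [AddCommGroup V] [Module ℂ V] (ρ : chevG2.group F →* End ℂ V) (ψ : AddChar F ℂ)

/-- joint eigenspace: prescribed eigenvalues for the roots in `L`, fixed by the roots in `Z` -/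
def E (L : List (Fin 12 × F)) (Z : List (Fin 12)) : Submodule ℂ V where
  carrier := {v | (∀ p ∈ L, v ∈ Eig ρ ψ (X p.1) p.2) ∧ ∀ r ∈ Z, v ∈ Eig ρ ψ (X r) 0}
  add_mem' ha hb := ⟨fun p hp => add_mem (ha.1 p hp) (hb.1 p hp), fun p hp => add_mem (ha.2 p hp) (hb.2 p hp)⟩
  zero_mem' := ⟨fun _ _ => zero_mem _, fun _ _ => zero_mem _⟩
  smul_mem' c _ ha := ⟨fun p hp => Submodule.smul_mem _ c (ha.1 p hp), fun p hp => Submodule.smul_mem _ c (ha.2 p hp)⟩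

/-- its dimension -/
noncomputable def d (L : List (Fin 12 × F)) (Z : List (Fin 12)) : ℕ := finrank ℂ (E ρ ψ L Z)

variable {ρ ψ} {L L' : List (Fin 12 × F)} {Z Z' : List (Fin 12)} {v : V}

theorem mem_E : v ∈ E ρ ψ L Z ↔ (∀ p ∈ L, v ∈ Eig ρ ψ (X p.1) p.2) ∧ ∀ r ∈ Z, v ∈ Eig ρ ψ (X r) 0 := Iff.rfl

theorem E_cons (r : Fin 12) (l : F) : E ρ ψ L Z ⊓ Eig ρ ψ (X r) l = E ρ ψ ((r, l) :: L) Z := by
  ext v; simp only [Submodule.mem_inf, mem_E, List.forall_mem_cons]; tauto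

theorem E_zero (r : Fin 12) : E ρ ψ ((r, 0) :: L) Z = E ρ ψ L (r :: Z) := by
  ext v; simp only [mem_E, List.forall_mem_cons]; tauto

theorem E_nil : E ρ ψ [] [] = ⊤ := by ext v; simp [mem_E]

theorem E_le (h1 : L' ⊆ L := by simp) (h2 : Z' ⊆ Z := by simp) : E ρ ψ L Z ≤ E ρ ψ L' Z' :=
  fun _ hv => ⟨fun p hp => hv.1 p (h1 hp), fun p hp => hv.2 p (h2 hp)⟩

theorem E_eq (h : (L ⊆ L' ∧ L' ⊆ L) ∧ Z ⊆ Z' ∧ Z' ⊆ Z := by simp) : E ρ ψ L Z = E ρ ψ L' Z' :=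
  le_antisymm (E_le h.1.2 h.2.2) (E_le h.1.1 h.2.1)

theorem d_eq (h : (L ⊆ L' ∧ L' ⊆ L) ∧ Z ⊆ Z' ∧ Z' ⊆ Z := by simp) : d ρ ψ L Z = d ρ ψ L' Z' := by
  rw [d, E_eq h, d]

theorem d_zero (r : Fin 12) : d ρ ψ ((r, 0) :: L) Z = d ρ ψ L (r :: Z) := by rw [d, E_zero, d]

theorem eig (hv : v ∈ E ρ ψ L Z) (r : Fin 12) (l t : F) (h : (r, l) ∈ L := by simp) : ρ (X r t) v = ψ (l * t) • v :=
  hv.1 _ h t

theorem fix (hv : v ∈ E ρ ψ L Z) (r : Fin 12) (t : F) (h : r ∈ Z := by simp) : ρ (X r t) v = v := by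
  simpa using hv.2 _ h t

section Act
variable {g : chevG2.group F} {w : Fin 12 → Fin 12} {c : Fin 12 → F}

theorem Act.mem (h : Act g w c) (h1 : ∀ p ∈ L', ∃ p' ∈ L, w p'.1 = p.1 ∧ p.2 * c p'.1 = p'.2)
    (h2 : ∀ r ∈ Z', ∃ r' ∈ Z, w r' = r) (hv : v ∈ E ρ ψ L Z) : ρ g v ∈ E ρ ψ L' Z' := by
  refine ⟨fun p hp => ?_, fun r hr => ?_⟩
  · obtain ⟨p', hp', e, e'⟩ := h1 p hp
    refine app_mem_Eig (fun t => by rw [← e, h.inv_conj]) ?_ (hv.1 p' hp')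
    rw [← e', mul_inv_cancel_right₀ (h.1 _)]
  · obtain ⟨r', hr', e⟩ := h2 r hr
    exact app_mem_Eig (fun t => by rw [← e, h.inv_conj]) (zero_mul _).symm (hv.2 r' hr')

theorem Act.map_eq (h : Act g w c) (L : List (Fin 12 × F)) (Z : List (Fin 12)) :
    (E ρ ψ (L.map fun p => (p.1, p.2 * c p.1)) Z).map (ρ g) = E ρ ψ (L.map fun p => (w p.1, p.2)) (Z.map w) := by
  refine le_antisymm ?_ fun v hv => ⟨ρ g⁻¹ v, ⟨fun p hp => ?_, fun r hr => ?_⟩, app_inv ρ g v⟩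
  · rintro _ ⟨v, hv, rfl⟩
    exact h.mem (by simp only [List.mem_map]; rintro _ ⟨p, hp, rfl⟩; exact ⟨_, ⟨p, hp, rfl⟩, rfl, rfl⟩)
      (by simp only [List.mem_map]; exact fun _ h => h) hv
  · obtain ⟨p, hp', rfl⟩ := List.mem_map.1 hp
    exact app_mem_Eig (fun t => by rw [inv_inv, h.2]) rfl (hv.1 (w p.1, p.2) (List.mem_map.2 ⟨p, hp', rfl⟩))
  · exact app_mem_Eig (fun t => by rw [inv_inv, h.2]) (zero_mul _).symm (hv.2 _ (List.mem_map_of_mem hr))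

theorem Act.d_eq [FiniteDimensional ℂ V] (h : Act g w c) (L : List (Fin 12 × F)) (Z : List (Fin 12)) :
    d ρ ψ (L.map fun p => (w p.1, p.2)) (Z.map w) = d ρ ψ (L.map fun p => (p.1, p.2 * c p.1)) Z := by
  rw [d, ← h.map_eq, finrank_map, d]

theorem Act.d_tor [FiniteDimensional ℂ V] (h : Act g id c) (L : List (Fin 12 × F)) (Z : List (Fin 12)) :
    d ρ ψ L Z = d ρ ψ (L.map fun p => (p.1, p.2 * c p.1)) Z := by
  simpa using h.d_eq (ρ := ρ) (ψ := ψ) L Z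

end Act

/-- the root subgroup of `r` preserves the eigenspaces for `s` inside the fixed space of `Z` -/
def ok (p : ℕ) (r : Fin 12) (Z : List (Fin 12)) (s : Fin 12) : Bool :=
  s = r ∨ s.val + r.val ≠ 11 ∧ ∀ c ∈ fc r s, c.1 ∈ Z ∨ (p : ℤ) ∣ c.2.1

theorem shift {r s : Fin 12} (h1 : s ≠ r) (h2 : s.val + r.val ≠ 11) {t l μ : F}
    (h : ∀ u, ρ (cp r s t u) v = ψ (μ * u) • v) (hv : v ∈ Eig ρ ψ (X s) l) : ρ (X r t) v ∈ Eig ρ ψ (X s) (l + μ) :=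
  fun u => by
    rw [← app_mul, rel h1 h2, app_mul, app_mul, h, map_smul, hv, map_smul, map_smul, smul_smul, ← AddChar.map_add_eq_mul,
      add_mul, add_comm]

theorem prod_fix {l : List (chevG2.group F)} (h : ∀ g ∈ l, ρ g v = v) : ρ l.prod v = v :=
  (Stab ρ v).list_prod_mem h

variable {p : ℕ}

theorem mem_of_ok (hp : (p : F) = 0) {r s : Fin 12} (h : ok p r Z s) (hv : v ∈ E ρ ψ L Z) {l : F}
    (hs : v ∈ Eig ρ ψ (X s) l) (t : F) : ρ (X r t) v ∈ Eig ρ ψ (X s) l := by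
  by_cases e : s = r
  · exact app_mem_Eig' (fun u => rel0 t u (Or.inl e)) hs
  · obtain ⟨h1, h2⟩ := (of_decide_eq_true h).resolve_left e
    rw [← add_zero l]
    refine shift e h1 (fun u => ?_) hs
    rw [zero_mul, AddChar.map_zero_eq_one, one_smul]
    refine prod_fix fun g hg => ?_
    obtain ⟨c, hc, rfl⟩ := List.mem_map.1 hg
    rcases h2 c hc with h3 | ⟨k, h3⟩
    · exact fix hv _ _ h3
    · simp [h3, hp, X_zero]

theorem inv_E (hp : (p : F) = 0) (r : Fin 12) (t : F) (hv : v ∈ E ρ ψ L Z)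
    (h : (L.map Prod.fst ++ Z).all (ok p r Z) := by simp only [List.map_cons, List.map_nil]; decide +kernel) :
    ρ (X r t) v ∈ E ρ ψ L Z := by
  rw [List.all_eq_true] at h
  exact ⟨fun s hs => mem_of_ok hp (h _ (List.mem_append_left _ (List.mem_map_of_mem hs))) hv (hv.1 s hs) t,
    fun s hs => mem_of_ok hp (h _ (List.mem_append_right _ hs)) hv (hv.2 s hs) t⟩

theorem shift_E (hp : (p : F) = 0) (r : Fin 12) {s : Fin 12} {l μ t : F} (hv : v ∈ E ρ ψ ((s, l) :: L) Z)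
    (h' : ∀ u, ρ (cp r s t u) v = ψ (μ * u) • v)
    (h : (s ≠ r ∧ s.val + r.val ≠ 11) ∧ (L.map Prod.fst ++ Z).all (ok p r Z) := by
      simp only [List.map_cons, List.map_nil]; decide +kernel) :
    ρ (X r t) v ∈ E ρ ψ ((s, l + μ) :: L) Z := by
  rw [← E_cons] at hv ⊢
  exact ⟨inv_E hp r t hv.1 h.2, shift h.1.1 h.1.2 h' hv.2⟩

variable [Fintype F] [FiniteDimensional ℂ V] (hψ : ψ ≠ 1) (hp : (p : F) = 0)
include hψ hp

theorem d_split (r : Fin 12) (L : List (Fin 12 × F)) (Z : List (Fin 12))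
    (h : (L.map Prod.fst ++ Z).all (ok p r Z) := by simp only [List.map_cons, List.map_nil]; decide +kernel) :
    d ρ ψ L Z = ∑ l, d ρ ψ ((r, l) :: L) Z := by
  rw [d, split hψ (X_add r) fun t v hv => inv_E hp r t hv h]
  exact Finset.sum_congr rfl fun l _ => by rw [E_cons, d]

theorem d_split' (r : Fin 12) {m : ℕ} (hm : ∀ l, l ≠ 0 → d ρ ψ ((r, l) :: L) Z = m)
    (h : (L.map Prod.fst ++ Z).all (ok p r Z) := by simp only [List.map_cons, List.map_nil]; decide +kernel) :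
    d ρ ψ L Z = d ρ ψ L (r :: Z) + (Fintype.card F - 1) * m := by
  classical
  rw [d_split hψ hp r L Z h, ← Finset.add_sum_erase _ _ (Finset.mem_univ 0), d_zero,
    Finset.sum_congr rfl fun l hl => hm l (Finset.ne_of_mem_erase hl), Finset.sum_const, smul_eq_mul,
    Finset.card_erase_of_mem (Finset.mem_univ _), Finset.card_univ]

/-- Heisenberg translation -/
theorem d_heis (s r : Fin 12)
    (hμ : ∀ μ, ∃ t, ∀ v ∈ E ρ ψ L Z, ∀ u, ρ (cp r s t u) v = ψ (μ * u) • v) (l : F)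
    (h : (L.map Prod.fst ++ Z).all (ok p s Z) ∧ (s ≠ r ∧ s.val + r.val ≠ 11) ∧ (L.map Prod.fst ++ Z).all (ok p r Z) := by
      simp only [List.map_cons, List.map_nil]; decide +kernel) :
    d ρ ψ L Z = Fintype.card F * d ρ ψ ((s, l) :: L) Z := by
  have a : ∀ l l', d ρ ψ ((s, l) :: L) Z ≤ d ρ ψ ((s, l') :: L) Z := fun l l' => by
    obtain ⟨t, ht⟩ := hμ (l' - l)
    refine finrank_le_of_map (ρ := ρ) (X r t) fun v hv => ?_
    have := shift_E hp r hv (ht v (E_le (by simp) (by simp) hv)) h.2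
    rwa [add_sub_cancel] at this
  rw [d_split hψ hp s L Z h.1, Finset.sum_congr rfl fun l' _ => le_antisymm (a l' l) (a l l'), Finset.sum_const,
    smul_eq_mul, Finset.card_univ]

omit hψ hp [Fintype F] [FiniteDimensional ℂ V] in
theorem cp_one (hp : (p : F) = 0) {r s k : Fin 12} {e : ℤ} (t u : F) (hv : v ∈ E ρ ψ L Z)
    (h : ∃ l l', fc r s = l ++ (k, e, 1, 1) :: l' ∧ ∀ c ∈ l ++ l', c.1 ∈ Z ∨ (p : ℤ) ∣ c.2.1) {κ : F}
    (hk : (k, κ) ∈ L) : ρ (cp r s t u) v = ψ (-(κ * e * t) * u) • v := by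
  obtain ⟨l, l', h1, h2⟩ := h
  have a : ∀ l'' ⊆ l ++ l', ρ (l''.map fun c => X c.1 ((c.2.1 : F) * (-t) ^ c.2.2.1 * u ^ c.2.2.2)).prod v = v :=
    fun l'' hl => prod_fix fun g hg => by
      obtain ⟨c, hc, rfl⟩ := List.mem_map.1 hg
      rcases h2 c (hl hc) with h3 | ⟨k, h3⟩
      · exact fix hv _ _ h3
      · simp [h3, hp, X_zero]
  rw [cp, h1, List.map_append, List.map_cons, List.prod_append, List.prod_cons, app_mul, app_mul, a l' (by simp),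
    eig hv k κ _ hk, map_smul, a l (by simp)]
  congr 2
  ring

/-- Heisenberg translation, with a single commutator term -/
theorem d_heis1 (s r k : Fin 12) (e : ℤ) {κ : F} (hκ : κ * e ≠ 0) (l : F) (hk : (k, κ) ∈ L := by simp)
    (h : ((L.map Prod.fst ++ Z).all (ok p s Z) ∧ (s ≠ r ∧ s.val + r.val ≠ 11) ∧ (L.map Prod.fst ++ Z).all (ok p r Z)) ∧
      (fc r s).head? = some (k, e, 1, 1) ∧ ∀ c ∈ (fc r s).tail, c.1 ∈ Z ∨ (p : ℤ) ∣ c.2.1 := by
      simp only [List.map_cons, List.map_nil]; decide +kernel) :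
    d ρ ψ L Z = Fintype.card F * d ρ ψ ((s, l) :: L) Z :=
  d_heis hψ hp s r (fun μ => ⟨-μ / (κ * e), fun v hv u => by
    rw [cp_one hp _ _ hv ⟨[], _, (List.cons_head?_tail h.2.1).symm, h.2.2⟩ hk]
    rw [mul_div_cancel₀ _ hκ, neg_neg]⟩) l h.1

end CL.MinG
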