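/-
CHEV library: lower bound for the degrees of complex representations of `G₂(q)`, `q` prime to `3`.
-/
import Cfsg.Agent.CHEV.MinG3

set_option autoImplicit false

namespace CL.MinG

open CL.MinD CL.Chev Cfsg.Lie Module

variable {F V : Type*} [Field F] [AddCommGroup V] [Module ℂ V] {ρ : chevG2.group F →* End ℂ V} {ψ : AddChar F ℂ}
  [Fintype F] [FiniteDimensional ℂ V]

omit [Fintype F] in
theorem ch_surj (r : Fin 12) (u : Fˣ) : ∃ a, ch r a = u := by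
  have : e1 r * e1 r = 1 ∨ e2 r * e2 r = 1 := by revert r; decide
  rcases this with h | h
  · exact ⟨(u ^ e1 r, 1), by rw [ch_apply, ← zpow_mul, h]; simp⟩
  · exact ⟨(1, u ^ e2 r), by rw [ch_apply, ← zpow_mul, h]; simp⟩

theorem d_tor (a : Fˣ × Fˣ) (L : List (Fin 12 × F)) (Z : List (Fin 12)) :
    d ρ ψ L Z = d ρ ψ (L.map fun p => (p.1, p.2 * ch p.1 a)) Z := by
  obtain ⟨φ, hφ⟩ := exists_hom' (F := F)
  exact (hφ a).d_tor L Z

theorem d_one (r : Fin 12) (Z : List (Fin 12)) {l l' : F} (h : l ≠ 0) (h' : l' ≠ 0) :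
    d ρ ψ [(r, l)] Z = d ρ ψ [(r, l')] Z := by
  obtain ⟨a, ha⟩ := ch_surj r (Units.mk0 (l' / l) (div_ne_zero h' h))
  simpa [ha, mul_div_cancel₀ _ h] using d_tor (ρ := ρ) (ψ := ψ) a [(r, l)] Z

theorem d_wa (r : Fin 12) (Z : List (Fin 12)) {l l' : F} (h : l ≠ 0) (h' : l' ≠ 0) :
    d ρ ψ [(wa r, l)] (Z.map wa) = d ρ ψ [(r, l')] Z := by
  obtain ⟨g, c, hg⟩ := exists_act (F := F) 0
  exact (hg.d_eq [(r, l)] Z).trans (d_one r Z (mul_ne_zero h (hg.1 r)) h')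

theorem d_wb (r : Fin 12) (Z : List (Fin 12)) {l l' : F} (h : l ≠ 0) (h' : l' ≠ 0) :
    d ρ ψ [(wb r, l)] (Z.map wb) = d ρ ψ [(r, l')] Z := by
  obtain ⟨g, c, hg⟩ := exists_act (F := F) 1
  exact (hg.d_eq [(r, l)] Z).trans (d_one r Z (mul_ne_zero h (hg.1 r)) h')

omit [Fintype F] [FiniteDimensional ℂ V] in
theorem d_nil : d ρ ψ [] [] = finrank ℂ V := by rw [d, E_nil, finrank_top]

omit [Fintype F] in
theorem d_lt (hρ : Function.Injective ρ) (r : Fin 12) : d ρ ψ [] [r] < d ρ ψ [] [] := by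
  rw [d_nil]
  refine Submodule.finrank_lt fun h => X_ne_one r (hρ (LinearMap.ext fun v => ?_))
  rw [fix (h ▸ Submodule.mem_top : v ∈ E ρ ψ [] [r]) r, map_one, End.one_apply]

omit [Fintype F] in
theorem d_le {L L' : List (Fin 12 × F)} {Z Z' : List (Fin 12)} (h1 : L' ⊆ L := by simp) (h2 : Z' ⊆ Z := by simp) :
    d ρ ψ L Z ≤ d ρ ψ L' Z' := Submodule.finrank_mono (E_le h1 h2)

omit [Field F] in
theorem add_le_sum {f : F → ℕ} {i j : F} (h : i ≠ j) : f i + f j ≤ ∑ l, f l := by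
  classical
  rw [← Finset.sum_pair h]
  exact Finset.sum_le_sum_of_subset (Finset.subset_univ _)

variable (hψ : ψ ≠ 1) (h3 : (3 : F) ≠ 0)
include hψ h3

theorem n3_c {l : F} (hl : l ≠ 0) (k : F) : d ρ ψ [(11, l)] [10] = Fintype.card F * d ρ ψ [(9, k), (11, l)] [10] :=
  d_heis1 hψ Nat.cast_zero 9 8 11 3 (mul_ne_zero hl (by simpa using h3)) k

theorem n3_c' {l : F} (hl : l ≠ 0) : d ρ ψ [(11, l)] [10] = Fintype.card F * d ρ ψ [(11, 1)] [9, 10] := by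
  rw [n3_c hψ h3 hl 0, d_zero, d_one 11 _ hl one_ne_zero]

theorem n3_dim : finrank ℂ V = d ρ ψ [] [6, 10, 11] + (Fintype.card F - 1) * d ρ ψ [(6, 1)] [10, 11] +
    (Fintype.card F - 1) * (Fintype.card F * d ρ ψ [(11, 1)] [9, 10]) +
    (Fintype.card F - 1) * (Fintype.card F * (Fintype.card F * d ρ ψ [(11, 1)] [9, 10])) := by
  rw [← d_nil (ρ := ρ) (ψ := ψ), d_split' hψ Nat.cast_zero 11 fun l hl => by
      rw [d_heis1 hψ Nat.cast_zero 10 6 11 1 (κ := l) (by simpa using hl) 0, d_zero, n3_c' hψ h3 hl],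
    d_split' (L := []) (Z := [11]) hψ Nat.cast_zero 10 fun l hl => (d_wb 11 [10] hl hl).trans (n3_c' hψ h3 hl),
    d_split' hψ Nat.cast_zero 6 fun l hl => d_one 6 _ hl one_ne_zero]

theorem n3_pos (hρ : Function.Injective ρ) : d ρ ψ [(11, 1)] [9, 10] ≠ 0 := fun h => by
  have := d_split' (ρ := ρ) (L := []) (Z := []) hψ Nat.cast_zero 11 (m := 0) fun l hl => by
      rw [d_heis1 hψ Nat.cast_zero 10 6 11 1 (κ := l) (by simpa using hl) 0, d_zero, n3_c' hψ h3 hl, h]; simp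
  have := d_lt (ψ := ψ) hρ 11
  omega

omit hψ h3 in
theorem n3_b {l : F} (hl : l ≠ 0) : d ρ ψ [(6, l)] [8, 11] = d ρ ψ [(11, 1)] [9, 10] :=
  (d_wa 10 [9, 11] hl hl).trans (d_wb 11 [9, 10] hl one_ne_zero)

omit h3 in
theorem n3_b' (hm : d ρ ψ [(11, 1)] [9, 10] = 1) {u : Fˣ} (hu : u ^ 3 ≠ 1) {l : F} (hl : l ≠ 0) :
    d ρ ψ [(6, l)] [10, 8, 11] = 1 := by
  have h1 := (n3_b (ρ := ρ) (ψ := ψ) hl).trans hm
  have := d_split' (ρ := ρ) (L := [(6, l)]) (Z := [8, 11]) hψ Nat.cast_zero 10 (m := 0) fun j hj => by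
    have h2 := d_tor (ρ := ρ) (ψ := ψ) (u, u) [(10, j), (6, l)] [8, 11]
    have e1 : ch 10 (u, u) = u ^ 3 := by simp [ch_apply, e1, e2, pow_succ', zpow_ofNat]
    have e2 : ch 6 (u, u) = 1 := by simp [ch_apply, CL.MinG.e1, e2]
    simp only [List.map_cons, List.map_nil, e1, e2, Units.val_one, mul_one] at h2
    have h4 := add_le_sum (f := fun j => d ρ ψ [(10, j), (6, l)] [8, 11]) (i := j) (j := j * (u ^ 3 : Fˣ))
      fun h => hu (by rwa [left_eq_mul₀ hj, Units.val_eq_one] at h)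
    rw [← d_split hψ Nat.cast_zero 10 [(6, l)] [8, 11], h1] at h4
    omega
  omega

theorem n3_bound (hρ : Function.Injective ρ) {u : Fˣ} (hu : u ^ 3 ≠ 1) : Fintype.card F ^ 3 - 1 ≤ finrank ℂ V ∧
    (finrank ℂ V ≤ Fintype.card F ^ 3 → d ρ ψ [(11, 1)] [9, 10] = 1 ∧ d ρ ψ [(6, 1)] [10, 11] = 1 ∧
      d ρ ψ [] [6, 10, 11] ≤ 1) := by
  have h1 := n3_dim (ρ := ρ) hψ h3
  have h2 := n3_pos hψ h3 hρ
  have h4 : d ρ ψ [(11, 1)] [9, 10] = 1 → 1 ≤ d ρ ψ [(6, 1)] [10, 11] := fun h =>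
    (n3_b' hψ h hu one_ne_zero).symm.trans_le d_le
  have h5 : 3 ≤ Fintype.card F := by
    classical
    have := Fintype.card_units F
    have : Nontrivial Fˣ := ⟨_, _, hu⟩
    have := Fintype.one_lt_card (α := Fˣ)
    omega
  obtain ⟨q, hq⟩ : ∃ q, Fintype.card F = q + 1 := ⟨Fintype.card F - 1, by omega⟩
  rw [hq] at h1 h5 ⊢
  rw [Nat.add_sub_cancel] at h1
  generalize d ρ ψ [(11, 1)] [9, 10] = m at *
  generalize d ρ ψ [(6, 1)] [10, 11] = e at *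
  generalize d ρ ψ [] [6, 10, 11] = k at *
  rw [h1, Nat.sub_le_iff_le_add]
  rcases (by omega : m = 1 ∨ 2 ≤ m) with rfl | hm
  · obtain ⟨e, rfl⟩ : ∃ e', e = e' + 1 := ⟨e - 1, by have := h4 rfl; omega⟩
    refine ⟨by nlinarith, fun h => ?_⟩
    have : q * e + k ≤ 1 := by nlinarith
    exact ⟨rfl, by nlinarith, by omega⟩
  · obtain ⟨m, rfl⟩ : ∃ m', m = m' + 2 := ⟨m - 2, by omega⟩
    obtain ⟨q, rfl⟩ : ∃ q', q = q' + 2 := ⟨q - 2, by omega⟩
    exact ⟨by ring_nf; omega, fun h => by ring_nf at h; omega⟩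

end CL.MinG
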