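/-
CHEV library: `G₂(q)`, `q ≡ 1 mod 3`, has no faithful complex representation of degree at most `q³`.
-/
import Cfsg.Agent.CHEV.MinG4

set_option autoImplicit false

namespace CL.MinG

open CL.MinD CL.Chev Cfsg.Lie Module LinearMap

variable {F V : Type*} [Field F] [AddCommGroup V] [Module ℂ V] [FiniteDimensional ℂ V]

theorem trace_three {x e : End ℂ V} (hx : x * x * x = 1) {N : Submodule ℂ V} {c : ℂ} (h0 : ∀ v ∈ N, x v ∈ N)
    (h1 : ∀ v, e v ∈ N) (h2 : ∀ v ∈ N, e v = c • v) :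
    trace ℂ V e + trace ℂ V (x * e) + trace ℂ V (x * x * e) = 3 * c * finrank ℂ ↥(N ⊓ LinearMap.ker (x - 1)) := by
  rw [← map_add, ← map_add]
  refine trace_eq (fun v => ⟨add_mem (add_mem (h1 v) (h0 _ (h1 v))) (h0 _ (h0 _ (h1 v))), ?_⟩) fun v hv => ?_
  · have : (x - 1) * (e + x * e + x * x * e) = (x * x * x - 1) * e := by noncomm_ring
    rw [SetLike.mem_coe, LinearMap.mem_ker, ← End.mul_apply, this, hx, sub_self, zero_mul, LinearMap.zero_apply]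
  · have : x v = v := sub_eq_zero.1 hv.2
    simp only [LinearMap.add_apply, End.mul_apply, h2 v hv.1, map_smul, this]
    module

variable (ρ : chevG2.group F →* End ℂ V) (ψ : AddChar F ℂ) (τ : Fˣ × Fˣ →* chevG2.group F)

/-- dimension of the fixed points of a subgroup of the torus -/
noncomputable def f (L : List (Fin 12 × F)) (Z : List (Fin 12)) (S : Subgroup (Fˣ × Fˣ)) : ℕ :=
  finrank ℂ ↥(E ρ ψ L Z ⊓ Fx (ρ.comp τ) S)

variable {ρ ψ τ} {L : List (Fin 12 × F)} {Z : List (Fin 12)} {S S' : Subgroup (Fˣ × Fˣ)}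

omit [FiniteDimensional ℂ V] in
theorem f_bot : f ρ ψ τ L Z ⊥ = d ρ ψ L Z := by
  rw [f, d, inf_eq_left.2 fun v _ g hg => by rw [Subgroup.mem_bot.1 hg, app_one]]

theorem f_le : f ρ ψ τ L Z S ≤ d ρ ψ L Z := Submodule.finrank_mono inf_le_left

variable [Fintype F] (hτ : ∀ a, Act (τ a) id fun r => ch r a)
include hτ

omit [Fintype F] in
theorem f_act {g : chevG2.group F} {w : Fin 12 → Fin 12} {c : Fin 12 → F} (h : Act g w c)
    (h1 : ∀ a ∈ S', ∃ a' ∈ S, ∀ r, ch r a' = ch (w r) a) (h2 : ∀ a' ∈ S, ∃ a ∈ S', ∀ r, ch r a' = ch (w r) a) :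
    f ρ ψ τ (L.map fun p => (w p.1, p.2)) (Z.map w) S' = f ρ ψ τ (L.map fun p => (p.1, p.2 * c p.1)) Z S := by
  rw [f, f, ← h.map_eq]
  refine le_antisymm (finrank_le_of_map (ρ := ρ) g⁻¹ ?_) (finrank_le_of_map (ρ := ρ) g fun v hv =>
    ⟨Submodule.mem_map_of_mem hv.1, fun a ha => ?_⟩)
  · rintro _ ⟨⟨v, hv, rfl⟩, hv'⟩
    rw [inv_app]
    refine ⟨hv, fun a' ha' => ?_⟩
    obtain ⟨a, ha, e⟩ := h2 a' ha'
    rw [MonoidHom.comp_apply, ← h.conj_tor hτ e, app_mul, app_mul]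
    exact (congrArg _ (hv' a ha)).trans (inv_app _ _ _)
  · obtain ⟨a', ha', e⟩ := h1 a ha
    rw [MonoidHom.comp_apply, app_conj, h.conj_tor hτ e]
    exact congrArg _ (hv.2 a' ha')

omit [Fintype F] in
theorem f_one (r : Fin 12) {l l' : F} (h : l ≠ 0) (h' : l' ≠ 0) : f ρ ψ τ [(r, l)] Z S = f ρ ψ τ [(r, l')] Z S := by
  obtain ⟨a, ha⟩ := ch_surj r (Units.mk0 (l' / l) (div_ne_zero h' h))
  simpa [ha, mul_div_cancel₀ _ h] using f_act (ρ := ρ) (ψ := ψ) (L := [(r, l)]) (Z := Z) (S := S) (S' := S) hτ (hτ a)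
    (fun a ha => ⟨a, ha, fun _ => rfl⟩) fun a ha => ⟨a, ha, fun _ => rfl⟩

omit [Fintype F] in
theorem f_wa (r : Fin 12) (Z : List (Fin 12)) :
    f ρ ψ τ [(wa r, 1)] (Z.map wa) (ch (wa r)).ker = f ρ ψ τ [(r, 1)] Z (ch r).ker := by
  obtain ⟨g, c, hg⟩ := exists_act (F := F) 0
  refine (f_act (L := [(r, 1)]) hτ hg (fun a ha => ⟨_, (ch_wa a r).trans ha, ch_wa a⟩) fun a ha => ?_).trans
    (f_one hτ r (mul_ne_zero one_ne_zero (hg.1 r)) one_ne_zero)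
  have e := ch_wa (a.1 * a.2, a.2⁻¹)
  simp only [mul_inv_cancel_right, inv_inv] at e
  exact ⟨_, (e r).symm.trans ha, e⟩

omit [Fintype F] in
theorem f_wb (r : Fin 12) (Z : List (Fin 12)) :
    f ρ ψ τ [(wb r, 1)] (Z.map wb) (ch (wb r)).ker = f ρ ψ τ [(r, 1)] Z (ch r).ker := by
  obtain ⟨g, c, hg⟩ := exists_act (F := F) 1
  exact (f_act (L := [(r, 1)]) hτ hg (fun a ha => ⟨_, (ch_wb a r).trans ha, ch_wb a⟩) fun a ha =>
    ⟨(a.2, a.1), (ch_wb (a.2, a.1) r).symm.trans ha, ch_wb (a.2, a.1)⟩).trans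
    (f_one hτ r (mul_ne_zero one_ne_zero (hg.1 r)) one_ne_zero)

omit [Fintype F] [FiniteDimensional ℂ V] in
theorem tor_mem {a : Fˣ × Fˣ} (h : ∀ p ∈ L, ch p.1 a = 1) {v : V} (hv : v ∈ E ρ ψ L Z) : ρ (τ a) v ∈ E ρ ψ L Z :=
  (hτ a).mem (fun p hp => ⟨p, hp, rfl, by simp [h p hp]⟩) (fun r hr => ⟨r, hr, rfl⟩) hv

variable (hψ : ψ ≠ 1)
include hψ

theorem f_split [DecidableEq F] (r : Fin 12) (hS : ∀ a ∈ S, ∀ p ∈ L, ch p.1 a = 1)
    (h : (L.map Prod.fst ++ Z).all (ok 0 r Z) := by simp only [List.map_cons, List.map_nil]; decide +kernel) :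
    Nat.card S * f ρ ψ τ L Z S = Nat.card S * f ρ ψ τ L (r :: Z) S + Nat.card ↥(S ⊓ (ch r).ker) *
      ∑ l ∈ Finset.univ.erase 0, f ρ ψ τ ((r, l) :: L) Z (S ⊓ (ch r).ker) := by
  rw [f, split_fix hψ (X_add r) (fun a => (hτ a).2 r) (fun t v hv => inv_E Nat.cast_zero r t hv h)
    fun a ha v hv => tor_mem hτ (hS a ha) hv, E_cons, E_zero, f, Finset.sum_congr rfl fun l _ => by rw [E_cons]]
  rfl

theorem f_split' (r : Fin 12) (hS : ∀ a ∈ S, ∀ p ∈ L, ch p.1 a = 1) (hs : ∀ c, ∃ a ∈ S, ch r a = c)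
    (h : (L.map Prod.fst ++ Z).all (ok 0 r Z) := by simp only [List.map_cons, List.map_nil]; decide +kernel) :
    f ρ ψ τ L Z S = f ρ ψ τ L (r :: Z) S + f ρ ψ τ ((r, 1) :: L) Z (S ⊓ (ch r).ker) := by
  rw [f, split_fix' hψ (X_add r) (fun a => (hτ a).2 r) (fun t v hv => inv_E Nat.cast_zero r t hv h)
    (fun a ha v hv => tor_mem hτ (hS a ha) hv) hs one_ne_zero, E_cons, E_cons, E_zero, f, f]

theorem f_top (r : Fin 12) (h : Z.all (ok 0 r Z) := by decide +kernel) :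
    f ρ ψ τ [] Z ⊤ = f ρ ψ τ [] (r :: Z) ⊤ + f ρ ψ τ [(r, 1)] Z (ch r).ker := by
  rw [f_split' (L := []) (S := ⊤) hτ hψ r (by simp) (fun c => (ch_surj r c).imp fun _ h => ⟨trivial, h⟩) h, top_inf_eq]

theorem f_nine (h : (11 :: Z).all (ok 0 9 Z) := by decide +kernel) :
    f ρ ψ τ [(11, 1)] Z (ch 11).ker = f ρ ψ τ [(11, 1)] (9 :: Z) (ch 11).ker + d ρ ψ [(9, 1), (11, 1)] Z := by
  have e : (ch 11).ker ⊓ (ch 9).ker = (⊥ : Subgroup (Fˣ × Fˣ)) := eq_bot_iff.2 fun a ha => by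
    have h1 : a.1 * (a.1 * a.2) = 1 := by simpa [ch_apply, e1, zpow_ofNat, pow_two, mul_assoc, e2] using ha.1
    have h2 : a.1 * a.2 = 1 := by simpa [ch_apply, e1, e2] using ha.2
    rw [h2, mul_one] at h1
    rw [h1, one_mul] at h2
    exact Prod.ext h1 h2
  rw [f_split' (L := [(11, 1)]) (Z := Z) (S := (ch 11).ker) hτ hψ 9 (by simp) (fun c => ⟨(c⁻¹, c * c), by simp [ch_apply, e1, e2, zpow_ofNat, pow_two],
    by simp [ch_apply, e1, e2]⟩) h, e, f_bot]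

theorem f_ten {ω : Fˣ} (h1 : ω ^ 3 = 1) (h2 : ω ≠ 1) :
    ∃ k, f ρ ψ τ [(11, 1)] [9] (ch 11).ker = f ρ ψ τ [(11, 1)] [10, 9] (ch 11).ker + 3 * k := by
  classical
  have h := f_split (ρ := ρ) (L := [(11, 1)]) (Z := [9]) (S := (ch 11).ker) hτ hψ 10 (by simp)
  have a : ∀ l l', f ρ ψ τ [(10, l), (11, 1)] [9] ((ch 11).ker ⊓ (ch 10).ker) ≤
      f ρ ψ τ [(10, l'), (11, 1)] [9] ((ch 11).ker ⊓ (ch 10).ker) := fun l l' => by
    refine finrank_le_of_map (ρ := ρ) (X 6 (l - l')) fun v hv => ⟨?_, fun a ha => ?_⟩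
    · have := shift_E Nat.cast_zero 6 hv.1 fun u => cp_one Nat.cast_zero (l - l') u hv.1 (k := 11) (e := 1) (κ := 1)
        ⟨[], [], by decide +kernel, by simp⟩ (by simp)
      simpa using this
    · have e : ch 6 a = 1 := by
        have : ch 6 a * ch 10 a = ch 11 a := by
          simp [ch_apply, e1, e2, zpow_ofNat, pow_two, mul_comm, mul_left_comm, mul_assoc]
        rwa [MonoidHom.mem_ker.1 ha.1, MonoidHom.mem_ker.1 ha.2, mul_one] at this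
      have e' := (hτ a).2 6 (l - l')
      simp only [e, _root_.id, Units.val_one, one_mul, mul_inv_eq_iff_eq_mul] at e'
      rw [MonoidHom.comp_apply, ← app_mul, e', app_mul]
      exact congrArg _ (hv.2 a ha)
  have c1 : Nat.card (ch (F := F) 11).ker = Nat.card Fˣ := by
    have := card_eq_mul (ch (F := F) 11) ⊤
    rw [top_inf_eq, (eq_top_iff.2 fun c _ => (ch_surj 11 c).imp fun _ h => ⟨trivial, h⟩ : Subgroup.map (ch 11) ⊤ = ⊤),
      Subgroup.card_top, Subgroup.card_top, Nat.card_prod] at this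
    exact (Nat.eq_of_mul_eq_mul_left Nat.card_pos this).symm
  obtain ⟨k, hk⟩ : 3 ∣ Nat.card ↥((ch (F := F) 11).ker ⊓ (ch 10).ker) := by
    have : Fact (Nat.Prime 3) := ⟨Nat.prime_three⟩
    rw [← orderOf_eq_prime (x := (ω, ω)) (p := 3) (Prod.ext h1 h1) fun h => h2 (congrArg Prod.fst h)]
    exact Subgroup.orderOf_dvd_natCard _ ⟨by simpa [ch_apply, e1, e2, zpow_ofNat, ← pow_succ] using h1,
      by simpa [ch_apply, e1, e2, zpow_ofNat, ← pow_succ'] using h1⟩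
  rw [Finset.sum_congr rfl fun l _ => le_antisymm (a l 0) (a 0 l), Finset.sum_const, smul_eq_mul,
    Finset.card_erase_of_mem (Finset.mem_univ _), Finset.card_univ, ← Fintype.card_units, ← Nat.card_eq_fintype_card,
    c1, hk, mul_left_comm, ← mul_add, mul_assoc] at h
  exact ⟨_, Nat.eq_of_mul_eq_mul_left Nat.card_pos h⟩

theorem f_torus (h3 : (3 : F) ≠ 0) {u : Fˣ} (hu : u ^ 3 ≠ 1) {ω : Fˣ} (h1 : ω ^ 3 = 1) (h2 : ω ≠ 1)
    (hm : d ρ ψ [(11, 1)] [9, 10] = 1) (he : d ρ ψ [(6, 1)] [10, 11] = 1) :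
    ∃ k, f ρ ψ τ [] [] ⊤ = f ρ ψ τ [] [6, 10, 11] ⊤ + 3 * k + Fintype.card F + 1 := by
  obtain ⟨k, hk⟩ := f_ten (ρ := ρ) hτ hψ h1 h2
  have a1 : d ρ ψ [(9, 1), (11, 1)] [10] = 1 := Nat.eq_of_mul_eq_mul_left Fintype.card_pos
    (by rw [← n3_c hψ h3 one_ne_zero, n3_c' hψ h3 one_ne_zero, hm])
  have a2 : d ρ ψ [(9, 1), (11, 1)] [] = Fintype.card F := by
    rw [d_heis1 hψ Nat.cast_zero 10 6 11 1 (κ := 1) (by simp) 0, d_zero, a1, mul_one]
  have a3 : E ρ ψ [(6, 1)] [10, 11] = E ρ ψ [(6, 1)] [8, 11] := by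
    have := n3_b' hψ hm hu one_ne_zero
    rw [← Submodule.eq_of_le_of_finrank_eq (E_le : E ρ ψ [(6, 1)] [10, 8, 11] ≤ E ρ ψ [(6, 1)] [10, 11])
      (this.trans he.symm), Submodule.eq_of_le_of_finrank_eq
      (E_le : E ρ ψ [(6, 1)] [10, 8, 11] ≤ E ρ ψ [(6, 1)] [8, 11]) (this.trans ((n3_b one_ne_zero).trans hm).symm)]
  have a4 : f ρ ψ τ [(6, 1)] [10, 11] (ch 6).ker = f ρ ψ τ [(11, 1)] [9, 10] (ch 11).ker := by
    rw [f, a3]
    exact (f_wa hτ 10 [9, 11]).trans (f_wb hτ 11 [9, 10])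
  have a5 : f ρ ψ τ [(10, 1)] [11] (ch 10).ker = f ρ ψ τ [(11, 1)] [10] (ch 11).ker := f_wb hτ 11 [10]
  have a6 : f ρ ψ τ [(11, 1)] [10, 9] (ch 11).ker = f ρ ψ τ [(11, 1)] [9, 10] (ch 11).ker := by
    rw [f, (E_eq : E ρ ψ [(11, 1)] [10, 9] = E ρ ψ [(11, 1)] [9, 10]), f]
  refine ⟨k + f ρ ψ τ [(11, 1)] [9, 10] (ch 11).ker, ?_⟩
  rw [f_top hτ hψ 11, f_top hτ hψ 10, f_top hτ hψ 6, a4, a5, f_nine hτ hψ (Z := [10]), f_nine hτ hψ (Z := []), hk, a1,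
    a2, a6]
  ring

theorem f_free (r : Fin 12) (hS : S ⊓ (ch r).ker = ⊥) (h : Z.all (ok 0 r Z) := by decide +kernel) :
    Nat.card S * f ρ ψ τ [] Z S + d ρ ψ [] (r :: Z) = Nat.card S * f ρ ψ τ [] (r :: Z) S + d ρ ψ [] Z := by
  classical
  rw [f_split (L := []) (Z := Z) (S := S) hτ hψ r (by simp) h, hS, d_split hψ Nat.cast_zero r [] Z h, ← Finset.add_sum_erase _ _ (Finset.mem_univ 0),
    d_zero, Subgroup.card_bot, one_mul, Finset.sum_congr rfl fun l _ => f_bot]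
  ring

omit hτ hψ in
theorem three_ne (h : Fintype.card F % 3 ≠ 0) : (3 : F) ≠ 0 := fun h3 => by
  have h1 := Nat.cast_card_eq_zero F
  rw [← Nat.div_add_mod (Fintype.card F) 3, Nat.cast_add, Nat.cast_mul, Nat.cast_ofNat, h3, zero_mul, zero_add] at h1
  rcases (by omega : Fintype.card F % 3 = 1 ∨ Fintype.card F % 3 = 2) with e | e <;> rw [e] at h1
  · exact one_ne_zero (Nat.cast_one.symm.trans h1)
  · exact one_ne_zero (by linear_combination h3 - (Nat.cast_two.symm.trans h1) : (1 : F) = 0)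

omit hτ in
theorem cube_lt (hρ : Function.Injective ρ) (h3 : Fintype.card F % 3 = 1) {u : Fˣ} (hu : u ^ 3 ≠ 1) :
    Fintype.card F ^ 3 < finrank ℂ V := by
  classical
  have : Fact (Nat.Prime 3) := ⟨Nat.prime_three⟩
  have h3' : (3 : F) ≠ 0 := three_ne (by omega)
  obtain ⟨ω, hω⟩ := exists_prime_orderOf_dvd_card (G := Fˣ) 3 (by
    rw [Fintype.card_units]; exact (Nat.modEq_iff_dvd' Fintype.card_pos).1 h3.symm)
  have h1 : ω ^ 3 = 1 := hω ▸ pow_orderOf_eq_one ω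
  have h2 : ω ≠ 1 := fun h => by simp [h] at hω
  have h2' : (ω : F) ≠ 1 := fun h => h2 (Units.val_eq_one.1 h)
  have h4 : (ω : F) ^ 2 + ω + 1 = 0 := mul_left_cancel₀ (sub_ne_zero.2 h2') (by
    have := congrArg Units.val h1
    push_cast at this
    linear_combination this)
  refine not_le.1 fun hle => ?_
  obtain ⟨hm, he, hk⟩ := (n3_bound hψ h3' hρ hu).2 hle
  obtain ⟨φ, hτ⟩ := exists_hom' (F := F)
  obtain ⟨k, hT⟩ := f_torus (τ := φ.comp dg) hτ hψ h3' hu h1 h2 hm he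
  have tc : ∀ g, IsConj (dg (1, ω)) g → trace ℂ V (ρ (φ g)) = trace ℂ V (ρ (φ (dg (1, ω)))) := fun g hg => by
    obtain ⟨c, rfl⟩ := isConj_iff.1 hg
    rw [map_mul φ, map_mul φ, map_inv, MinD.trace_conj]
  have t1 := trace_three (x := ρ (φ n3)) (e := sm (ρ.comp (φ.comp dg)) ⊤) (N := Fx (ρ.comp (φ.comp dg)) ⊤)
    (by simp only [← map_mul, n3_cube, map_one])
    (fun v hv a _ => by
      have e := n3_dg (a.2, (a.1 * a.2)⁻¹)
      simp only [mul_inv_rev, mul_inv_cancel_left, inv_inv] at e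
      rw [MonoidHom.comp_apply, MonoidHom.comp_apply, ← app_mul, ← map_mul, ← e, map_mul, app_mul]
      exact congrArg _ (hv _ trivial)) (sm_mem_Fx _) fun v hv => sm_of_mem_Fx hv
  rw [trace_sm, sm_eq, Finset.mul_sum, Finset.mul_sum, map_sum, map_sum] at t1
  simp only [MonoidHom.comp_apply, ← map_mul, fun a => tc _ (isConj_n3 h4 h2' a).1,
    fun a => tc _ (isConj_n3 h4 h2' a).2, Finset.sum_const, Finset.card_univ, ← Nat.card_eq_fintype_card,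
    nsmul_eq_mul] at t1
  have hD : ((1, ω) : Fˣ × Fˣ) * (1, ω) * (1, ω) = 1 := Prod.ext (by simp) (by
    rw [pow_three, ← mul_assoc] at h1; exact h1)
  have t2 := trace_three (x := ρ (φ (dg (1, ω)))) (e := 1) (N := ⊤) (c := 1) (by simp only [← map_mul, hD, map_one])
    (by simp) (by simp) (by simp)
  have t3 : IsConj (dg (1, ω)) (dg (1, ω) * dg (1, ω)) := conj_of_eig !![1, 0, 0; 0, 0, 1; 0, 1, 0]
    (by simp [Matrix.det_fin_three]) (by
      have hi : (ω : F)⁻¹ = ω ^ 2 := inv_eq_of_mul_eq_one_right (by linear_combination (ω - 1 : F) * h4)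
      simp only [Matrix.SpecialLinearGroup.coe_mul, Matrix.mul_fin_three, dg_coe]
      ext i j; fin_cases i <;> fin_cases j <;> simp [hi] <;> grind)
  have hS : Nat.card (Subgroup.zpowers ((1, ω) : Fˣ × Fˣ)) = 3 := by
    rw [Nat.card_zpowers, Prod.orderOf_mk, hω, orderOf_one]; rfl
  have hK : ∀ r, ch r (1, ω) ≠ 1 → Subgroup.zpowers ((1, ω) : Fˣ × Fˣ) ⊓ (ch r).ker = ⊥ := fun r hr => by
    have := Subgroup.card_dvd_of_le (inf_le_left : Subgroup.zpowers ((1, ω) : Fˣ × Fˣ) ⊓ (ch r).ker ≤ _)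
    rw [hS, Nat.dvd_prime Nat.prime_three] at this
    refine Subgroup.card_eq_one.1 (this.resolve_right fun e => hr ?_)
    exact ((Subgroup.eq_of_le_of_card_ge inf_le_left (hS.trans e.symm).le).ge (Subgroup.mem_zpowers _)).2
  have s1 := f_free (ρ := ρ) (τ := φ.comp dg) (Z := []) hτ hψ 11 (hK _ (by simpa [ch_apply, e1, e2] using h2))
  have s2 := f_free (ρ := ρ) (τ := φ.comp dg) (Z := [11]) hτ hψ 10 (hK _ (by
    simp only [ch_apply, e1, e2, Matrix.cons_val, zpow_ofNat, one_pow, one_mul]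
    exact fun h => h2 (by rwa [pow_succ, h, one_mul] at h1)))
  have s3 := f_free (ρ := ρ) (τ := φ.comp dg) (Z := [10, 11]) hτ hψ 6 (hK _ (by simpa [ch_apply, e1, e2] using h2))
  have s4 : ⊤ ⊓ LinearMap.ker (ρ (φ (dg (1, ω))) - 1) =
      E ρ ψ [] [] ⊓ Fx (ρ.comp (φ.comp dg)) (Subgroup.zpowers (1, ω)) := by
    ext v
    simp [E_nil, mem_Fx_iff, mem_Stab, sub_eq_zero]
  simp only [mul_one, ← map_mul ρ, ← map_mul φ, tc _ t3, trace_one] at t2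
  rw [s4] at t2
  have s5 := f_le (ρ := ρ) (ψ := ψ) (τ := φ.comp dg) (L := []) (Z := [6, 10, 11]) (S := ⊤)
  rw [f, E_nil, top_inf_eq] at hT
  rw [hT] at t1
  rw [hS, d_nil] at s1
  rw [hS] at s2 s3
  generalize finrank ℂ ↥(Fx (ρ.comp (φ.comp dg)) ⊤ ⊓ LinearMap.ker (ρ (φ n3) - 1)) = r at t1
  have t4 : f ρ ψ (φ.comp dg) [] [6, 10, 11] ⊤ + 3 * k + Fintype.card F + 1 +
      3 * f ρ ψ (φ.comp dg) [] [] (Subgroup.zpowers (1, ω)) = 3 * r + finrank ℂ V := by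
    refine Nat.cast_injective (R := ℂ) (mul_left_cancel₀ (card_ne_zero (⊤ : Subgroup (Fˣ × Fˣ))) ?_)
    rw [f.eq_1 _ _ _ [] []]
    push_cast at t1 ⊢
    linear_combination t1 - (Nat.card (⊤ : Subgroup (Fˣ × Fˣ)) : ℂ) * t2
  omega

end CL.MinG
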