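/-
CHEV library: lower bound for the degrees of complex representations of `G₂(q)`, `q` a power of `3`.
-/
import Cfsg.Agent.CHEV.MinG4

set_option autoImplicit false

namespace CL.MinG

open CL.MinD CL.Chev Cfsg.Lie Module

variable {F V : Type*} [Field F] [AddCommGroup V] [Module ℂ V] {ρ : chevG2.group F →* End ℂ V} {ψ : AddChar F ℂ}

theorem cp76 {v : V} {i j : F} (hv : v ∈ E ρ ψ [(8, i), (10, j)] [9, 11]) (t u : F) :
    ρ (cp 7 6 t u) v = ψ ((i * t - j * t ^ 3) * u) • v := by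
  rw [cp, show fc 7 6 = [(8, -1, 1, 1), (9, 1, 2, 1), (10, 1, 3, 1), (11, 1, 3, 2)] by decide +kernel]
  simp only [List.map_cons, List.map_nil, List.prod_cons, List.prod_nil, app_mul, app_one, fix hv 11, eig hv 10 j,
    map_smul, fix hv 9, eig hv 8 i, smul_smul, ← AddChar.map_add_eq_mul]
  congr 2
  push_cast
  ring

theorem exists_t {u : F} (hu0 : u ≠ 0) (hu : u ^ 2 ≠ 1) (i : F) {j : F} (hj : j ≠ 0) : ∃ t, i * t - j * t ^ 3 ≠ 0 := by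
  by_contra! h
  exact mul_ne_zero (mul_ne_zero hj hu0) (sub_ne_zero.2 hu) (by linear_combination u * h 1 - h u)

variable [Fintype F] [FiniteDimensional ℂ V]

theorem d_two (Z : List (Fin 12)) {k l : F} (hk : k ≠ 0) (hl : l ≠ 0) :
    d ρ ψ [(9, k), (11, l)] Z = d ρ ψ [(9, 1), (11, 1)] Z := by
  have := d_tor (ρ := ρ) (ψ := ψ) (Units.mk0 k hk / Units.mk0 l hl, Units.mk0 l hl / Units.mk0 k hk ^ 2)
    [(9, k), (11, l)] Z
  simp only [List.map_cons, List.map_nil, ch_apply, e1, e2, Matrix.cons_val, zpow_ofNat, Units.val_mul,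
    Units.val_pow_eq_pow_val, Units.val_div_eq_div_val, Units.val_mk0] at this
  rw [this]
  congr 3 <;> congr 1 <;> field_simp

omit [Fintype F] in
theorem d_wa2 (r s : Fin 12) (Z : List (Fin 12)) {l l' : F} (h : l ≠ 0) (h' : l' ≠ 0) : ∃ k k' : F, k ≠ 0 ∧ k' ≠ 0 ∧
    d ρ ψ [(wa r, l), (wa s, l')] (Z.map wa) = d ρ ψ [(r, k), (s, k')] Z := by
  obtain ⟨g, c, hg⟩ := exists_act (F := F) 0
  exact ⟨_, _, mul_ne_zero h (hg.1 r), mul_ne_zero h' (hg.1 s), hg.d_eq [(r, l), (s, l')] Z⟩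

omit [Fintype F] in
theorem d_wb2 (r s : Fin 12) (Z : List (Fin 12)) {l l' : F} (h : l ≠ 0) (h' : l' ≠ 0) : ∃ k k' : F, k ≠ 0 ∧ k' ≠ 0 ∧
    d ρ ψ [(wb r, l), (wb s, l')] (Z.map wb) = d ρ ψ [(r, k), (s, k')] Z := by
  obtain ⟨g, c, hg⟩ := exists_act (F := F) 1
  exact ⟨_, _, mul_ne_zero h (hg.1 r), mul_ne_zero h' (hg.1 s), hg.d_eq [(r, l), (s, l')] Z⟩

omit [Fintype F] [FiniteDimensional ℂ V] in
theorem d_swap {a b : Fin 12 × F} {Z : List (Fin 12)} : d ρ ψ [a, b] Z = d ρ ψ [b, a] Z := d_eq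

variable (hψ : ψ ≠ 1) (hp : ((3 : ℕ) : F) = 0)
include hψ hp

omit hψ [Fintype F] in
theorem two_ne : (2 : F) ≠ 0 := fun h => one_ne_zero (by linear_combination (Nat.cast_ofNat.symm.trans hp) - h : (1 : F) = 0)

theorem p3_J1 : d ρ ψ [(9, 1), (11, 1)] [10] = Fintype.card F * d ρ ψ [(9, 1), (11, 1)] [8, 10] := by
  rw [d_heis1 hψ hp 8 7 9 (-2) (κ := 1) (by simpa using two_ne hp) 0, d_zero]

theorem p3_J : d ρ ψ [(9, 1), (11, 1)] [] = Fintype.card F * (Fintype.card F * d ρ ψ [(9, 1), (11, 1)] [8, 10]) := by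
  rw [d_heis1 hψ hp 10 6 11 1 (κ := 1) (by simp) 0, d_zero, p3_J1 hψ hp]

theorem p3_Ja : d ρ ψ [(9, 1), (11, 1)] [6, 8] = d ρ ψ [(9, 1), (11, 1)] [8, 10] := by
  refine Nat.eq_of_mul_eq_mul_left (Fintype.card_pos (α := F)) ?_
  rw [← d_zero 6, ← d_heis1 hψ hp 6 10 11 (-1) (κ := 1) (by simp) 0, d_heis1 hψ hp 10 6 11 1 (κ := 1) (by simp) 0,
    d_zero, (d_eq : d ρ ψ [(9, 1), (11, 1)] [10, 8] = d ρ ψ [(9, 1), (11, 1)] [8, 10])]

theorem p3_Jb : d ρ ψ [(9, 1), (11, 1)] [7, 10] = d ρ ψ [(9, 1), (11, 1)] [8, 10] := by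
  refine Nat.eq_of_mul_eq_mul_left (Fintype.card_pos (α := F)) ?_
  rw [← p3_J1 hψ hp, ← d_zero 7, ← d_heis1 hψ hp 7 8 9 2 (κ := 1) (by simpa using two_ne hp) 0]

theorem p3_n2 : d ρ ψ [(11, 1)] [10, 9] =
    d ρ ψ [(11, 1)] [8, 10, 9] + (Fintype.card F - 1) * d ρ ψ [(9, 1), (11, 1)] [8, 10] :=
  d_split' hψ hp 8 fun i hi => by
    obtain ⟨k, k', h1, h2, e⟩ := d_wa2 (ρ := ρ) (ψ := ψ) 9 11 [6, 8] hi one_ne_zero
    exact e.trans ((d_two _ h1 h2).trans (p3_Ja hψ hp))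

theorem p3_n2' : d ρ ψ [(9, 1)] [8, 11] =
    d ρ ψ [(9, 1)] [10, 8, 11] + (Fintype.card F - 1) * d ρ ψ [(9, 1), (11, 1)] [8, 10] :=
  d_split' hψ hp 10 fun i hi => by
    obtain ⟨k, k', h1, h2, e⟩ := d_wb2 (ρ := ρ) (ψ := ψ) 11 9 [7, 10] hi one_ne_zero
    exact e.trans (d_swap.trans ((d_two _ h2 h1).trans (p3_Jb hψ hp)))

theorem p3_W : d ρ ψ [(11, 1)] [] = Fintype.card F * d ρ ψ [(11, 1)] [10, 9] +
    (Fintype.card F - 1) * (Fintype.card F * (Fintype.card F * d ρ ψ [(9, 1), (11, 1)] [8, 10])) := by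
  rw [d_split' hψ hp 9 fun k hk => (d_two _ hk one_ne_zero).trans (p3_J hψ hp),
    d_heis1 hψ hp 10 6 11 1 (κ := 1) (by simp) 0, d_zero]

omit hψ hp in
theorem p3_c {j : F} (hj : j ≠ 0) : d ρ ψ [(10, j)] [9, 11] = d ρ ψ [(11, 1)] [10, 9] :=
  (d_wb 11 [9, 10] hj one_ne_zero).trans d_eq

omit hψ hp in
theorem p3_c' {j : F} (hj : j ≠ 0) : d ρ ψ [(8, j)] [9, 11] = d ρ ψ [(9, 1)] [8, 11] :=
  d_wa 9 [8, 11] hj one_ne_zero

theorem p3_dim : finrank ℂ V = d ρ ψ [] [8, 10, 9, 11] + (Fintype.card F - 1) * d ρ ψ [(8, 1)] [10, 9, 11] +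
    (Fintype.card F - 1) * d ρ ψ [(11, 1)] [10, 9] + (Fintype.card F - 1) * (Fintype.card F * d ρ ψ [(9, 1)] [8, 11]) +
    (Fintype.card F - 1) * d ρ ψ [(11, 1)] [] := by
  rw [← d_nil (ρ := ρ) (ψ := ψ), d_split' hψ hp 11 fun l hl => d_one 11 _ hl one_ne_zero,
    d_split' hψ hp 9 fun l hl => d_one 9 _ hl one_ne_zero, d_split' hψ hp 10 fun l hl => p3_c hl,
    d_split' hψ hp 8 fun l hl => d_one 8 _ hl one_ne_zero,
    d_heis1 (L := [(9, 1)]) hψ hp 8 7 9 (-2) (κ := 1) (by simpa using two_ne hp) 0, d_zero]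

theorem p3_pos (hρ : Function.Injective ρ) {u : F} (hu0 : u ≠ 0) (hu : u ^ 2 ≠ 1) :
    d ρ ψ [(9, 1), (11, 1)] [8, 10] ≠ 0 := fun h => by
  have h1 : E ρ ψ [(10, 1)] [7] = E ρ ψ [(10, 1)] [] := Submodule.eq_of_le_of_finrank_eq E_le (by
    have := d_split' (ρ := ρ) (L := [(10, 1)]) (Z := []) (m := 0) hψ hp 7 fun i hi => by
      obtain ⟨k, k', h1, h2, e⟩ := d_wb2 (ρ := ρ) (ψ := ψ) 8 11 [] hi one_ne_zero
      obtain ⟨l, l', h3, h4, e'⟩ := d_wa2 (ρ := ρ) (ψ := ψ) 9 11 [] h1 h2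
      exact e.trans (e'.trans ((d_two _ h3 h4).trans (by rw [p3_J hψ hp, h]; rfl)))
    exact this.symm)
  have h2 : ∀ i, d ρ ψ [(8, i), (10, 1)] [9, 11] = 0 := fun i => Submodule.finrank_eq_zero.2 (eq_bot_iff.2 fun v hv => by
    obtain ⟨t, ht⟩ := exists_t hu0 hu i one_ne_zero
    obtain ⟨w, hw⟩ := exists_psi_ne_one hψ ht
    have a : ∀ v ∈ E ρ ψ [(8, i), (10, 1)] [9, 11], ρ (X 7 t) v = v := fun v hv => fix (h1.ge (E_le (by simp) (by simp) hv)) 7 t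
    have b := congrArg (ρ · v) (rel (r := 7) (s := 6) (by decide) (by decide) t w)
    simp only [app_mul, cp76 hv, map_smul, a v hv, a _ (inv_E hp 6 w hv)] at b
    by_contra h0
    exact hw (smul_left_injective ℂ (app_ne_zero ρ (X 6 w) h0) (b.symm.trans (one_smul _ _).symm)))
  have h3 : d ρ ψ [(11, 1)] [10, 9] = 0 := by
    rw [← p3_c one_ne_zero, d_split hψ hp 8 [(10, 1)] [9, 11]]
    exact Finset.sum_eq_zero fun i _ => h2 i
  have h4 := d_split' (ρ := ρ) (L := []) (Z := []) hψ hp 11 fun l hl => d_one 11 _ hl one_ne_zero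
  have h5 := d_lt (ψ := ψ) hρ 11
  rw [p3_W hψ hp, h, h3] at h4
  omega

theorem p3_three {u : F} (hu0 : u ≠ 0) (hu : u ^ 2 ≠ 1) {i j : F} (hj : j ≠ 0)
    (h : d ρ ψ [(8, i), (10, j)] [9, 11] ≠ 0) : 3 ≤ d ρ ψ [(8, i), (10, j)] [9, 11] := by
  classical
  rw [d_split hψ hp 6 [(8, i), (10, j)] [9, 11]] at h ⊢
  obtain ⟨μ, -, hμ⟩ := Finset.exists_ne_zero_of_sum_ne_zero h
  obtain ⟨t, ht⟩ := exists_t hu0 hu i hj
  have a : ∀ t, d ρ ψ [(6, μ), (8, i), (10, j)] [9, 11] ≤ d ρ ψ [(6, μ + (i * t - j * t ^ 3)), (8, i), (10, j)] [9, 11] :=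
    fun t => finrank_le_of_map (ρ := ρ) (X 7 t) fun v hv => shift_E hp 7 hv (cp76 (E_le (by simp) (by simp) hv) t)
  have h1 := a t
  have h2 := a (-t)
  have h3 : μ + (i * t - j * t ^ 3) ≠ μ + (i * -t - j * (-t) ^ 3) := fun e =>
    mul_ne_zero (two_ne hp) ht (by linear_combination e)
  have h4 : μ ≠ μ + (i * t - j * t ^ 3) := fun e => ht (by linear_combination -e)
  have h5 : μ ≠ μ + (i * -t - j * (-t) ^ 3) := fun e => ht (by linear_combination e)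
  have := Finset.sum_le_sum_of_subset (f := fun μ => d ρ ψ [(6, μ), (8, i), (10, j)] [9, 11])
    (Finset.subset_univ {μ, μ + (i * t - j * t ^ 3), μ + (i * -t - j * (-t) ^ 3)})
  rw [Finset.sum_insert (by simp only [Finset.mem_insert, Finset.mem_singleton, h4, h5, or_self, not_false_eq_true]),
    Finset.sum_pair h3] at this
  omega

theorem p3_A {u : F} (hu0 : u ≠ 0) (hu : u ^ 2 ≠ 1) {i : F} (hi : i ≠ 0)
    (h : d ρ ψ [(8, i), (10, 1)] [9, 11] ≠ 0) : 3 * (Fintype.card F - 1) ≤ 2 * d ρ ψ [(11, 1)] [10, 9] := by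
  classical
  have h3 := p3_three hψ hp hu0 hu one_ne_zero h
  have a : ∀ s : Fˣ, d ρ ψ [(8, i), (10, 1)] [9, 11] = d ρ ψ [(8, i * s ^ 2), (10, 1)] [9, 11] := fun s => by
    simpa [ch_apply, e1, e2, zpow_ofNat, pow_two, mul_mul_mul_comm (s : F) s _ _] using
      d_tor (ρ := ρ) (ψ := ψ) (s * s, s⁻¹) [(8, i), (10, 1)] [9, 11]
  have b := Finset.card_le_mul_card_image (f := fun s : Fˣ => i * (s : F) ^ 2) Finset.univ 2 fun x hx => by
    obtain ⟨s, -, rfl⟩ := Finset.mem_image.1 hx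
    refine (Finset.card_le_card (t := {s, -s}) fun s' hs' => ?_).trans Finset.card_le_two
    have := sq_eq_sq_iff_eq_or_eq_neg.1 (mul_left_cancel₀ hi (Finset.mem_filter.1 hs').2)
    simpa [Units.ext_iff] using this
  have c := Finset.card_nsmul_le_sum (Finset.univ.image fun s : Fˣ => i * (s : F) ^ 2)
    (fun i => d ρ ψ [(8, i), (10, 1)] [9, 11]) 3 fun x hx => by
    obtain ⟨s, -, rfl⟩ := Finset.mem_image.1 hx
    exact (a s) ▸ h3
  have e := Finset.sum_le_sum_of_subset (f := fun i => d ρ ψ [(8, i), (10, 1)] [9, 11])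
    (Finset.subset_univ (Finset.univ.image fun s : Fˣ => i * (s : F) ^ 2))
  rw [← d_split hψ hp 8 [(10, 1)] [9, 11], p3_c one_ne_zero] at e
  rw [Finset.card_univ, Fintype.card_units] at b
  rw [smul_eq_mul] at c
  omega

theorem p3_B (h : ∀ i, i ≠ 0 → d ρ ψ [(8, i), (10, 1)] [9, 11] = 0) : ∃ x x',
    d ρ ψ [(11, 1)] [10, 9] = Fintype.card F * x ∧ d ρ ψ [(9, 1)] [8, 11] = Fintype.card F * x' ∧
    d ρ ψ [(8, 1)] [10, 9, 11] = Fintype.card F * x' ∧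
    (3 ≤ Fintype.card F → x' = 1 → (Fintype.card F - 1) * (x + 1) ≤ d ρ ψ [] [8, 10, 9, 11]) := by
  have : CharP F 3 := (CharP.charP_iff_prime_eq_zero Nat.prime_three).2 hp
  have : Fact (Nat.Prime 3) := ⟨Nat.prime_three⟩
  have a1 : d ρ ψ [(11, 1)] [10, 9] = d ρ ψ [(10, 1)] [8, 9, 11] := by
    rw [← p3_c one_ne_zero, d_split' hψ hp 8 h, mul_zero, add_zero]
  have a2 : d ρ ψ [(9, 1)] [8, 11] = d ρ ψ [(8, 1)] [10, 9, 11] := by
    rw [← p3_c' one_ne_zero, d_split' (m := 0) hψ hp 10 fun j hj => by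
      have := d_tor (ρ := ρ) (ψ := ψ) ((Units.mk0 j hj)⁻¹, 1) [(10, j), (8, 1)] [9, 11]
      simp only [List.map_cons, List.map_nil, ch_apply, e1, e2, Matrix.cons_val, zpow_ofNat, one_pow, mul_one, pow_one,
        Units.val_inv_eq_inv_val, Units.val_mk0, mul_inv_cancel₀ hj, one_mul] at this
      exact this.trans (d_swap.trans (h _ (inv_ne_zero hj))), mul_zero, add_zero]
  have b1 : ∀ j, j ≠ 0 → d ρ ψ [(10, 1)] [8, 9, 11] = Fintype.card F * d ρ ψ [(6, 1), (10, j)] [8, 9, 11] :=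
    fun j hj => (d_one 10 _ one_ne_zero hj).trans (d_heis hψ hp 6 7 (fun μ => by
      obtain ⟨t, ht⟩ := surjective_frobenius F 3 (-μ / j)
      refine ⟨t, fun v hv u => ?_⟩
      rw [← E_zero] at hv
      rw [cp76 hv, ← frobenius_def, ht, mul_div_cancel₀ _ hj]
      simp) 1)
  have b2 : ∀ i, i ≠ 0 → d ρ ψ [(8, 1)] [10, 9, 11] = Fintype.card F * d ρ ψ [(7, 1), (8, i)] [10, 9, 11] :=
    fun i hi => (d_one 8 _ one_ne_zero hi).trans (d_heis1 hψ hp 7 6 8 1 (κ := i) (by simpa using hi) 1)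
  refine ⟨_, _, a1.trans (b1 1 one_ne_zero), a2.trans (b2 1 one_ne_zero), b2 1 one_ne_zero, fun hq hx => ?_⟩
  have c1 := d_split' (ρ := ρ) (L := [(6, 1)]) (Z := [9, 8, 11]) hψ hp 10 fun j hj =>
    (d_eq : d ρ ψ [(10, j), (6, 1)] [9, 8, 11] = d ρ ψ [(6, 1), (10, j)] [8, 9, 11]).trans
    (Nat.eq_of_mul_eq_mul_left Fintype.card_pos ((b1 j hj).symm.trans (b1 1 one_ne_zero)))
  have c2 := d_split' (ρ := ρ) (L := [(7, 1)]) (Z := [11, 9, 10]) hψ hp 8 fun j hj =>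
    (d_eq : d ρ ψ [(8, j), (7, 1)] [11, 9, 10] = d ρ ψ [(7, 1), (8, j)] [10, 9, 11]).trans
    (Nat.eq_of_mul_eq_mul_left Fintype.card_pos ((b2 j hj).symm.trans (b2 1 one_ne_zero)))
  have d1 : d ρ ψ [(6, 1)] [9, 8, 11] = _ := (d_wa 10 [8, 9, 11] one_ne_zero one_ne_zero).trans (b1 1 one_ne_zero)
  have d2 : d ρ ψ [(7, 1)] [11, 9, 10] = _ := (d_wb 8 [10, 9, 11] one_ne_zero one_ne_zero).trans (b2 1 one_ne_zero)
  have e1 := d_split' (ρ := ρ) (L := []) (Z := [8, 10, 9, 11]) hψ hp 6 fun l hl => d_one 6 _ hl one_ne_zero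
  have e2 := d_split' (ρ := ρ) (L := []) (Z := [6, 8, 10, 9, 11]) hψ hp 7 fun l hl => d_one 7 _ hl one_ne_zero
  have e3 := d_split' (ρ := ρ) (L := [(7, 1)]) (Z := [8, 10, 9, 11]) (m := d ρ ψ [(6, 1), (7, 1)] [8, 10, 9, 11])
    hψ hp 6 fun l hl => by
      simpa [ch_apply, CL.MinG.e1, CL.MinG.e2, hl] using
        d_tor (ρ := ρ) (ψ := ψ) ((Units.mk0 l hl)⁻¹, 1) [(6, l), (7, 1)] [8, 10, 9, 11]
  rw [(d_eq : d ρ ψ [(6, 1)] [10, 9, 8, 11] = d ρ ψ [(6, 1)] [8, 10, 9, 11]), d1] at c1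
  rw [(d_eq : d ρ ψ [(7, 1)] [8, 11, 9, 10] = d ρ ψ [(7, 1)] [8, 10, 9, 11]), d2, hx, e3] at c2
  obtain ⟨q, hq'⟩ : ∃ q, Fintype.card F = q + 3 := ⟨Fintype.card F - 3, by omega⟩
  rw [e1, e2]
  simp only [hq', show q + 3 - 1 = q + 2 from rfl] at c1 c2 ⊢
  have f1 : d ρ ψ [(6, 1)] [8, 10, 9, 11] = d ρ ψ [(6, 1), (10, 1)] [8, 9, 11] := by linarith
  have f2 : d ρ ψ [(7, 1)] [6, 8, 10, 9, 11] = 1 := by
    rcases Nat.eq_zero_or_pos (d ρ ψ [(6, 1), (7, 1)] [8, 10, 9, 11]) with h0 | h0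
    · rw [h0] at c2; omega
    · nlinarith
  rw [f1, f2]
  nlinarith

theorem p3_bound (hρ : Function.Injective ρ) (hq : 9 ≤ Fintype.card F) :
    Fintype.card F ^ 4 + Fintype.card F ^ 2 ≤ finrank ℂ V + 2 := by
  classical
  obtain ⟨u, hu⟩ : ∃ u : F, u ∉ ({0, 1, -1} : Finset F) := by
    by_contra! h
    have := (Finset.card_le_card fun u _ => h u : Finset.univ.card ≤ _).trans Finset.card_le_three
    rw [Finset.card_univ] at this
    omega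
  simp only [Finset.mem_insert, Finset.mem_singleton, not_or, ← sq_eq_one_iff] at hu
  have h0 := p3_pos hψ hp hρ hu.1 (by simpa using hu.2)
  have h1 := p3_dim (ρ := ρ) hψ hp
  have h2 := p3_n2 (ρ := ρ) hψ hp
  have h3 := p3_n2' (ρ := ρ) hψ hp
  have h4 := fun i hi => p3_A (ρ := ρ) hψ hp hu.1 (by simpa using hu.2) (i := i) hi
  have h5 := p3_B (ρ := ρ) hψ hp
  rw [p3_W hψ hp] at h1
  obtain ⟨q, hq'⟩ : ∃ q, Fintype.card F = q + 9 := ⟨Fintype.card F - 9, by omega⟩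
  simp only [hq', show q + 9 - 1 = q + 8 from rfl] at h1 h2 h3 h4 h5 ⊢
  generalize d ρ ψ [(9, 1), (11, 1)] [8, 10] = m at *
  rw [h1]
  rcases (by omega : 2 ≤ m ∨ m = 1) with hm | rfl
  · obtain ⟨m, rfl⟩ := Nat.exists_eq_add_of_le hm
    refine le_add_right (le_add_left ?_)
    rw [mul_add (q + 8)]
    refine le_add_left ?_
    ring_nf
    omega
  by_cases h : ∀ i, i ≠ 0 → d ρ ψ [(8, i), (10, 1)] [9, 11] = 0
  · obtain ⟨x, x', e1, e2, e3, e4⟩ := h5 h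
    rw [e1, e2, e3]
    obtain ⟨x, rfl⟩ : ∃ y, x = y + 1 := Nat.exists_eq_succ_of_ne_zero (by rintro rfl; omega)
    obtain ⟨x', rfl⟩ : ∃ y, x' = y + 1 := Nat.exists_eq_succ_of_ne_zero (by rintro rfl; omega)
    rcases x' with _ | x'
    · have := e4 (by omega) rfl
      obtain ⟨c, hc⟩ := Nat.exists_eq_add_of_le this
      rw [hc]
      ring_nf
      omega
    · ring_nf
      omega
  · push Not at h
    obtain ⟨i, hi, h⟩ := h
    obtain ⟨c, hc⟩ := Nat.exists_eq_add_of_le (h4 i hi h)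
    rw [h3]
    refine Nat.le_of_mul_le_mul_left ?_ two_pos
    generalize d ρ ψ [(11, 1)] [10, 9] = n at *
    have : 2 * ((q + 8) * n + (q + 8) * ((q + 9) * n)) = (q + 8) * (q + 10) * (3 * (q + 8) + c) := by
      rw [← hc]; ring
    nlinarith [Nat.zero_le (d ρ ψ [] [8, 10, 9, 11]), Nat.zero_le ((q + 8) * d ρ ψ [(8, 1)] [10, 9, 11]),
      Nat.zero_le ((q + 8) * ((q + 9) * d ρ ψ [(9, 1)] [10, 8, 11])), Nat.zero_le ((q + 8) * (q + 10) * c)]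

end CL.MinG
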