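/-
Small Ree groups: products of two involutions modulo three, and Gow's argument for the class of
involutions.
-/
import Mathlib
import Cfsg.Agent.CHEV.ReeCls
import Cfsg.Agent.CHAR.ClassMult
import Cfsg.Agent.CHAR.PermRank
import Cfsg.Agent.CHAR.Values

set_option autoImplicit false
set_option linter.unusedSectionVars false

namespace CL.Ree

open CL.HT Subgroup CL.Char Cfsg
open scoped ComplexConjugate

theorem orderOf_eq_two_iff {G : Type*} [Group G] {g : G} : orderOf g = 2 ↔ g ≠ 1 ∧ g * g = 1 := by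
  rw [orderOf_eq_prime_iff, sq, and_comm]

/-- The number of ways of writing `g` as a product of two involutions. -/
noncomputable def rr {G : Type*} [Group G] (g : G) : ℕ := Nat.card {t // orderOf t = 2 ∧ orderOf (t⁻¹ * g) = 2}

theorem three_dvd_rr {G : Type*} [Group G] [Finite G] {g v : G} (hv : v ^ 3 = 1) (hg : v * g = g * v)
    (h : ∀ t, t * v = v * t → orderOf t = 2 → orderOf (t⁻¹ * g) ≠ 2) : 3 ∣ rr g := by
  classical
  let _ := Fintype.ofFinite G
  by_contra h3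
  rw [rr, Nat.card_eq_fintype_card] at h3
  let s : Equiv.Perm {t // orderOf t = 2 ∧ orderOf (t⁻¹ * g) = 2} := Equiv.Perm.subtypePerm (MulAut.conj v).toEquiv
    fun t => by
      have : (v * t * v⁻¹)⁻¹ * g = v * (t⁻¹ * g) * v⁻¹ := by
        calc _ = v * t⁻¹ * (v⁻¹ * g) := by group
          _ = _ := by rw [show v⁻¹ * g = g * v⁻¹ from Commute.inv_left hg]; group
      change orderOf (v * t * v⁻¹) = 2 ∧ orderOf ((v * t * v⁻¹)⁻¹ * g) = 2 ↔ _
      rw [this, orderOf_conj', orderOf_conj']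
  obtain ⟨t, ht⟩ := Equiv.Perm.exists_fixed_point_of_prime (p := 3) (n := 1) h3 (σ := s) (Equiv.ext fun t => by
    refine Subtype.ext ?_
    change v * (v * (v * t * v⁻¹) * v⁻¹) * v⁻¹ = t
    calc _ = v ^ 3 * t * (v ^ 3)⁻¹ := by simp only [pow_succ, pow_zero, one_mul, mul_inv_rev, mul_assoc]
      _ = _ := by rw [hv]; simp)
  exact h t (mul_inv_eq_iff_eq_mul.mp (congrArg Subtype.val ht)).symm t.2.1 t.2.2

namespace Model

variable {F : Type*} [Field F] [CharP F 3] {σ : F →+* F} {G : Type*} [Group G] (M : Model σ G) [Finite F]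

theorem isConj_ε_iff {g : G} : IsConj M.ε g ↔ orderOf g = 2 :=
  ⟨fun h => by obtain ⟨c, rfl⟩ := isConj_iff.mp h; rw [orderOf_conj', orderOf_ε],
    fun h => M.isConj_ε (orderOf_eq_two_iff.mp h).1 (orderOf_eq_two_iff.mp h).2⟩

include M in
theorem exists_model_of_pow {g : G} (hg : g ^ 18 = 1) :
    ∃ M' : Model σ G, g ∈ M'.U ∨ ∃ y, g = M'.u 0 y 0 * M'.ε := by
  by_cases h : 3 ∣ orderOf g
  · obtain ⟨k, hk⟩ := M.exists_conj_mem_B h
    rcases M.mem_B_cases hk with h1 | ⟨v, -, l, -, -, h1⟩ | ⟨v, -, y, h1⟩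
    · exact ⟨M.conj k, Or.inl ((M.mem_conj_U _ _).mpr h1)⟩
    · exact absurd (by rwa [← h1, orderOf_inv_conj, orderOf_inv_conj]) (M.not_three_dvd_orderOf_h l)
    · refine ⟨M.conj (k * v), Or.inr ⟨y, ?_⟩⟩
      rw [conj_u, conj_ε, conj_mul, ← h1]
      group
  · have h2 : g * g = 1 := by
      rw [← sq, ← orderOf_dvd_iff_pow_eq_one]
      exact ((Nat.prime_three.coprime_iff_not_dvd.mpr h).symm.pow_right 2).dvd_of_dvd_mul_right
        (orderOf_dvd_of_pow_eq_one hg)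
    by_cases h1 : g = 1
    · exact ⟨M, Or.inl (h1 ▸ one_mem _)⟩
    obtain ⟨k, hk⟩ := M.exists_conj_ε_eq h1 h2
    exact ⟨M.conj k, Or.inr ⟨0, by rw [u_zero, one_mul, hk]⟩⟩

include M in
theorem three_dvd_rr_of_pow {g : G} (hg : g ^ 18 = 1) : 3 ∣ rr g := by
  have := M.finite_G
  obtain ⟨M, h | ⟨y, rfl⟩⟩ := M.exists_model_of_pow hg
  · have h1 : M.u 0 0 1 ≠ 1 := fun h => one_ne_zero (M.u_eq_one_iff.mp h).2.2
    refine three_dvd_rr (M.u_zero_cube 0 1) (M.Z_comm_U (M.u_mem_Z 1) h) fun t ht h2 _ => ?_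
    obtain ⟨a, y, z, l, rfl⟩ := M.mem_B_of_commute (M.u_mem_U _ _ _) h1 ht
    rcases M.eq_of_commute h1 ht with rfl | ⟨-, -, h⟩
    · exact (orderOf_eq_two_iff.mp h2).1 (M.eq_one_of_mem_U_of_sq (M.u_mul_h_mem_U.mpr rfl) (orderOf_eq_two_iff.mp h2).2)
    · exact h rfl
  · have h1 : M.u 0 1 0 ≠ 1 := fun h => one_ne_zero (M.u_eq_one_iff.mp h).2.1
    refine three_dvd_rr (M.u_zero_cube 1 0) ?_ fun t ht h2 h3 => ?_
    · rw [← mul_assoc, M.Y_comm (M.u_mem_Y 1 0) (M.u_mem_Y y 0), mul_assoc, ← ε_mul_u_y, mul_assoc]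
    obtain ⟨a, v, z, l, rfl⟩ := M.mem_B_of_commute (M.u_mem_U _ _ _) h1 ht
    rcases M.eq_of_commute h1 ht with rfl | ⟨rfl, -, -⟩
    · exact (orderOf_eq_two_iff.mp h2).1 (M.eq_one_of_mem_U_of_sq (M.u_mul_h_mem_U.mpr rfl) (orderOf_eq_two_iff.mp h2).2)
    · refine (orderOf_eq_two_iff.mp h3).1 (M.eq_one_of_mem_U_of_sq ?_ (orderOf_eq_two_iff.mp h3).2)
      have := M.conj_mem_U (inv_mem M.ε_mem_B) (mul_mem (inv_mem (M.u_mem_U a v z)) (M.u_mem_U 0 y 0))
      simpa [ε, mul_assoc] using this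

/-- The number of fixed points. -/
noncomputable def fix (g : G) : ℕ := Nat.card (MulAction.fixedBy M.Ω g)

theorem fix_conj {a b : G} (h : IsConj a b) : M.fix a = M.fix b := by
  have := M.finite_G
  exact_mod_cast (isCharacter_perm G M.Ω).isClassFunction.eq_of_isConj h

theorem fix_one : M.fix 1 = Nat.card F ^ 3 + 1 := by
  rw [fix, MulAction.fixedBy_one_eq_univ, Nat.card_univ, card_Ω]

theorem fix_ε : M.fix M.ε = Nat.card F + 1 := by
  have : MulAction.fixedBy M.Ω M.ε = insert M.inf (Set.range fun y => M.pt 0 y 0) := by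
    ext ω
    simp [M.ε_smul_eq_iff, eq_comm]
  rw [fix, this, Nat.card_coe_set_eq, Set.ncard_insert_of_notMem (by rintro ⟨y, h⟩; exact M.pt_ne_inf _ _ _ h),
    Set.ncard_range_of_injective fun a b h => (M.pt_inj h).2.1]

theorem fix_of_pow {g : G} (hg : g ^ 18 = 1) : M.fix g % 3 = 1 := by
  have := M.finite_G
  have h := card_fixedBy_pow_modEq (X := M.Ω) 3 2 g
  obtain ⟨k, hk⟩ := three_dvd_card (F := F)
  rw [fix, ← h]
  change M.fix _ % 3 = 1
  by_cases h1 : g ^ 3 ^ 2 = 1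
  · rw [h1, fix_one, hk, show (3 * k) ^ 3 + 1 = 3 * (9 * k ^ 3) + 1 by ring]; omega
  · rw [← M.fix_conj (M.isConj_ε h1 (by rw [← pow_add]; exact hg)), fix_ε]; omega

variable (hq : 3 < Nat.card F)
include hq

theorem fix_of_reg {g : G} (hg : g ^ 18 ≠ 1) : (M.fix g = 2 ∧ Nat.card (centralizer {g}) % 3 = 2) ∨
    (M.fix g = 0 ∧ Nat.card (centralizer {g}) % 3 = 1) := by
  by_cases h : ∃ k, k⁻¹ * g * k ∈ M.H
  · obtain ⟨k, hk⟩ := h
    have h1 : k⁻¹ * g * k * (k⁻¹ * g * k) ≠ 1 := fun h => hg (by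
      rw [← orderOf_dvd_iff_pow_eq_one, ← orderOf_inv_conj k]
      exact (orderOf_dvd_of_pow_eq_one ((sq _).trans h)).trans (by norm_num))
    obtain ⟨j, hj⟩ := three_dvd_card (F := F)
    refine Or.inl ⟨?_, by rw [← CL.Sz.card_centralizer_conj k, M.centralizer_of_mem_H hk h1, card_H]; omega⟩
    have : MulAction.fixedBy M.Ω (k⁻¹ * g * k) = {M.inf, M.pt 0 0 0} := by
      ext ω
      refine ⟨M.fix_of_mem_H hk h1, ?_⟩
      rintro (rfl | rfl)
      exacts [(M.mem_H_iff_fix.mp hk).1, (M.mem_H_iff_fix.mp hk).2]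
    rw [M.fix_conj (isConj_iff.mpr ⟨k⁻¹, rfl⟩), inv_inv, fix, this, Nat.card_coe_set_eq,
      Set.ncard_pair (M.pt_ne_inf _ _ _).symm]
  · refine Or.inr ⟨Nat.card_eq_zero.mpr (Or.inl ⟨fun ⟨ω, hω⟩ => ?_⟩), (M.conj_mem_H_or hq hg).resolve_left h⟩
    obtain ⟨k, hk⟩ := M.exists_conj_mem_B_of_fix hω
    rw [Ne, ← orderOf_dvd_iff_pow_eq_one, ← orderOf_inv_conj k] at hg
    rcases M.mem_B_cases hk with h1 | ⟨v, -, l, -, -, h1⟩ | ⟨v, -, y, h1⟩
    · exact hg ((orderOf_dvd_of_pow_eq_one (M.pow_nine_of_mem_U h1)).trans (by norm_num))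
    · exact h ⟨k * v, by simpa [mul_assoc, ← h1] using M.h_mem_H l⟩
    · rw [← orderOf_inv_conj v, h1] at hg
      exact hg ((orderOf_dvd_of_pow_eq_one (M.u_ε_pow_six y)).trans (by norm_num))

include M in
theorem exists_conj_eq_inv {g : G} (hg : g ^ 18 ≠ 1) : ∃ s, s * g * s⁻¹ = g⁻¹ := by
  obtain ⟨l, h, -⟩ := M.exists_isConj_u_h_w hq hg
  obtain ⟨c, rfl⟩ := isConj_iff.mp h
  have h1 : M.h l * M.w * (M.h l * M.w) = 1 :=
    M.sq_eq_one_of_mul_w_mem_H (by rw [mul_assoc, w_mul_w, mul_one]; exact M.h_mem_H l)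
  have h2 : M.ε * (M.h l * M.w) = M.h l * M.w * M.ε := by rw [← mul_assoc, ε_mul_h, mul_assoc, ε_mul_w, mul_assoc]
  have h3 : M.ε * M.u 0 0 1 * M.ε = (M.u 0 0 1)⁻¹ := by rw [ε_conj_u, u_zero_inv]; simp
  rw [mul_assoc (M.u 0 0 1)]
  generalize M.h l * M.w = t at h1 h2
  refine ⟨c * (M.ε * t) * c⁻¹, ?_⟩
  calc _ = c * (M.ε * t * M.u 0 0 1 * M.ε⁻¹) * c⁻¹ := by group
    _ = c * (t⁻¹ * (M.u 0 0 1)⁻¹) * c⁻¹ := by
      rw [h2, ε_inv, mul_assoc t, mul_assoc t, h3, inv_eq_of_mul_eq_one_right h1]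
    _ = _ := by group

include M in
theorem isConj_inv {g : G} (hg : g ^ 18 ≠ 1) : IsConj g g⁻¹ := isConj_iff.mpr (M.exists_conj_eq_inv hq hg)

include M in
theorem pow_ne_one_of_commute {g c : G} (hg : g ^ 18 ≠ 1) (h : c * g = g * c) (h2 : c * c ≠ 1) : c ^ 18 ≠ 1 :=
  fun e => h2 (by
    have h3 : ¬ 3 ∣ orderOf c := fun h3 => M.not_three_dvd_card_centralizer hg
      (h3.trans (Subgroup.orderOf_dvd_natCard _ (mem_centralizer_singleton_iff.mpr h)))
    rw [← sq, ← orderOf_dvd_iff_pow_eq_one]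
    exact ((Nat.prime_three.coprime_iff_not_dvd.mpr h3).symm.pow_right 2).dvd_of_dvd_mul_right
      (orderOf_dvd_of_pow_eq_one e))

include M in
theorem orderOf_of_conj_eq_inv {g k : G} (hg : g ^ 18 ≠ 1) (h : k * g * k⁻¹ = g⁻¹) : orderOf k = 2 := by
  have h0 : k * g ≠ g * k := fun e => hg (by
    rw [e, mul_inv_cancel_right, eq_inv_iff_mul_eq_one, ← sq] at h
    rw [show 18 = 2 * 9 by rfl, pow_mul, h, one_pow])
  refine orderOf_eq_two_iff.mpr ⟨by rintro rfl; simp at h0, M.sq_eq_one_of_pow_four ?_⟩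
  by_contra h1
  have h2 : k * k * g = g * (k * k) := by
    calc k * k * g = k * (k * g * k⁻¹) * k⁻¹ * (k * k) := by group
      _ = k * g⁻¹ * k⁻¹ * (k * k) := by rw [h]
      _ = (k * g * k⁻¹)⁻¹ * (k * k) := by group
      _ = _ := by rw [h, inv_inv]
  exact h0 (M.comm_of_reg hq (M.pow_ne_one_of_commute hq hg h2 (by simpa [pow_succ, mul_assoc] using h1))
    (mul_assoc _ _ _).symm h2.symm)

include M in
theorem rr_of_reg {g : G} (hg : g ^ 18 ≠ 1) : rr g = Nat.card (centralizer {g}) := by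
  obtain ⟨s, hs⟩ := M.exists_conj_eq_inv hq hg
  refine Nat.card_congr ((Equiv.mulLeft s⁻¹).subtypeEquiv fun t => ?_)
  have key : s⁻¹ * t ∈ centralizer {g} ↔ t * g * t⁻¹ = g⁻¹ := by
    rw [mem_centralizer_singleton_iff, ← hs]
    constructor
    · intro h
      calc t * g * t⁻¹ = s * (s⁻¹ * t * g) * t⁻¹ := by group
        _ = _ := by rw [h]; group
    · intro h
      calc s⁻¹ * t * g = s⁻¹ * (t * g * t⁻¹) * t := by group
        _ = _ := by rw [h]; group
  refine Iff.trans ⟨fun h => ?_, fun h => ⟨M.orderOf_of_conj_eq_inv hq hg h, M.orderOf_of_conj_eq_inv hq hg ?_⟩⟩ key.symm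
  · have h1 := (orderOf_eq_two_iff.mp h.2).2
    rw [eq_inv_iff_mul_eq_one, ← h1, inv_eq_of_mul_eq_one_right (orderOf_eq_two_iff.mp h.1).2]
    group
  · calc t⁻¹ * g * g * (t⁻¹ * g)⁻¹ = (t⁻¹ * g⁻¹ * t)⁻¹ := by group
      _ = (t⁻¹ * (t * g * t⁻¹) * t)⁻¹ := by rw [h]
      _ = _ := by group

theorem three_dvd_rr_add (g : G) : (3 : ℤ) ∣ rr g + (M.fix g - 1) := by
  by_cases hg : g ^ 18 = 1
  · have h1 := M.three_dvd_rr_of_pow hg
    have h2 := M.fix_of_pow hg
    omega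
  · have h1 := M.rr_of_reg hq hg
    have h2 := M.fix_of_reg hq hg
    omega

/-- Gow's argument: a regular semisimple element times a suitable involution stays in its class. -/
theorem exists_involution {x : G} (hx : x ^ 18 ≠ 1) : ∃ b, IsConj x b ∧ IsConj x (M.ε * b) := by
  classical
  have := M.finite_G
  let _ := Fintype.ofFinite G
  have := M.two_transitive
  have : Nontrivial M.Ω := ⟨_, _, M.pt_ne_inf 0 0 0⟩
  let St : IrrCharacter G := ⟨fun g => (M.fix g : ℂ) - 1, (isIrr_perm_sub_one_iff M.Ω).mpr M.two_transitive⟩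
  suffices h : ∃ t, IsConj M.ε t ∧ IsConj x (t⁻¹ * x) by
    obtain ⟨t, h1, h2⟩ := h
    obtain ⟨c, rfl⟩ := isConj_iff.mp h1
    refine ⟨c⁻¹ * x * c, isConj_iff.mpr ⟨c⁻¹, by simp⟩, h2.trans (isConj_iff.mpr ⟨c⁻¹, ?_⟩)⟩
    rw [mul_inv_rev, mul_inv_rev, ε_inv]
    group
  by_contra! H
  set fJ : G → ℂ := fun t => if IsConj M.ε t then 1 else 0 with hfJ
  have hJ : IsClassFunction G fJ := isClassFunction_indicator _
  let a : IrrCharacter G → ℂ := fun χ => (∑ g, fJ g * χ.1 g) / χ.1 1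
  have h0 : ∑ χ, a χ * (χ.1 x * conj (χ.1 x)) = 0 := by
    have h1 := conv_eq_sum hJ (isClassFunction_indicator x) x
    rw [conv_apply, Finset.sum_eq_zero fun t _ => by
      by_cases h : IsConj M.ε t
      · rw [if_neg (H t h), mul_zero]
      · rw [show fJ t = 0 from if_neg h, zero_mul], eq_comm, mul_eq_zero, inv_eq_zero, or_iff_right (card_ne_zero G)] at h1
    have h2 : (Nat.card {y // IsConj x y} : ℂ) ≠ 0 := by
      have : Nonempty {y // IsConj x y} := ⟨⟨x, IsConj.refl x⟩⟩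
      exact_mod_cast Nat.card_pos.ne'
    refine (mul_eq_zero.mp ?_).resolve_left h2
    rw [← h1, Finset.mul_sum]
    refine Finset.sum_congr rfl fun χ _ => ?_
    simp only [ite_mul, one_mul, zero_mul, sum_ite_isConj χ.2.isClassFunction, a]
    ring
  have hq0 : (Nat.card F : ℂ) ≠ 0 := by exact_mod_cast (by omega : Nat.card F ≠ 0)
  have haSt : a St = (Nat.card F ^ 2 - Nat.card F + 1 : ℕ) := by
    have : Nat.card {t // IsConj M.ε t} = Nat.card F ^ 2 * (Nat.card F ^ 2 - Nat.card F + 1) := by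
      rw [← M.ncard_two, ← Nat.card_coe_set_eq]
      exact Nat.card_congr (Equiv.subtypeEquivRight fun _ => M.isConj_ε_iff)
    simp only [a, fJ, ite_mul, one_mul, zero_mul, sum_ite_isConj St.2.isClassFunction, this]
    simp only [St, fix_one, fix_ε]
    generalize Nat.card F ^ 2 - Nat.card F + 1 = N
    push_cast
    field_simp
    ring
  have hx1 : St.1 x * conj (St.1 x) = 1 := by
    rcases M.fix_of_reg hq hx with h | h <;> simp [St, h.1]
    norm_num [Complex.conj_ofNat]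
  obtain ⟨s, hs⟩ := IsAlgClosed.exists_pow_nat_eq (3 : ℂ) two_pos
  have hs0 : s ≠ 0 := by rintro rfl; norm_num at hs
  choose e he using M.three_dvd_rr_add hq
  have hconv : ∀ g, conv fJ fJ g = 3 * e g - St.1 g := fun g => by
    have : conv fJ fJ g = rr g := by
      rw [conv_apply, rr, Nat.card_eq_fintype_card, Fintype.card_subtype, Finset.card_filter]
      push_cast
      refine Finset.sum_congr rfl fun t _ => ?_
      simp only [fJ, isConj_ε_iff]
      by_cases h : orderOf t = 2 <;> simp [h]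
    rw [this, eq_sub_iff_add_eq]
    simpa using congrArg (Int.cast : ℤ → ℂ) (he g)
  have hecl : IsClassFunction G fun g => (e g : ℂ) := fun g k => by
    have h1 := hJ.conv hJ g k
    rw [hconv, hconv, St.2.isClassFunction g k, sub_left_inj] at h1
    exact mul_left_cancel₀ three_ne_zero h1
  have hint : ∀ χ, χ ≠ St → IsIntegral ℤ (a χ / s) := fun χ hχ => by
    refine IsIntegral.of_pow two_pos ?_
    convert χ.2.isIntegral_sum_div hecl fun g => isIntegral_intCast (e g) using 1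
    have h1 := χ.2.sum_conv_mul hJ fJ
    have h2 : ∑ g, St.1 g * χ.1 g = 0 := by
      have := card_mul_classInner χ.1 St.1
      rw [χ.2.inner_of_ne St.2 (Subtype.coe_ne_coe.mpr hχ), mul_zero] at this
      rw [this]
      exact Finset.sum_congr rfl fun g _ => by simp [St, mul_comm]
    simp only [hconv, sub_mul, Finset.sum_sub_distrib, h2, sub_zero, mul_assoc, ← Finset.mul_sum] at h1
    have := χ.2.one_ne_zero
    rw [div_pow, hs, eq_div_iff three_ne_zero |>.mpr ((mul_comm _ _).trans h1)]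
    simp only [a]
    field_simp
  have hN : IsIntegral ℤ ((((Nat.card F ^ 2 - Nat.card F + 1) ^ 2 : ℕ) : ℂ) / (3 : ℕ)) := by
    rw [← Finset.add_sum_erase _ _ (Finset.mem_univ St), hx1, mul_one, haSt, add_eq_zero_iff_eq_neg] at h0
    have : IsIntegral ℤ ((-∑ χ ∈ Finset.univ.erase St, a χ / s * (χ.1 x * conj (χ.1 x))) ^ 2) :=
      (IsIntegral.sum _ fun χ hχ =>
        (hint χ (Finset.ne_of_mem_erase hχ)).mul ((χ.2.isIntegral x).mul (χ.2.conj.isIntegral x))).neg.pow 2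
    convert this using 1
    simp only [div_mul_eq_mul_div, ← Finset.sum_div]
    rw [← neg_div, ← h0, div_pow, hs]
    norm_cast
  have h3 := Nat.prime_three.dvd_of_dvd_pow (nat_dvd_of_isIntegral_div three_ne_zero hN)
  obtain ⟨k, -, -, -, hk⟩ := M.exists_k
  omega

end Model

end CL.Ree
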