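/-
CHEV library: a subgroup of a finite Chevalley group containing all `x_r(1)` has a subfield of root parameters.
-/
import Cfsg.Agent.CHEV.SubLev
import Cfsg.Agent.CHEV.TwInv

set_option autoImplicit false

namespace CL.Chev

open Cfsg.Lie

namespace Cert

variable (C : Cert) (n l : ℕ)

def chkF (r s : ℕ) (L : List (ℕ × ℤ × ℕ × ℕ)) : Bool :=
  Nat.blt r n && Nat.blt s n && !(Nat.beq s r) && !(Nat.beq s (n - 1 - r)) && leq eqT (C.fct n r s) L

def chkLn (r s : ℕ) : Bool := Nat.blt r n && Nat.blt s n && Nat.beq (C.len r) (C.len s)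

def chkSub (b a : ℕ) : Bool := C.chkLn n b (n - 1) && Nat.ble (n / 2) a && Nat.blt a n && ieq (C.pairF l b a) (-1) &&
  allLt n fun r => C.chkLn n r (n - 1) || C.chkLn n r a

def chkPair2 (T L : List ℕ) : Bool := C.chkTop n l && (allLt n fun k => Nat.ble (C.len k) (C.len (n - 1))) &&
  C.chkL n 2 T L && C.chkL n 2 [n - 1] [n - 1] && C.chkT n 2 [] && !L.isEmpty &&
  (tup [n - 1] L.length).all fun M => decide (C.gram l M ≠ C.gram l L)

end Cert

variable {D : ChevalleyDatum} [Good D] {K : Type*} [Field K] {H : Subgroup (D.group K)}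

local notation "X" => xN (StData.x (stG D K))

theorem fctN_mem {r s : ℕ} (L : List (ℕ × ℤ × ℕ × ℕ)) (h : (Good.C D).chkF D.nroots r s L = true) {t u : K}
    (ht : X r t ∈ H) (hu : X s u ∈ H) : (L.map (evT (stG D K).x t u)).prod ∈ H := by
  simp only [Cert.chkF, Bool.and_eq_true, Nat.blt_eq, Bool.not_eq_true', ← Bool.not_eq_true, Nat.beq_eq] at h
  obtain ⟨⟨⟨⟨h1, h2⟩, h3⟩, h4⟩, h5⟩ := h
  exact stG_exact.fct_mem (r := ⟨r, h1⟩) (s := ⟨s, h2⟩) (fun e => h3 (congrArg Fin.val e))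
    (fun e => h4 ((congrArg Fin.val e).trans (ng_val' _))) h5 (xN_val (stG D K).x ⟨r, h1⟩ t ▸ ht)
    (xN_val (stG D K).x ⟨s, h2⟩ u ▸ hu)

theorem xN_top (t : K) : X (D.nroots - 1) t = (stG D K).x (topR D) t := xN_val _ (topR D) t

theorem xN_one_mem (h1 : ∀ r, (stG D K).x r 1 ∈ H) (r : ℕ) : X r 1 ∈ H := by
  unfold xN; split_ifs
  exacts [h1 _, one_mem _]

theorem xN_mem_iff (h1 : ∀ r, (stG D K).x r 1 ∈ H) (hd : (Good.C D).chkDom D.nroots D.rank = true) {r : ℕ} (s : ℕ)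
    (h : (Good.C D).chkLn D.nroots r s = true) {t : K} : X r t ∈ H ↔ X s t ∈ H := by
  simp only [Cert.chkLn, Bool.and_eq_true, Nat.blt_eq, Nat.beq_eq] at h
  have := StData.rv_eq_of_len h1 (eq_of_chkDom hd) (r := ⟨r, h.1.1⟩) (s := ⟨s, h.1.2⟩) (congrArg Nat.cast h.2)
  exact (xN_val (stG D K).x ⟨r, h.1.1⟩ t).symm ▸ (xN_val (stG D K).x ⟨s, h.1.2⟩ t).symm ▸ SetLike.ext_iff.1 this t

theorem xN_neg_mem {r : ℕ} {t : K} : X r (-t) ∈ H ↔ X r t ∈ H := by rw [xN_neg', inv_mem_iff]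

theorem Lv_coords {r : ℕ} (hr : r < D.nroots) (L : List ℕ) (h0 : (Good.C D).chkTr D.nroots D.rank r L = true)
    (h1 : L.all (fun r => Nat.ble (D.nroots / 2) r) = true) (h2 : (Good.C D).closedL D.nroots L = true) (h3 : L.Nodup)
    {t : K} (h : (stG D K).Lv H ⟨r, hr⟩ t) : ∃ c : ℕ → K, X r t * (L.map fun s => X s (c s)).prod ∈ H := by
  obtain ⟨z, hz, h⟩ := h
  obtain ⟨c, rfl⟩ := exists_coords h1 h2 h3 ((stG D K).XS_mono (Tr_subset (r := ⟨r, hr⟩) h0) hz)
  exact ⟨c, xN_val (stG D K).x ⟨r, hr⟩ t ▸ h⟩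

/-- the ring of parameters of long root elements -/
theorem exists_ring (h1 : ∀ r, (stG D K).x r 1 ∈ H) (hd : (Good.C D).chkDom D.nroots D.rank = true) (r s k : ℕ) (c : ℤ)
    (h : ((Good.C D).chkF D.nroots r s [(k, c, 1, 1)] && (Good.C D).chkLn D.nroots r (D.nroots - 1) &&
      (Good.C D).chkLn D.nroots s (D.nroots - 1) && (Good.C D).chkLn D.nroots k (D.nroots - 1) && ieq (c * c) 1) = true) :
    ∃ A : Subring K, ∀ t, t ∈ A ↔ X (D.nroots - 1) t ∈ H := by
  simp only [Bool.and_eq_true, ieq_iff] at h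
  obtain ⟨⟨⟨⟨h2, h3⟩, h4⟩, h5⟩, h6⟩ := h
  refine ⟨toSubring ((stG D K).rv H (topR D)) (h1 _) fun a ha b hb => ?_, fun t => by rw [xN_top]; rfl⟩
  rw [StData.mem_rv, ← xN_top] at ha hb ⊢
  have := fctN_mem _ h2 ((xN_mem_iff h1 hd _ h3).2 ha) ((xN_mem_iff h1 hd _ h4).2 hb)
  simp only [List.map_cons, List.map_nil, List.prod_cons, List.prod_nil, mul_one, evT, pow_one] at this
  rw [xN_mem_iff h1 hd _ h5] at this
  rcases Int.eq_one_or_neg_one_of_mul_eq_one h6 with rfl | rfl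
  · rw [← xN_neg_mem]; convert this using 2; push_cast; ring
  · convert this using 2; push_cast; ring

/-- the root parameters of `H` form the subfield `A`, which contains all leading coefficients -/
def SubA (H : Subgroup (D.group K)) (A : Subring K) : Prop :=
  (∀ r t, (stG D K).x r t ∈ H ↔ t ∈ A) ∧ ∀ r, (rootSys D).IsPos r → ∀ t, (stG D K).Lv H r t → t ∈ A

variable (p : ℕ) [Fact p.Prime] [CharP K p] [Finite K]
include p

theorem subA_of (h1 : ∀ r, (stG D K).x r 1 ∈ H) (hd : (Good.C D).chkDom D.nroots D.rank = true) {A : Subring K}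
    (hA : ∀ t, t ∈ A ↔ X (D.nroots - 1) t ∈ H) (b a : ℕ) (h : (Good.C D).chkSub D.nroots D.rank b a = true)
    (ok : List ℤ) (Z : List ℕ) (hc : (Good.C D).chkChn D.nroots ok Z = true) (hok : ∀ c ∈ ok, ¬ (p : ℤ) ∣ c)
    (ht : (Good.C D).chkTop D.nroots D.rank = true)
    (hZ : ∀ r : Rt D, r.val ∈ Z → r ≠ topR D → ∀ t, (stG D K).Lv H r t → t ∈ A) : SubA H A := by
  have hL : ∀ r, (rootSys D).IsPos r → ∀ t, (stG D K).Lv H r t → t ∈ A := fun r hr t h =>
    stG_exact.chain h1 hc (fun c hc => by rw [Ne, CharP.intCast_eq_zero_iff K p]; exact hok c hc) A.toAddSubgroup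
      (fun r hr t h => by
        rcases eq_or_ne r (topR D) with rfl | e
        · exact (hA t).2 (by rw [xN_top]; exact h.mem_of_top (ht_lt_top ht))
        · exact hZ r hr e t h) hr h
  simp only [Cert.chkSub, Bool.and_eq_true, Nat.blt_eq, Nat.ble_eq, ieq_iff, allLt_iff, Bool.or_eq_true] at h
  obtain ⟨⟨⟨⟨h2, h3⟩, h4⟩, h5⟩, h6⟩ := h
  have hb : b < D.nroots := by
    simp only [Cert.chkLn, Bool.and_eq_true, Nat.blt_eq] at h2; exact h2.1.1
  have ha : ∀ t, X a t ∈ H ↔ t ∈ A := fun t => by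
    refine ⟨fun h => hL ⟨a, h4⟩ (isPos_iff_mem_posL.2 ?_) t (.of_mem (xN_val (stG D K).x ⟨a, h4⟩ t ▸ h)), fun h => ?_⟩
    · have := two_mul_half (D := D)
      rw [posL, List.mem_range'_1]; dsimp only; omega
    rcases eq_or_ne t 0 with rfl | h0
    · rw [xN_zero]; exact one_mem _
    have hn : ∀ u ∈ A, (stG D K).n ⟨b, hb⟩ u ∈ H := fun u hu => by
      have e1 : (stG D K).x ⟨b, hb⟩ u ∈ H := xN_val (stG D K).x ⟨b, hb⟩ u ▸ (xN_mem_iff h1 hd _ h2).2 ((hA u).1 hu)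
      refine mul_mem (mul_mem e1 ?_) e1
      rw [← StData.mem_rv, StData.rv_eq_of_len h1 (eq_of_chkDom hd) ((rootSys D).len_neg _), StData.mem_rv,
        ← xN_val (stG D K).x, xN_mem_iff h1 hd _ h2, ← hA]
      exact A.neg_mem (inv_mem_subring p A hu)
    have hh : (stG D K).h ⟨b, hb⟩ t⁻¹ ∈ H := mul_mem (hn _ (inv_mem_subring p A h)) (hn _ (A.neg_mem A.one_mem))
    have := mul_mem (mul_mem hh (h1 ⟨a, h4⟩)) (inv_mem hh)
    rw [StData.h_conj _ _ _ (inv_ne_zero h0), rootSys_pair', h5] at this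
    rw [xN_val (stG D K).x ⟨a, h4⟩]
    simpa using this
  refine ⟨fun r t => ?_, hL⟩
  rw [← xN_val (stG D K).x]
  rcases h6 r r.2 with e | e
  · rw [xN_mem_iff h1 hd _ e, hA]
  · rw [xN_mem_iff h1 hd _ e, ha]

omit [Finite K] [Fact p.Prime] in
theorem not_dvd_of_lt {ok : List ℤ} (m : ℕ) (hp : m < p) (h : ∀ c ∈ ok, c ≠ 0 ∧ c.natAbs ≤ m) : ∀ c ∈ ok, ¬ (p : ℤ) ∣ c :=
  fun c hc e => by
    have := Nat.le_of_dvd (Int.natAbs_pos.2 (h c hc).1) (Int.natCast_dvd.1 e)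
    have := (h c hc).2
    omega

/-- the simply laced types -/
theorem subA_sl (h1 : ∀ r, (stG D K).x r 1 ∈ H) (r s k : ℕ)
    (h : ((Good.C D).chkDom D.nroots D.rank && (Good.C D).chkSub D.nroots D.rank r s &&
      (Good.C D).chkChn D.nroots [1, -1] [D.nroots - 1] && (Good.C D).chkTop D.nroots D.rank) = true)
    (h' : ((Good.C D).chkF D.nroots r s [(k, 1, 1, 1)] && (Good.C D).chkLn D.nroots r (D.nroots - 1) &&
      (Good.C D).chkLn D.nroots s (D.nroots - 1) && (Good.C D).chkLn D.nroots k (D.nroots - 1) && ieq (1 * 1) 1) = true) :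
    ∃ A, SubA H A := by
  simp only [Bool.and_eq_true] at h
  obtain ⟨A, hA⟩ := exists_ring h1 h.1.1.1 r s k 1 h'
  exact ⟨A, subA_of p h1 h.1.1.1 hA r s h.1.1.2 _ _ h.1.2 (not_dvd_of_lt p 1 (Fact.out : p.Prime).one_lt (by decide)) h.2
    fun r hr e => absurd (Fin.ext (List.mem_singleton.1 hr)) e⟩

omit p [Fact p.Prime] [CharP K p] [Finite K] in
theorem evS_single_mem {xs : List K} {r : ℕ} {e : PE} : evS D xs [(r, e)] ∈ H ↔ X r (e.ev xs) ∈ H := by
  rw [evS_cons, evS_nil, mul_one]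

omit p [Fact p.Prime] [CharP K p] [Finite K] in
theorem evS_pair_mem {xs : List K} {r s : ℕ} {e f : PE} :
    evS D xs [(r, e), (s, f)] ∈ H ↔ X r (e.ev xs) * X s (f.ev xs) ∈ H := by
  rw [evS_cons, evS_cons, evS_nil, mul_one]

omit p [Fact p.Prime] [CharP K p] [Finite K] in
theorem evS_one_mem (h1 : ∀ r, (stG D K).x r 1 ∈ H) {xs : List K} (L : List ℕ) :
    evS D xs (L.map fun r => (r, 1)) ∈ H := by
  induction L with
  | nil => exact one_mem _
  | cons r L ih => exact mul_mem (show X r (PE.ev xs 1) ∈ H by rw [PE.ev_one]; exact xN_one_mem h1 r) ih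

theorem subA_F4 {H : Subgroup (chevF4.group K)} (h1 : ∀ r, (stG chevF4 K).x r 1 ∈ H) : ∃ A, SubA H A := by
  have hd : (Good.C chevF4).chkDom chevF4.nroots chevF4.rank = true := by decide +kernel
  obtain ⟨A, hA⟩ := exists_ring h1 hd 25 24 26 (-1) (by decide +kernel)
  rcases (Fact.out : p.Prime).eq_two_or_odd' with rfl | hp
  swap
  · exact ⟨A, subA_of p h1 hd hA 24 28 (by decide +kernel) [1, -1, 2, -2] [47] (by decide +kernel)
      (not_dvd_of_lt p 2 (lt_of_le_of_ne (Fact.out : p.Prime).two_le (by rintro rfl; exact absurd hp (by decide)))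
        (by decide)) (by decide +kernel) fun r hr e => absurd (Fin.ext (List.mem_singleton.1 hr)) e⟩
  refine ⟨A, subA_of 2 h1 hd hA 24 28 (by decide +kernel) [1, -1] [44, 47] (by decide +kernel) (by decide)
    (by decide +kernel) fun r hr e t h => ?_⟩
  obtain rfl : r = ⟨44, by decide⟩ := by
    rcases List.mem_cons.1 hr with h | h
    exacts [Fin.ext h, absurd (Fin.ext (List.mem_singleton.1 h)) e]
  obtain ⟨c, hc⟩ := Lv_coords _ [45, 46, 47] (by decide +kernel) (by decide +kernel) (by decide +kernel) (by decide) h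
  have hu : evS chevF4 [t, c 45, c 46, c 47] [(44, .var 0), (45, .var 1), (46, .var 2), (47, .var 3)] ∈ H := hc
  have key : ∀ s k i, Mv.weq (Good.C chevF4) chevF4.nroots chevF4.rank 2 [(k, .var i)]
      (blocks [[(44, .var 0), (45, .var 1), (46, .var 2), (47, .var 3)], [(s, 1)]] [1, 3, 0, 2]) = true →
      xN (stG chevF4 K).x k ([t, c 45, c 46, c 47].getD i 0) ∈ H := fun s k i h =>
    evS_single_mem.1 (mem_of_blocks (CharP.cast_eq_zero K 2) _ (by simp) _ _ _ h ⟨hu, evS_one_mem h1 [s]⟩)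
  have k1 := (xN_mem_iff h1 hd 45 (by decide +kernel)).1 (key 25 46 1 (by decide +kernel))
  have k2 := (xN_mem_iff h1 hd 46 (by decide +kernel)).1 (key 24 47 2 (by decide +kernel))
  have k3 := (xN_mem_iff h1 hd 47 (by decide +kernel)).1 (key 23 46 3 (by decide +kernel))
  have k4 := (H.mul_mem_cancel_right (H.mul_mem k1 (H.mul_mem k2 (H.mul_mem k3 H.one_mem)))).1 hc
  have k5 := fctN_mem (r := 25) (s := 27) [(28, 1, 1, 1), (30, -1, 1, 2)] (by decide +kernel) (xN_one_mem h1 25)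
    ((xN_mem_iff h1 hd 27 (by decide +kernel)).1 k4)
  simp only [List.map_cons, List.map_nil, List.prod_cons, List.prod_nil, mul_one, evT, pow_one, Int.cast_one,
    Int.cast_neg, one_mul, neg_mul, neg_neg, mul_neg] at k5
  rw [H.mul_mem_cancel_left (xN_neg_mem.2 ((xN_mem_iff h1 hd 28 (by decide +kernel)).1 k4)),
    xN_mem_iff h1 hd (chevF4.nroots - 1) (by decide +kernel), ← hA] at k5
  exact mem_of_pow_mem 2 A k5

theorem subA_G2 {H : Subgroup (chevG2.group K)} (h1 : ∀ r, (stG chevG2 K).x r 1 ∈ H) : ∃ A, SubA H A := by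
  have hd : (Good.C chevG2).chkDom chevG2.nroots chevG2.rank = true := by decide +kernel
  obtain ⟨A, hA⟩ := exists_ring h1 hd 6 10 11 1 (by decide +kernel)
  rcases eq_or_ne p 2 with rfl | h2
  · exact ⟨A, subA_of 2 h1 hd hA 6 7 (by decide +kernel) [1, -1, 3, -3] [11] (by decide +kernel) (by decide)
      (by decide +kernel) fun r hr e => absurd (Fin.ext (List.mem_singleton.1 hr)) e⟩
  rcases eq_or_ne p 3 with rfl | h3
  swap
  · exact ⟨A, subA_of p h1 hd hA 6 7 (by decide +kernel) [1, -1, 2, -2, 3, -3] [11] (by decide +kernel)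
      (not_dvd_of_lt p 3 (by have := (Fact.out : p.Prime).two_le; omega) (by decide)) (by decide +kernel)
      fun r hr e => absurd (Fin.ext (List.mem_singleton.1 hr)) e⟩
  refine ⟨A, subA_of 3 h1 hd hA 6 7 (by decide +kernel) [1, -1, 2, -2] [9, 11] (by decide +kernel) (by decide)
    (by decide +kernel) fun r hr e t h => ?_⟩
  obtain rfl : r = ⟨9, by decide⟩ := by
    rcases List.mem_cons.1 hr with h | h
    exacts [Fin.ext h, absurd (Fin.ext (List.mem_singleton.1 h)) e]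
  obtain ⟨c, hc⟩ := Lv_coords _ [10, 11] (by decide +kernel) (by decide +kernel) (by decide +kernel) (by decide) h
  have hu : evS chevG2 [t, c 10, c 11] [(9, .var 0), (10, .var 1), (11, .var 2)] ∈ H := hc
  have key : ∀ s k i, Mv.weq (Good.C chevG2) chevG2.nroots chevG2.rank 3 [(k, -.var i)]
      (blocks [[(9, .var 0), (10, .var 1), (11, .var 2)], [(s, 1)]] [1, 3, 0, 2]) = true →
      xN (stG chevG2 K).x k ([t, c 10, c 11].getD i 0) ∈ H := fun s k i h =>
    xN_neg_mem.1 (evS_single_mem.1 (mem_of_blocks (CharP.cast_eq_zero K 3) _ (by simp) _ _ _ h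
      ⟨hu, evS_one_mem h1 [s]⟩))
  have k1 := (xN_mem_iff h1 hd 10 (by decide +kernel)).1 (key 6 11 1 (by decide +kernel))
  have k2 := (xN_mem_iff h1 hd 11 (by decide +kernel)).1 (key 5 10 2 (by decide +kernel))
  have k4 := (H.mul_mem_cancel_right (H.mul_mem k1 (H.mul_mem k2 H.one_mem))).1 hc
  have k5 := evS_single_mem.1 (mem_of_blocks (CharP.cast_eq_zero K 3) [t] (by simp) [(11, .var 0 ^ 3)]
    [[(6, 1)], [(7, .var 0)]] [3, 1, 2, 0, 1, 1, 3, 0, 2, 0] (by decide +kernel)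
    ⟨evS_one_mem h1 [6], evS_single_mem.2 ((xN_mem_iff h1 hd 7 (by decide +kernel)).1 k4)⟩)
  exact mem_of_pow_mem 3 A ((hA _).2 k5)

theorem subA_B2 {H : Subgroup (chevB2.group K)} (h1 : ∀ r, (stG chevB2 K).x r 1 ∈ H) : ∃ A, SubA H A := by
  have hd : (Good.C chevB2).chkDom chevB2.nroots chevB2.rank = true := by decide +kernel
  rcases eq_or_ne p 2 with rfl | h2
  swap
  · have hp : 2 < p := lt_of_le_of_ne (Fact.out : p.Prime).two_le h2.symm
    have key : ∀ t, xN (stG chevB2 K).x 7 t ∈ H → xN (stG chevB2 K).x 6 t ∈ H := fun t ht => by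
      have := fctN_mem (r := 4) (s := 5) [(6, 1, 1, 1), (7, -1, 1, 2)] (by decide +kernel)
        ((xN_mem_iff h1 hd 4 (by decide +kernel)).1 ht) (xN_one_mem h1 5)
      simp only [List.map_cons, List.map_nil, List.prod_cons, List.prod_nil, mul_one, evT, pow_one, Int.cast_one,
        Int.cast_neg, one_mul, neg_mul, neg_neg, one_pow] at this
      exact xN_neg_mem.1 ((H.mul_mem_cancel_right ht).1 this)
    refine ⟨toSubring ((stG chevB2 K).rv H (topR chevB2)) (h1 _) fun a ha b hb => ?_, subA_of p h1 hd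
      (fun t => by rw [xN_top]; rfl) 4 5 (by decide +kernel) [1, -1, 2, -2] [7] (by decide +kernel)
      (not_dvd_of_lt p 2 hp (by decide)) (by decide +kernel)
      fun r hr e => absurd (Fin.ext (List.mem_singleton.1 hr)) e⟩
    have := fctN_mem (r := 5) (s := 6) [(7, 2, 1, 1)] (by decide +kernel)
      ((xN_mem_iff h1 hd 5 (by decide +kernel)).1 (key _ (xN_neg_mem.2 ha))) (key _ hb)
    simp only [List.map_cons, List.map_nil, List.prod_cons, List.prod_nil, mul_one, evT, pow_one, neg_neg,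
      mul_assoc] at this
    refine mem_of_int_mul_mem p _ (c := 2) ?_ this
    rw [Ne, CharP.intCast_eq_zero_iff K p]
    exact not_dvd_of_lt p 2 hp (ok := [2]) (by decide) _ (by simp)
  have hp := CharP.cast_eq_zero K 2
  let E : AddSubgroup (K × K) :=
    { carrier := {a | xN (stG chevB2 K).x 6 a.1 * xN (stG chevB2 K).x 7 a.2 ∈ H}
      zero_mem' := by simp [xN_zero]
      add_mem' := fun {a b} ha hb => by
        simpa using evS_pair_mem.1 (mem_of_blocks hp [a.1, a.2, b.1, b.2] (by simp)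
          [(6, .var 0 + .var 2), (7, .var 1 + .var 3)] [[(6, .var 0), (7, .var 1)], [(6, .var 2), (7, .var 3)]] [0, 2]
          (by decide +kernel) ⟨evS_pair_mem.2 ha, evS_pair_mem.2 hb⟩)
      neg_mem' := fun {a} ha => by
        simpa using evS_pair_mem.1 (mem_of_blocks hp [a.1, a.2] (by simp) [(6, -.var 0), (7, -.var 1)]
          [[(6, .var 0), (7, .var 1)]] [1] (by decide +kernel) (evS_pair_mem.2 ha)) }
  have hE : ∀ s t, (s, t) ∈ E ↔ xN (stG chevB2 K).x 6 s * xN (stG chevB2 K).x 7 t ∈ H := fun s t => Iff.rfl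
  have key : ∀ s t s' t', (s, t) ∈ E → (s', t') ∈ E → (s * t', s ^ 2 * t') ∈ E := fun s t s' t' h h' => by
    have := mem_of_blocks hp [s, t, s', t'] (by simp) [(6, .var 0 * .var 3), (7, .var 0 ^ 2 * .var 3)]
      [[(6, .var 0), (7, .var 1)], [(6, .var 2), (7, .var 3)], [(4, 1), (3, 1), (4, 1)], [(5, 1), (2, 1), (5, 1)]]
      [4, 1, 5, 6, 3, 7, 4, 0, 5, 6, 2, 7] (by decide +kernel) ⟨evS_pair_mem.2 ((hE _ _).1 h),
        evS_pair_mem.2 ((hE _ _).1 h'), evS_one_mem h1 [4, 3, 4], evS_one_mem h1 [5, 2, 5]⟩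
    rw [hE]
    simpa [evS_pair_mem] using this
  have e1 : ((1, 0) : K × K) ∈ E := (hE _ _).2 (by rw [xN_zero, mul_one]; exact xN_one_mem h1 6)
  have e2 : ((0, 1) : K × K) ∈ E := (hE _ _).2 (by rw [xN_zero, one_mul]; exact xN_one_mem h1 7)
  have m1 : ∀ {s}, s ∈ E.map (AddMonoidHom.fst K K) ↔ ∃ t, (s, t) ∈ E :=
    ⟨fun ⟨a, ha, e⟩ => ⟨a.2, e ▸ ha⟩, fun ⟨_, h⟩ => ⟨_, h, rfl⟩⟩
  have m2 : ∀ s t, (s, t) ∈ E → t ∈ E.map (AddMonoidHom.fst K K) := fun s t h =>
    m1.2 ⟨_, by simpa using key _ _ _ _ e1 h⟩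
  have m3 : ∀ t ∈ E.map (AddMonoidHom.fst K K), ∃ s, (s, t) ∈ E := fun t ht => by
    have : Set.MapsTo (frobenius K 2) (E.map (AddMonoidHom.fst K K) : Set K) (E.map (AddMonoidHom.fst K K)) :=
      fun s hs => let ⟨u, hu⟩ := m1.1 hs; m2 _ _ (by simpa [frobenius_def] using key _ _ _ _ hu e2)
    obtain ⟨s, hs, rfl⟩ := (Set.Finite.injOn_iff_bijOn_of_mapsTo (Set.toFinite _) this).1
      (frobenius_inj K 2).injOn |>.surjOn ht
    obtain ⟨u, hu⟩ := m1.1 hs
    exact ⟨s, by simpa [frobenius_def] using key _ _ _ _ hu e2⟩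
  let A := toSubring (E.map (AddMonoidHom.fst K K)) (m1.2 ⟨_, e1⟩) fun a ha b hb =>
    let ⟨_, hu⟩ := m1.1 ha; let ⟨_, hv⟩ := m3 b hb; m1.2 ⟨_, key _ _ _ _ hu hv⟩
  have m4 : ∀ x ∈ A, (x, 0) ∈ E := fun x hx => fst_mem_of_sq 2 A E e1 (fun c hc t ht => by
    obtain ⟨_, hu⟩ := m1.1 ht
    obtain ⟨_, hv⟩ := m3 c hc
    simpa only [mul_comm c] using key _ _ _ _ hu hv) hx
  refine ⟨A, subA_of 2 h1 hd (fun t => ⟨fun h => ?_, fun h => m2 0 t ((hE _ _).2 (by rwa [xN_zero, one_mul]))⟩) 4 5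
    (by decide +kernel) [1, -1] [6, 7] (by decide +kernel) (by decide) (by decide +kernel) fun r hr e t h => ?_⟩
  · obtain ⟨s, hs⟩ := m3 t h
    exact (H.mul_mem_cancel_left (by simpa [xN_zero] using (hE _ _).1 (m4 s (m1.2 ⟨_, hs⟩)))).1 ((hE _ _).1 hs)
  obtain rfl : r = ⟨6, by decide⟩ := by
    rcases List.mem_cons.1 hr with h | h
    exacts [Fin.ext h, absurd (Fin.ext (List.mem_singleton.1 h)) e]
  obtain ⟨c, hc⟩ := Lv_coords _ [7] (by decide +kernel) (by decide +kernel) (by decide +kernel) (by decide) h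
  exact m1.2 ⟨c 7, (hE _ _).2 (by simpa using hc)⟩

end CL.Chev
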