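/-
CHEV library: subgroups of a finite Chevalley group containing all `x_r(1)` consist of matrices over the subfield of
root parameters.
-/
import Cfsg.Agent.CHEV.SubTyp
import Cfsg.Agent.CHEV.ToriAbs
import Cfsg.Agent.CHEV.Aut
import Cfsg.Agent.CHEV.TwQuot

set_option autoImplicit false

namespace CL.Chev

open Cfsg.Lie

section Abs

variable {ι κ κ' κ'' : Type*} [Fintype κ] [DecidableEq κ] {R : RootSys ι κ} {F G : Type*} [Field F] [Group G]
  {S : StData R F G} [Finite ι]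

theorem StData.Twist.exists_n_two (T : S.Twist κ') (T' : S.Twist κ'') (hS : S.Good) {H : Subgroup G} {a : κ'}
    (hp : S.XS (T.pos a) ⊓ T.Fix ⊓ T'.Fix ≤ H) {g : G} (hV : g ∈ S.XS (T.ngt a)) (hne : g ≠ 1) (hf : g ∈ T.Fix)
    (hf' : g ∈ T'.Fix) (hg : g ∈ H) : ∃ n ∈ S.N ⊓ H ⊓ T'.Fix, S.Acts n (T.w a) := by
  have hG : g ∈ S.grp := S.XS_mono (Set.subset_univ _) hV
  obtain ⟨v', hv', m', hm', w', -, ha', u', hu', e⟩ := T'.exists_normal hS hG hf'
  obtain ⟨v, hv, m, hm, w, hw, ha, u, hu, rfl⟩ := T.exists_normal hS hG hf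
  obtain ⟨rfl, rfl, rfl⟩ := hS.normal_unique' hm.1 hm'.1 ha ha' hv.1 hv'.1 hu.1 hu'.1 e
  have hL : v * m * u ∈ S.LJ (T.J a) := (le_sup_right : _ ≤ S.LJ _) (S.XS_mono (fun r hr => hr.2) hV)
  have huB : u ∈ S.B := S.U_le_B (S.XS_le_U (fun r hr => hr.1) hu.1)
  have hwJ : w ∈ R.WJ (T.J a) := hS.mem_WJ_of_mem_P ha (by
    have := mul_mem (mul_mem (inv_mem (S.B_le_P _ (S.U_le_B hv.1))) (S.LJ_le_P _ hL)) (inv_mem (S.B_le_P _ huB))
    simpa [mul_assoc] using this)
  rcases RootSys.Sym.eq_one_or_w hw hwJ with rfl | rfl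
  · exact absurd (hS.eq_one_of_mem_B_V (mul_mem (mul_mem (S.U_le_B hv.1)
      (S.H_le_B (hS.mem_H_of_acts_one hm.1 ha))) huB) (S.XS_le_V (fun r hr => hr.1) hV)) hne
  · rw [T.invs_w] at hu
    have hv'' : v ∈ S.XS (T.pos a) := by
      have h1 : v ∈ S.LJ (T.J a) ⊓ S.U := ⟨by
        have := mul_mem (mul_mem hL (inv_mem ((le_sup_right : _ ≤ S.LJ _) (S.XS_mono (fun r hr => hr.2) hu.1))))
          (inv_mem (S.NJ_le_LJ _ (hS.mem_NJ_of_acts hm.1 ha hwJ)))
        simpa using this, hv.1⟩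
      rwa [hS.LJ_inf_U] at h1
    refine ⟨m, ⟨⟨hm.1, ?_⟩, hm'.2⟩, ha⟩
    have := mul_mem (mul_mem (inv_mem (hp ⟨⟨hv'', hv.2⟩, hv'.2⟩)) hg) (inv_mem (hp ⟨hu, hu'.2⟩))
    simpa [mul_assoc] using this

end Abs

variable {D : ChevalleyDatum} [Good D] {K : Type*} [Field K] {H : Subgroup (D.group K)}

variable (D) in
/-- the twist given by a field endomorphism -/
def frobTw (f : K →+* K) : (stG D K).Twist (Fin D.rank) where
  toSym := (stG D K).trivTw.toSym
  σ := fieldHom D f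
  f _ := f
  map_pos _ _ := fieldHom_x _ _ _
  map_neg _ _ := fieldHom_x _ _ _

theorem mem_frobTw {f : K →+* K} {g : D.group K} :
    g ∈ (frobTw D f).Fix ↔ ∀ i j, f (((g : GL D.Idx K) : Matrix D.Idx D.Idx K) i j) =
      ((g : GL D.Idx K) : Matrix D.Idx D.Idx K) i j := by
  rw [StData.Twist.mem_Fix, Subtype.ext_iff, Units.ext_iff, ← Matrix.ext_iff]
  rfl

theorem x_mem_frobTw {f : K →+* K} {r : Rt D} {t : K} : (stG D K).x r t ∈ (frobTw D f).Fix ↔ f t = t := by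
  rw [StData.Twist.mem_Fix, ← ((stG_good (F := K)).x_injective r).eq_iff (a := f t), ← fieldHom_x]; rfl

variable (p : ℕ) [Fact p.Prime] [CharP K p] [Finite K]
include p

theorem le_fix_of_chk {κ' κ'' : Type*} {T : (stG D K).Twist κ'} {T' : (stG D K).Twist κ''}
    (h : StData.Over T T' H) (TL L : List ℕ) (hc : (Good.C D).chkPair2 D.nroots D.rank TL L = true)
    (h1 : (stG D K).x (topR D) 1 ∈ H) (h2 : p = 2 → ones (stG D K) L ∈ H) : H ≤ T'.Fix := by
  simp only [Cert.chkPair2, Bool.and_eq_true] at hc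
  obtain ⟨⟨⟨⟨⟨⟨c1, c2⟩, c3⟩, c4⟩, c5⟩, c6⟩, c7⟩ := hc
  rcases eq_or_ne p 2 with rfl | hp
  swap
  · exact h.le_fix_odd stG_good stG_adjoint stG_top rootSys_irred hp (long_of_chk (r := topR D) c2) (ht_lt_top c1)
  have hp := CharP.cast_eq_zero K 2
  have key : ∀ {T L : List ℕ}, (Good.C D).chkL D.nroots 2 T L = true → L ≠ [] →
      ones (stG D K) L ∈ (stG D K).U ∧ orderOf (ones (stG D K) L) = 2 := fun {T L} h hL => by
    have h' := h
    simp only [Cert.chkL, Cert.chkT, Cert.chkMin, Bool.and_eq_true, List.all_eq_true, lmem_iff] at h'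
    refine ⟨(stG D K).XS_le_U (isPos_of_mem_setL (List.all_eq_true.2 h'.1.1.1.1.1))
      (prod_xN_mem_setL (fun r hr => ?_) _), orderOf_eq_prime ?_ fun e => ?_⟩
    · exact (h'.2 r hr).2.1.1.1.1.1.1
    · rw [pow_two]
      exact stG_exact.mul_self_of_comm h'.1.2 (prod_xN_mem_setL (fun _ h => h) _)
    · refine stG_exact.not_conj stG_good hp h c5 ?_ (one_mem _) (one_mem _) (by rw [e]; simp)
      cases L with
      | nil => exact absurd rfl hL
      | cons r L => rfl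
  have e1 : ones (stG D K) [D.nroots - 1] = (stG D K).x (topR D) 1 := by simp [ones, xN_top]
  obtain ⟨a1, a2⟩ := key c4 (by simp)
  obtain ⟨a3, a4⟩ := key c3 (by rintro rfl; simp at c6)
  simp only [Cert.chkL, Bool.and_eq_true] at c4
  exact h.le_fix_two stG_good stG_adjoint stG_top rootSys_irred ⟨e1 ▸ h1, a1⟩ ⟨h2 rfl, a3⟩ a2 a4 fun g =>
    stG_exact.not_conj stG_good hp c3 c4.1.1.1 c7 (stG_top.ge trivial) (prod_xN_mem_setL (fun _ h => h) _)

theorem SubA.le_fix {A : Subring K} (hA : SubA H A) {f : K →+* K} (hf : ∀ t, t ∈ A ↔ f t = t) (hr : 1 < D.rank)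
    (TL L : List ℕ) (hc : (Good.C D).chkPair2 D.nroots D.rank TL L = true) : H ≤ (frobTw D f).Fix := by
  have h1 : ∀ r, (stG D K).x r 1 ∈ H := fun r => (hA.1 r 1).2 A.one_mem
  have hJ : ∀ a, (stG D K).trivTw.J a = {a} := fun a => rfl
  have hp : ∀ a g, g ∈ (stG D K).XS ((stG D K).trivTw.pos a) → ∃ t, g = (stG D K).x ((rootSys D).simple a) t :=
    fun a g hg => let ⟨t, _, e⟩ := ((stG D K).trivTw.mem_pos_one stG_good (hJ a)).1 ⟨hg, rfl⟩; ⟨t, e⟩
  have hp' : ∀ a, (stG D K).XS ((stG D K).trivTw.pos a) ⊓ (stG D K).trivTw.Fix ⊓ (frobTw D f).Fix ≤ H :=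
    fun a g hg => by
      obtain ⟨t, rfl⟩ := hp a g hg.1.1
      exact (hA.1 _ t).2 ((hf t).2 (x_mem_frobTw.1 hg.2))
  refine le_fix_of_chk p (T := (stG D K).trivTw) ⟨fun _ _ => rfl, fun _ => rfl, fun _ _ => rfl,
    fun a i hi j hj e => absurd (hi.trans hj.symm) e, fun a => ?_, hp', fun a => ?_, fun i => ?_,
    fun a x hx u hu h => ?_⟩ TL L hc (h1 _) fun _ => list_prod_mem fun g hg => ?_
  · have : Nontrivial (Fin D.rank) := Fin.nontrivial_iff_two_le.2 hr
    exact exists_ne a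
  · exact (stG D K).trivTw.exists_n_two _ stG_good (hp' a)
      ((stG D K).x_mem_XS ((stG D K).trivTw.neg_mem_ngt.2 ((stG D K).trivTw.simple_mem_pos rfl)) 1)
      (fun e => one_ne_zero (stG_good.x_inj _ _ e)) rfl (x_mem_frobTw.2 f.map_one) (h1 _)
  · exact ⟨_, ⟨(stG D K).x_mem_XS ((stG D K).trivTw.simple_mem_pos rfl) 1, h1 _⟩, fun e =>
      one_ne_zero (stG_good.eq_zero_of_simple ((stG D K).UJ_singleton i ▸ e))⟩
  · obtain ⟨t, rfl⟩ := hp a x hx
    exact x_mem_frobTw.2 ((hf t).1 (hA.2 _ ((rootSys D).isPos_simple a) t (.of_simple hu h)))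
  · obtain ⟨r, -, rfl⟩ := List.mem_map.1 hg
    exact xN_one_mem h1 r

theorem entries_mem_of (h : ∀ H : Subgroup (D.group K), (∀ r, (stG D K).x r 1 ∈ H) → ∃ A, SubA H A) (hr : 1 < D.rank)
    (TL L : List ℕ) (hc : (Good.C D).chkPair2 D.nroots D.rank TL L = true) {M : Subgroup (GL D.Idx K)}
    (hM : M ≤ D.group K) (h1 : ∀ (r : Rt D) (g : GL D.Idx K), (g : Matrix D.Idx D.Idx K) = D.x K r 1 → g ∈ M) :
    ∃ A : Subring K, (∀ (r : Rt D) t (g : GL D.Idx K), (g : Matrix D.Idx D.Idx K) = D.x K r t → (g ∈ M ↔ t ∈ A)) ∧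
      ∀ g ∈ M, ∀ i j, (g : Matrix D.Idx D.Idx K) i j ∈ A := by
  obtain ⟨A, hA⟩ := h (M.subgroupOf _) fun r => h1 r _ ((val_eq_x_iff_xg r 1 _).2 rfl)
  obtain ⟨n, -, -, hn⟩ := exists_pow_iff p A
  refine ⟨A, fun r t g e => ?_, fun g hg i j => (hn _).2 ?_⟩
  · rw [(val_eq_x_iff_xg r t g).1 e, ← hA.1 r]; rfl
  · exact mem_frobTw.1 (hA.le_fix p (f := iterateFrobenius K p n) hn hr TL L hc (x := ⟨g, hM hg⟩) hg) i j

omit [Good D] in
/-- a subgroup of a finite Chevalley group containing all `x_r(1)` consists of matrices over the subfield of its root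
parameters -/
theorem entries_mem (hD : D ∈ [chevG2, chevB2, chevD4, chevF4, chevE6, chevE7, chevE8]) {M : Subgroup (GL D.Idx K)}
    (hM : M ≤ D.group K) (h1 : ∀ (r : Rt D) (g : GL D.Idx K), (g : Matrix D.Idx D.Idx K) = D.x K r 1 → g ∈ M) :
    ∃ A : Subring K, (∀ (r : Rt D) t (g : GL D.Idx K), (g : Matrix D.Idx D.Idx K) = D.x K r t → (g ∈ M ↔ t ∈ A)) ∧
      ∀ g ∈ M, ∀ i j, (g : Matrix D.Idx D.Idx K) i j ∈ A := by
  simp only [List.mem_cons, List.not_mem_nil, or_false] at hD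
  rcases hD with rfl | rfl | rfl | rfl | rfl | rfl | rfl
  · exact entries_mem_of p (fun _ => subA_G2 p) (by decide) [9, 10, 11] [9] (by decide +kernel) hM h1
  · exact entries_mem_of p (fun _ => subA_B2 p) (by decide) [6] [6] (by decide +kernel) hM h1
  · exact entries_mem_of p (fun _ h => subA_sl p h 14 18 19 (by decide +kernel) (by decide +kernel)) (by decide)
      [17, 20, 22, 23] [17, 20] (by decide +kernel) hM h1
  · exact entries_mem_of p (fun _ => subA_F4 p) (by decide) [44] [44] (by decide +kernel) hM h1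
  · exact entries_mem_of p (fun _ h => subA_sl p h 36 37 38 (by decide +kernel) (by decide +kernel)) (by decide)
      [66, 68, 69, 70, 71] [66, 68] (by decide +kernel) hM h1
  · exact entries_mem_of p (fun _ h => subA_sl p h 63 64 65 (by decide +kernel) (by decide +kernel)) (by decide)
      [118, 121, 122, 123, 124, 125] [118, 121] (by decide +kernel) hM h1
  · exact entries_mem_of p (fun _ h => subA_sl p h 120 121 122 (by decide +kernel) (by decide +kernel)) (by decide)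
      [232, 233, 234, 235, 236, 237, 238, 239] [232, 233] (by decide +kernel) hM h1

end CL.Chev
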