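/-
CHEV library: subfields of finite fields, and specialisation of finitely generated rings to finite fields.
-/
import Cfsg.Agent.CHEV.SubUn
import Cfsg.Agent.CHEV.TwGlue

set_option autoImplicit false

namespace CL.Chev

open Cfsg.Lie

theorem dvd_of_pow_sub_one_dvd {p a n : ℕ} (hp : 1 < p) (h : p ^ a - 1 ∣ p ^ n - 1) : a ∣ n := by
  have h1 := Nat.pow_sub_one_gcd_pow_sub_one p a n
  rw [Nat.gcd_eq_left h] at h1
  have h2 := Nat.one_le_pow a p (by omega)
  have h3 := Nat.one_le_pow (a.gcd n) p (by omega)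
  rw [Nat.pow_right_injective hp (show p ^ a = p ^ a.gcd n by omega)]
  exact Nat.gcd_dvd_right a n

theorem pow_pow_eq_of_dvd {R : Type*} [Monoid R] {p a n : ℕ} (h : a ∣ n) {t : R} (ht : t ^ p ^ a = t) :
    t ^ p ^ n = t := by
  obtain ⟨c, rfl⟩ := h
  induction c with
  | zero => simp
  | succ c ih => rw [mul_add, pow_add, pow_mul t, ih, mul_one, ht]

section Fin

variable {K : Type*} [Field K] [Finite K]

theorem card_sub_one_dvd {A B : Subring K} (h : A ≤ B) : Nat.card A - 1 ∣ Nat.card B - 1 := by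
  classical
  have := Fintype.ofFinite A
  have := Fintype.ofFinite B
  let _ := Fintype.fieldOfDomain A
  let _ := Fintype.fieldOfDomain B
  rw [← Nat.card_units, ← Nat.card_units]
  exact Subgroup.card_dvd_of_injective (Units.map (Subring.inclusion h).toMonoidHom)
    (Units.map_injective (Subring.inclusion_injective h))

/-- subfields of prime index are maximal -/
theorem eq_or_top_of_prime (p : ℕ) [Fact p.Prime] [CharP K p] {a r : ℕ} (ha : 1 ≤ a) (hr : r.Prime)
    (hK : Nat.card K = (p ^ a) ^ r) (A : Subring K) (hA : ∀ t : K, t ^ p ^ a = t → t ∈ A) :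
    (∀ t ∈ A, t ^ p ^ a = t) ∨ A = ⊤ := by
  obtain ⟨n, -, h1, h2⟩ := exists_pow_iff p A
  have hp := (Fact.out : p.Prime).one_lt
  have h3 := card_sub_one_dvd (A := (iterateFrobenius K p a).eqLocus (RingHom.id K)) (B := A) hA
  have h4 := card_sub_one_dvd (A := A) le_top
  rw [h1, show Nat.card ((iterateFrobenius K p a).eqLocus (RingHom.id K)) = p ^ a from
    card_fixed (Nat.one_lt_pow (by omega) hp) hK] at h3
  rw [h1, Nat.card_congr Subring.topEquiv.toEquiv, hK, ← pow_mul] at h4
  obtain ⟨c, rfl⟩ := dvd_of_pow_sub_one_dvd hp h3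
  rcases (Nat.dvd_prime hr).1 (Nat.dvd_of_mul_dvd_mul_left ha (dvd_of_pow_sub_one_dvd hp h4)) with rfl | rfl
  · exact Or.inl fun t ht => by simpa using (h2 t).1 ht
  · exact Or.inr (eq_top_iff.2 fun t _ => (h2 t).2 (by rw [pow_mul, ← hK, pow_natCard]))

theorem exists_pow_ne {q r : ℕ} (hq : 2 ≤ q) (hr : 2 ≤ r) (hK : Nat.card K = q ^ r) : ∃ t : K, t ^ q ≠ t := by
  by_contra! h
  have h1 := card_fixed hq hK
  rw [Nat.card_congr (Equiv.subtypeUnivEquiv h), hK] at h1
  exact absurd h1 (Nat.pow_lt_pow_right hq hr |>.ne' |> fun e => by simpa using e)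

end Fin

universe u

theorem exists_spec {k : Type u} [Field k] (p : ℕ) [Fact p.Prime] [CharP k p] {s : Set k} (hs : s.Finite) :
    ∃ R : Subring k, s ⊆ R ∧ ∀ x : R, x ≠ 0 → ∃ (K : Type u) (_ : Field K) (_ : Finite K) (_ : CharP K p)
      (φ : R →+* K), φ x ≠ 0 := by
  let _ := ZMod.algebra k p
  let R := Algebra.adjoin (ZMod p) s
  have : Algebra.FiniteType (ZMod p) R := (Subalgebra.fg_iff_finiteType _).1 (Subalgebra.fg_def.2 ⟨s, hs, rfl⟩)
  have : IsJacobsonRing R := isJacobsonRing_of_finiteType (A := ZMod p)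
  refine ⟨R.toSubring, Algebra.subset_adjoin, fun (x : R) hx => ?_⟩
  have h1 : x ∉ (⊥ : Ideal R).jacobson := by
    rwa [← Ideal.radical_eq_jacobson, Ideal.radical_bot_of_isReduced]
  obtain ⟨m, hm, h2⟩ : ∃ m : Ideal R, m.IsMaximal ∧ x ∉ m := by
    by_contra! e
    exact h1 (Ideal.mem_sInf.2 fun m hm => e m hm.2)
  let _ := Ideal.Quotient.field m
  have := finite_of_finite_type_of_isJacobsonRing (ZMod p) (R ⧸ m)
  exact ⟨R ⧸ m, inferInstance, Module.finite_of_finite (ZMod p), charP_of_injective_algebraMap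
    (algebraMap (ZMod p) (R ⧸ m)).injective p, Ideal.Quotient.mk m, fun e => h2 (Ideal.Quotient.eq_zero_iff_mem.1 e)⟩

variable (D : ChevalleyDatum) [Good D]

/-- the group generated by the root elements over a ring -/
def grpR (R : Type*) [CommRing R] : Subgroup (GL D.Idx R) := Subgroup.closure {g | ∃ (r : Rt D) (t : R), g = xg r t}

variable {D}

theorem map_xgR {R R' : Type*} [CommRing R] [CommRing R'] (f : R →+* R') (r : Rt D) (t : R) :
    Matrix.GeneralLinearGroup.map f (xg r t : GL D.Idx R) = xg r (f t) :=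
  Units.ext (xR_map f r t)

theorem map_grpR_le {R K : Type*} [CommRing R] [Field K] (f : R →+* K) :
    (grpR D R).map (Matrix.GeneralLinearGroup.map f) ≤ D.group K := by
  rw [group_eq, grpR, MonoidHom.map_closure]
  refine Subgroup.closure_mono ?_
  rintro _ ⟨_, ⟨r, t, rfl⟩, rfl⟩
  exact ⟨r, f t, map_xgR f r t⟩

theorem exists_finite_params {k : Type*} [Field k] {M : Subgroup (GL D.Idx k)} [Finite M] (hM : M ≤ D.group k) :
    ∃ s : Set k, s.Finite ∧ ∀ R : Subring k, s ⊆ R →
      M ≤ (grpR D R).map (Matrix.GeneralLinearGroup.map R.subtype) := by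
  have : ∀ g ∈ D.group k, ∃ s : Set k, s.Finite ∧ ∀ R : Subring k, s ⊆ R →
      g ∈ (grpR D R).map (Matrix.GeneralLinearGroup.map R.subtype) := fun g hg => by
    rw [group_eq] at hg
    induction hg using Subgroup.closure_induction with
    | mem g h =>
      obtain ⟨r, t, rfl⟩ := h
      exact ⟨{t}, Set.finite_singleton t, fun R hR =>
        ⟨xg r ⟨t, hR rfl⟩, Subgroup.subset_closure ⟨r, _, rfl⟩, map_xgR _ _ _⟩⟩
    | one => exact ⟨∅, Set.finite_empty, fun _ _ => one_mem _⟩
    | mul g g' _ _ h h' =>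
      obtain ⟨s, hs, h⟩ := h
      obtain ⟨s', hs', h'⟩ := h'
      exact ⟨s ∪ s', hs.union hs', fun R hR => mul_mem (h R (Set.subset_union_left.trans hR))
        (h' R (Set.subset_union_right.trans hR))⟩
    | inv g _ h =>
      obtain ⟨s, hs, h⟩ := h
      exact ⟨s, hs, fun R hR => inv_mem (h R hR)⟩
  choose s hs h using fun g : M => this g (hM g.2)
  exact ⟨⋃ g, s g, Set.finite_iUnion hs, fun R hR g hg => h ⟨g, hg⟩ R ((Set.subset_iUnion s _).trans hR)⟩

end CL.Chev
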