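/-
CHEV library: overgroups of the fixed points of a field automorphism in a twisted group.
-/
import Cfsg.Agent.CHEV.SubSpec
import Cfsg.Agent.CHEV.TwMore
import Cfsg.Agent.Eqns.CL_Chev_PE_ev

set_option autoImplicit false

namespace CL.Chev

open Cfsg.Lie

section Abs

variable {ι κ κ' κ'' : Type*} [Fintype κ] [DecidableEq κ] {R : RootSys ι κ} {F G : Type*} [Field F] [Group G]
  {S : StData R F G} {H : Subgroup G}

namespace StData

theorem Lv.map (T : S.Twist κ') (hA : ∀ i j, R.A (T.π i) (T.π j) = R.A i j) (hH : H ≤ T.Fix) {r : ι} {t t' : F}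
    (e : T.σ (S.x r t) = S.x (T.ρ r) t') (h : S.Lv H r t) :
    ∃ z ∈ S.XS (R.Tr r), ∃ z' ∈ S.XS (R.Tr (T.ρ r)), S.x r t * z ∈ H ∧ S.x (T.ρ r) t' * z' = S.x r t * z := by
  obtain ⟨z, hz, h⟩ := h
  refine ⟨z, hz, T.σ z, T.map_mem_XS (fun s hs => And.intro ?_ fun e => hs.2 (T.ρ.injective e)) hz, h, ?_⟩
  · rw [T.ht_ρ hA, T.ht_ρ hA]; exact hs.1
  · rw [← e, ← map_mul]; exact hH h

theorem Twist.prod_one_mem_Fix (T : S.Twist κ') {a : κ'} {L : List κ} (hL : L.Nodup)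
    (ho : ∀ i ∈ T.J a, ∀ j ∈ T.J a, i ≠ j → R.A i j = 0) (hJ : ∀ i, i ∈ L ↔ T.c i = a) {e : κ → ι} (he : R.IsSgn e) :
    (L.map fun j => S.x (e j) 1).prod ∈ T.Fix := by
  have h1 : (L.map T.π).Perm L := (List.perm_ext_iff_of_nodup (hL.map T.π.injective) hL).2 fun i => by
    obtain ⟨j, rfl⟩ := T.π.surjective i
    rw [List.mem_map_of_injective T.π.injective, hJ, hJ, T.c_π]
  rw [Twist.mem_Fix]
  conv_rhs => rw [(h1.symm.map fun j => S.x (e j) 1).prod_eq' (List.pairwise_map.2 (hL.pairwise_of_forall_ne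
    fun i hi j hj hij => commute_orth hij (ho i ((hJ i).1 hi) j ((hJ j).1 hj) hij) (S.x_mem_sub_self he _ _)
      (S.x_mem_sub_self he _ _)))]
  rw [map_list_prod, List.map_map, List.map_map]
  exact congrArg _ (List.map_congr_left fun j _ => by simp [T.map_sgn he])

variable [Finite ι]

theorem Over.of_lv {T : S.Twist κ'} {T' : S.Twist κ''} (hS : S.Good) (h1 : H ≤ T.Fix) (hπ : ∀ i, T'.π i = i)
    (hA : ∀ i j, R.A (T.π i) (T.π j) = R.A i j) (ho : ∀ a, ∀ i ∈ T.J a, ∀ j ∈ T.J a, i ≠ j → R.A i j = 0)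
    (hr : ∀ a, (T.J a)ᶜ.Nonempty) (hU : S.U ⊓ T.Fix ⊓ T'.Fix ≤ H) (hV : S.V ⊓ T.Fix ⊓ T'.Fix ≤ H)
    (hL : ∀ i t, S.Lv H (R.simple i) t → T'.f i t = t) : Over T T' H := by
  classical
  have hp : ∀ a, S.XS (T.pos a) ⊓ T.Fix ⊓ T'.Fix ≤ H := fun a g hg =>
    hU ⟨⟨S.XS_le_U (fun _ h => h.1) hg.1.1, hg.1.2⟩, hg.2⟩
  have key : ∀ e, R.IsSgn e → ∀ i, ∃ L : List κ, (∀ j ∈ L, T.c j = T.c i ∧ j ≠ i) ∧
      S.x (e i) 1 * (L.map fun j => S.x (e j) 1).prod ∈ T.Fix ⊓ T'.Fix := fun e he i => by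
    refine ⟨((Finset.univ.filter fun j => T.c j = T.c i).erase i).toList, fun j hj => by simpa [and_comm] using hj,
      T.prod_one_mem_Fix (L := i :: _) (List.nodup_cons.2 ⟨by simp, Finset.nodup_toList _⟩) (ho (T.c i)) (fun j => ?_) he,
      mul_mem (T'.fix_one he (hπ _) (map_one _)) (list_prod_mem fun g hg => ?_)⟩
    · by_cases h : j = i <;> simp [h]
    · obtain ⟨j, -, rfl⟩ := List.mem_map.1 hg
      exact T'.fix_one he (hπ _) (map_one _)
  have hρ : T'.ρ = 1 := Equiv.ext (T'.ρ_eq id (fun i => by rw [hπ]; rfl) fun i r => by rw [hπ]; rfl)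
  refine ⟨h1, hπ, hA, ho, hr, hp, fun a => ?_, fun i => ?_, fun a x hx u hu h => ?_⟩
  · obtain ⟨i, rfl⟩ := T.c_surj a
    obtain ⟨L, h2, h3⟩ := key _ R.isSgn_neg i
    have h4 : S.x (R.neg (R.simple i)) 1 * (L.map fun j => S.x (R.neg (R.simple j)) 1).prod ∈ S.XS (T.ngt (T.c i)) :=
      mul_mem (T.x_mem_ngt rfl _) (list_prod_mem fun g hg =>
        let ⟨j, hj, e⟩ := List.mem_map.1 hg; e ▸ T.x_mem_ngt (h2 j hj).1 _)
    exact T.exists_n_two T' hS (hp _) h4 (hS.x_neg_mul_ne_one one_ne_zero (list_prod_mem fun g hg =>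
      let ⟨j, hj, e⟩ := List.mem_map.1 hg; e ▸ S.x_mem_ne_neg_simple (h2 j hj).2 _)) h3.1 h3.2
      (hV ⟨⟨S.XS_le_V (fun _ h => h.1) h4, h3.1⟩, h3.2⟩)
  · obtain ⟨L, h2, h3⟩ := key _ R.isSgn_pos i
    have h4 : S.x (R.simple i) 1 * (L.map fun j => S.x (R.simple j) 1).prod ∈ S.XS (T.pos (T.c i)) :=
      mul_mem (S.x_mem_XS (T.simple_mem_pos rfl) _) (list_prod_mem fun g hg =>
        let ⟨j, hj, e⟩ := List.mem_map.1 hg; e ▸ S.x_mem_XS (T.simple_mem_pos (h2 j hj).1) _)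
    refine ⟨_, ⟨h4, hp _ ⟨⟨h4, h3.1⟩, h3.2⟩⟩, fun e => one_ne_zero (hS.eq_zero_of_simple (i := i) ?_)⟩
    rw [S.UJ_singleton] at e
    exact (Subgroup.mul_mem_cancel_right _ (list_prod_mem fun g hg =>
      let ⟨j, hj, e⟩ := List.mem_map.1 hg; e ▸ S.x_mem_ne_simple (h2 j hj).2 _)).1 e
  have e := T.pos_eq_orth (ho a)
  have hc : ∀ A ⊆ T.pos a, R.Closed A := fun A hA r hr s hs k hk => by
    obtain ⟨j, -, rfl⟩ := e ▸ T.closed_pos a r (hA hr) s (hA hs) k hk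
    have := hk.ht_le (hA hr).1 (hA hs).1
    have h2 : 0 < R.ht r := (hA hr).1
    have h3 : 0 < R.ht s := (hA hs).1
    rw [R.ht_simple] at this
    omega
  have hm : ∀ {A g}, g ∈ S.XS A → T'.σ g ∈ S.XS A := T'.map_mem_XS fun r hr => by rw [hρ]; exact hr
  have h2 : ∀ I : Finset κ, x⁻¹ * T'.σ x ∈ S.XS (T.pos a \ R.simple '' I) := fun I => by
    induction I using Finset.induction_on with
    | empty => simpa using mul_mem (inv_mem hx) (hm hx)
    | insert i I _ ih =>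
      by_cases hi : i ∈ T.J a
      swap
      · refine S.XS_mono (fun r hr => And.intro hr.1 ?_) ih
        rintro ⟨j, hj, rfl⟩
        rcases Finset.mem_insert.1 hj with rfl | hj
        exacts [hi (R.simple_mem_sub.1 hr.1.2), hr.2 ⟨j, hj, rfl⟩]
      obtain ⟨y, hy, z, hz, rfl⟩ := S.exists_mul_of_subset_union (A := {R.simple i}) (B := {R.simple i}ᶜ)
        (R.nilp_pos fun _ h => h.1) (T.closed_pos a) (by simp) hx
      obtain ⟨c, rfl⟩ := S.mem_X_iff.1 (S.XS_mono Set.inter_subset_right hy)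
      have h3 := hL i c (.of_simple (u := z * u) (mul_mem (S.UJ_singleton i ▸ S.XS_mono
        (fun s hs => And.intro hs.1.1 hs.2) hz) (S.XS_mono (fun s hs => And.intro hs.1 fun e =>
          hs.2 (R.sub_mono (Set.singleton_subset_iff.2 hi) e)) hu)) (mul_assoc (G := G) _ _ _ ▸ h))
      have h4 : (S.x (R.simple i) c * z)⁻¹ * T'.σ (S.x (R.simple i) c * z) ∈ S.XS (T.pos a ∩ {R.simple i}ᶜ) := by
        rw [map_mul, T'.map_pos, hπ, h3]
        simpa [mul_assoc] using mul_mem (inv_mem hz) (hm hz)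
      have h5 := (hS.XS_inf (one_mem R.W) (fun _ h => h.1.1) (fun _ h => h.1.1) (hc _ Set.sdiff_subset)
        (hc _ Set.inter_subset_left)).le ⟨ih, h4⟩
      refine S.XS_mono (fun r hr => And.intro hr.1.1 ?_) h5
      rintro ⟨j, hj, rfl⟩
      rcases Finset.mem_insert.1 hj with rfl | hj
      exacts [hr.2.2 rfl, hr.1.2 ⟨j, hj, rfl⟩]
  have h3 := h2 Finset.univ
  rw [Set.sdiff_eq_empty.2 (e ▸ Set.image_mono (by simp)), XS_empty, Subgroup.mem_bot, inv_mul_eq_one] at h3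
  exact h3.symm

end StData

end Abs

theorem PE.map_ev {R R' : Type*} [CommRing R] [CommRing R'] (φ : R →+* R') (xs : List R) (e : PE) :
    φ (e.ev xs) = e.ev (xs.map φ) := by
  induction e with
  | var i => rw [PE.ev, PE.ev, ← map_zero φ, List.getD_map]
  | _ => simp [PE.ev, *]

variable {D : ChevalleyDatum} [Good D] {K : Type*} [Field K] {κ' : Type*}

local notation "X" => xN (StData.x (stG D K))

/-- a subgroup between the fixed points of a twist and those fixed also by a field automorphism -/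
structure TwY (T : (stG D K).Twist κ') (tw : Tw) (φ : K →+* K) (H : Subgroup (D.group K)) : Prop where
  rho : ∀ r, (T.ρ r).val = tw.ρ r
  map : ∀ r t, T.σ ((stG D K).x r t) = (stG D K).x (T.ρ r) (tw.c r * φ t)
  A_π : ∀ i j, (rootSys D).A (T.π i) (T.π j) = (rootSys D).A i j
  le_fix : H ≤ T.Fix
  U_le : (stG D K).U ⊓ T.Fix ⊓ (frobTw D φ).Fix ≤ H
  V_le : (stG D K).V ⊓ T.Fix ⊓ (frobTw D φ).Fix ≤ H

theorem Tw.Ok.twY {tw : Tw} (h : tw.Ok D K) (hE : ∀ r, tw.E r = 1) {T : (stG D K).Twist κ'}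
    {M H : Subgroup (D.group K)} (hM : T.IsTw M) (hπ : ∀ i, h.piF i = T.π i) {φ : K →+* K} (hf : ∀ i t, T.f i t = φ t)
    (hA : ∀ i j, (rootSys D).A (T.π i) (T.π j) = (rootSys D).A i j) (h1 : H ≤ M) (h2 : M ⊓ (frobTw D φ).Fix ≤ H) :
    TwY T tw φ H := by
  have e := T.ρ_eq h.perm (fun i => hπ i ▸ h.perm_sm i) fun i r => hπ i ▸ h.perm_rf i r
  obtain ⟨α, h3, h4⟩ := h.exists_graph hE
  refine ⟨fun r => by rw [e]; rfl, fun r t => ?_, hA, h1.trans hM.le_fix, fun g hg => h2 ⟨hM.U_le stG_good hg.1, hg.2⟩,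
    fun g hg => h2 ⟨hM.V_le stG_good hg.1, hg.2⟩⟩
  rw [e, ← h3, ← fieldHom_x, hom_ext_simple (f := T.σ) (f' := α.toMonoidHom.comp (fieldHom D φ))
    (fun i t => (T.map_pos i t).trans ?_) fun i t => (T.map_neg i t).trans ?_]
  · rfl
  · rw [hf, ← hπ]; exact ((congrArg α (fieldHom_x φ _ t)).trans (h4 i _).1).symm
  · rw [hf, ← hπ]; exact ((congrArg α (fieldHom_x φ _ t)).trans (h4 i _).2).symm

/-- the image of a word under the graph automorphism -/
def Tw.word (tw : Tw) (w : List (ℕ × PE)) : List (ℕ × PE) := w.map fun a => (tw.ρ a.1, .c (tw.c a.1) * a.2)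

def Cert.chkFixW (C : Cert) (n l p : ℕ) (tw : Tw) (w : List (ℕ × PE)) : Bool :=
  (w.all (fun a => Nat.ble (n / 2) a.1 && Nat.blt a.1 n) || w.all fun a => Nat.blt a.1 (n / 2)) &&
    Mv.weq C n l p (tw.word w) w

def Cert.chkStp (C : Cert) (n l : ℕ) (tw : Tw) (r s k : ℕ) (w : List (ℕ × PE)) : Bool :=
  Nat.ble (n / 2) r && Nat.beq (C.add r s) k && Nat.ble (n / 2) s && Nat.blt s n && Cert.okHead [1, -1] (C.fct n r s) &&
    C.chkFixW n l 0 tw ((s, 1) :: w) && w.all fun b => !(ineg (C.hgt l b.1 - C.hgt l s)) &&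
      allLt n fun a => !(allLt l fun i => ieq (C.co (C.add r s) i) (C.co a i + C.co b.1 i))

theorem evS_eq_of_weq {p : ℕ} (hp : (p : K) = 0) (xs : List K) (hx : xs.length ≤ 12) {w w' : List (ℕ × PE)}
    (h : Mv.weq (Good.C D) D.nroots D.rank p w w' = true) : evS D xs w = evS D xs w' := by
  simpa only [evG, evS, List.map_map, Function.comp_def] using evG_eq_of_weqM hp xs hx h

/-- the leading coefficient at `r` is not fixed -/
def BadLv (φ : K →+* K) (H : Subgroup (D.group K)) (r : ℕ) : Prop :=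
  ∃ hr : r < D.nroots, ∃ t, φ t ≠ t ∧ (stG D K).Lv H ⟨r, hr⟩ t

namespace TwY

variable {T : (stG D K).Twist κ'} {tw : Tw} {φ : K →+* K} {H : Subgroup (D.group K)} (h : TwY T tw φ H)
include h

theorem map_evS (xs : List K) {w : List (ℕ × PE)} (hw : ∀ a ∈ w, a.1 < D.nroots) :
    T.σ (evS D xs w) = evS D (xs.map φ) (tw.word w) := by
  rw [evS, evS, map_list_prod, Tw.word, List.map_map, List.map_map]
  refine congrArg _ (List.map_congr_left fun a ha => ?_)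
  simp only [Function.comp, PE.ev_mul, PE.ev_c, ← PE.map_ev]
  rw [xN_val _ ⟨a.1, hw a ha⟩, h.map, ← xN_val (stG D K).x, h.rho]

theorem mem_of_chk {p : ℕ} (hp : (p : K) = 0) {xs : List K} (hx : xs.length ≤ 12) {w : List (ℕ × PE)}
    (hc : (Good.C D).chkFixW D.nroots D.rank p tw w = true) (hw : w.Forall fun a => φ (a.2.ev xs) = a.2.ev xs) :
    evS D xs w ∈ H := by
  rw [List.forall_iff_forall_mem] at hw
  simp only [Cert.chkFixW, Bool.and_eq_true, Bool.or_eq_true, List.all_eq_true, Nat.ble_eq, Nat.blt_eq] at hc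
  have h1 : ∀ a ∈ w, a.1 < D.nroots := fun a ha => hc.1.elim (fun e => (e a ha).2) fun e => by have := e a ha; omega
  have h2 : evS D xs w ∈ T.Fix := by
    rw [StData.Twist.mem_Fix, h.map_evS xs h1, ← evS_eq_of_weq hp xs hx hc.2, evS, evS, Tw.word, List.map_map,
      List.map_map]
    exact congrArg _ (List.map_congr_left fun a ha => by simp [← PE.map_ev, hw a ha])
  have key : ∀ {B : Subgroup (D.group K)}, (∀ a (ha : a ∈ w), (stG D K).x ⟨a.1, h1 a ha⟩ (a.2.ev xs) ∈ B) →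
      evS D xs w ∈ B := fun hB => list_prod_mem fun g hg =>
    let ⟨a, ha, e⟩ := List.mem_map.1 hg; e ▸ (xN_val (stG D K).x ⟨a.1, h1 a ha⟩ _).symm ▸ hB a ha
  have h3 := key fun a ha => x_mem_frobTw.2 (hw a ha)
  rcases hc.1 with e | e
  · exact h.U_le ⟨⟨key fun a ha => (stG D K).x_mem_U (by rw [rootSys_isPos, pos_iff_le]; exact (e a ha).1) _, h2⟩, h3⟩
  · exact h.V_le ⟨⟨key fun a ha => (stG D K).x_mem_V (by rw [rootSys_isPos, pos_iff_le, not_le]; exact e a ha) _,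
      h2⟩, h3⟩

theorem xN_mem {r : ℕ} (hc : (Good.C D).chkFixW D.nroots D.rank 0 tw [(r, .var 0)] = true) {t : K} (ht : φ t = t) :
    X r t ∈ H := evS_single_mem.1 (h.mem_of_chk Nat.cast_zero (xs := [t]) (by simp) hc ht)

theorem coords_eq {xs : List K} (hx : xs.length ≤ 12) {w : List (ℕ × PE)} (w' : List (ℕ × PE))
    (hc : ((w.map (·.1)).all (fun r => Nat.ble (D.nroots / 2) r && Nat.blt r D.nroots) &&
      (Good.C D).closedL D.nroots (w.map (·.1)) && decide (w.map (·.1)).Nodup && decide (w'.map (·.1) = w.map (·.1)) &&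
      Mv.weq (Good.C D) D.nroots D.rank 0 (tw.word w) w') = true) (hg : evS D xs w ∈ H) :
    w.map (·.2.ev xs) = w'.map (·.2.ev (xs.map φ)) := by
  simp only [Bool.and_eq_true, decide_eq_true_eq] at hc
  obtain ⟨⟨⟨⟨h1, h2⟩, h3⟩, h4⟩, h5⟩ := hc
  have e := T.mem_Fix.1 (h.le_fix hg)
  rw [h.map_evS xs fun a ha => Nat.blt_eq.mp (Bool.and_eq_true_iff.1
    (List.all_eq_true.1 h1 _ (List.mem_map_of_mem ha))).2, evS_eq_of_weq Nat.cast_zero _ (by simpa using hx) h5] at e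
  have := coords_inj (S := stG D K) stG_good h1 h2 h3 (w := w.map fun a => (a.1, a.2.ev xs))
    (w' := w'.map fun a => (a.1, a.2.ev (xs.map φ))) (by simp) (by simp [← h4]) (by simpa [evS, Function.comp_def] using e.symm)
  simpa [Function.comp_def] using congrArg (List.map (·.2)) this

theorem bad_map {r k : ℕ} (hc : tw.c r = 1 ∧ tw.ρ r = k) (hb : BadLv φ H r) : BadLv φ H k := by
  obtain ⟨hc, rfl⟩ := hc
  obtain ⟨hr, t, ht, hb⟩ := hb
  obtain ⟨z, -, z', hz', h1, h2⟩ := hb.map T h.A_π h.le_fix (h.map _ t)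
  rw [← show _ = tw.ρ r from h.rho ⟨r, hr⟩]
  exact ⟨(T.ρ _).2, _, by simpa [hc] using φ.injective.ne ht, z', hz', h2 ▸ h1⟩

theorem not_bad {r : ℕ} (hc : tw.c r = 1 ∧ tw.ρ r = r ∧ D.nroots / 2 ≤ r) : ¬ BadLv φ H r := by
  rintro ⟨hr, t, ht, hb⟩
  obtain ⟨z, hz, z', hz', -, h2⟩ := hb.map T h.A_π h.le_fix (h.map _ t)
  have hp : (rootSys D).IsPos ⟨r, hr⟩ := by rw [rootSys_isPos, pos_iff_le]; exact hc.2.2
  rw [show T.ρ ⟨r, hr⟩ = ⟨r, hr⟩ from Fin.ext ((h.rho _).trans hc.2.1)] at hz' h2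
  exact ht (by simpa [hc.1] using (stG_good.cancel_x hp (RootSys.Tr_pos hp) (RootSys.closed_Tr hp)
    (RootSys.not_mem_Tr _) hz' hz h2).1)

theorem bad_step {r k : ℕ} (s : ℕ) (w : List (ℕ × PE)) (hc : (Good.C D).chkStp D.nroots D.rank tw r s k w = true)
    (hw : w.Forall fun a => φ (a.2.ev []) = a.2.ev []) (hb : BadLv φ H r) : BadLv φ H k := by
  obtain ⟨hr, t, ht, hb⟩ := hb
  simp only [Cert.chkStp, Bool.and_eq_true, List.all_eq_true, Nat.ble_eq, Nat.blt_eq, allLt_iff, Bool.not_eq_true',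
    ← Bool.not_eq_true, ineg_iff, ieq_iff, Nat.beq_eq] at hc
  obtain ⟨⟨⟨⟨⟨⟨h1, rfl⟩, h2⟩, hs⟩, h3⟩, h4⟩, h5⟩ := hc
  have p1 : (rootSys D).IsPos ⟨r, hr⟩ := by rw [rootSys_isPos, pos_iff_le]; exact h1
  have p2 : (rootSys D).IsPos ⟨s, hs⟩ := by rw [rootSys_isPos, pos_iff_le]; exact h2
  obtain ⟨k, hk, e, c, hc, h6⟩ := stG_exact.lead (K := K) p1 p2 h3
  have h7 := h.mem_of_chk Nat.cast_zero (xs := []) (by simp) h4 ((List.forall_cons _ _ _).2 ⟨by simp, hw⟩)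
  rw [evS_cons, PE.ev_one, xN_val _ ⟨s, hs⟩] at h7
  refine e ▸ ⟨k.2, _, ?_, hb.step p1 p2 hk (h6 t 1) (list_prod_mem fun g hg => ?_) h7⟩
  · rcases List.mem_pair.1 hc with rfl | rfl <;> simpa using ht
  obtain ⟨b, hb, rfl⟩ := List.mem_map.1 hg
  unfold xN
  split_ifs with h8
  · refine (stG D K).x_mem_XS (And.intro ?_ fun (a : Rt D) e' => (h5 b hb).2 a.val a.2 fun i hi => ?_) _
    · have := (h5 b hb).1
      rw [rootSys_ht', rootSys_ht']; dsimp only; omega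
    · exact e ▸ congrFun e' ⟨i, hi⟩
  · exact one_mem _

theorem scale {b : ℕ} (hb : ((Good.C D).chkFixW D.nroots D.rank 0 tw [(b, .var 0)] &&
    (Good.C D).chkFixW D.nroots D.rank 0 tw [(D.nroots - 1 - b, .var 0)] && Nat.blt b D.nroots) = true)
    {w : List (ℕ × K)} (L : List ℕ) (hL : w.map (·.1) = L)
    (hw : ∀ a ∈ L, a < D.nroots ∧ (Good.C D).pairF D.rank b a = -1) {c : K} (hc : φ c = c)
    (hg : evG D w ∈ H) : evG D (w.map fun a => (a.1, c * a.2)) ∈ H := by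
  replace hw := fun a (ha : a ∈ w) => hw a.1 (hL ▸ List.mem_map_of_mem ha)
  clear hL
  simp only [Bool.and_eq_true, Nat.blt_eq] at hb
  rcases eq_or_ne c 0 with rfl | h0
  · refine list_prod_mem fun g hg => ?_
    simp only [List.map_map, List.mem_map, Function.comp, zero_mul, xN_zero] at hg
    obtain ⟨_, _, rfl⟩ := hg
    exact one_mem _
  have hn : ∀ u, φ u = u → (stG D K).n ⟨b, hb.2⟩ u ∈ H := fun u hu => by
    have e1 : (stG D K).x ⟨b, hb.2⟩ u ∈ H := xN_val (stG D K).x ⟨b, hb.2⟩ u ▸ h.xN_mem hb.1.1 hu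
    refine mul_mem (mul_mem e1 ?_) e1
    rw [← xN_val (stG D K).x, rootSys_neg, ng_val']
    exact h.xN_mem hb.1.2 (by simp [hu])
  have hh : (stG D K).h ⟨b, hb.2⟩ c⁻¹ ∈ H := mul_mem (hn _ (by simp [hc])) (hn _ (by simp))
  convert mul_mem (mul_mem hh hg) (inv_mem hh) using 1
  clear hg
  induction w with
  | nil => simp [evG_nil]
  | cons a w ih =>
    have := hw a List.mem_cons_self
    rw [List.map_cons, evG_cons, ih fun a ha => hw a (List.mem_cons_of_mem _ ha), show evG D (a :: w) = _ from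
      evG_cons a.1 a.2 w, xN_val _ ⟨a.1, this.1⟩, xN_val _ ⟨a.1, this.1⟩, show c * a.2 = c⁻¹ ^ (rootSys D).pair ⟨b, hb.2⟩
        ⟨a.1, this.1⟩ * a.2 by rw [rootSys_pair', this.2]; simp, ← StData.h_conj _ _ _ (inv_ne_zero h0)]
    group

theorem le_fix_of_not_bad (p : ℕ) [Fact p.Prime] [CharP K p] [Finite K]
    (ho : ∀ a, ∀ i ∈ T.J a, ∀ j ∈ T.J a, i ≠ j → (rootSys D).A i j = 0) (hr : ∀ a, (T.J a)ᶜ.Nonempty) (TL L : List ℕ)
    (hc : ((Good.C D).chkPair2 D.nroots D.rank TL L && (Good.C D).chkFixW D.nroots D.rank 0 tw [(D.nroots - 1, .var 0)] &&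
      (Good.C D).chkFixW D.nroots D.rank 2 tw (L.map fun r => (r, 1))) = true)
    (hb : ∀ i < D.rank, ¬ BadLv φ H ((Good.C D).smp i)) : H ≤ (frobTw D φ).Fix := by
  simp only [Bool.and_eq_true] at hc
  refine le_fix_of_chk p (StData.Over.of_lv stG_good h.le_fix (fun _ => rfl) h.A_π ho hr h.U_le h.V_le fun i t e => ?_)
    TL L hc.1.1 (by rw [← xN_top]; exact h.xN_mem hc.1.2 φ.map_one) fun e => ?_
  · by_contra h1
    exact hb i i.2 (sm_val' i ▸ ⟨(sm i).2, t, h1, e⟩)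
  · subst e
    simpa [evS, ones, Function.comp_def] using h.mem_of_chk (CharP.cast_eq_zero K 2) (xs := []) (by simp) hc.2
      (List.forall_iff_forall_mem.2 (by simp))

end TwY

end CL.Chev
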