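/-
CHEV library: `F₄(q)` is maximal in `²E₆(q)` and `G₂(q)` is maximal in `³D₄(q)`.
-/
import Cfsg.Agent.CHEV.SubTw
import Cfsg.Agent.CHEV.TwE6
import Cfsg.Agent.CHEV.TwD4

set_option autoImplicit false

namespace CL.Chev

open Cfsg.Lie

section Abs

variable {ι F G : Type*} [Field F] [Group G] {q : ℕ}

set_option backward.isDefEq.respectTransparency false in
theorem StData.Twist.IsE6.orth {R : RootSys ι (Fin 6)} {S : StData R F G} {T : S.Twist (Fin 4)} (h : T.IsE6 q) :
    (∀ i j, R.A (T.π i) (T.π j) = R.A i j) ∧ (∀ a, ∀ i ∈ T.J a, ∀ j ∈ T.J a, i ≠ j → R.A i j = 0) ∧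
      ∀ a, (T.J a)ᶜ.Nonempty := by
  simp only [h.A_eq, h.π, Set.Nonempty, Set.mem_compl_iff, T.mem_J, h.c]
  exact ⟨by decide, by decide, by decide⟩

set_option backward.isDefEq.respectTransparency false in
theorem StData.Twist.IsD4.orth {R : RootSys ι (Fin 4)} {S : StData R F G} {T : S.Twist (Fin 2)} (h : T.IsD4 q) :
    (∀ i j, R.A (T.π i) (T.π j) = R.A i j) ∧ (∀ a, ∀ i ∈ T.J a, ∀ j ∈ T.J a, i ≠ j → R.A i j = 0) ∧
      ∀ a, (T.J a)ᶜ.Nonempty := by
  simp only [h.A_eq, h.π, Set.Nonempty, Set.mem_compl_iff, T.mem_J, h.c]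
  exact ⟨by decide, by decide, by decide⟩

end Abs

section Gen

variable {D : ChevalleyDatum} [Good D] {K : Type*} [Field K] {φ : K →+* K}

theorem eq_of_evG_mem_frobTw {r : ℕ} {t : K} {w : List (ℕ × K)} (L : List ℕ) (hL : r :: w.map (·.1) = L)
    (h1 : L.all (fun r => Nat.ble (D.nroots / 2) r && Nat.blt r D.nroots) = true)
    (h2 : (Good.C D).closedL D.nroots L = true) (h3 : L.Nodup) (h : evG D ((r, t) :: w) ∈ (frobTw D φ).Fix) :
    φ t = t := by
  have e : fieldHom D φ (evG D ((r, t) :: w)) = evG D (((r, t) :: w).map fun a => (a.1, φ a.2)) := by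
    rw [evG, evG, map_list_prod, List.map_map, List.map_map]
    refine congrArg _ (List.map_congr_left fun a _ => ?_)
    simp only [Function.comp, xN]
    split_ifs
    exacts [fieldHom_x _ _ _, map_one _]
  have := coords_inj (S := stG D K) stG_good h1 h2 h3 (w := ((r, t) :: w).map fun a => (a.1, φ a.2))
    (w' := (r, t) :: w) (by simpa [Function.comp_def] using hL) hL (by exact e.symm.trans ((frobTw D φ).mem_Fix.1 h))
  exact congrArg Prod.snd (List.cons.inj this).1

theorem maximal_of_frob {W : Set (List (ℕ × K))} {q : ℕ} (hφ : ∀ t, φ t = t ^ q) {M : Subgroup (GL D.Idx K)}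
    (hM : ∀ g : GL D.Idx K, g ∈ M ↔ g ∈ D.genSubgroup K W ∧ ∀ i j : D.Idx,
      (g : Matrix D.Idx D.Idx K) i j ^ q = (g : Matrix D.Idx D.Idx K) i j)
    (h1 : ¬ (jG D W).range ≤ (frobTw D φ).Fix) (h2 : ∀ H ≤ (jG D W).range, (jG D W).range ⊓ (frobTw D φ).Fix ≤ H →
      H ≤ (frobTw D φ).Fix ∨ (jG D W).range ≤ H) :
    M ≠ D.genSubgroup K W ∧ ∀ H, M ≤ H → H ≤ D.genSubgroup K W → H = M ∨ H = D.genSubgroup K W := by
  have e : ∀ g : D.group K, g ∈ (jG D W).range ↔ (g : GL D.Idx K) ∈ D.genSubgroup K W := fun _ =>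
    mem_range_inclusion _
  simp only [← hφ] at hM
  refine ⟨fun h => h1 fun g hg => mem_frobTw.2 ((hM g).1 (h ▸ (e g).1 hg)).2, fun H h3 h4 => ?_⟩
  rcases h2 (H.subgroupOf _) (fun g hg => (e g).2 (h4 hg)) (fun g hg => h3 ((hM g).2 ⟨(e g).1 hg.1,
    mem_frobTw.1 hg.2⟩)) with h | h
  · exact Or.inl (le_antisymm (fun g hg => (hM g).2 ⟨h4 hg, mem_frobTw.1 (h (x := ⟨g, genSub_le W (h4 hg)⟩) hg)⟩) h3)
  · exact Or.inr (le_antisymm h4 fun g hg => h (x := ⟨g, genSub_le W hg⟩) ((e _).2 hg))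

theorem eq_top_of_quad (h2 : ∀ t, φ (φ t) = t) {V : AddSubgroup K} (h1 : 1 ∈ V) (hs : ∀ c, φ c = c → ∀ t ∈ V, c * t ∈ V)
    {t : K} (ht : t ∈ V) (h : φ t ≠ t) (s : K) : s ∈ V := by
  have h0 : t - φ t ≠ 0 := sub_ne_zero.2 h.symm
  have h3 : φ ((s - φ s) / (t - φ t)) = (s - φ s) / (t - φ t) := by
    rw [map_div₀, map_sub, map_sub, h2, h2, ← neg_div_neg_eq, neg_sub, neg_sub]
  have := V.add_mem (hs (s - (s - φ s) / (t - φ t) * t) (by rw [map_sub, map_mul, h3]; field_simp; ring) 1 h1)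
    (hs _ h3 t ht)
  simpa using this

theorem eq_top_of_cubic (p : ℕ) [Fact p.Prime] [CharP K p] [Finite K] {a : ℕ} (ha : 1 ≤ a)
    (hK : Nat.card K = (p ^ a) ^ 3) (hφ : ∀ t, φ t = t ^ p ^ a) (h3 : ∀ t, φ (φ (φ t)) = t) {V : AddSubgroup K}
    (h1 : 1 ∈ V) (hs : ∀ c, φ c = c → ∀ t ∈ V, c * t ∈ V) (hi : ∀ t ∈ V, φ t * φ (φ t) ∈ V) {t : K} (ht : t ∈ V)
    (h : φ t ≠ t) (s : K) : s ∈ V := by
  have inv : ∀ t ∈ V, t⁻¹ ∈ V := fun t ht => by
    rcases eq_or_ne t 0 with rfl | h0
    · simp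
    have := hs (t * φ t * φ (φ t))⁻¹ (by rw [map_inv₀, map_mul, map_mul, h3]; ring) _ (hi t ht)
    have h4 := (map_ne_zero φ).2 h0
    have h5 := (map_ne_zero φ).2 h4
    convert this using 1
    field_simp
  let B : Subring K :=
    { carrier := {c | ∀ t ∈ V, c * t ∈ V}
      mul_mem' := fun ha hb t ht => mul_assoc (G := K) _ _ _ ▸ ha _ (hb t ht)
      one_mem' := fun t ht => by rwa [one_mul]
      add_mem' := fun ha hb t ht => add_mul (R := K) _ _ _ ▸ V.add_mem (ha t ht) (hb t ht)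
      zero_mem' := fun t _ => by simp
      neg_mem' := fun ha t ht => by simpa using ha t ht }
  have h0 : t ≠ 0 := by rintro rfl; exact h (map_zero φ)
  have hB : t ^ 2 ∈ B := fun b hb => by
    rcases eq_or_ne b 0 with rfl | hb0
    · simp
    rcases eq_or_ne (t * b) 1 with e | e
    · rwa [pow_two, mul_assoc, e, mul_one]
    have h4 : 1 - t * b ≠ 0 := sub_ne_zero.2 e.symm
    convert V.sub_mem ht (inv _ (V.add_mem (inv t ht) (inv _ (V.sub_mem (inv b hb) ht)))) using 1
    rw [show b⁻¹ - t = (1 - t * b) / b by field_simp, inv_div, show t⁻¹ + b / (1 - t * b) = (t * (1 - t * b))⁻¹ by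
      field_simp; ring, inv_inv]
    ring
  rcases eq_or_top_of_prime p ha Nat.prime_three hK B (fun c hc => hs c ((hφ c).trans hc)) with e | e
  · have h4 := e _ hB
    rw [← hφ, map_pow, sq_eq_sq_iff_eq_or_eq_neg] at h4
    have h5 := h4.resolve_left h
    have h6 := h3 t
    rw [h5, map_neg, map_neg, h5, map_neg, neg_neg] at h6
    exact absurd h6 h
  · simpa using (e ▸ Subring.mem_top s : s ∈ B) 1 h1

end Gen

variable {K : Type*} [Field K] [Finite K] (p : ℕ) [Fact p.Prime] [CharP K p] {q : ℕ} {φ : K →+* K}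
  (hφ : ∀ t, φ t = t ^ q)
include p hφ

section E6

local notation "X" => xN (StData.x (stG chevE6 K))

theorem le_fix_or_E6 {T : (stG chevE6 K).Twist (Fin 4)} (h : StData.Twist.IsE6 (R := rootSys chevE6) T q)
    (hM : T.IsTw (jG chevE6 (e6Words K q)).range) (H : Subgroup (chevE6.group K))
    (h1 : H ≤ (jG chevE6 (e6Words K q)).range) (h2 : (jG chevE6 (e6Words K q)).range ⊓ (frobTw chevE6 φ).Fix ≤ H) :
    H ≤ (frobTw chevE6 φ).Fix ∨ (jG chevE6 (e6Words K q)).range ≤ H := by
  have hY : TwY T twE6 φ H := okE6.twY (fun _ => rfl) hM (fun i => (okE6_piF i).trans (h.π i).symm)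
    (fun i t => (h.f i t).trans (hφ t).symm) h.orth.1 h1 h2
  by_cases hb : BadLv φ H 66
  swap
  · have b1 : ¬ BadLv φ H 56 := fun e => hb (hY.bad_step 55 [(67, -1)] (by decide +kernel) (by simp) e)
    have b2 : ¬ BadLv φ H 37 := fun e => hb (hY.bad_step 65 [] (by decide +kernel) (by simp) e)
    refine Or.inl (hY.le_fix_of_not_bad p h.orth.2.1 h.orth.2.2 [66, 68, 69, 70, 71] [66, 68] (by decide +kernel)
      fun i hi => ?_)
    have := (by decide +kernel : ∀ i < chevE6.rank, (Good.C chevE6).smp i ∈ [56, 46, 42, 39, 37, 36]) i hi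
    simp only [List.mem_cons, List.not_mem_nil, or_false] at this
    rcases this with e | e | e | e | e | e <;> rw [e]
    exacts [b1, hY.not_bad (by decide +kernel), fun e => b2 (hY.bad_map (by decide +kernel) e),
      hY.not_bad (by decide +kernel), b2, fun e => b1 (hY.bad_map (by decide +kernel) e)]
  have hp : ((0 : ℕ) : K) = 0 := Nat.cast_zero
  have hφ2 : ∀ t, φ (φ t) = t := fun t => by rw [hφ, hφ, h.pow_pow]
  let V : AddSubgroup K :=
    { carrier := {t | X 66 t * X 68 (φ t) ∈ H}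
      zero_mem' := by simp [xN_zero]
      add_mem' := fun {a b} ha hb => by
        simpa using evS_pair_mem.1 (mem_of_blocks hp [a, φ a, b, φ b] (by simp)
          [(66, .var 0 + .var 2), (68, .var 1 + .var 3)] [[(66, .var 0), (68, .var 1)], [(66, .var 2), (68, .var 3)]]
          [0, 2] (by decide +kernel) ⟨evS_pair_mem.2 ha, evS_pair_mem.2 hb⟩)
      neg_mem' := fun {a} ha => by
        simpa using evS_pair_mem.1 (mem_of_blocks hp [a, φ a] (by simp) [(66, -.var 0), (68, -.var 1)]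
          [[(66, .var 0), (68, .var 1)]] [1] (by decide +kernel) (evS_pair_mem.2 ha)) }
  have hV : ∀ t, t ∈ V ↔ X 66 t * X 68 (φ t) ∈ H := fun _ => Iff.rfl
  obtain ⟨_, t, ht, hb⟩ := hb
  obtain ⟨c, hc⟩ := Lv_coords _ [68, 69, 70, 71] (by decide +kernel) (by decide +kernel) (by decide +kernel)
    (by decide) hb
  have e := hY.coords_eq (xs := [t, c 68, c 69, c 70, c 71]) (by simp)
    (w := [(66, .var 0), (68, .var 1), (69, .var 2), (70, .var 3), (71, .var 4)])
    [(66, .var 1), (68, .var 0), (69, .var 2), (70, .var 3), (71, .var 4)] (by decide +kernel) hc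
  simp only [List.map_cons, List.map_nil, PE.ev_var, List.getD_cons_zero, List.getD_cons_succ, List.cons.injEq] at e
  simp only [List.map_cons, List.map_nil, List.prod_cons, List.prod_nil, ← mul_assoc] at hc
  rw [mul_one, H.mul_mem_cancel_right (hY.xN_mem (by decide +kernel) e.2.2.2.2.1.symm), H.mul_mem_cancel_right
    (hY.xN_mem (by decide +kernel) e.2.2.2.1.symm), H.mul_mem_cancel_right (hY.xN_mem (by decide +kernel)
      e.2.2.1.symm), e.2.1, ← hV] at hc
  have key := fun s => (hV s).1 (eq_top_of_quad hφ2 ((hV 1).2 (by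
    simpa using evS_pair_mem.1 (hY.mem_of_chk hp (xs := []) (by simp) (w := [(66, 1), (68, 1)]) (by decide +kernel)
      (by simp)))) (fun c hc t ht => (hV _).2 (by
        simpa [evG, hc] using hY.scale (b := 0) (by decide +kernel) (w := [(66, t), (68, φ t)])
          [66, 68] rfl (by decide +kernel) hc (by simpa [evG, hV] using ht)))
    hc ht s)
  have int : ∀ (xs : List K) w, xs.length ≤ 12 → (Good.C chevE6).chkFixW chevE6.nroots chevE6.rank 0 twE6 w = true →
      (w.Forall fun a => φ (a.2.ev xs) = a.2.ev xs) → evS chevE6 xs w ∈ H := fun xs w hx => hY.mem_of_chk hp hx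
  refine Or.inr (range_jG_le ?_)
  rintro _ (⟨t, ht, r, hr, rfl⟩ | ⟨t, r, hr, rfl⟩) <;> rw [← hφ] at * <;>
    simp only [List.mem_cons, List.not_mem_nil, or_false] at hr <;> rcases hr with rfl | rfl | rfl | rfl
  iterate 4 rw [evG_cons, evG_nil, mul_one]; exact hY.xN_mem (by decide +kernel) ht
  · exact mem_of_blocks hp [t, φ t] (by simp) [(56, .var 0), (36, .var 1)] [[(66, .var 0), (68, .var 1)],
      [(55, 1), (67, -1)], [(16, 1), (4, -1)]] [2, 5, 2, 1, 3, 4, 3] (by decide +kernel) ⟨evS_pair_mem.2 (key t),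
        int _ _ (by simp) (by decide +kernel) (by simp), int _ _ (by simp) (by decide +kernel) (by simp)⟩
  · exact mem_of_blocks hp [t, φ t] (by simp) [(15, .var 0), (35, .var 1)] [[(66, .var 0), (68, .var 1)],
      [(55, 1), (67, -1)], [(16, 1), (4, -1)], [(56, 1), (36, 1)], [(15, 1), (35, 1)]]
      [6, 9, 6, 2, 5, 2, 0, 3, 4, 3, 7, 8, 7] (by decide +kernel) ⟨evS_pair_mem.2 (key t),
        int _ _ (by simp) (by decide +kernel) (by simp), int _ _ (by simp) (by decide +kernel) (by simp),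
        int _ _ (by simp) (by decide +kernel) (by simp), int _ _ (by simp) (by decide +kernel) (by simp)⟩
  · exact mem_of_blocks hp [t, φ t] (by simp) [(42, .var 0), (37, .var 1)] [[(66, .var 1), (68, .var 0)],
      [(65, 1)], [(6, 1)]] [2, 5, 2, 0, 3, 4, 3] (by decide +kernel) ⟨evS_pair_mem.2 (by simpa [hφ2] using key (φ t)),
        int _ _ (by simp) (by decide +kernel) (by simp), int _ _ (by simp) (by decide +kernel) (by simp)⟩
  · exact mem_of_blocks hp [t, φ t] (by simp) [(29, .var 0), (34, .var 1)] [[(66, .var 0), (68, .var 1)],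
      [(69, 1)], [(2, 1)]] [2, 5, 2, 0, 3, 4, 3] (by decide +kernel) ⟨evS_pair_mem.2 (key t),
        int _ _ (by simp) (by decide +kernel) (by simp), int _ _ (by simp) (by decide +kernel) (by simp)⟩

end E6

section D4

local notation "X" => xN (StData.x (stG chevD4 K))

theorem le_fix_or_D4 {a : ℕ} (ha : 1 ≤ a) (hq : q = p ^ a) {T : (stG chevD4 K).Twist (Fin 2)}
    (h : StData.Twist.IsD4 (R := rootSys chevD4) T q) (hM : T.IsTw (jG chevD4 (d4Words K q)).range)
    (H : Subgroup (chevD4.group K)) (h1 : H ≤ (jG chevD4 (d4Words K q)).range)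
    (h2 : (jG chevD4 (d4Words K q)).range ⊓ (frobTw chevD4 φ).Fix ≤ H) :
    H ≤ (frobTw chevD4 φ).Fix ∨ (jG chevD4 (d4Words K q)).range ≤ H := by
  have hY : TwY T twD4 φ H := okD4.twY (fun _ => rfl) hM (fun i => (okD4_piF i).trans (h.π i).symm)
    (fun i t => (h.f i t).trans (hφ t).symm) h.orth.1 h1 h2
  by_cases hb : BadLv φ H 19
  swap
  · have b1 : ¬ BadLv φ H 18 := fun e => hb (hY.bad_step 14 [] (by decide +kernel) (by simp) e)
    have b2 : ¬ BadLv φ H 12 := fun e => b1 (hY.bad_map (by decide +kernel) e)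
    refine Or.inl (hY.le_fix_of_not_bad p h.orth.2.1 h.orth.2.2 [17, 20, 21, 22, 23] [17, 20, 21] (by decide +kernel)
      fun i hi => ?_)
    have := (by decide +kernel : ∀ i < chevD4.rank, (Good.C chevD4).smp i ∈ [18, 14, 13, 12]) i hi
    simp only [List.mem_cons, List.not_mem_nil, or_false] at this
    rcases this with e | e | e | e <;> rw [e]
    exacts [b1, hY.not_bad (by decide +kernel), fun e => b2 (hY.bad_map (by decide +kernel) e), b2]
  have hp : ((0 : ℕ) : K) = 0 := Nat.cast_zero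
  have hφ3 : ∀ t, φ (φ (φ t)) = t := fun t => by rw [hφ, hφ, hφ, h.pow_pow]
  have int : ∀ (xs : List K) w, xs.length ≤ 12 → (Good.C chevD4).chkFixW chevD4.nroots chevD4.rank 0 twD4 w = true →
      (w.Forall fun a => φ (a.2.ev xs) = a.2.ev xs) → evS chevD4 xs w ∈ H := fun xs w hx => hY.mem_of_chk hp hx
  have ev3 : ∀ {xs : List K} {r s k : ℕ} {e f g : PE}, evS chevD4 xs [(r, e), (s, f), (k, g)] ∈ H ↔
      X r (e.ev xs) * (X s (f.ev xs) * X k (g.ev xs)) ∈ H := by
    intros; rw [evS_cons, evS_cons, evS_cons, evS_nil, mul_one]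
  let V : AddSubgroup K :=
    { carrier := {t | X 17 t * (X 20 (-φ t) * X 21 (-φ (φ t))) ∈ H}
      zero_mem' := by simp [xN_zero]
      add_mem' := fun {a b} ha hb => by
        simpa using ev3.1 (mem_of_blocks hp [a, φ a, φ (φ a), b, φ b, φ (φ b)] (by simp)
          [(17, .var 0 + .var 3), (20, -.var 4 + -.var 1), (21, -.var 5 + -.var 2)] [[(17, .var 0), (20, -.var 1),
          (21, -.var 2)], [(17, .var 3), (20, -.var 4), (21, -.var 5)]] [0, 2] (by decide +kernel)
          ⟨ev3.2 (by simpa using ha), ev3.2 (by simpa using hb)⟩)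
      neg_mem' := fun {a} ha => by
        simpa using ev3.1 (mem_of_blocks hp [a, φ a, φ (φ a)] (by simp) [(17, -.var 0), (20, .var 1), (21, .var 2)]
          [[(17, .var 0), (20, -.var 1), (21, -.var 2)]] [1] (by decide +kernel) (ev3.2 (by simpa using ha))) }
  have hV : ∀ t, t ∈ V ↔ X 17 t * (X 20 (-φ t) * X 21 (-φ (φ t))) ∈ H := fun _ => Iff.rfl
  have top : ∀ xs a b c d e, evS chevD4 xs [(17, a), (20, b), (21, c), (22, d), (23, e)] ∈ H → a.ev xs ∈ V := by
    intro xs a b c d e hg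
    replace hg : evS chevD4 [a.ev xs, b.ev xs, c.ev xs, d.ev xs, e.ev xs]
      [(17, .var 0), (20, .var 1), (21, .var 2), (22, .var 3), (23, .var 4)] ∈ H := by simpa [evS] using hg
    generalize a.ev xs = a, b.ev xs = b, c.ev xs = c, d.ev xs = d, e.ev xs = e at hg ⊢
    have e := hY.coords_eq (by simp) [(17, -.var 2), (20, -.var 0), (21, .var 1), (22, .var 3), (23, .var 4)]
      (by decide +kernel) hg
    simp only [List.map_cons, List.map_nil, PE.ev_var, PE.ev_neg, List.getD_cons_zero, List.getD_cons_succ,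
      List.cons.injEq] at e
    simp only [evS_cons, evS_nil, PE.ev_var, List.getD_cons_zero, List.getD_cons_succ, ← mul_assoc] at hg
    rwa [mul_one, H.mul_mem_cancel_right (hY.xN_mem (by decide +kernel) e.2.2.2.2.1.symm), H.mul_mem_cancel_right
      (hY.xN_mem (by decide +kernel) e.2.2.2.1.symm), e.2.2.1, e.2.1, map_neg, mul_assoc, ← hV] at hg
  have gen : ∀ t ∈ V, evS chevD4 [t, φ t, φ (φ t)] [(18, .var 0), (13, .var 1), (12, .var 2)] ∈ H := fun t ht =>
    mem_of_blocks hp _ (by simp) _ [[(17, .var 0), (20, -.var 1), (21, -.var 2)], [(19, 1), (16, -1), (15, -1)],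
      [(4, 1), (7, -1), (8, -1)]] [2, 5, 2, 0, 3, 4, 3] (by decide +kernel) ⟨ev3.2 (by simpa [hV] using ht),
        int _ _ (by simp) (by decide +kernel) (by simp), int _ _ (by simp) (by decide +kernel) (by simp)⟩
  obtain ⟨_, t, ht, hb⟩ := hb
  obtain ⟨c, hc⟩ := Lv_coords _ [15, 16, 17, 20, 21, 22, 23] (by decide +kernel) (by decide +kernel)
    (by decide +kernel) (by decide) hb
  replace hc : evS chevD4 [t, c 15, c 16, c 17, c 20, c 21, c 22, c 23] [(19, .var 0), (15, .var 1), (16, .var 2),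
    (17, .var 3), (20, .var 4), (21, .var 5), (22, .var 6), (23, .var 7)] ∈ H := hc
  have e := hY.coords_eq (by simp) [(19, -.var 1), (15, .var 2), (16, -.var 0), (17, -.var 5), (20, -.var 3),
    (21, .var 4), (22, .var 6), (23, .var 7)] (by decide +kernel) hc
  simp only [List.map_cons, List.map_nil, PE.ev_var, PE.ev_neg, List.getD_cons_zero, List.getD_cons_succ,
    List.cons.injEq] at e
  have h3 := top _ _ _ _ _ _ (mem_of_blocks hp _ (by simp) [(17, -.var 1 + -.var 2), (20, .var 1 + -.var 0),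
    (21, .var 2 + -.var 0), (22, .var 0 + .var 3 + -(.var 1 + .var 2 + .var 4 + .var 5)),
    (23, .var 1 * .var 2 + -(.var 0 * (.var 1 + .var 2)))] [_, [(18, 1), (13, 1), (12, 1)]] [1, 3, 0, 2]
    (by decide +kernel) ⟨hc, int _ _ (by simp) (by decide +kernel) (by simp)⟩)
  have key := eq_top_of_cubic p ha (hq ▸ h.card) (hq ▸ hφ) hφ3 ((hV 1).2 (by
    simpa using ev3.1 (int [] [(17, 1), (20, -1), (21, -1)] (by simp) (by decide +kernel) (by simp))))
    (fun c hc t ht => (hV _).2 (by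
      simpa [evG, hc] using hY.scale (b := 0) (by decide +kernel) (w := [(17, t), (20, -φ t), (21, -φ (φ t))])
        [17, 20, 21] rfl (by decide +kernel) hc (by simpa [evG, hV] using ht)))
    (fun t ht => by
      simpa using top _ _ _ _ _ _ (mem_of_blocks hp [t, φ t, φ (φ t)] (by simp) [(17, .var 1 * .var 2),
        (20, -(.var 0 * .var 2)), (21, -(.var 0 * .var 1)), (22, .var 0 * .var 1 * .var 2),
        (23, .var 0 * .var 1 * .var 2)] [[(18, .var 0), (13, .var 1), (12, .var 2)], [(14, 1)], [(9, 1)]]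
        [2, 5, 2, 1, 3, 4, 3, 3, 1, 2, 0] (by decide +kernel) ⟨gen t ht, int _ _ (by simp) (by decide +kernel)
          (by simp), int _ _ (by simp) (by decide +kernel) (by simp)⟩)) h3 (by
      simp only [PE.ev_add, PE.ev_neg, PE.ev_var, List.getD_cons_zero, List.getD_cons_succ]
      rw [e.2.1, e.2.2.1]
      simpa [hφ3, add_comm] using ht.symm)
  refine Or.inr (range_jG_le ?_)
  rintro _ (⟨t, ht, r, hr, rfl⟩ | ⟨t, r, hr, rfl⟩) <;>
    simp only [List.mem_cons, List.not_mem_nil, or_false] at hr <;> rcases hr with rfl | rfl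
  iterate 2 rw [evG_cons, evG_nil, mul_one]; exact hY.xN_mem (by decide +kernel) ((hφ t).trans ht)
  · simpa [evG, evS, pow_two, pow_mul, ← hφ, d4p1, d4p3, d4p4] using gen t (key t)
  · simpa [evG, evS, pow_two, pow_mul, ← hφ, d4m1, d4m3, d4m4] using mem_of_blocks hp [t, φ t, φ (φ t)] (by simp) [(5, .var 0), (10, .var 1), (11, .var 2)] [[(17, .var 0),
      (20, -.var 1), (21, -.var 2)], [(22, 1)], [(1, 1)]] [2, 5, 2, 1, 3, 4, 3] (by decide +kernel)
      ⟨ev3.2 (by simpa [hV] using key t), int _ _ (by simp) (by decide +kernel) (by simp),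
        int _ _ (by simp) (by decide +kernel) (by simp)⟩

end D4

end CL.Chev
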