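/-
CHEV library: the Schur multiplier of `PΩ⁻_{2l}(q)`.
-/
import Cfsg.Agent.CHEV.TwLiftI
import Cfsg.Agent.CHEV.LiftCl
import Cfsg.Agent.CHEV.ClSpin
import Cfsg.Agent.CHEV.LieData

set_option autoImplicit false
set_option linter.unusedSimpArgs false

open scoped commutatorElement

universe u

namespace CL.Chev.Cl

open StData StData.Twist Matrix

variable {m : ℕ} {T₀ : Ty} {κ κ' : Type*} [Fintype κ] [DecidableEq κ]

theorem Base.v_ρ (Δ : Base T₀ m κ) (Y : Δ.R.Sym κ') (hA : ∀ i j, Δ.R.A (Y.π i) (Y.π j) = Δ.R.A i j)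
    (L : (Fin m → ℤ) →ₗ[ℤ] (Fin m → ℤ)) (h : ∀ i, (Δ.R.simple (Y.π i)).v = L (Δ.R.simple i).v) (r : Root T₀ m) :
    (Y.ρ r).v = L r.v := by
  have e : ∀ r : Root T₀ m, r.v = ∑ k, Δ.R.rt r k • (Δ.R.simple k).v := Δ.vecSys.v_eq
  rw [e, e r, ← Equiv.sum_comp Y.π, map_sum]
  simp only [Y.rtπ_ρ hA, h, map_zsmul]

theorem rt_add_iff' (Δ : Base T₀ m κ) {r s k : Root T₀ m} : Δ.R.rt k = Δ.R.rt r + Δ.R.rt s ↔ k.v = r.v + s.v := by
  simpa using rt_add_iff Δ (r := r) (s := s) (k := k) 1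

theorem dot_comm (a b : Ix m) : dot a b = dot b a := dotProduct_comm _ _

theorem neg_gR (Δ : Base T₀ m κ) (hT : T₀ ≠ .A) {a b : Ix m} (h : Ind a b) :
    Δ.R.neg (gR hT h) = gR hT h.bar_left.bar_right := rfl

section D

variable {F G E : Type*} [Field F] [Group G] [Group E] {Δ : Base .D m κ} {S : StData Δ.R F G} {T : S.Twist κ'}
  {ψ : E →* G} {s : F →+* F}

theorem hD : Ty.D ≠ .A := by decide

theorem Ind.of_bar {a b : Ix m} (h : Ind a (bar b)) : Ind a b := by simpa using h.bar_right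

theorem D_cases' {z : Ix m} (hz : dot z z = 1) (r : Root .D m) :
    (∃ a b, ∃ h : Ind a b, Ind a z ∧ Ind b z ∧ r = gR hD h) ∨
      ∃ a, ∃ h : Ind a z, r = gR hD h ∨ r = gR hD h.bar_right := by
  obtain ⟨a, b, h, rfl⟩ := D_cases r
  rcases one_ind h hz with rfl | rfl | rfl | rfl | k
  · exact Or.inr ⟨b, h.symm, Or.inl (gR_swap _ _)⟩
  · exact Or.inr ⟨b, h.symm.bar_right, Or.inr (by simp only [bar_bar]; exact gR_swap _ _)⟩
  · exact Or.inr ⟨a, h, Or.inl rfl⟩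
  · exact Or.inr ⟨a, h.bar_right, Or.inr (by simp only [bar_bar])⟩
  · exact Or.inl ⟨a, b, h, k.1, k.2, rfl⟩

theorem eq_one_D [Finite F] [Finite E] (h : T.QC s ψ) (hm : 4 ≤ m) {z : Ix m} (hz : dot z z = 1)
    (h1 : ∀ {a b} (h : Ind a b), Ind a z → Ind b z → T.ρ (gR hD h) = gR hD h)
    (h2 : ∀ {a} (h : Ind a z), T.ρ (gR hD h) = gR hD h.bar_right) :
    ∀ x ∈ ⁅S.U.comap ψ, S.U.comap ψ⁆, ψ x = 1 → x = 1 := by
  have h3 : ∀ {a} (k : Ind a (bar z)), T.ρ (gR hD k) = gR hD k.of_bar := fun k => by rw [← h2 k.of_bar, h.ρρ]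
  have h4 : ∀ {a} (k : Ind a z), Δ.R.pair (gR hD k) (T.ρ (gR hD k)) = 0 := fun k => by simp [h2, k]
  have h5 : ∀ r, Δ.R.pair r (T.ρ r) = 0 → T.ρ r ≠ r := fun r h e => by simp [e, RootSys.pair_self] at h
  have cs : ∀ r, (T.ρ r = r ∧ ∃ a b, ∃ h : Ind a b, Ind a z ∧ Ind b z ∧ r = gR hD h) ∨
      (Δ.R.pair r (T.ρ r) = 0 ∧ ∃ a, ∃ h : Ind a z, T.cls r = {gR hD h, T.ρ (gR hD h)} ∧
        (r = gR hD h ∨ r = gR hD h.bar_right)) := fun r => by
    rcases D_cases' hz r with ⟨a, b, k, k1, k2, rfl⟩ | ⟨a, k, rfl | rfl⟩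
    · exact Or.inl ⟨h1 k k1 k2, a, b, k, k1, k2, rfl⟩
    · exact Or.inr ⟨h4 k, a, k, h.cls_two (h4 k), Or.inl rfl⟩
    · exact Or.inr ⟨by simp [h3, k], a, k, by rw [← h2 k, T.cls_ρ, h.cls_two (h4 k)], Or.inr rfl⟩
  have cf : ∀ r, T.ρ r = r → T.cls r = {r} := fun r hr => by
    rw [h.cls_orth (fun a => by rcases cs a with k | k <;> simp [k.1, RootSys.pair_self]), hr, Set.pair_eq_singleton]
  have lg : ∀ r, T.ρ r = r → ∃ a b, ∃ h : Ind a b, Ind a z ∧ Ind b z ∧ r = gR hD h := fun r hr =>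
    ((cs r).resolve_right fun k => h5 r k.1 hr).2
  have sh : ∀ r, T.ρ r ≠ r → _ := fun r hr => (cs r).resolve_left fun k => hr k.1
  have c1 : ∀ {a b} (k : Ind a b), Ind a z → Ind b z → ∀ δ, T.ρ δ = δ → ∀ (ka : Ind a z) (kb : Ind b z),
      0 ≤ Δ.R.pair (gR hD ka) δ → 0 ≤ Δ.R.pair (gR hD kb.bar_right) δ → S.CmL ψ {gR hD k} {δ} :=
    fun k k1 k2 δ hδ ka kb p1 p2 => (h.cmL_mix (h4 ka) hδ p1).of_commutator h.cen
      (h.cmL_mix (by simp [h3, kb]) hδ p2) fun x hx =>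
      let ⟨_, _, ha, hb, e⟩ := h.exists_comm (c := gR hD ka) (d := gR hD kb.bar_right) (by simp [*])
        (by simp only [h2, h3, rt_add_iff', v_gR, ε_bar]; abel) (h1 k k1 k2) (h4 ka).ge (by simp [h3, kb]) (by simp [h3, *]) hx
      ⟨_, Subgroup.commutator_mem_commutator ha hb, e⟩
  have c2 : ∀ {a b e} (kab : Ind a b) (kae : Ind a e) (kbe : Ind b e), Ind a z → Ind b z → Ind e z → ∀ d,
      ψ d ∈ S.XS {gR hD kbe.bar_right} → ψ d ≠ 1 → S.Spl ψ (T.Ysh ψ {gR hD kab}) {gR hD kab} ∧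
        ∀ g, ψ g ∈ S.XS {gR hD kae} → ⁅g, d⁆ ∈ T.Ysh ψ {gR hD kab} := fun {a b e} kab kae kbe ka kb ke d hd hd' => by
    have key : ∀ x y, ψ x ∈ S.XS {gR hD ka, T.ρ (gR hD ka)} → ψ y ∈ S.XS {gR hD kb, T.ρ (gR hD kb)} →
        ∃ g, ψ g ∈ S.XS {gR hD kae} ∧ ⁅x, y⁆ = ⁅g, d⁆ := fun x y hx hy =>
      h.key (b := gR hD ke.bar_right) (m := gR hD kb.bar_right) (l := gR hD kbe) (k := gR hD kab)
        (h1 _ kb ke.bar_left) (by simp [h3, *]) (by simp [*]) (by simp only [h2, h3, rt_add_iff', v_gR, ε_bar]; abel)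
        (by simp only [h2, h3, rt_add_iff', v_gR, ε_bar]; abel) (h4 ka) (by simp [*]) (by simp [*]) (by simp only [h2, h3, rt_add_iff', v_gR, ε_bar]; abel)
        (by simp only [h2, h3, rt_add_iff', v_gR, ε_bar]; abel) (h1 _ ka ke) (h1 _ ka kb) (by simp [h3, *]) (by simp [h3, *]) (by simp [*])
        (by simp [*]) (by simp [*]) hx (by rwa [h3, Set.pair_comm, ← h2]) hd hd'
    refine h.spl_of_comm (h.a2P (by simp [*]) (by simp only [h2, h3, rt_add_iff', v_gR, ε_bar]; abel))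
      (c1 kae ka ke _ (h1 kab ka kb) ka ke (by simp [*]) (by simp [*])) hd hd'
      (fun L hL => Ysh_le fun r k hr hk e' x y hx hy => ?_) fun x hx => ?_
    · obtain ⟨-, u, ku, e1, e2⟩ := sh r hr
      obtain ⟨-, v, kv, e3, e4⟩ := sh k hk
      have e5 : ∀ c, Ind c z → dot c a + dot c b = dot c u + dot c v := fun c kc => by
        have := congrArg (ε c ⬝ᵥ ·) ((rt_add_iff' Δ).1 e')
        rcases e2 with rfl | rfl <;> rcases e4 with rfl | rfl <;> simpa [v_gR, dot_def, kc] using this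
      have e6 := e5 u ku
      have e7 := e5 v kv
      have e8 := e5 a ka
      rw [e1] at hx
      rw [e3] at hy
      have : (u = a ∧ v = b) ∨ (u = b ∧ v = a) := by
        have e9 := e5 b kb
        clear e1 e2 e3 e4 e5 hx hy
        rcases one_ind kab ku.1 with rfl | rfl | rfl | rfl | k1 <;> rcases one_ind kab kv.1 with rfl | rfl | rfl | rfl | k2 <;>
          first | exact Or.inl ⟨rfl, rfl⟩ | exact Or.inr ⟨rfl, rfl⟩ |
            omega | (simp only [dot_bar_left, dot_bar_right] at e6 e7 e8 e9; omega)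
      rcases this with ⟨rfl, rfl⟩ | ⟨rfl, rfl⟩
      · obtain ⟨g, hg, e⟩ := key x y hx hy
        exact e ▸ hL g hg
      · obtain ⟨g, hg, e⟩ := key y x hy hx
        rw [← commutatorElement_inv, e]; exact inv_mem (hL g hg)
    · obtain ⟨x, y, hx, hy, e⟩ := h.exists_comm (c := gR hD ka) (d := gR hD kb.bar_right) (by simp [*])
        (by simp only [h2, h3, rt_add_iff', v_gR, ε_bar]; abel) (h1 kab ka kb) (h4 ka).ge (by simp [h3, kb]) (by simp [h3, *]) hx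
      exact ⟨_, mem_Ysh (h5 _ (h4 ka)) (h5 (gR hD kb.bar_right) (by simp [h3, kb])) (Set.mem_singleton _)
        (by simp only [h2, h3, rt_add_iff', v_gR, ε_bar]; abel) (h.cls_two (h4 ka) ▸ hx) (h.cls_two (r := gR hD kb.bar_right)
          (by simp [h3, kb]) ▸ hy), e⟩
  have c3 : ∀ r, T.ρ r = r → S.Spl ψ (T.Ysh ψ {r}) {r} := fun r hr => by
    obtain ⟨a, b, k, ka, kb, rfl⟩ := lg r hr
    obtain ⟨e, k1, k2, k3⟩ := fresh3 hm k hz
    obtain ⟨d, hd, hd'⟩ := h.exists_ne_one (cf _ (h1 k2.bar_right kb k3.symm.bar_left) ▸ T.isRel_cls _)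
    exact (c2 k k1 k2 ka kb k3.symm d hd hd').1
  have c4 : ∀ {a b} (k : Ind a b), Ind a z → Ind b z → S.CmL ψ {gR hD k.bar_right} {gR hD k} := fun k ka kb => by
    have h6 := h1 k.bar_right ka kb.bar_left
    by_cases h7 : (2 : F) = 0
    · exact h.cmL_of_two h7 (cf _ h6 ▸ T.isRel_cls _) (h.long _) (by simp [k]) (c3 _ (h1 k ka kb))
    · exact h.cmL_of_odd (b := gR hD kb) (m := gR hD ka) h6 (h4 kb) (by simp [*]) (by simp only [h2, h3, rt_add_iff', v_gR, ε_bar]; abel)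
        (by simp only [h2, h3, rt_add_iff', v_gR, ε_bar]; abel) h7
  refine h.eq_one_of_steps (h.fam_Ymix cf c3 fun r hr => ?_) fun i k k1 k2 => ?_
  · obtain ⟨-, a, ka, e, -⟩ := sh r hr
    obtain ⟨b, k1, k2⟩ := fresh2 (by omega) ka
    obtain ⟨x, χ, hx, h6, -⟩ := h.exists_mv (h4 ka)
    have h7 := h1 k1.bar_right ka k2.symm.bar_left
    refine CmL.spl_Ycan h.cen ?_ hx.1 (h.mv_of_wt hx (T.isRel_cls r) (e ▸ h6))
    rw [e]
    exact h.cmL_short (b := gR hD k2.symm) (l := gR hD k1) h7 (h4 _) (by simp [*]) (by simp only [h2, h3, rt_add_iff', v_gR, ε_bar]; abel)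
      (by simp only [h2, h3, rt_add_iff', v_gR, ε_bar]; abel) (cf _ h7 ▸ T.isRel_cls _) (c4 k1 ka k2.symm)
  generalize Δ.R.simple i = r at k1 k2
  by_cases hr : T.ρ r = r <;> by_cases hk : T.ρ k = k
  · have c5 : ∀ {a b e} (kab : Ind a b) (kae : Ind a e) (kbe : Ind b e), Ind a z → Ind b z → Ind e z →
        T.Step ψ (T.Ymix ψ) (T.cls (gR hD kae)) (T.cls (gR hD kbe.bar_right)) := fun kab kae kbe ka kb ke => by
      refine step_of_mem (k := gR hD kab) (by simp only [h2, h3, rt_add_iff', v_gR, ε_bar]; abel) fun x y hx hy => ?_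
      rw [cf _ (h1 _ ka ke)] at hx
      rw [cf _ (h1 _ kb ke.bar_left)] at hy
      rw [cf _ (h1 _ ka kb), Ymix_fix (h1 _ ka kb)]
      by_cases h5 : ψ y = 1
      · rw [h.comm_eq rfl (h5.trans (map_one ψ).symm), commutatorElement_one_right]; exact one_mem _
      · exact (c2 kab kae kbe ka kb ke y hy h5).2 x hx
    have c6 : ∀ {a b} (k : Ind a b), T.ρ (gR hD k) = gR hD k → Ind a z ∧ Ind b z := fun k hk => by
      rcases one_ind k hz with rfl | rfl | rfl | rfl | k1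
      · exact absurd hk (gR_swap _ k ▸ h5 _ (h4 k.symm))
      · exact absurd hk (h5 _ (by
          rw [show gR hD k = gR hD k.symm.bar_right.bar_right by simp only [bar_bar]; exact gR_swap _ _, h3]; simp [k]))
      · exact absurd hk (h5 _ (h4 k))
      · exact absurd hk (h5 _ (by
          rw [show gR hD k = gR hD k.bar_right.bar_right by simp only [bar_bar], h3]; simp [k]))
      · exact k1
    revert k1 k2 hr hk
    refine D_ind hD (P := fun r k => k ∉ T.cls r → Δ.R.neg k ∉ T.cls r → T.ρ r = r → T.ρ k = k →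
      T.Step ψ (T.Ymix ψ) (T.cls r) (T.cls k)) ?_ ?_ ?_ ?_ ?_ ?_ r k
    · intro a b c d k1 k2 k3 k4 k5 k6 _ _ hr hk
      obtain ⟨ka, kb⟩ := c6 k1 hr
      obtain ⟨kc, kd⟩ := c6 k2 hk
      rw [cf _ hr, cf _ hk]
      exact CExt.step_of_comm (c1 k1 ka kb _ hk ka kb (by simp [*]) (by simp [*]))
    · intro a b d k1 k2 k3 _ _ hr hk
      obtain ⟨ka, kb⟩ := c6 k1 hr
      obtain ⟨-, kd⟩ := c6 k2 hk
      rw [cf _ hr, cf _ hk]
      exact CExt.step_of_comm (c1 k1 ka kb _ hk ka kb (by simp [*]) (by simp [*]))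
    · intro a b d k1 k2 k3 _ _ hr hk
      obtain ⟨ka, kb⟩ := c6 k1 hr
      obtain ⟨-, kd⟩ := c6 _ hk
      rw [gR_swap _ k1, gR_swap _ k2.bar_left]
      exact c5 k3 k1.symm k2.symm kb kd ka
    · exact fun _ k1 => absurd (T.mem_cls _) k1
    · intro a b k1 _ _ hr hk
      rw [cf _ hr, cf _ hk]
      exact CExt.step_of_comm (c4 k1 (c6 k1 hr).1 (c6 k1 hr).2).symm
    · intro a b k1 _ k2
      exact absurd (by simpa only [neg_gR, bar_bar] using T.mem_cls (gR hD k1)) k2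
  · rw [cf _ hr, h.cls_two (sh k hk).1]; exact (h.step_of_sep (h.sep_mix (sh k hk).1 hr)).symm
  · rw [cf _ hk, h.cls_two (sh r hr).1]; exact h.step_of_sep (h.sep_mix (sh r hr).1 hk)
  obtain ⟨-, a, ka, e1, -⟩ := sh r hr
  obtain ⟨-, b, kb, e2, e3⟩ := sh k hk
  rcases ind_cases ka.1 kb.1 with rfl | rfl | kab
  · exact absurd (e1 ▸ e2 ▸ T.mem_cls k) k1
  · exact absurd (by rw [e1, h2]; rcases e3 with rfl | rfl <;> simp [neg_gR]) k2
  rw [e1, e2, ← h.cls_two (h4 ka), ← h.cls_two (h4 kb), ← T.cls_ρ (gR hD kb), h2]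
  refine step_of_mem (k := gR hD kab) (by simp only [h2, h3, rt_add_iff', v_gR, ε_bar]; abel) fun x y hx hy => ?_
  rw [cf _ (h1 _ ka kb), Ymix_fix (h1 _ ka kb)]
  exact mem_Ysh (h5 _ (h4 ka)) (h5 (gR hD kb.bar_right) (by simp [h3, kb])) (Set.mem_singleton _)
    (by simp only [h2, h3, rt_add_iff', v_gR, ε_bar]; abel) hx hy

end D

theorem trivial_D {F : Type*} {G : Type u} [Field F] [Finite F] [Group G] [Finite G] {n : ℕ} (hn : 2 ≤ n)
    {S : StData (baseD n).R F G} {T : S.Twist κ'} {s : F →+* F} (h : T.IsQS s) (hπ : ∀ i, T.π i = dSwap n i)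
    (hS : S.Good) (htop : S.grp = ⊤) (hi : Function.Injective S.R3_of_finite.torHom) :
    T.Fix ≤ (S.U ⊓ T.Fix) ⊔ (S.V ⊓ T.Fix) ∧ Cfsg.HasCyclicSchurMultiplier T.Fix 1 := by
  have hA : ∀ i j, (baseD n).R.A (T.π i) (T.π j) = (baseD n).R.A i j := fun i j => by
    have := i.2
    have := j.2
    rw [baseD_A, baseD_A, hπ, hπ, dSwap_val, dSwap_val, chainA, chainA]
    split_ifs <;> omega
  let z : Ix (n + 2) := some (.inl (Fin.last _))
  have hz : dot z z = 1 := ε_dot_self (by simp [z])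
  let L : (Fin (n + 2) → ℤ) →ₗ[ℤ] (Fin (n + 2) → ℤ) :=
    LinearMap.id - (2 : ℤ) • ((dotProductBilin ℤ ℤ (ε z)).smulRight (ε z))
  have e1 : ∀ a, L (ε a) = ε a - (2 * dot z a) • ε z := fun a => by simp [L, dot, mul_smul]
  have e2 : ∀ a, ε (swLast a) = L (ε a) := fun a => by
    rw [e1, swLast]
    split_ifs with h1
    · rcases h1 with rfl | rfl
      · rw [hz, ε_bar]; module
      · rw [show dot z (some (.inr (Fin.last _))) = -1 from (dot_bar_right z z).trans (by rw [hz])]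
        simp only [z, bar_inr, ε_inl, ε_inr]; module
    · rw [not_or] at h1
      rw [dot, ε_dot_of_ne (Ne.symm h1.1) fun e => h1.2 (eq_bar_comm.1 e)]; simp
  have e3 := (baseD n).v_ρ T.toSym hA L fun i => by
    rw [hπ, Base.R_simple, Base.R_simple, Root.v_mk, Root.v_mk, (baseD_dSwap i).1, (baseD_dSwap i).2, e2, e2, map_add]
  refine h.trivial_orth hS htop hi (fun i hi => ?_) hA (fun r k => ?_) fun E _ _ ψ hψ => eq_one_D hψ (by omega) hz
    (fun k ka kb => Root.v_injective (by simp [e3, v_gR, e1, ka, kb])) fun k => Root.v_injective ?_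
  · have h1 : (dSwap n i : ℕ) ≠ i := fun e => hi ((hπ i).trans (Fin.ext e))
    rw [baseD_A, hπ, chainA]
    rw [dSwap_val] at *
    split_ifs at * <;> omega
  · obtain ⟨a, b, h, rfl⟩ := D_cases r
    obtain ⟨c, d, h', rfl⟩ := D_cases k
    simp
  · simp only [e3, v_gR, map_add, e1, k.2.2.2, hz, ε_bar]; module

theorem exists_kerEquiv_D {K G : Type*} [Field K] [Finite K] [Group G] {q n : ℕ} (hK : Nat.card K = q ^ 2)
    {S : StData (baseD n).R K G} (T : S.Twist κ') (hπ : ∀ i, T.π i = dSwap n i) (hf : ∀ i t, T.f i t = t ^ q) :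
    Nonempty ((T.Tσ ⊓ (matHom Kˣ (Matrix.of (baseD n).R.A)).ker : Subgroup _) ≃*
      Multiplicative (ZMod (Nat.gcd 4 (q ^ (n + 2) + 1)))) := by
  have h1 : ∀ l : Kˣ, l ^ 2 = 1 → l ^ q = l := fun l hl => Units.ext (by
    rw [Units.val_pow_eq_pow_val, ← hf 0]
    rcases sq_eq_one_iff.1 (show (l : K) ^ 2 = 1 from congrArg Units.val hl) with h | h <;> simp [h])
  have h2 : ∀ t ∈ (matHom Kˣ (Matrix.of (baseD n).R.A)).ker,
      t ∈ T.Tσ ↔ t (Fin.last _) ^ (q + 1) = (baseD n).wchr t (ev 0) ^ (n + 1) := fun t ht => by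
    have e := (wchr_D_n t).symm.trans ((baseD n).wchr_pvec (mem_ker_D.1 ht).1 n.le_succ)
    simp only [T.mem_Tσ, hπ, hf, ← Units.val_pow_eq_pow_val, Units.val_inj]
    rw [← e, pow_succ, mul_left_inj]
    refine ⟨fun h => by simpa [dSwap] using (h (Fin.last _)).symm, fun h i => ?_⟩
    induction i using Fin.lastCases with
    | last => simpa [dSwap] using h.symm
    | cast i =>
      induction i using Fin.lastCases with
      | last =>
        rw [← h, ← pow_mul, ← sq, ← hK]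
        simpa [dSwap, Units.ext_iff] using (pow_natCard (t (Fin.last _) : K)).symm
      | cast i =>
        rw [dSwap, Equiv.swap_apply_of_ne_of_ne (Fin.castSucc_lt_last _).ne (by simp [(Fin.castSucc_lt_last _).ne]), h1]
        rw [← wchr_D_lt t i, (baseD n).wchr_pvec (mem_ker_D.1 ht).1 (by omega), ← pow_mul, mul_comm, pow_mul,
          (mem_ker_D.1 ht).2, one_pow]
  have h3 : ∀ (l : Kˣ) (k : ℕ), l ^ 2 = 1 → l ^ (2 * k) = 1 := fun l k h => by rw [pow_mul, h, one_pow]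
  have h4 : ∀ (l : Kˣ) (k : ℕ), l ^ 2 = 1 → l ^ (2 * k + 1) = l := fun l k h => by rw [pow_succ, h3 l k h, one_mul]
  have h5 : ∀ (y : Kˣ) (k : ℕ), y ^ q ^ (2 * k) = y := fun y k => by
    induction k with
    | zero => simp
    | succ k ih =>
      rw [mul_add, pow_add, pow_mul, ih, mul_one, ← hK]
      simpa [Units.ext_iff] using pow_natCard (y : K)
  have h6 : ∀ (y : Kˣ) (k : ℕ), y ^ (q ^ (2 * k + 1) + 1) = y ^ (q + 1) := fun y k => by
    rw [pow_succ y, pow_succ q, pow_mul, h5, pow_succ]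
  refine ⟨(equivOfBij (L := (powMonoidHom (Nat.gcd 4 (q ^ (n + 2) + 1)) : Kˣ →* Kˣ).ker)
    (Pi.evalMonoidHom _ (Fin.last _)) (fun t ht => ?_) (fun t ht e => ?_) fun y hy => ?_).trans (rootsEquiv _ ?_)⟩
  · have e1 := (h2 t ht.2).1 ht.1
    have e2 := ker_D_sq ht.2
    have e3 := (mem_ker_D.1 ht.2).2
    refine pow_gcd_eq_one.2 ⟨show t (Fin.last _) ^ (2 * 2) = 1 by rw [pow_mul, e2, ← pow_mul, mul_comm, h3 _ _ e3], ?_⟩
    change t (Fin.last _) ^ _ = 1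
    generalize t (Fin.last _) = y at *
    generalize (baseD n).wchr t (ev 0) = l at *
    clear h2 ht hπ hf
    rcases Nat.even_or_odd' n with ⟨k, rfl | rfl⟩
    · rw [show 2 * k + 2 = 2 * (k + 1) by ring] at e2 ⊢
      rw [pow_succ, h5, ← sq, e2, h3 _ _ e3]
    · rw [show 2 * k + 1 + 2 = 2 * (k + 1) + 1 by ring, h6, e1, show 2 * k + 1 + 1 = 2 * (k + 1) by ring, h3 _ _ e3]
  · have e1 := (h2 t ht.2).1 ht.1
    have e2 := ker_D_sq ht.2
    rw [show t (Fin.last _) = 1 from e, one_pow] at e1 e2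
    exact ker_D_eq_one ht.2 (by rw [pow_succ, ← e1, one_mul] at e2; exact e2.symm) e
  · obtain ⟨e1, e2⟩ := pow_gcd_eq_one.1 (show y ^ _ = 1 from hy)
    rcases Nat.even_or_odd' n with ⟨k, rfl | rfl⟩
    · rw [show 2 * k + 2 = 2 * (k + 1) by ring, pow_succ, h5, ← sq] at e2
      obtain ⟨t, h7, h8, h9⟩ := exists_ker_D (n := 2 * k) (l := 1) (s := y) (one_pow _) (by rw [e2, one_pow])
      exact ⟨t, ⟨(h2 t h7).2 (by rw [h8, h9, one_pow, pow_succ, h1 y e2, ← sq, e2]), h7⟩, h9⟩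
    · have e3 : (y ^ 2) ^ 2 = 1 := by rw [← pow_mul]; exact e1
      rw [show 2 * k + 1 + 2 = 2 * (k + 1) + 1 by ring, h6] at e2
      obtain ⟨t, h7, h8, h9⟩ := exists_ker_D (n := 2 * k + 1) (s := y) e3 (h4 _ (k + 1) e3).symm
      exact ⟨t, ⟨(h2 t h7).2 (by rw [h8, h9, e2]; exact (h3 _ (k + 1) e3).symm), h7⟩, h9⟩
  · refine Nat.gcd_eq_left ?_
    rw [hK]
    rcases Nat.even_or_odd' q with ⟨k, rfl | rfl⟩
    · rw [show Nat.gcd 4 _ = 1 from (Nat.coprime_pow_left_iff two_pos 2 ((2 * k) ^ (n + 2) + 1)).2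
        (Nat.coprime_two_left.2 (((even_two_mul k).pow_of_ne_zero (by omega)).add_one))]
      exact one_dvd _
    · exact (Nat.gcd_dvd_left _ _).trans ⟨k * k + k, by rw [Nat.sub_eq_iff_eq_add (Nat.one_le_pow _ _ (by omega))]; ring⟩

theorem exists_qSplit' {F : Type u} [Field F] [Fintype F] {a b : F}
    (hab : ∀ z₁ z₂ : F, z₁ ^ 2 + a * z₁ * z₂ + b * z₂ ^ 2 = 0 → z₁ = 0 ∧ z₂ = 0) :
    ∃ (K : Type u) (_ : Field K) (_ : Fintype K) (e : F →+* K) (hK : Fintype.card K = Fintype.card F ^ 2) (ω : K),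
      QSplit a b e (Uni.sig hK) ω := by
  have := QuadExt.fact_of_aniso hab
  have := QuadExt.finiteQA (-b) a
  have := Fintype.ofFinite (QuadraticAlgebra F (-b) a)
  have hK := QuadExt.card_QA rfl (-b) a
  refine ⟨QuadraticAlgebra F (-b) a, inferInstance, this, algebraMap _ _, hK, QuadraticAlgebra.omega, Uni.sig_sig hK,
    fun x => ?_, ?_, ?_, ?_⟩
  · rw [Uni.sig_apply, QuadExt.pow_q_eq_iff rfl]
    exact ⟨fun h => ⟨x.re, QuadraticAlgebra.ext rfl h.symm⟩, by rintro ⟨y, rfl⟩; rfl⟩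
  · rw [Uni.sig_apply, Ne, QuadExt.pow_q_eq_iff rfl]; simp
  all_goals rw [Uni.sig_apply, ← QuadExt.star_eq_pow rfl]; ext <;> simp

theorem multiplier_minus {F : Type u} [Field F] [Fintype F] {n : ℕ} (hn : 2 ≤ n) {a b : F}
    (hab : ∀ z₁ z₂ : F, z₁ ^ 2 + a * z₁ * z₂ + b * z₂ ^ 2 = 0 → z₁ = 0 ∧ z₂ = 0) :
    Cfsg.HasCyclicSchurMultiplier (Cfsg.POmega F (Cfsg.quadFormMinus (n + 1) F a b))
      (Nat.gcd 4 (Fintype.card F ^ (n + 2) + 1)) := by
  obtain ⟨K, _, _, e, hK, ω, h⟩ := exists_qSplit' hab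
  have h1 : 1 ≤ n := by omega
  obtain ⟨j, hL⟩ := isLie_minus h hab h1 hn
  obtain ⟨φ⟩ := exists_kerEquiv_D (Nat.card_eq_fintype_card.trans hK) (h.ptw h1) (h.ptw_π h1) fun _ => Uni.sig_apply hK
  have hQ := h.ptw_QS h1
  refine hL.multiplier (Base.noG2 _) (irred_D h1).neighbour (spinDSt_good K n) (spinDSt_top K n) (spinDSt_sc K n _)
    (hL.isTw.commutator_eq_top hL.good hL.inj hL.gen fun c => ?_) (fun σ h2 h3 => trivial_D hn
      ⟨hQ.ππ, hQ.f_eq, hQ.ss, hQ.s_ne, hQ.typ⟩ (h.ptw_π h1) (spinDSt_good K n) (spinDSt_top K n) (spinDSt_sc K n _)) φ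
  obtain ⟨i, rfl⟩ := (h.ptw h1).c_surj c
  have hi := i.2
  by_cases h2 : (i : ℕ) < n
  · obtain ⟨k, hk, hik⟩ : ∃ j : Fin (n + 2), (j : ℕ) < n ∧ ((i : ℕ) + 1 = j ∨ (j : ℕ) + 1 = i) := by
      by_cases h3 : (i : ℕ) = 0
      exacts [⟨⟨1, by omega⟩, hn, Or.inl (by rw [h3])⟩, ⟨⟨i - 1, by omega⟩, by dsimp; omega, by dsimp; omega⟩]
    refine hQ.pos_le_one hL.good hL.isTw (j := k) (Fin.ext ?_) (Fin.ext ?_) (by rintro rfl; omega) ?_ ?_
    all_goals first | rw [QSplit.ptw_π, dSwap_val] | rw [baseD_A, chainA]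
    all_goals split_ifs <;> omega
  · refine hQ.pos_le_two hL.good hL.isTw (fun e => ?_) ?_
    · have := congrArg Fin.val e
      rw [QSplit.ptw_π, dSwap_val] at this
      split_ifs at this <;> omega
    · rw [baseD_A, QSplit.ptw_π, dSwap_val, chainA]
      split_ifs <;> omega

end CL.Chev.Cl
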