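/-
CHEV library: weakly closed subgroups of `U` are unipotent radicals of standard parabolic subgroups.
-/
import Cfsg.Agent.CHEV.BorelTits
import Cfsg.Agent.CHEV.CommChk
import Cfsg.Agent.CHEV.Core
import Cfsg.Agent.TECH.AmalgamV

set_option autoImplicit false
set_option linter.unusedSectionVars false

namespace CL.Chev

open scoped commutatorElement

variable {ι κ : Type*} [Fintype κ] [DecidableEq κ] {R : RootSys ι κ}

/-- the torus separates the root `r` from the root `ρ` -/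
def RootSys.Sep (R : RootSys ι κ) (F : Type*) [Field F] (r ρ : ι) : Prop :=
  ∃ γ, ∃ t : F, t ≠ 0 ∧ R.pair γ ρ = 0 ∧ t ^ R.pair γ r ≠ 1

theorem le_normalizer_of_commutator_le {G : Type*} [Group G] {K Y : Subgroup G} (h1 : K ≤ Y)
    (h2 : ⁅Y, Y⁆ ≤ K) : Y ≤ Subgroup.normalizer (K : Set G) := by
  have key : ∀ y ∈ Y, ∀ k ∈ K, y * k * y⁻¹ ∈ K := fun y hy k hk => by
    have := mul_mem (h2 (Subgroup.commutator_mem_commutator hy (h1 hk))) hk
    simpa [commutatorElement_def, mul_assoc] using this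
  intro y hy
  refine Subgroup.mem_normalizer_iff.2 fun k => ⟨key y hy k, fun hk => ?_⟩
  simpa [mul_assoc] using key y⁻¹ (inv_mem hy) _ hk

theorem exists_sq_sub_sq {F : Type*} [Field F] [Finite F] (v : F) : ∃ a b : F, v = a ^ 2 - b ^ 2 := by
  by_cases h : ringChar F = 2
  · obtain ⟨a, ha⟩ := FiniteField.isSquare_of_char_two h v
    exact ⟨a, 0, by rw [ha]; ring⟩
  · have h2 : (2 : F) ≠ 0 := Ring.two_ne_zero h
    exact ⟨(v + 1) / 2, (v - 1) / 2, by field_simp; ring⟩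

namespace StData

variable {F G : Type*} [Field F] [Group G] {S : StData R F G}

/-- invariance under the elements `h_γ(t)` -/
def HInv (S : StData R F G) (K : Subgroup G) : Prop :=
  ∀ γ t, t ≠ 0 → K.map (MulAut.conj (S.h γ t)).toMonoidHom ≤ K

theorem HInv.conj_mem {K : Subgroup G} (h : S.HInv K) (γ : ι) {t : F} (ht : t ≠ 0) {k : G} (hk : k ∈ K) :
    S.h γ t * k * (S.h γ t)⁻¹ ∈ K := h γ t ht ⟨k, hk, rfl⟩

theorem HInv.sup {K K' : Subgroup G} (h : S.HInv K) (h' : S.HInv K') : S.HInv (K ⊔ K') := fun γ t ht => by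
  rw [Subgroup.map_sup]; exact sup_le_sup (h γ t ht) (h' γ t ht)

theorem HInv.commutator {K K' : Subgroup G} (h : S.HInv K) (h' : S.HInv K') : S.HInv ⁅K, K'⁆ := fun γ t ht => by
  rw [Subgroup.map_commutator]; exact Subgroup.commutator_mono (h γ t ht) (h' γ t ht)

theorem hInv_of_le {K : Subgroup G} (h : S.H ≤ Subgroup.normalizer (K : Set G)) : S.HInv K := by
  rintro γ t ht _ ⟨k, hk, rfl⟩
  exact (Subgroup.mem_normalizer_iff.1 (h (S.h_mem_H γ ht)) k).1 hk

theorem hInv_XS (T : Set ι) : S.HInv (S.XS T) := hInv_of_le (S.H_le_normalizer_XS T)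

theorem HInv.x_mem [Finite F] {K : Subgroup G} (h : S.HInv K) {r : ι} {c : F} (hc : c ≠ 0)
    (hx : S.x r c ∈ K) (t : F) : S.x r t ∈ K := by
  have key : ∀ a : F, S.x r (a ^ 2 * c) ∈ K := fun a => by
    rcases eq_or_ne a 0 with rfl | ha
    · rw [zero_pow two_ne_zero, zero_mul, S.x_zero]; exact one_mem _
    · have := h.conj_mem r ha hx
      rwa [S.h_conj r r ha, R.pair_self, zpow_ofNat] at this
  obtain ⟨a, b, e⟩ := exists_sq_sub_sq (t / c)
  have : t = a ^ 2 * c - b ^ 2 * c := by rw [← sub_mul, ← e, div_mul_cancel₀ _ hc]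
  rw [this, S.x_sub]
  exact mul_mem (key a) (inv_mem (key b))

theorem HInv.sep_two {K : Subgroup G} (h : S.HInv K) {r ρ : ι} (hs : R.Sep F r ρ)
    (hn : S.X ρ ≤ Subgroup.normalizer (K : Set G)) {c : F} (hc : c ≠ 0) (hx : S.x r c ∈ S.X ρ ⊔ K) :
    ∃ c', c' ≠ 0 ∧ S.x r c' ∈ K := by
  obtain ⟨γ, t, ht, h0, h1⟩ := hs
  have hx' : S.x r c ∈ ((S.X ρ ⊔ K : Subgroup G) : Set G) := hx
  rw [Subgroup.coe_mul_of_left_le_normalizer_right _ _ hn] at hx'
  obtain ⟨a, ha, k, hk, e⟩ := hx'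
  obtain ⟨d, rfl⟩ := S.mem_X_iff.1 ha
  refine ⟨-c + t ^ R.pair γ r * c, ?_, ?_⟩
  · intro h2
    apply h1
    have : (t ^ R.pair γ r - 1) * c = 0 := by rw [← h2]; ring
    exact sub_eq_zero.1 ((mul_eq_zero.1 this).resolve_right hc)
  · have e1 := S.h_conj γ ρ ht d
    rw [h0, zpow_zero, one_mul] at e1
    have e' : S.x ρ d * k = S.x r c := e
    have : S.x r (-c + t ^ R.pair γ r * c) = k⁻¹ * (S.h γ t * k * (S.h γ t)⁻¹) := by
      rw [S.x_add, S.x_neg, ← S.h_conj γ r ht, ← e']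
      calc _ = k⁻¹ * (S.x ρ d)⁻¹ * (S.h γ t * S.x ρ d * (S.h γ t)⁻¹) * (S.h γ t * k * (S.h γ t)⁻¹) := by group
        _ = _ := by rw [e1]; group
    rw [this]
    exact mul_mem (inv_mem hk) (h.conj_mem γ ht hk)

theorem HInv.sep {K Y : Subgroup G} (h : S.HInv K) (h1 : K ≤ Y) (h2 : ⁅Y, Y⁆ ≤ K) {r : ι} {T : Set ι}
    (hT : T.Finite) (hY : S.XS T ≤ Y) (hs : ∀ ρ ∈ T, R.Sep F r ρ) {c : F} (hc : c ≠ 0)
    (hx : S.x r c ∈ S.XS T ⊔ K) : ∃ c', c' ≠ 0 ∧ S.x r c' ∈ K := by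
  induction T, hT using Set.Finite.induction_on generalizing c with
  | empty => exact ⟨c, hc, by rwa [S.XS_empty, bot_sup_eq] at hx⟩
  | @insert ρ T _ _ ih =>
    rw [Set.insert_eq, S.XS_union] at hY hx
    rw [sup_assoc] at hx
    obtain ⟨c', hc', hx'⟩ := ((hInv_XS T).sup h).sep_two (hs ρ (Set.mem_insert _ _))
      ((le_sup_left.trans hY).trans (le_normalizer_of_commutator_le
        (sup_le (le_sup_right.trans hY) h1) (h2.trans le_sup_right))) hc hx
    exact ih (le_sup_right.trans hY) (fun ρ' h' => hs ρ' (Set.mem_insert_of_mem _ h')) hc' hx'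

theorem mem_normalizer_of_map_eq {X : Subgroup G} {g : G} (h : X.map (MulAut.conj g).toMonoidHom = X) :
    g ∈ Subgroup.normalizer (X : Set G) := by
  refine Subgroup.mem_normalizer_iff.2 fun k => ⟨fun hk => h.le ⟨k, hk, rfl⟩, fun hk => ?_⟩
  obtain ⟨k', hk', e⟩ := h.ge hk
  have : k' = k := (MulAut.conj g).injective e
  exact this ▸ hk'

variable [Finite ι]

theorem Good.eq_UJ_of_weaklyClosed [Finite F] (hS : S.Good) (f : ι → ℕ)
    (h1 : ∀ i j, i ≠ j → R.Sep F (R.simple i) (R.simple j))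
    (h2 : ∀ r, R.IsPos r → (∀ i, r ≠ R.simple i) → ∃ a s, R.IsPos a ∧ R.IsPos s ∧ R.IsComb a s r ∧
      ∀ K : Subgroup G, (S.x s 1)⁻¹ * (S.x a 1)⁻¹ * S.x s 1 * S.x a 1 ∈ K →
        (∀ ρ, R.IsComb a s ρ → (f r < f ρ ∨ R.Sep F r ρ) → ∀ t, S.x ρ t ∈ K) → ∃ c, c ≠ 0 ∧ S.x r c ∈ K)
    {X : Subgroup G} (hXU : X ≤ S.U)
    (hwc : ∀ g ∈ S.grp, X.map (MulAut.conj g).toMonoidHom ≤ S.U → X.map (MulAut.conj g).toMonoidHom = X) :
    ∃ J, X = S.UJ J := by
  have hBU : S.B ≤ Subgroup.normalizer (S.U : Set G) := by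
    rw [← hS.normalizer_U]; exact inf_le_left
  have hB : S.B ≤ Subgroup.normalizer (X : Set G) := fun b hb => by
    refine mem_normalizer_of_map_eq (hwc b (S.B_le_grp hb) ?_)
    rintro _ ⟨k, hk, rfl⟩
    exact (Subgroup.mem_normalizer_iff.1 (hBU hb) k).1 (hXU hk)
  set J : Set κ := {i | S.n (R.simple i) 1 ∈ Subgroup.normalizer (X : Set G)} with hJ
  have hP : S.P J ≤ Subgroup.normalizer (X : Set G) := by
    refine sup_le hB ((Subgroup.closure_le _).2 ?_)
    rintro _ ⟨j, hj, rfl⟩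
    exact hj
  have hXY : X ≤ S.UJ J := hS.le_UJ_of_le_normalizer hXU hP
  refine ⟨J, le_antisymm hXY ?_⟩
  have hUY : S.U ≤ Subgroup.normalizer (S.UJ J : Set G) :=
    S.U_le_B.trans ((S.B_le_P J).trans (S.P_le_normalizer_UJ J))
  have hC : ⁅S.UJ J, S.U⁆ ≤ S.UJ J := by
    rw [Subgroup.commutator_le]
    intro y hy u hu
    have := mul_mem hy ((Subgroup.mem_normalizer_iff.1 (hUY hu) _).1 (inv_mem hy))
    simpa [commutatorElement_def, mul_assoc] using this
  set K := X ⊔ ⁅S.UJ J, S.U⁆ with hK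
  have hKY : K ≤ S.UJ J := sup_le hXY hC
  have hYY : ⁅S.UJ J, S.UJ J⁆ ≤ K := (Subgroup.commutator_mono le_rfl (S.UJ_le_U J)).trans le_sup_right
  have hH : S.HInv K := (hInv_of_le (S.H_le_B.trans hB)).sup ((hInv_XS _).commutator (hInv_XS _))
  obtain ⟨M, hM⟩ := (Set.finite_range f).bddAbove
  have ha : ∀ m r, M - f r = m → R.IsPos r → r ∉ R.sub J → (∀ i, r ≠ R.simple i) → ∀ t, S.x r t ∈ K := by
    intro m
    induction m using Nat.strong_induction_on with
    | _ m ih =>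
      intro r hm hr hrJ hrs
      obtain ⟨a, s, ha, hs, hc, h⟩ := h2 r hr hrs
      have hT : ∀ ρ, R.IsComb a s ρ → R.IsPos ρ ∧ ρ ∉ R.sub J := by
        by_cases hsJ : s ∈ R.sub J
        · have haJ : a ∉ R.sub J := fun haJ => hrJ (R.closed_sub J a haJ s hsJ r hc)
          exact fun ρ h => h.symm.pos_not_sub (Or.inl hs) ⟨ha, haJ⟩
        · exact fun ρ h => h.pos_not_sub (Or.inl ha) ⟨hs, hsJ⟩
      have hcm : (S.x s 1)⁻¹ * (S.x a 1)⁻¹ * S.x s 1 * S.x a 1 ∈ ⁅S.UJ J, S.U⁆ := by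
        have e : (S.x s 1)⁻¹ * (S.x a 1)⁻¹ * S.x s 1 * S.x a 1 = ⁅(S.x s 1)⁻¹, (S.x a 1)⁻¹⁆ := by
          simp [commutatorElement_def]
        rw [e]
        by_cases hsJ : s ∈ R.sub J
        · have haJ : a ∉ R.sub J := fun haJ => hrJ (R.closed_sub J a haJ s hsJ r hc)
          rw [Subgroup.commutator_comm]
          exact Subgroup.commutator_mem_commutator (inv_mem (S.x_mem_U hs 1))
            (inv_mem (S.x_mem_XS (T := {r | R.IsPos r ∧ r ∉ R.sub J}) ⟨ha, haJ⟩ 1))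
        · exact Subgroup.commutator_mem_commutator
            (inv_mem (S.x_mem_XS (T := {r | R.IsPos r ∧ r ∉ R.sub J}) ⟨hs, hsJ⟩ 1)) (inv_mem (S.x_mem_U ha 1))
      obtain ⟨c, hc0, hx⟩ := h (S.XS {ρ | R.IsComb a s ρ ∧ R.Sep F r ρ} ⊔ K)
        (Subgroup.mem_sup_right (Subgroup.mem_sup_right hcm)) fun ρ hρ h' t => by
          rcases h' with h' | h'
          · have := hM ⟨ρ, rfl⟩
            exact Subgroup.mem_sup_right (ih (M - f ρ) (by omega) ρ rfl (hT ρ hρ).1 (hT ρ hρ).2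
              (hρ.ne_simple ha hs) t)
          · exact Subgroup.mem_sup_left (S.x_mem_XS (T := {ρ | R.IsComb a s ρ ∧ R.Sep F r ρ}) ⟨hρ, h'⟩ t)
      obtain ⟨c', hc', hx'⟩ := hH.sep hKY hYY (Set.toFinite _) (S.XS_mono fun ρ h => hT ρ h.1)
        (fun ρ h => h.2) hc0 hx
      exact hH.x_mem hc' hx'
  have hb : ∀ i, i ∉ J → ∀ t, S.x (R.simple i) t ∈ K := by
    intro i hi
    have hn : ¬ X ≤ S.XS {r | R.IsPos r ∧ r ≠ R.simple i} := fun hle => by
      apply hi
      refine mem_normalizer_of_map_eq (hwc _ (S.n_mem_grp _ _) ?_)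
      rintro _ ⟨k, hk, rfl⟩
      exact (S.acts_n_simple i one_ne_zero).conj_mem_XS (T' := {r | R.IsPos r})
        (fun r hr => R.isPos_σ hr.1 hr.2) (hle hk)
    obtain ⟨g, hg, hg'⟩ := SetLike.not_le_iff_exists.1 hn
    obtain ⟨c, y, hy, e⟩ := S.exists_mul_of_mem_XS (I := {r | R.IsPos r ∧ r ∉ R.sub J}) (r := R.simple i)
      (S.XS_le_normalizer (A := {R.simple i}) (by
        rintro _ rfl s hs rfl
        exact (R.isPos_neg _).1 hs.1.1 (R.isPos_simple i)) (by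
        rintro _ rfl s hs k hk
        exact ⟨hk.pos_not_sub (Or.inl (R.isPos_simple i)) hs.1,
          hk.ne_simple (R.isPos_simple i) hs.1.1 i⟩)) (hXY hg)
    have hc : c ≠ 0 := by
      rintro rfl
      rw [S.x_zero, one_mul] at e
      exact hg' (e ▸ S.XS_mono (T' := {r | R.IsPos r ∧ r ≠ R.simple i}) (fun r hr => ⟨hr.1.1, hr.2⟩) hy)
    have hy' : y ∈ S.XS {ρ | ∃ j, j ∉ J ∧ j ≠ i ∧ ρ = R.simple j} ⊔ K := by
      refine (S.XS_le_iff.2 fun r hr t => ?_) hy
      by_cases hr' : ∃ j, r = R.simple j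
      · obtain ⟨j, rfl⟩ := hr'
        refine Subgroup.mem_sup_left (S.x_mem_XS (T := {ρ | ∃ j, j ∉ J ∧ j ≠ i ∧ ρ = R.simple j})
          ⟨j, fun hj => hr.1.2 (R.simple_mem_sub.2 hj), ?_, rfl⟩ t)
        rintro rfl
        exact hr.2 rfl
      · exact Subgroup.mem_sup_right (ha _ r rfl hr.1.1 hr.1.2 (fun j h => hr' ⟨j, h⟩) t)
    have hx : S.x (R.simple i) c ∈ S.XS {ρ | ∃ j, j ∉ J ∧ j ≠ i ∧ ρ = R.simple j} ⊔ K := by
      rw [show S.x (R.simple i) c = g * y⁻¹ by rw [e]; group]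
      exact mul_mem (Subgroup.mem_sup_right (Subgroup.mem_sup_left hg)) (inv_mem hy')
    obtain ⟨c', hc', hx'⟩ := hH.sep hKY hYY (Set.toFinite _) (S.XS_mono (T' := {r | R.IsPos r ∧ r ∉ R.sub J}) (by
      rintro _ ⟨j, hj, -, rfl⟩
      exact ⟨R.isPos_simple j, fun h => hj (R.simple_mem_sub.1 h)⟩)) (by
      rintro _ ⟨j, -, hj, rfl⟩
      exact h1 i j hj.symm) hc hx
    exact hH.x_mem hc' hx'
  refine CL.Amalg.le_of_le_sup_commutator S.isNilpotent_U (S.UJ_le_U J) (S.U_le_B.trans hB) ?_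
  refine S.XS_le_iff.2 fun r hr t => ?_
  by_cases hr' : ∃ j, r = R.simple j
  · obtain ⟨j, rfl⟩ := hr'
    exact hb j (fun hj => hr.2 (R.simple_mem_sub.2 hj)) t
  · exact ha _ r rfl hr.1 hr.2 (fun j h => hr' ⟨j, h⟩) t

end StData

/-- some entry is `good` and all other entries are `ok` -/
def pick {α : Type} (good ok : α → Bool) : List α → Bool
  | [] => false
  | c :: L => (good c && L.all ok) || (ok c && pick good ok L)

theorem exists_of_pick {α G : Type*} [Group G] {β : Type} {good ok : β → Bool} (v : α → β) (f : α → G)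
    {K : Subgroup G} {L : List α} (h : pick good ok (L.map v) = true) (h1 : (L.map f).prod ∈ K)
    (h2 : ∀ c ∈ L, ok (v c) = true → f c ∈ K) : ∃ c ∈ L, good (v c) = true ∧ f c ∈ K := by
  induction L with
  | nil => exact absurd h (by simp [pick])
  | cons c L ih =>
    simp only [List.map_cons, pick, Bool.or_eq_true, Bool.and_eq_true, List.all_eq_true, List.mem_map,
      forall_exists_index, and_imp, forall_apply_eq_imp_iff₂, List.prod_cons] at h h1
    rcases h with ⟨h, h'⟩ | ⟨h, h'⟩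
    · refine ⟨c, List.mem_cons_self, h, ?_⟩
      have : (L.map f).prod ∈ K := list_prod_mem fun g hg => by
        obtain ⟨a, ha, rfl⟩ := List.mem_map.1 hg
        exact h2 a (List.mem_cons_of_mem _ ha) (h' a ha)
      exact (mul_mem_cancel_right this).1 h1
    · obtain ⟨a, ha, h3⟩ := ih h' ((mul_mem_cancel_left (h2 c List.mem_cons_self h)).1 h1)
        fun a ha => h2 a (List.mem_cons_of_mem _ ha)
      exact ⟨a, List.mem_cons_of_mem _ ha, h3⟩

namespace Cert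

variable (C : Cert) (n l : ℕ) (two : Bool)

/-- a coroot vanishing on `ρ` and with value `1` (or `2`) on `r` -/
def sepB (r ρ : ℕ) : Bool :=
  (List.range n).any fun γ => ieq (C.pairF l γ ρ) 0 &&
    (ieq (C.pairF l γ r) 1 || (two && ieq (C.pairF l γ r) 2))

/-- the check for weakly closed subgroups -/
def chkWC : Bool :=
  (allLt l fun i => allLt l fun j => Nat.beq i j || C.sepB n l two (C.smp i) (C.smp j)) &&
  (posL n).all fun r => ((List.range l).any fun i => Nat.beq r (C.smp i)) ||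
    (List.range l).any fun i => (posL n).any fun s => !(Nat.beq s (C.smp i)) &&
      pick (fun c => Nat.beq c.1 r && (ieq c.2.1 1 || ieq c.2.1 (-1)))
        (fun c => Nat.blt r c.1 || C.sepB n l two r c.1) (C.fct n (C.smp i) s)

end Cert

open Cfsg.Lie

variable {D : ChevalleyDatum} [Good D] {F G : Type*} [Field F] [Group G]

theorem sep_of_chk {two : Bool} (h1 : ∃ t : F, t ≠ 0 ∧ t ≠ 1) (h2 : two = true → ∃ t : F, t ≠ 0 ∧ t ^ 2 ≠ 1)
    {r ρ : Rt D} (h : (Good.C D).sepB D.nroots D.rank two r ρ = true) : (rootSys D).Sep F r ρ := by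
  simp only [Cert.sepB, List.any_eq_true, List.mem_range, Bool.and_eq_true, Bool.or_eq_true, ieq_iff] at h
  obtain ⟨γ, hγ, h0, h | ⟨h, h'⟩⟩ := h
  · obtain ⟨t, ht, ht'⟩ := h1
    exact ⟨⟨γ, hγ⟩, t, ht, by rw [rootSys_pair']; exact h0, by rw [rootSys_pair', h, zpow_one]; exact ht'⟩
  · obtain ⟨t, ht, ht'⟩ := h2 h
    exact ⟨⟨γ, hγ⟩, t, ht, by rw [rootSys_pair']; exact h0, by rw [rootSys_pair', h', zpow_ofNat]; exact ht'⟩

theorem eq_UJ_of_chkWC [Finite F] {S : StData (rootSys D) F G} (hE : ExactComm S.x) (hS : S.Good) {two : Bool}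
    (h1 : ∃ t : F, t ≠ 0 ∧ t ≠ 1) (h2 : two = true → ∃ t : F, t ≠ 0 ∧ t ^ 2 ≠ 1)
    (h : (Good.C D).chkWC D.nroots D.rank two = true) {X : Subgroup G} (hXU : X ≤ S.U)
    (hwc : ∀ g ∈ S.grp, X.map (MulAut.conj g).toMonoidHom ≤ S.U → X.map (MulAut.conj g).toMonoidHom = X) :
    ∃ J, X = S.UJ J := by
  simp only [Cert.chkWC, Bool.and_eq_true, allLt_iff, Bool.or_eq_true, Nat.beq_eq, List.all_eq_true,
    List.any_eq_true, List.mem_range, Bool.not_eq_true'] at h
  obtain ⟨ha, hb⟩ := h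
  refine hS.eq_UJ_of_weaklyClosed (fun r => r.val) (fun i j hij => ?_) (fun r hr hrs => ?_) hXU hwc
  · refine sep_of_chk h1 h2 ?_
    rw [rootSys_simple, rootSys_simple, sm_val', sm_val']
    exact (ha i i.2 j j.2).resolve_left fun e => hij (Fin.ext e)
  · rcases hb r (isPos_iff_mem_posL.1 hr) with ⟨i, hi, e⟩ | ⟨i, hi, s, hs, hne, hp⟩
    · exact (hrs ⟨i, hi⟩ (Fin.ext (by rw [rootSys_simple, sm_val']; exact e))).elim
    have hsn : s < D.nroots := by
      have := two_mul_half (D := D)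
      rw [posL, List.mem_range'_1] at hs
      omega
    have hs' : (rootSys D).IsPos ⟨s, hsn⟩ := isPos_iff_mem_posL.2 hs
    have hi' := (rootSys D).isPos_simple ⟨i, hi⟩
    rw [rootSys_simple] at hi'
    have hne' : (⟨s, hsn⟩ : Rt D) ≠ sm ⟨i, hi⟩ := fun e => by
      have := congrArg Fin.val e
      rw [sm_val'] at this
      rw [← Bool.not_eq_true, Nat.beq_eq] at hne
      exact hne this
    have hne'' : (⟨s, hsn⟩ : Rt D) ≠ ng (sm ⟨i, hi⟩) := fun e => by
      rw [e, ← rootSys_neg] at hs'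
      exact ((rootSys D).isPos_neg _).1 hs' hi'
    have hp' : pick (fun c => Nat.beq c.1 r && (ieq c.2.1 1 || ieq c.2.1 (-1)))
        (fun c => Nat.blt r c.1 || (Good.C D).sepB D.nroots D.rank two r c.1)
        ((cterms (sm ⟨i, hi⟩ : Rt D) ⟨s, hsn⟩).map fun c => ((c.1 : ℕ), c.2)) = true := by
      rw [cterms_map_fct, sm_val']; exact hp
    have hgood : ∀ c : Rt D × ℤ × ℕ × ℕ, (Nat.beq c.1 r && (ieq c.2.1 1 || ieq c.2.1 (-1))) = true →
        c.1 = r ∧ (c.2.1 : F) ≠ 0 := fun c hc => by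
      simp only [Bool.and_eq_true, Nat.beq_eq, Bool.or_eq_true, ieq_iff] at hc
      refine ⟨Fin.ext hc.1, ?_⟩
      rcases hc.2 with e | e <;> rw [e] <;> simp
    refine ⟨sm ⟨i, hi⟩, ⟨s, hsn⟩, hi', hs', ?_, fun K hK hK' => ?_⟩
    · obtain ⟨c, hc, h3, -⟩ := exists_of_pick (K := (⊤ : Subgroup G)) _ (fun _ => (1 : G)) hp'
        (Subgroup.mem_top _) fun _ _ _ => Subgroup.mem_top _
      exact (hgood c h3).1 ▸ isComb_of_mem_cterms hc
    · rw [hE.comm_eq hne' hne'', cprod] at hK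
      obtain ⟨c, hc, h3, h4⟩ := exists_of_pick _ _ hp' hK fun c hc h => by
        refine hK' _ (isComb_of_mem_cterms hc) ?_ _
        rcases Bool.or_eq_true_iff.1 h with h | h
        · exact Or.inl (Nat.blt_eq.mp h)
        · exact Or.inr (sep_of_chk h1 h2 h)
      obtain ⟨h5, h6⟩ := hgood c h3
      rw [h5] at h4
      exact ⟨_, mul_ne_zero (mul_ne_zero h6 (pow_ne_zero _ (neg_ne_zero.2 one_ne_zero)))
        (pow_ne_zero _ one_ne_zero), h4⟩

theorem chkWC_G2 : certG2.chkWC 12 2 true = true := by decide +kernel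
theorem chkWC_B2 : certB2.chkWC 8 2 true = true := by decide +kernel
theorem chkWC_D4 : certD4.chkWC 24 4 true = true := by decide +kernel
theorem chkWC_F4 : certF4.chkWC 48 4 true = true := by decide +kernel
theorem chkWC_E6 : certE6.chkWC 72 6 false = true := by decide +kernel
theorem chkWC_E7 : certE7.chkWC 126 7 false = true := by decide +kernel
theorem chkWC_E8 : certE8.chkWC 240 8 false = true := by decide +kernel

end CL.Chev
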